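import Mathlib

/-!
# Decomposing a nilpotent operator into cyclic pieces
-/

set_option autoImplicit false
set_option linter.unusedSectionVars false
set_option linter.unusedVariables false

namespace Cfsg.Agent.Lib.LocalAlg

open Polynomial Finset Module

universe v

variable {F : Type*} [Field F]

section Dual

variable {W : Type v} [AddCommGroup W] [Module F W]

/-- The polynomial-valued map attached to a functional. -/
noncomputable def dualPoly (T : Module.End F W) (f : Module.Dual F W) (r : ℕ) : W →ₗ[F] F[X] :=
  ∑ j ∈ range r, (Polynomial.monomial (r - 1 - j) : F →ₗ[F] F[X]) ∘ₗ f ∘ₗ (T ^ j)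

theorem dualPoly_coeff (T : Module.End F W) (f : Module.Dual F W) (r : ℕ) (v : W) (m : ℕ) :
    (dualPoly T f r v).coeff m = if m < r then f ((T ^ (r - 1 - m)) v) else 0 := by
  classical
  simp only [dualPoly, LinearMap.sum_apply, LinearMap.comp_apply, finset_sum_coeff, coeff_monomial]
  split_ifs with hm
  · rw [Finset.sum_eq_single (r - 1 - m)]
    · rw [if_pos (by omega)]
    · intro j hj hne
      rw [if_neg]
      have := Finset.mem_range.mp hj
      omega
    · intro h
      exact absurd (Finset.mem_range.mpr (by omega)) h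
  · refine Finset.sum_eq_zero fun j hj => ?_
    rw [if_neg]
    have := Finset.mem_range.mp hj
    omega

variable {T : Module.End F W} {f : Module.Dual F W} {r : ℕ}

theorem dualPoly_eq_zero_of_dvd {w : W} (h : (X : F[X]) ^ r ∣ dualPoly T f r w) : dualPoly T f r w = 0 := by
  ext m
  rw [coeff_zero]
  by_cases hm : m < r
  · exact (X_pow_dvd_iff.mp h) m hm
  · rw [dualPoly_coeff, if_neg hm]

theorem dualPoly_step (hT : T ^ r = 0) (hr : r ≠ 0) (v : W) :
    (X : F[X]) ^ r ∣ dualPoly T f r (T v) - X * dualPoly T f r v := by
  rw [X_pow_dvd_iff]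
  intro d hd
  rw [coeff_sub, dualPoly_coeff, if_pos hd]
  cases d with
  | zero =>
    rw [mul_comm, coeff_mul_X_zero, sub_zero]
    have h2 : (T ^ (r - 1 - 0)) (T v) = (T ^ r) v := by
      rw [← Module.End.mul_apply, ← pow_succ]
      congr 2
      omega
    rw [h2, hT]
    simp
  | succ d =>
    rw [mul_comm, coeff_mul_X, dualPoly_coeff, if_pos (by omega), sub_eq_zero]
    congr 1
    rw [← Module.End.mul_apply, ← pow_succ]
    congr 2
    omega

theorem dualPoly_aeval (hT : T ^ r = 0) (hr : r ≠ 0) (p : F[X]) (v : W) :
    (X : F[X]) ^ r ∣ dualPoly T f r (aeval T p v) - p * dualPoly T f r v := by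
  induction p using Polynomial.induction_on generalizing v with
  | C a =>
    rw [aeval_C, Module.algebraMap_end_apply, map_smul, smul_eq_C_mul, sub_self]
    exact dvd_zero _
  | add p q hp hq =>
    rw [map_add, LinearMap.add_apply, map_add, add_mul]
    have := dvd_add (hp v) (hq v)
    convert this using 1
    ring
  | monomial n a ih =>
    have h1 : aeval T (C a * X ^ (n + 1)) v = aeval T (C a * X ^ n) (T v) := by
      rw [pow_succ, ← mul_assoc, map_mul, aeval_X, Module.End.mul_apply]
    rw [h1]
    have h2 := ih (T v)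
    have h3 := dualPoly_step (f := f) hT hr v
    have := dvd_add h2 (Dvd.dvd.mul_left h3 (C a * X ^ n))
    convert this using 1
    ring

end Dual

theorem aeval_restrict {W : Type v} [AddCommGroup W] [Module F W] (T : Module.End F W) (S : Submodule F W)
    (hS : ∀ x ∈ S, T x ∈ S) (p : F[X]) (w : S) :
    ((aeval (T.restrict hS : Module.End F S) p w : S) : W) = aeval T p (w : W) := by
  induction p using Polynomial.induction_on generalizing w with
  | C a =>
    simp [aeval_C, Module.algebraMap_end_apply]
  | add p q hp hq =>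
    simp only [map_add, LinearMap.add_apply, Submodule.coe_add, hp, hq]
  | monomial n a ih =>
    have h1 : ∀ (S' : Type v) [AddCommGroup S'] [Module F S'] (T' : Module.End F S') (v : S'),
        aeval T' (C a * X ^ (n + 1)) v = aeval T' (C a * X ^ n) (T' v) := by
      intro S' _ _ T' v
      rw [pow_succ, ← mul_assoc, map_mul, aeval_X, Module.End.mul_apply]
    rw [h1 S, h1 W, ih]
    rfl

theorem jordan_aux (n : ℕ) : ∀ (W : Type v) [AddCommGroup W] [Module F W] [FiniteDimensional F W]
    (T : Module.End F W) (q : ℕ) (hq : T ^ q = 0), finrank F W = n →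
    ∃ (ι : Type) (_ : Fintype ι) (r : ι → ℕ) (u : ι → W) (κ : ι → W →ₗ[F] F[X]),
      (∀ i, r i ≤ q) ∧ (∀ i, (T ^ r i) (u i) = 0) ∧ (∀ i v, (X : F[X]) ^ r i ∣ κ i (T v) - X * κ i v) ∧
      ∀ v, v = ∑ i, aeval T (κ i v) (u i) := by
  classical
  induction n using Nat.strong_induction_on with
  | _ n ih =>
    intro W _ _ _ T q hq hn
    by_cases hW : Subsingleton W
    · refine ⟨Empty, inferInstance, fun i => i.elim, fun i => i.elim, fun i => i.elim,
        fun i => i.elim, fun i => i.elim, fun i => i.elim, fun v => Subsingleton.elim _ _⟩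
    have hWn : Nontrivial W := not_subsingleton_iff_nontrivial.mp hW
    have hex : ∃ r, T ^ r = 0 := ⟨q, hq⟩
    set r := Nat.find hex with hrdef
    have hTr : T ^ r = 0 := Nat.find_spec hex
    have hrq : r ≤ q := Nat.find_min' hex hq
    have hr0 : r ≠ 0 := by
      intro h0
      rw [h0, pow_zero] at hTr
      obtain ⟨x, hx⟩ := exists_ne (0 : W)
      apply hx
      have := congrArg (fun t : Module.End F W => t x) hTr
      simpa using this
    have hTr1 : T ^ (r - 1) ≠ 0 := Nat.find_min hex (by omega)
    obtain ⟨u, hu⟩ : ∃ u, (T ^ (r - 1)) u ≠ 0 := by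
      by_contra hcon
      push Not at hcon
      exact hTr1 (LinearMap.ext hcon)
    obtain ⟨f₀, hf₀⟩ : ∃ f₀ : Module.Dual F W, f₀ ((T ^ (r - 1)) u) ≠ 0 := by
      by_contra hcon
      push Not at hcon
      exact hu ((Module.forall_dual_apply_eq_zero_iff F _).mp hcon)
    set f : Module.Dual F W := (f₀ ((T ^ (r - 1)) u))⁻¹ • f₀ with hf
    have hfu : f ((T ^ (r - 1)) u) = 1 := by
      rw [hf, LinearMap.smul_apply, smul_eq_mul, inv_mul_cancel₀ hf₀]
    set g := dualPoly T f r with hg
    have hgu0 : (g u).coeff 0 = 1 := by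
      rw [hg, dualPoly_coeff, if_pos (by omega)]
      simpa using hfu
    have hcop : IsCoprime (g u) ((X : F[X]) ^ r) := by
      apply IsCoprime.pow_right
      refine ⟨1, -(g u).divX, ?_⟩
      have h3 := divX_mul_X_add (g u)
      rw [hgu0, map_one] at h3
      linear_combination -h3
    obtain ⟨a, b, hab⟩ := hcop
    -- the projection
    let P : W →ₗ[F] W :=
      { toFun := fun v => v - aeval T (a * g v) u
        map_add' := fun v w => by
          simp only [map_add, mul_add, LinearMap.add_apply]
          abel
        map_smul' := fun c v => by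
          simp only [map_smul, mul_smul_comm, LinearMap.smul_apply, RingHom.id_apply, smul_sub] }
    have hP : ∀ v, P v = v - aeval T (a * g v) u := fun v => rfl
    have hgP : ∀ v, g (P v) = 0 := by
      intro v
      apply dualPoly_eq_zero_of_dvd
      have h3 := dualPoly_aeval (f := f) hTr hr0 (a * g v) u
      have h4 : g (P v) = g v * b * X ^ r - (g (aeval T (a * g v) u) - (a * g v) * g u) := by
        rw [hP, map_sub]
        linear_combination (- g v) * hab
      rw [← hg, h4]
      exact dvd_sub (Dvd.intro_left _ rfl) h3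
    have hWT : ∀ x ∈ LinearMap.ker g, T x ∈ LinearMap.ker g := by
      intro x hx
      rw [LinearMap.mem_ker] at hx ⊢
      apply dualPoly_eq_zero_of_dvd
      have h3 := dualPoly_step (f := f) hTr hr0 x
      rw [← hg, hx, mul_zero, sub_zero] at h3
      exact h3
    have hlt : finrank F (LinearMap.ker g) < n := by
      rw [← hn]
      apply Submodule.finrank_lt
      intro htop
      have h3 : u ∈ LinearMap.ker g := by rw [htop]; trivial
      rw [LinearMap.mem_ker] at h3
      rw [h3] at hgu0
      simp at hgu0
    set T' : Module.End F (LinearMap.ker g) := T.restrict hWT with hT'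
    have hT'pow : ∀ k (w : LinearMap.ker g), (((T' ^ k) w : LinearMap.ker g) : W) = (T ^ k) (w : W) := by
      intro k
      induction k with
      | zero => intro w; rfl
      | succ k ih2 =>
        intro w
        rw [pow_succ, pow_succ, Module.End.mul_apply, Module.End.mul_apply, ih2]
        rfl
    have hT'q : T' ^ q = 0 := by
      ext w
      rw [hT'pow, hq]
      rfl
    obtain ⟨ι', _, r', u', κ', h1', h2', h3', h4'⟩ := ih _ hlt (LinearMap.ker g) T' q hT'q rfl
    let P' : W →ₗ[F] LinearMap.ker g := P.codRestrict _ (fun v => LinearMap.mem_ker.mpr (hgP v))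
    have hP' : ∀ v, ((P' v : LinearMap.ker g) : W) = P v := fun v => rfl
    have hκ₀ : ∀ v, (X : F[X]) ^ r ∣ a * g (T v) - X * (a * g v) := by
      intro v
      have h3 := dualPoly_step (f := f) hTr hr0 v
      rw [← hg] at h3
      have := Dvd.dvd.mul_left h3 a
      convert this using 1
      ring
    have hPT : ∀ v, P' (T v) = T' (P' v) := by
      intro v
      apply Subtype.ext
      rw [hP']
      show P (T v) = T (P v)
      rw [hP, hP, map_sub]
      congr 1
      obtain ⟨s, hs⟩ := hκ₀ v
      have h5 : a * g (T v) = X * (a * g v) + s * X ^ r := by linear_combination hs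
      have h6 : aeval T (X * (a * g v)) u = T (aeval T (a * g v) u) := by
        rw [map_mul (aeval T) X, aeval_X, Module.End.mul_apply]
      have h7 : aeval T (s * X ^ r) u = 0 := by
        rw [map_mul, map_pow, aeval_X, Module.End.mul_apply, hTr]
        simp
      rw [h5, map_add, LinearMap.add_apply, h6, h7, add_zero]
    refine ⟨Option ι', inferInstance, fun i => i.elim r r', fun i => i.elim u (fun j => (u' j : W)),
      fun i => i.elim ((LinearMap.mulLeft F a).comp g) (fun j => (κ' j).comp P'), ?_, ?_, ?_, ?_⟩
    · rintro (_ | j)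
      · exact hrq
      · exact h1' j
    · rintro (_ | j)
      · show (T ^ r) u = 0
        rw [hTr]
        rfl
      · show (T ^ r' j) (u' j : W) = 0
        rw [← hT'pow, h2']
        rfl
    · rintro (_ | j) v
      · exact hκ₀ v
      · show (X : F[X]) ^ r' j ∣ κ' j (P' (T v)) - X * κ' j (P' v)
        rw [hPT]
        exact h3' j _
    · intro v
      rw [Fintype.sum_option]
      simp only [Option.elim]
      have h5 : ∀ j, aeval T (((κ' j).comp P') v) (u' j : W) = ((aeval T' (κ' j (P' v)) (u' j) : LinearMap.ker g) : W) := by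
        intro j
        rw [hT', aeval_restrict]
        rfl
      simp only [h5]
      rw [← Submodule.coe_sum, ← h4', hP']
      show v = aeval T (a * g v) u + P v
      rw [hP]
      abel

/-- Every nilpotent operator is a sum of cyclic pieces. -/
theorem jordan_decomp {W : Type v} [AddCommGroup W] [Module F W] [FiniteDimensional F W]
    (T : Module.End F W) (q : ℕ) (hq : T ^ q = 0) :
    ∃ (ι : Type) (_ : Fintype ι) (r : ι → ℕ) (u : ι → W) (κ : ι → W →ₗ[F] F[X]),
      (∀ i, r i ≤ q) ∧ (∀ i, (T ^ r i) (u i) = 0) ∧ (∀ i v, (X : F[X]) ^ r i ∣ κ i (T v) - X * κ i v) ∧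
      ∀ v, v = ∑ i, aeval T (κ i v) (u i) :=
  jordan_aux _ W T q hq rfl

end Cfsg.Agent.Lib.LocalAlg
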