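import Cfsg.Agent.Lib.LocalAlg.Kulsh
import Cfsg.Agent.Lib.LocalAlg.Jordan

/-!
# Relative projectivity over a cyclic subgroup forces a local corner to be uniserial
-/

set_option autoImplicit false
set_option linter.unusedSectionVars false
set_option linter.unusedVariables false

namespace Cfsg.Agent.Lib.LocalAlg

open Finset Module Polynomial

universe u v

variable {F : Type*} [Field F] {A : Type*} [Ring A] [Algebra F A]

section LeftMul

variable (I : Submodule F A) (hI : ∀ a, ∀ z ∈ I, a * z ∈ I)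

include hI in
/-- Left multiplication on the quotient by a left ideal. -/
noncomputable def lm (a : A) : Module.End F (A ⧸ I) :=
  I.mapQ I (LinearMap.mulLeft F a) (fun z hz => hI a z hz)

theorem lm_mk (a x : A) : lm I hI a (I.mkQ x) = I.mkQ (a * x) := rfl

theorem mkQ_surj (w : A ⧸ I) : ∃ x, I.mkQ x = w := Submodule.mkQ_surjective I w

theorem lm_mul (a b : A) (w : A ⧸ I) : lm I hI (a * b) w = lm I hI a (lm I hI b w) := by
  obtain ⟨x, rfl⟩ := mkQ_surj I w
  simp only [lm_mk, mul_assoc]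

theorem lm_one (w : A ⧸ I) : lm I hI 1 w = w := by
  obtain ⟨x, rfl⟩ := mkQ_surj I w
  simp only [lm_mk, one_mul]

theorem lm_add (a b : A) (w : A ⧸ I) : lm I hI (a + b) w = lm I hI a w + lm I hI b w := by
  obtain ⟨x, rfl⟩ := mkQ_surj I w
  simp only [lm_mk, add_mul, map_add]

theorem lm_smul (c : F) (a : A) (w : A ⧸ I) : lm I hI (c • a) w = c • lm I hI a w := by
  obtain ⟨x, rfl⟩ := mkQ_surj I w
  simp only [lm_mk, smul_mul_assoc, map_smul]

theorem lm_zero (w : A ⧸ I) : lm I hI 0 w = 0 := by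
  obtain ⟨x, rfl⟩ := mkQ_surj I w
  simp only [lm_mk, zero_mul, map_zero]

theorem lm_pow (a : A) (k : ℕ) (x : A) : ((lm I hI a) ^ k) (I.mkQ x) = I.mkQ (a ^ k * x) := by
  induction k with
  | zero => simp
  | succ k ih =>
    rw [pow_succ', Module.End.mul_apply, ih, lm_mk, pow_succ', mul_assoc]

theorem aeval_lm (τ : A) (p : F[X]) (x : A) :
    aeval (lm I hI τ) p (I.mkQ x) = I.mkQ (aeval τ p * x) := by
  induction p using Polynomial.induction_on generalizing x with
  | C a =>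
    rw [aeval_C, aeval_C, Module.algebraMap_end_apply, ← Algebra.smul_def, map_smul, ← map_smul]
  | add p q hp hq =>
    simp only [map_add, LinearMap.add_apply, hp, hq, add_mul]
  | monomial n a ih =>
    have h1 : aeval (lm I hI τ) (C a * X ^ (n + 1)) (I.mkQ x) = aeval (lm I hI τ) (C a * X ^ n) (lm I hI τ (I.mkQ x)) := by
      rw [pow_succ, ← mul_assoc, map_mul, aeval_X, Module.End.mul_apply]
    rw [h1, lm_mk, ih]
    congr 1
    have h2 : aeval τ (C a * X ^ (n + 1)) = aeval τ (C a * X ^ n) * τ := by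
      rw [pow_succ, ← mul_assoc, map_mul, aeval_X]
    rw [h2, mul_assoc]

end LeftMul

/-- The left ideal generated by a power. -/
noncomputable def relId (τ : A) (r : ℕ) : Submodule F A := LinearMap.range (LinearMap.mulRight F (τ ^ r))

theorem mem_relId {τ : A} {r : ℕ} {z : A} : z ∈ relId (F := F) τ r ↔ ∃ d, d * τ ^ r = z := Iff.rfl

theorem relId_left {τ : A} {r : ℕ} (a : A) {z : A} (hz : z ∈ relId (F := F) τ r) : a * z ∈ relId (F := F) τ r := by
  obtain ⟨d, rfl⟩ := hz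
  exact ⟨a * d, by simp [mul_assoc]⟩

section RelProj

variable {G : Type*} [Group G] [Fintype G] (κ : G →* A) (Dd : Subgroup G) [Fintype (G ⧸ Dd)]
  (g : G) (y τ : A) (hτ : τ = κ g - 1) (hgen : ∀ z ∈ Dd, ∃ k : ℕ, z = g ^ k)
  (hy : ∀ z ∈ Dd, κ z * y = y * κ z)
  (hspan : ∀ a : A, a ∈ Submodule.span F (Set.range κ))

section OnePiece

variable {I : Submodule F A} (hI : ∀ a, ∀ z ∈ I, a * z ∈ I) {r : ℕ} (c : (A ⧸ I) →ₗ[F] F[X])
  (hc : ∀ v, (X : F[X]) ^ r ∣ c (lm I hI τ v) - X * c v)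

/-- The polynomial in `τ` attached to a vector. -/
noncomputable def polyAt : (A ⧸ I) →ₗ[F] A := ((aeval τ : F[X] →ₐ[F] A).toLinearMap).comp c

theorem polyAt_apply (w : A ⧸ I) : polyAt (F := F) τ c w = aeval τ (c w) := rfl

include hc in
theorem polyAt_step (w : A ⧸ I) :
    polyAt (F := F) τ c (lm I hI τ w) - τ * polyAt (F := F) τ c w ∈ relId (F := F) τ r := by
  obtain ⟨s, hs⟩ := hc w
  have h1 : c (lm I hI τ w) = X * c w + s * X ^ r := by linear_combination hs
  refine ⟨aeval τ s, ?_⟩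
  show aeval τ s * τ ^ r = _
  simp only [polyAt_apply]
  rw [h1, map_add, map_mul _ X, aeval_X, map_mul _ s, map_pow, aeval_X]
  abel

include hc hτ in
theorem polyAt_pow (k : ℕ) (w : A ⧸ I) :
    polyAt (F := F) τ c (lm I hI (κ (g ^ k)) w) - κ (g ^ k) * polyAt (F := F) τ c w ∈ relId (F := F) τ r := by
  induction k generalizing w with
  | zero =>
    simp only [pow_zero, map_one, lm_one, one_mul, sub_self]
    exact Submodule.zero_mem _
  | succ k ih =>
    have hg : κ g = τ + 1 := by rw [hτ]; abel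
    have h1 : lm I hI (κ (g ^ (k + 1))) w = lm I hI (κ (g ^ k)) (w + lm I hI τ w) := by
      rw [pow_succ, map_mul, lm_mul, hg, lm_add, lm_one, add_comm]
    rw [h1]
    have h2 := ih (w + lm I hI τ w)
    have h3 := relId_left (κ (g ^ k)) (polyAt_step τ hI c hc w)
    have h4 : polyAt (F := F) τ c (lm I hI (κ (g ^ k)) (w + lm I hI τ w)) - κ (g ^ (k + 1)) * polyAt (F := F) τ c w =
        (polyAt (F := F) τ c (lm I hI (κ (g ^ k)) (w + lm I hI τ w)) - κ (g ^ k) * polyAt (F := F) τ c (w + lm I hI τ w)) +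
        κ (g ^ k) * (polyAt (F := F) τ c (lm I hI τ w) - τ * polyAt (F := F) τ c w) := by
      have hadd : polyAt (F := F) τ c (w + lm I hI τ w) = polyAt (F := F) τ c w + polyAt (F := F) τ c (lm I hI τ w) :=
        map_add _ _ _
      rw [pow_succ, map_mul, hg, hadd]
      noncomm_ring
    rw [h4]
    exact Submodule.add_mem _ h2 h3

/-- The transfer of a vector at a group element. -/
noncomputable def relE (w : A ⧸ I) (x : G) : A :=
  κ x * y * polyAt (F := F) τ c (lm I hI (κ x⁻¹) w)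

include hc hτ hgen hy in
theorem relE_right (w : A ⧸ I) (x : G) {z : G} (hz : z ∈ Dd) :
    relE κ y τ hI c w (x * z) - relE κ y τ hI c w x ∈ relId (F := F) τ r := by
  obtain ⟨k, hk⟩ := hgen z hz
  set w' := lm I hI (κ x⁻¹) w with hw'
  set w'' := lm I hI (κ z⁻¹) w' with hw''
  have h1 : lm I hI (κ (x * z)⁻¹) w = w'' := by
    rw [mul_inv_rev, map_mul, lm_mul]
  have h2 : lm I hI (κ (g ^ k)) w'' = w' := by
    rw [← hk, hw'', ← lm_mul, ← map_mul, mul_inv_cancel, map_one, lm_one]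
  have h3 := polyAt_pow κ g τ hτ hI c hc k w''
  rw [h2, ← hk] at h3
  have h4 : relE κ y τ hI c w (x * z) - relE κ y τ hI c w x =
      -((κ x * y) * (polyAt (F := F) τ c w' - κ z * polyAt (F := F) τ c w'')) := by
    simp only [relE]
    rw [h1, ← hw', map_mul]
    have h5 : κ x * κ z * y = κ x * y * κ z := by rw [mul_assoc, hy z hz, mul_assoc]
    rw [h5]
    noncomm_ring
  rw [h4]
  exact Submodule.neg_mem _ (relId_left _ h3)

/-- The transfer map. -/
noncomputable def relS (w : A ⧸ I) : A :=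
  ∑ q : G ⧸ Dd, relE κ y τ hI c w (Quotient.out q)

theorem relE_left (w : A ⧸ I) (h x : G) :
    relE κ y τ hI c (lm I hI (κ h) w) (h * x) = κ h * relE κ y τ hI c w x := by
  simp only [relE]
  have h1 : lm I hI (κ (h * x)⁻¹) (lm I hI (κ h) w) = lm I hI (κ x⁻¹) w := by
    rw [← lm_mul, ← map_mul]
    congr 2
    group
  rw [h1, map_mul]
  noncomm_ring

include hc hτ hgen hy in
theorem relS_group (w : A ⧸ I) (h : G) :
    κ h * relS κ Dd y τ hI c w - relS κ Dd y τ hI c (lm I hI (κ h) w) ∈ relId (F := F) τ r := by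
  classical
  set w' := lm I hI (κ h) w with hw'
  have h1 : relS κ Dd y τ hI c w' = ∑ q : G ⧸ Dd, relE κ y τ hI c w' (Quotient.out (h • q)) :=
    (Fintype.sum_equiv (MulAction.toPerm h) _ _ (fun q => rfl)).symm
  have h2 : κ h * relS κ Dd y τ hI c w = ∑ q : G ⧸ Dd, relE κ y τ hI c w' (h * Quotient.out q) := by
    rw [relS, Finset.mul_sum]
    refine Finset.sum_congr rfl fun q _ => ?_
    rw [hw', relE_left]
  rw [h1, h2, ← Finset.sum_sub_distrib]
  refine Submodule.sum_mem _ fun q _ => ?_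
  have h3 : (Quotient.out (h • q))⁻¹ * (h * Quotient.out q) ∈ Dd := by
    rw [← QuotientGroup.eq]
    have h4 : ((h * Quotient.out q : G) : G ⧸ Dd) = h • ((Quotient.out q : G) : G ⧸ Dd) := rfl
    rw [h4, QuotientGroup.out_eq', QuotientGroup.out_eq']
  have h5 := relE_right κ Dd g y τ hτ hgen hy hI c hc w' (Quotient.out (h • q)) h3
  rwa [mul_inv_cancel_left] at h5

theorem relS_add (w w' : A ⧸ I) :
    relS κ Dd y τ hI c (w + w') = relS κ Dd y τ hI c w + relS κ Dd y τ hI c w' := by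
  simp only [relS, relE, map_add, mul_add, Finset.sum_add_distrib]

theorem relS_smul (t : F) (w : A ⧸ I) :
    relS κ Dd y τ hI c (t • w) = t • relS κ Dd y τ hI c w := by
  simp only [relS, relE, map_smul, mul_smul_comm, Finset.smul_sum]

theorem relS_zero : relS κ Dd y τ hI c (0 : A ⧸ I) = 0 := by
  simpa using relS_smul κ Dd y τ hI c (0 : F) (0 : A ⧸ I)

include hc hτ hgen hy hspan in
theorem relS_alg (a : A) (w : A ⧸ I) :
    a * relS κ Dd y τ hI c w - relS κ Dd y τ hI c (lm I hI a w) ∈ relId (F := F) τ r := by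
  induction hspan a using Submodule.span_induction generalizing w with
  | mem x hx =>
    obtain ⟨h, rfl⟩ := hx
    exact relS_group κ Dd g y τ hτ hgen hy hI c hc w h
  | zero =>
    rw [zero_mul, lm_zero, relS_zero, sub_zero]
    exact Submodule.zero_mem _
  | add a b _ _ ha hb =>
    have h1 : (a + b) * relS κ Dd y τ hI c w - relS κ Dd y τ hI c (lm I hI (a + b) w) =
        (a * relS κ Dd y τ hI c w - relS κ Dd y τ hI c (lm I hI a w)) +
        (b * relS κ Dd y τ hI c w - relS κ Dd y τ hI c (lm I hI b w)) := by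
      rw [lm_add, relS_add, add_mul]
      abel
    rw [h1]
    exact Submodule.add_mem _ (ha w) (hb w)
  | smul t a _ ha =>
    have h1 : (t • a) * relS κ Dd y τ hI c w - relS κ Dd y τ hI c (lm I hI (t • a) w) =
        t • (a * relS κ Dd y τ hI c w - relS κ Dd y τ hI c (lm I hI a w)) := by
      rw [lm_smul, relS_smul, smul_mul_assoc, smul_sub]
    rw [h1]
    exact Submodule.smul_mem _ _ (ha w)

end OnePiece

variable [FiniteDimensional F A]

include hτ hgen hy hspan in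
/-- **The consequence of relative projectivity for a left ideal.** -/
theorem rel_proj_core (hy1 : ∑ q : G ⧸ Dd, κ (Quotient.out q) * y * κ (Quotient.out q)⁻¹ = 1)
    {q₀ : ℕ} (hq₀ : τ ^ q₀ = 0) (I : Submodule F A) (hI : ∀ a, ∀ z ∈ I, a * z ∈ I) :
    ∃ (ι : Type) (_ : Fintype ι) (r : ι → ℕ) (U S : ι → A), (∀ i, r i ≤ q₀) ∧ (∀ i, τ ^ r i * U i ∈ I) ∧
      (∀ i, ∀ n ∈ I, n * S i ∈ relId (F := F) τ (r i)) ∧ ∑ i, S i * U i - 1 ∈ I := by
  classical
  have hTq : (lm I hI τ) ^ q₀ = 0 := by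
    apply LinearMap.ext
    intro w
    obtain ⟨x, rfl⟩ := mkQ_surj I w
    rw [lm_pow, hq₀, zero_mul, map_zero]
    rfl
  obtain ⟨ι, _, r, u, c, h1, h2, h3, h4⟩ := jordan_decomp (lm I hI τ) q₀ hTq
  choose U hU using fun i => mkQ_surj I (u i)
  set w₀ : A ⧸ I := I.mkQ 1 with hw₀
  refine ⟨ι, inferInstance, r, U, fun i => relS κ Dd y τ hI (c i) w₀, h1, ?_, ?_, ?_⟩
  · intro i
    have h5 := h2 i
    rw [← hU, lm_pow] at h5
    exact (Submodule.Quotient.mk_eq_zero I).mp h5
  · intro i n hn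
    have h5 := relS_alg κ Dd g y τ hτ hgen hy hspan hI (c i) (h3 i) n w₀
    have h6 : lm I hI n w₀ = 0 := by
      rw [hw₀, lm_mk, mul_one]
      exact (Submodule.Quotient.mk_eq_zero I).mpr hn
    rwa [h6, relS_zero, sub_zero] at h5
  · -- the main identity
    have h5 : ∀ q : G ⧸ Dd, ∑ i, polyAt (F := F) τ (c i) (lm I hI (κ (Quotient.out q)⁻¹) w₀) * U i - κ (Quotient.out q)⁻¹ ∈ I := by
      intro q
      rw [← Submodule.Quotient.mk_eq_zero I]
      show I.mkQ _ = 0
      rw [map_sub, map_sum]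
      have h6 := h4 (lm I hI (κ (Quotient.out q)⁻¹) w₀)
      have h7 : I.mkQ (κ (Quotient.out q)⁻¹) = lm I hI (κ (Quotient.out q)⁻¹) w₀ := by
        rw [hw₀, lm_mk, mul_one]
      rw [h7, sub_eq_zero]
      conv_rhs => rw [h6]
      refine Finset.sum_congr rfl fun i _ => ?_
      rw [← hU i, aeval_lm]
      rfl
    have h6 : ∑ i, relS κ Dd y τ hI (c i) w₀ * U i - 1 =
        ∑ q : G ⧸ Dd, (κ (Quotient.out q) * y) *
          (∑ i, polyAt (F := F) τ (c i) (lm I hI (κ (Quotient.out q)⁻¹) w₀) * U i - κ (Quotient.out q)⁻¹) := by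
      rw [← hy1]
      simp only [mul_sub, Finset.sum_sub_distrib, Finset.mul_sum]
      congr 1
      · simp only [relS, relE, Finset.sum_mul]
        rw [Finset.sum_comm]
        simp only [mul_assoc]
    rw [h6]
    exact Submodule.sum_mem _ fun q _ => hI _ _ (h5 q)

end RelProj

section Local

variable (D : SymLocal F A)

/-- The largest left ideal whose corner lies in `N`. -/
def cornerIdeal (ε : A) (N : Submodule F A) : Submodule F A where
  carrier := {z | ∀ a, ε * a * z * ε ∈ N}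
  add_mem' := fun {x y} hx hy a => by
    rw [mul_add, add_mul]
    exact Submodule.add_mem _ (hx a) (hy a)
  zero_mem' := fun a => by simp
  smul_mem' := fun t x hx a => by
    rw [mul_smul_comm, smul_mul_assoc]
    exact Submodule.smul_mem _ _ (hx a)

theorem mem_cornerIdeal {ε : A} {N : Submodule F A} {z : A} : z ∈ cornerIdeal ε N ↔ ∀ a, ε * a * z * ε ∈ N := Iff.rfl

theorem cornerIdeal_left (ε : A) (N : Submodule F A) (a : A) {z : A} (hz : z ∈ cornerIdeal ε N) :
    a * z ∈ cornerIdeal ε N := by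
  intro b
  have := hz (b * a)
  simpa only [mul_assoc] using this

theorem cornerIdeal_right (hε : D.ε * D.ε = D.ε) (N : Submodule F A) {z : A} (hz : z ∈ cornerIdeal D.ε N) :
    z * D.ε ∈ cornerIdeal D.ε N := by
  intro b
  have := hz b
  rwa [← mul_assoc, mul_assoc _ D.ε D.ε, hε]

theorem idem_of_D : D.ε * D.ε = D.ε := D.hl _ D.hεC

variable (hcor : ∀ a, D.ε * a * D.ε ∈ D.C)

include hcor in
theorem le_cornerIdeal {N : Submodule F A} (h1 : D.L * D.L ≤ N) (h2 : N ≤ D.L) : N ≤ cornerIdeal D.ε N := by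
  intro n hn a
  have hnC := D.hLC (h2 hn)
  have h3 : D.ε * a * n * D.ε = (D.ε * a * D.ε) * n := by
    rw [mul_assoc (D.ε * a) n D.ε, D.hr n hnC, mul_assoc (D.ε * a) D.ε n, D.hl n hnC]
  rw [h3]
  obtain ⟨l, hl⟩ := D.hdec _ (hcor a)
  have h4 : (D.ε * a * D.ε) * n = l • n + (D.ε * a * D.ε - l • D.ε) * n := by
    rw [sub_mul, smul_mul_assoc, D.hl n hnC]
    abel
  rw [h4]
  exact Submodule.add_mem _ (Submodule.smul_mem _ _ hn) (h1 (Submodule.mul_mem_mul hl (h2 hn)))

end Local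

section Main

variable {G : Type*} [Group G] [Fintype G] (κ : G →* A) (Dd : Subgroup G) [Fintype (G ⧸ Dd)]
  (g : G) (y τ : A) (hτ : τ = κ g - 1) (hgen : ∀ z ∈ Dd, ∃ k : ℕ, z = g ^ k)
  (hy : ∀ z ∈ Dd, κ z * y = y * κ z)
  (hspan : ∀ a : A, a ∈ Submodule.span F (Set.range κ))
  (hy1 : ∑ q : G ⧸ Dd, κ (Quotient.out q) * y * κ (Quotient.out q)⁻¹ = 1)
  {q₀ : ℕ} (hq₀ : τ ^ q₀ = 0) [FiniteDimensional F A] (D : SymLocal F A) (hcor : ∀ a, D.ε * a * D.ε ∈ D.C)

include hτ hgen hy hspan hy1 hq₀ hcor in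
/-- A summand of `A / A τ^r` for each module of length two. -/
theorem exists_triple {N : Submodule F A} (h1 : D.L * D.L ≤ N) (h2 : N ≤ D.L) :
    ∃ (r : ℕ) (v u : A), r ≤ q₀ ∧ D.ε * v = v ∧ u * D.ε = u ∧ τ ^ r * u ∈ cornerIdeal D.ε N ∧
      (∀ n ∈ N, n * v ∈ relId (F := F) τ r) ∧ v * u ∉ D.L := by
  classical
  have hεε := idem_of_D D
  obtain ⟨ι, _, r, U, S, h3, h4, h5, h6⟩ := rel_proj_core κ Dd g y τ hτ hgen hy hspan hy1 hq₀ (cornerIdeal D.ε N)
    (fun a z hz => cornerIdeal_left D.ε N a hz)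
  have h7 : ∃ i, D.ε * S i * (U i * D.ε) ∉ D.L := by
    by_contra hcon
    push Not at hcon
    have h8 := h6 1
    have h9 : D.ε * 1 * (∑ i, S i * U i - 1) * D.ε = ∑ i, D.ε * S i * (U i * D.ε) - D.ε := by
      simp only [mul_one, mul_sub, sub_mul, Finset.mul_sum, Finset.sum_mul, hεε]
      congr 1
      refine Finset.sum_congr rfl fun i _ => ?_
      simp only [mul_assoc]
    rw [h9] at h8
    have h10 : D.ε = ∑ i, D.ε * S i * (U i * D.ε) - (∑ i, D.ε * S i * (U i * D.ε) - D.ε) := by abel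
    apply D.hεL
    rw [h10]
    exact Submodule.sub_mem _ (Submodule.sum_mem _ fun i _ => hcon i) (h2 h8)
  obtain ⟨i, hi⟩ := h7
  refine ⟨r i, D.ε * S i, U i * D.ε, h3 i, ?_, ?_, ?_, ?_, hi⟩
  · rw [← mul_assoc, hεε]
  · rw [mul_assoc, hεε]
  · rw [← mul_assoc]
    exact cornerIdeal_right D hεε N (h4 i)
  · intro n hn
    have h8 := h5 i n (le_cornerIdeal D hcor h1 h2 hn)
    rwa [← mul_assoc, D.hr n (D.hLC (h2 hn))]

include hτ hgen hy hspan hy1 hq₀ hcor in
/-- The radical of the corner is cyclic modulo its square. -/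
theorem not_two_gen [Infinite F] {a b : A} (ha : a ∈ D.L) (hb : b ∈ D.L) (hab : a ∉ D.L * D.L ⊔ Submodule.span F {b})
    (hba : b ∉ D.L * D.L ⊔ Submodule.span F {a}) : False := by
  classical
  obtain ⟨f₁, hf₁, hf₁'⟩ := Submodule.exists_le_ker_of_notMem hab
  obtain ⟨f₂, hf₂, hf₂'⟩ := Submodule.exists_le_ker_of_notMem hba
  have hSL : D.L * D.L ≤ D.L := D.hLL
  have hf₁S : ∀ s ∈ D.L * D.L, f₁ s = 0 := fun s hs => LinearMap.mem_ker.mp (hf₁' (Submodule.mem_sup_left hs))
  have hf₂S : ∀ s ∈ D.L * D.L, f₂ s = 0 := fun s hs => LinearMap.mem_ker.mp (hf₂' (Submodule.mem_sup_left hs))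
  have hf₁b : f₁ b = 0 := LinearMap.mem_ker.mp (hf₁' (Submodule.mem_sup_right (Submodule.mem_span_singleton_self b)))
  have hf₂a : f₂ a = 0 := LinearMap.mem_ker.mp (hf₂' (Submodule.mem_sup_right (Submodule.mem_span_singleton_self a)))
  -- the functionals
  let θ : F → Module.Dual F A := fun t => (t * (f₁ a)⁻¹) • f₁ + (f₂ b)⁻¹ • f₂
  have hθa : ∀ t, θ t a = t := by
    intro t
    simp only [θ, LinearMap.add_apply, LinearMap.smul_apply, smul_eq_mul, hf₂a, mul_zero, add_zero]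
    field_simp
  have hθb : ∀ t, θ t b = 1 := by
    intro t
    simp only [θ, LinearMap.add_apply, LinearMap.smul_apply, smul_eq_mul, hf₁b, mul_zero, zero_add]
    field_simp
  have hθS : ∀ t, ∀ s ∈ D.L * D.L, θ t s = 0 := by
    intro t s hs
    simp only [θ, LinearMap.add_apply, LinearMap.smul_apply, smul_eq_mul, hf₁S s hs, hf₂S s hs, mul_zero, add_zero]
  let Nn : F → Submodule F A := fun t => D.L ⊓ LinearMap.ker (θ t)
  have hN1 : ∀ t, D.L * D.L ≤ Nn t := fun t s hs =>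
    Submodule.mem_inf.mpr ⟨hSL hs, LinearMap.mem_ker.mpr (hθS t s hs)⟩
  have hN2 : ∀ t, Nn t ≤ D.L := fun t => inf_le_left
  choose r v u hr hv hu hτu hnv hvu using fun t => exists_triple κ Dd g y τ hτ hgen hy hspan hy1 hq₀ D hcor (hN1 t) (hN2 t)
  -- the test elements
  let n₀ : F → A := fun t => a - t • b
  have hn₀ : ∀ t, n₀ t ∈ Nn t := by
    intro t
    refine Submodule.mem_inf.mpr ⟨Submodule.sub_mem _ ha (Submodule.smul_mem _ _ hb), LinearMap.mem_ker.mpr ?_⟩
    simp only [n₀, map_sub, map_smul, hθa, hθb, smul_eq_mul, mul_one, sub_self]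
  have hn₀' : ∀ t t', t ≠ t' → n₀ t ∉ Nn t' := by
    intro t t' hne h
    have h2 := LinearMap.mem_ker.mp (Submodule.mem_inf.mp h).2
    simp only [n₀, map_sub, map_smul, hθa, hθb, smul_eq_mul, mul_one] at h2
    exact hne (sub_eq_zero.mp h2).symm
  -- off-diagonal products
  have hoff : ∀ t t', t ≠ t' → r t = r t' → v t * u t' ∈ D.L := by
    intro t t' hne' hrr
    have hc : v t * u t' ∈ D.C := by
      have := hcor (v t * u t')
      rwa [mul_assoc, mul_assoc, hu, ← mul_assoc, hv] at this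
    obtain ⟨l, hl⟩ := D.hdec _ hc
    have hnC : n₀ t ∈ D.C := D.hLC (hN2 t (hn₀ t))
    have h3 : n₀ t * (v t * u t') ∈ Nn t' := by
      obtain ⟨d, hd⟩ := hnv t _ (hn₀ t)
      have hd' : d * τ ^ r t = n₀ t * v t := hd
      have h4 : n₀ t * (v t * u t') = d * (τ ^ r t' * u t') := by
        rw [← mul_assoc, ← hd', hrr, mul_assoc]
      have h5 : n₀ t * (v t * u t') ∈ cornerIdeal D.ε (Nn t') := by
        rw [h4]
        exact cornerIdeal_left _ _ _ (hτu t')
      have h6 := h5 1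
      have hcc : n₀ t * (v t * u t') ∈ D.C := D.hmulC _ hnC _ hc
      rwa [mul_one, D.hl _ hcc, D.hr _ hcc] at h6
    have h7 : n₀ t * (v t * u t') = l • n₀ t + n₀ t * (v t * u t' - l • D.ε) := by
      rw [mul_sub, mul_smul_comm, D.hr _ hnC]
      abel
    have h8 : n₀ t * (v t * u t' - l • D.ε) ∈ Nn t' :=
      hN1 t' (Submodule.mul_mem_mul (hN2 t (hn₀ t)) hl)
    have h9 : l • n₀ t ∈ Nn t' := by
      have h10 := Submodule.sub_mem _ h3 h8
      rwa [h7, add_sub_cancel_right] at h10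
    have hl0 : l = 0 := by
      by_contra hne
      exact hn₀' t t' hne' ((Submodule.smul_mem_iff _ hne).mp h9)
    rw [hl0, zero_smul, sub_zero] at hl
    exact hl
  -- pigeonhole
  let ρ : F → Fin (q₀ + 1) := fun t => ⟨r t, by have := hr t; omega⟩
  obtain ⟨y₀, hy₀⟩ := Finite.exists_infinite_fiber ρ
  have hρ : ∀ t t' : ρ ⁻¹' {y₀}, r t = r t' := by
    intro t t'
    have h1 : ρ t = y₀ := t.2
    have h2 : ρ t' = y₀ := t'.2
    have h3 : ρ t = ρ t' := h1.trans h2.symm
    exact congrArg Fin.val h3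
  have hli : LinearIndependent F (fun t : ρ ⁻¹' {y₀} => v t) := by
    rw [linearIndependent_iff']
    intro s c hc μ hμ
    by_contra hne
    apply hvu μ
    have h1 := congrArg (fun z => z * u μ) hc
    simp only [Finset.sum_mul, zero_mul, smul_mul_assoc] at h1
    rw [← Finset.add_sum_erase s _ hμ] at h1
    have h2 : c μ • (v μ * u μ) = - ∑ x ∈ s.erase μ, c x • (v x * u μ) := eq_neg_of_add_eq_zero_left h1
    have h3 : c μ • (v μ * u μ) ∈ D.L := by
      rw [h2]
      refine Submodule.neg_mem _ (Submodule.sum_mem _ fun x hx => Submodule.smul_mem _ _ ?_)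
      refine hoff _ _ ?_ (hρ x μ)
      intro h4
      exact (Finset.mem_erase.mp hx).1 (Subtype.ext h4)
    exact (Submodule.smul_mem_iff _ hne).mp h3
  have := hli.finite_of_isNoetherian
  exact not_finite (ρ ⁻¹' {y₀})

include hτ hgen hy hspan hy1 hq₀ hcor in
/-- The generator of the radical of the corner. -/
theorem exists_gen_of_relproj [Infinite F] : ∃ x₀ ∈ D.L, ∀ j ∈ D.L, ∃ μ : F, j - μ • x₀ ∈ D.L * D.L := by
  classical
  by_cases hLK : D.L ≤ D.L * D.L
  · exact ⟨0, Submodule.zero_mem _, fun j hj => ⟨0, by simpa using hLK hj⟩⟩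
  obtain ⟨x₀, hx₀, hx₀K⟩ := SetLike.not_le_iff_exists.mp hLK
  refine ⟨x₀, hx₀, fun j hj => ?_⟩
  by_cases h1 : j ∈ D.L * D.L ⊔ Submodule.span F {x₀}
  · obtain ⟨k, hk, z, hz, rfl⟩ := Submodule.mem_sup.mp h1
    obtain ⟨μ, rfl⟩ := Submodule.mem_span_singleton.mp hz
    exact ⟨μ, by simpa using hk⟩
  by_cases h2 : x₀ ∈ D.L * D.L ⊔ Submodule.span F {j}
  · obtain ⟨k, hk, z, hz, hkz⟩ := Submodule.mem_sup.mp h2
    obtain ⟨μ, rfl⟩ := Submodule.mem_span_singleton.mp hz
    have hμ : μ ≠ 0 := by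
      rintro rfl
      apply hx₀K
      rw [← hkz]
      simpa using hk
    refine ⟨μ⁻¹, ?_⟩
    have h3 : j - μ⁻¹ • x₀ = (-μ⁻¹) • k := by
      rw [← hkz, smul_add, smul_smul, inv_mul_cancel₀ hμ, one_smul, neg_smul]
      abel
    rw [h3]
    exact Submodule.smul_mem _ _ hk
  · exact (not_two_gen κ Dd g y τ hτ hgen hy hspan hy1 hq₀ D hcor hj hx₀ h1 h2).elim

include hτ hgen hy hspan hy1 hq₀ hcor in
/-- **The corner is commutative.** -/
theorem corner_comm_of_relproj [Infinite F] : ∀ a ∈ D.C, ∀ b ∈ D.C, a * b = b * a := by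
  obtain ⟨x₀, hx₀, hgen'⟩ := exists_gen_of_relproj κ Dd g y τ hτ hgen hy hspan hy1 hq₀ D hcor
  have h5 := commute_of_gen D.L D.hLL hx₀ hgen' D.hN
  have hεε := idem_of_D D
  intro a ha b hb
  obtain ⟨l, hl⟩ := D.hdec a ha
  obtain ⟨m, hm⟩ := D.hdec b hb
  have h6 : a * b - b * a = (a - l • D.ε) * (b - m • D.ε) - (b - m • D.ε) * (a - l • D.ε) := by
    simp only [mul_sub, sub_mul, smul_mul_assoc, mul_smul_comm, D.hl a ha, D.hl b hb, D.hr a ha, D.hr b hb, hεε, smul_sub, smul_smul]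
    rw [mul_comm m l]
    abel
  rw [h5 _ hl _ hm, sub_self] at h6
  exact sub_eq_zero.mp h6

end Main

end Cfsg.Agent.Lib.LocalAlg
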