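import Cfsg.Agent.Lib.LocalAlg.Kulsh3
import Cfsg.Agent.Lib.LocalAlg.Uniser
import Cfsg.Agent.Lib.H8Group.KnorrKey

/-!
# Blocks of rank one with cyclic defect group: the defect group has order at most `k(B)`
-/

set_option autoImplicit false
set_option linter.unusedSectionVars false
set_option linter.unusedVariables false

namespace Cfsg.Agent.Lib.LocalAlg

open Cfsg Cfsg.Agent.Lib.Char Cfsg.Agent.Lib.Blocks Cfsg.Agent.Lib.H8Group Finset Module MonoidAlgebra
open scoped ComplexConjugate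

universe u v

section Z0

variable {G : Type u} [Group G] [Fintype G] {A : Type*} [Ring A] (κ : G →* A) (Dd : Subgroup G) [Fintype (G ⧸ Dd)] (g₀ : G)

/-- The relative trace of a group element. -/
noncomputable def zNot : A := ∑ q : G ⧸ Dd, κ (Quotient.out q) * κ g₀ * κ (Quotient.out q)⁻¹

theorem zNot_central (hcomm : ∀ z ∈ Dd, z * g₀ = g₀ * z) (h : G) :
    κ h * zNot κ Dd g₀ = zNot κ Dd g₀ * κ h := by
  classical
  have hf : ∀ x : G, κ x * κ g₀ * κ x⁻¹ = κ (x * g₀ * x⁻¹) := fun x => by rw [map_mul, map_mul]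
  have hinv : ∀ z ∈ Dd, ∀ x : G, (x * z) * g₀ * (x * z)⁻¹ = x * g₀ * x⁻¹ := by
    intro z hz x
    calc (x * z) * g₀ * (x * z)⁻¹ = x * (z * g₀) * z⁻¹ * x⁻¹ := by group
      _ = x * (g₀ * z) * z⁻¹ * x⁻¹ := by rw [hcomm z hz]
      _ = x * g₀ * x⁻¹ := by group
  have h1 : κ h * zNot κ Dd g₀ * κ h⁻¹ = zNot κ Dd g₀ := by
    simp only [zNot, Finset.mul_sum, Finset.sum_mul, hf]
    refine Fintype.sum_equiv (MulAction.toPerm h) _ _ fun q => ?_
    have h3 : (Quotient.out (h • q))⁻¹ * (h * Quotient.out q) ∈ Dd := by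
      rw [← QuotientGroup.eq]
      have h4 : ((h * Quotient.out q : G) : G ⧸ Dd) = h • ((Quotient.out q : G) : G ⧸ Dd) := rfl
      rw [h4, QuotientGroup.out_eq', QuotientGroup.out_eq']
    have h5 := hinv _ h3 (Quotient.out (h • q))
    rw [mul_inv_cancel_left] at h5
    show κ h * κ (_) * κ h⁻¹ = κ (Quotient.out (h • q) * g₀ * (Quotient.out (h • q))⁻¹)
    rw [← h5, ← map_mul, ← map_mul]
    congr 1
    group
  calc κ h * zNot κ Dd g₀ = κ h * zNot κ Dd g₀ * (κ h⁻¹ * κ h) := by
        rw [← map_mul, inv_mul_cancel, map_one, mul_one]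
    _ = zNot κ Dd g₀ * κ h := by rw [← mul_assoc, h1]

end Z0

section Generic

variable {G : Type u} [Group G] [Fintype G] {F : Type v} [Field F] {e : G → F} (hcl : ∀ g x, e (x * g * x⁻¹) = e g)

/-- The group homomorphism into the block algebra. -/
noncomputable def kapA : G →* BA hcl where
  toFun g := qA hcl (single g 1)
  map_one' := by
    have h1 : (single (1 : G) (1 : F) : MonoidAlgebra F G) = 1 := rfl
    rw [h1, map_one]
  map_mul' x y := by
    rw [← map_mul, single_mul_single, mul_one]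

theorem kapA_apply (g : G) : kapA hcl g = qA hcl (single g 1) := rfl

theorem span_kapA (a : BA hcl) : a ∈ Submodule.span F (Set.range (kapA hcl)) := by
  classical
  obtain ⟨a, rfl⟩ := qA_surjective hcl a
  rw [eq_sum_single a, map_sum]
  refine Submodule.sum_mem _ fun g _ => ?_
  have h1 : (single g (a.coeff g) : MonoidAlgebra F G) = a.coeff g • single g 1 := by
    rw [smul_single, smul_eq_mul, mul_one]
  rw [h1, map_smul]
  exact Submodule.smul_mem _ _ (Submodule.subset_span ⟨g, rfl⟩)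

end Generic

section Unit

variable {F : Type v} [Field F] {A : Type*} [Ring A] [Algebra F A]

theorem isUnit_of_central [FiniteDimensional F A] {n : ℕ} [NeZero n] (π : A →ₐ[F] Matrix (Fin n) (Fin n) F)
    (hπ : Function.Surjective π) {N : ℕ} (hN : (LinearMap.ker π.toLinearMap) ^ N = ⊥) {z : A}
    (hz : ∀ a, a * z = z * a) (hnn : ¬ IsNilpotent z) : IsUnit z := by
  classical
  obtain ⟨s, hs⟩ : π z ∈ Set.range (Matrix.scalar (Fin n) : F → Matrix (Fin n) (Fin n) F) := by
    apply Matrix.mem_range_scalar_of_commute_single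
    intro i j hij
    obtain ⟨a, ha⟩ := hπ (Matrix.single i j 1)
    rw [← ha]
    show π a * π z = π z * π a
    rw [← map_mul, ← map_mul, hz]
  have h1 : π (algebraMap F A s) = Matrix.scalar (Fin n) s := by
    rw [AlgHom.commutes]
    ext i j
    simp [Matrix.algebraMap_matrix_apply, Matrix.scalar_apply, Matrix.diagonal_apply]
  have h2 : π (z - algebraMap F A s) = 0 := by
    rw [map_sub, h1, hs, sub_self]
  have h3 := isNilpotent_of_mem_ker π hπ hN h2
  by_cases hs0 : s = 0
  · exfalso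
    apply hnn
    rw [hs0, map_zero, sub_zero] at h3
    exact h3
  · have h4 : IsUnit (algebraMap F A s) := (IsUnit.mk0 s hs0).map _
    have h5 := h3.isUnit_add_left_of_commute h4 (Algebra.commutes s _).symm
    simpa using h5

end Unit

section Dims

variable {G : Type u} [Group G] [Fintype G] {F : Type} [Field F] {e : G → F} (hcl : ∀ g x, e (x * g * x⁻¹) = e g)
  (hid : ∀ t, ∑ w, e w * e (w⁻¹ * t) = e t)

/-- The dimension data of a block algebra with one simple module, relatively projective over a cyclic subgroup. -/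
theorem block_dims_of_relproj [IsAlgClosed F] {p : ℕ} [Fact p.Prime] [CharP F p] [Nontrivial (BA hcl)]
    (hid : ∀ t, ∑ w, e w * e (w⁻¹ * t) = e t)
    (hrank : ∀ (m : ℕ) (τ : Fin m → G → F), LinearIndependent F τ → (∀ i g x, τ i (x * g * x⁻¹) = τ i g) →
      (∀ i a b j, Commute a b → orderOf a = p ^ j → τ i (a * b) = τ i b) →
      (∀ i g, ∑ u, e u * τ i (u * g) = τ i g) → m ≤ 1)
    (Dd : Subgroup G) [Fintype (G ⧸ Dd)] (g g₀ : G) (hgen : ∀ z ∈ Dd, ∃ k : ℕ, z = g ^ k)
    (hcomm : ∀ z ∈ Dd, z * g₀ = g₀ * z) (hnn : ¬ IsNilpotent (zNot (kapA hcl) Dd g₀))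
    {q₀ : ℕ} (hq₀ : (kapA hcl g - 1) ^ q₀ = 0) (P₀ : Subgroup G) (hP : IsPGroup p P₀) :
    ∃ n : ℕ, 0 < n ∧ finrank F (BA hcl) = n ^ 2 * finrank F (traceFun F (BA hcl)) ∧
      Nat.card P₀ ∣ n * finrank F (traceFun F (BA hcl)) := by
  classical
  obtain ⟨n, hn0, π, hπ, N, hN⟩ := exists_matrix_quotient hcl (p := p) hid hrank
  obtain ⟨lam, hlam, hnd⟩ := exists_symm_form hcl hid
  obtain ⟨ε, x, y, hε, hπε, hx, hy, h1⟩ := exists_corner_data π hπ hN
  set κ := kapA hcl with hκ
  have hzc := zNot_central κ Dd g₀ hcomm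
  have hzc' : ∀ a : BA hcl, a * zNot κ Dd g₀ = zNot κ Dd g₀ * a := by
    intro a
    induction span_kapA hcl a using Submodule.span_induction with
    | mem x hx =>
      obtain ⟨h, rfl⟩ := hx
      exact hzc h
    | zero => simp
    | add a b _ _ ha hb => rw [add_mul, mul_add, ha, hb]
    | smul t a _ ha => rw [smul_mul_assoc, mul_smul_comm, ha]
  have hu : IsUnit (zNot κ Dd g₀) := isUnit_of_central π hπ hN hzc' hnn
  obtain ⟨v, hv⟩ := hu
  have hvc : ∀ a : BA hcl, a * (↑v⁻¹ : BA hcl) = (↑v⁻¹ : BA hcl) * a := by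
    intro a
    have h2 : Commute a (v : BA hcl) := by
      rw [hv]
      exact hzc' a
    exact (h2.units_inv_right).eq
  let D := cornerSymLocal π hε lam hlam hnd hN hπε
  have hcor : ∀ a, D.ε * a * D.ε ∈ D.C := fun a => sandwich_mem_corner hε a
  have hc := corner_comm_of_relproj κ Dd g (κ g₀ * (↑v⁻¹ : BA hcl)) (κ g - 1) rfl hgen
    (fun z hz => by
      rw [← mul_assoc, ← map_mul, hcomm z hz, map_mul, mul_assoc, mul_assoc, hvc])
    (span_kapA hcl)
    (by
      have h2 : ∀ q : G ⧸ Dd, κ (Quotient.out q) * (κ g₀ * (↑v⁻¹ : BA hcl)) * κ (Quotient.out q)⁻¹ =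
          κ (Quotient.out q) * κ g₀ * κ (Quotient.out q)⁻¹ * (↑v⁻¹ : BA hcl) := by
        intro q
        simp only [mul_assoc]
        rw [hvc (κ (Quotient.out q)⁻¹)]
      rw [Finset.sum_congr rfl fun q _ => h2 q, ← Finset.sum_mul]
      show zNot κ Dd g₀ * _ = 1
      rw [← hv, Units.mul_inv]) hq₀ D hcor
  have hc' : ∀ a ∈ corner (F := F) ε hε, ∀ b ∈ corner (F := F) ε hε, a * b = b * a := hc
  have hz := finrank_corner_eq_of_comm π hπ hN hε hπε hx hy h1 hc'
  refine ⟨n, Nat.pos_of_ne_zero hn0.out, ?_, ?_⟩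
  · rw [finrank_eq_of_corner π hπ hN hε hπε hx hy h1, hz]
  · have h2 : finrank F (LinearMap.range (LinearMap.mulLeft F ε)) = n * finrank F (traceFun F (BA hcl)) := by
      rw [finrank_range_mulLeft_eq π hπ hN hε hπε hx hy h1, hz]
    rw [← h2]
    obtain ⟨w, hw, h3⟩ := exists_lift_idem hcl hid hε
    rw [← h3]
    haveI : Fintype P₀ := Fintype.ofFinite _
    exact card_dvd_finrank_of_idem (p := p) P₀ hP hw

end Dims

section Main

variable {G : Type u} [Group G] [Fintype G] {p : ℕ} [hp : Fact p.Prime] {M : Ideal AlgInt} [hMp : M.IsPrime]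

theorem resC_ite (c : Prop) [Decidable c] : resC M (if c then (1 : ℂ) else 0) = if c then 1 else 0 := by
  split_ifs
  · rw [resC_of_mem (memLocalRing_one)]
    exact map_one (Ideal.Quotient.mk (locMax M))
  · exact resC_zero

theorem eltOf_epsRes {B : Set (IrrCharacter G)} (hB : IsPBlock M B) :
    eltOf (epsRes M B hB) = rhoBlock M B := by
  classical
  apply alg_ext
  intro g
  rw [coeff_eltOf, rhoBlock, coeff_rhoF, resC_of_mem (coef_memLocalRing (indic_mem_zS hB) g)]
  rfl

/-- The reduction of the coefficient function of a central element. -/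
theorem rhoF_coef_mul {d d' : IrrCharacter G → ℂ} (hd : d ∈ zS M G) (hd' : d' ∈ zS M G) :
    rhoF M (coef (d * d')) = rhoF M (coef d) * rhoF M (coef d') := by
  rw [coef_mul, rhoF_conv (fun x => hd x) (fun x => hd' x)]

/-- **The relative trace of a defect class element is not nilpotent.** -/
theorem zNot_not_nilpotent (hM : IsPModular p M) {B : Set (IrrCharacter G)} (hB : IsPBlock M B) {g₀ : G}
    (hg₀ : IsDefectClass M B g₀) (Dd : Subgroup G) [Fintype (G ⧸ Dd)]
    (hle : Dd ≤ Subgroup.centralizer ({g₀} : Set G)) (hidx : ¬ p ∣ Dd.relIndex (Subgroup.centralizer ({g₀} : Set G)))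
    (hcomm : ∀ z ∈ Dd, z * g₀ = g₀ * z) :
    ¬ IsNilpotent (zNot (kapA (epsRes_class M B hB)) Dd g₀) := by
  classical
  let a : G → ℂ := fun x => ∑ q : G ⧸ Dd, if Quotient.out q * g₀ * (Quotient.out q)⁻¹ = x then (1 : ℂ) else 0
  have hinv : ∀ z ∈ Dd, ∀ x : G, (x * z) * g₀ * (x * z)⁻¹ = x * g₀ * x⁻¹ := by
    intro z hz x
    calc (x * z) * g₀ * (x * z)⁻¹ = x * (z * g₀) * z⁻¹ * x⁻¹ := by group
      _ = x * (g₀ * z) * z⁻¹ * x⁻¹ := by rw [hcomm z hz]
      _ = x * g₀ * x⁻¹ := by group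
  have hshift : ∀ (h : G) (q : G ⧸ Dd), Quotient.out (h • q) * g₀ * (Quotient.out (h • q))⁻¹ =
      h * (Quotient.out q * g₀ * (Quotient.out q)⁻¹) * h⁻¹ := by
    intro h q
    have h3 : (Quotient.out (h • q))⁻¹ * (h * Quotient.out q) ∈ Dd := by
      rw [← QuotientGroup.eq]
      have h4 : ((h * Quotient.out q : G) : G ⧸ Dd) = h • ((Quotient.out q : G) : G ⧸ Dd) := rfl
      rw [h4, QuotientGroup.out_eq', QuotientGroup.out_eq']
    have h5 := hinv _ h3 (Quotient.out (h • q))
    rw [mul_inv_cancel_left] at h5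
    rw [← h5]
    group
  have hac : IsClassFunction G a := by
    intro x h
    simp only [a]
    refine (Fintype.sum_equiv (MulAction.toPerm h) _ _ fun q => ?_).symm
    show _ = if Quotient.out (h • q) * g₀ * (Quotient.out (h • q))⁻¹ = h * x * h⁻¹ then (1 : ℂ) else 0
    rw [hshift]
    refine if_congr ?_ rfl rfl
    constructor
    · intro h6
      rw [h6]
    · intro h6
      have h7 := congrArg (fun t => h⁻¹ * t * h) h6
      simpa [mul_assoc] using h7
  have haS : ∀ x, MemLocalRing M (a x) := by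
    intro x
    refine MemLocalRing.sum _ fun q _ => ?_
    split_ifs
    · exact memLocalRing_one
    · exact memLocalRing_zero
  have hrho : qA (epsRes_class M B hB) (rhoF M a) = zNot (kapA (epsRes_class M B hB)) Dd g₀ := by
    have h1 : rhoF M a = ∑ q : G ⧸ Dd, single (Quotient.out q * g₀ * (Quotient.out q)⁻¹) (1 : H8Group.ResF M) := by
      apply alg_ext
      intro x
      rw [coeff_rhoF]
      simp only [a]
      rw [resC_sum _ _ (fun q _ => by
        split_ifs
        · exact memLocalRing_one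
        · exact memLocalRing_zero)]
      simp only [coeff_sum, Finsupp.finset_sum_apply, coeff_single, Finsupp.single_apply, resC_ite]
    rw [h1, map_sum, zNot]
    refine Finset.sum_congr rfl fun q _ => ?_
    simp only [kapA_apply]
    rw [← map_mul, ← map_mul, single_mul_single, single_mul_single, mul_one, mul_one]
  rintro ⟨N, hN⟩
  rw [← hrho, ← map_pow, qA_eq_zero_iff, eltOf_epsRes] at hN
  have hc₁ : spec a ∈ zS M G := Blocks.spec_mem_zS hac haS
  have hι := indic_mem_zS hB
  have hψ : ∀ n : ℕ, rhoF M (coef (spec a ^ n * indic B)) = rhoF M a ^ n * rhoBlock M B := by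
    intro n
    induction n with
    | zero => simp [rhoBlock]
    | succ n ih =>
      rw [pow_succ', mul_assoc, rhoF_coef_mul hc₁ (Subring.mul_mem _ (Subring.pow_mem _ hc₁ _) hι), ih,
        coef_spec a hac, pow_succ', mul_assoc]
  have hmul : rhoF M a ^ N * rhoBlock M B = 0 := by
    have h2 := eltOf_central (epsRes_class M B hB) (rhoF M a ^ N)
    rw [eltOf_epsRes] at h2
    rw [← h2, hN]
  have hI : ∀ g, MemLocalIdeal M (coef (spec a ^ N * indic B) g) := by
    intro g
    have h2 := hψ N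
    rw [hmul] at h2
    have h3 : (rhoF M (coef (spec a ^ N * indic B))).coeff g = 0 := by
      rw [h2]
      rfl
    rw [coeff_rhoF] at h3
    exact (resC_eq_zero_iff (coef_memLocalRing (Subring.mul_mem _ (Subring.pow_mem _ hc₁ _) hι) g)).mp h3
  obtain ⟨χ, hχ⟩ := IsPBlock.nonempty hB
  have h4 := spec_memLocalIdeal (coef_isClassFunction _) hI χ
  rw [spec_coef, Pi.mul_apply, indic_apply_of_mem hχ, mul_one, Pi.pow_apply] at h4
  -- the value of `spec a`
  have hval : spec a χ = (Dd.relIndex (Subgroup.centralizer ({g₀} : Set G)) : ℂ) * centralChar (χ : G → ℂ) g₀ := by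
    have h5 : ∑ x, a x * (χ : G → ℂ) x = (Nat.card (G ⧸ Dd) : ℂ) * (χ : G → ℂ) g₀ := by
      simp only [a, Finset.sum_mul]
      rw [Finset.sum_comm]
      rw [Nat.card_eq_fintype_card, ← Finset.card_univ, ← nsmul_eq_mul, ← Finset.sum_const]
      refine Finset.sum_congr rfl fun q _ => ?_
      rw [Finset.sum_eq_single (Quotient.out q * g₀ * (Quotient.out q)⁻¹)]
      · rw [if_pos rfl, one_mul]
        exact irr_isClassFunction χ _ _
      · intro x _ hx
        rw [if_neg (Ne.symm hx), zero_mul]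
      · simp
    rw [spec, h5, centralChar, ← Subgroup.index_eq_card, ← Subgroup.relIndex_mul_index hle]
    push_cast
    ring
  -- primality
  have hcS : MemLocalRing M (spec a χ) := spec_memLocalRing hac haS χ
  have h6 : (⟨spec a χ, hcS⟩ : locRing M) ∈ locMax M := by
    have h7 : (⟨spec a χ, hcS⟩ : locRing M) ^ N ∈ locMax M := by
      rw [mem_locMax]
      simpa using h4
    exact Ideal.IsPrime.mem_of_pow_mem (Ideal.IsMaximal.isPrime inferInstance) N h7
  have h7 : (⟨(Dd.relIndex (Subgroup.centralizer ({g₀} : Set G)) : ℂ), MemLocalRing.natCast _⟩ : locRing M) *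
      ⟨centralChar (χ : G → ℂ) g₀, centralChar_memLocalRing χ g₀⟩ ∈ locMax M := by
    convert h6 using 1
    apply Subtype.ext
    exact hval.symm
  rcases (Ideal.IsMaximal.isPrime inferInstance : (locMax M).IsPrime).mem_or_mem h7 with h8 | h8
  · exact hidx ((natCast_memLocalIdeal_iff hM _).mp h8)
  · exact hg₀.2.2 χ hχ h8

/-- **A block of rank one with cyclic defect group: `|D| ≤ k(B)`.** -/
theorem card_defect_le_card_of_cyclic (hM : IsPModular p M) {B : Set (IrrCharacter G)} (hB : IsPBlock M B)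
    {D : Subgroup G} (hD : IsDefectGroup p M B D) (hcyc : IsCyclic D) (hl : blockRank p B = 1) :
    Nat.card D ≤ Nat.card B := by
  classical
  have hpp : p.Prime := hp.out
  obtain ⟨φ, d, ⟨n, hn⟩, hd, hdsum⟩ := exists_rank_one_data hM hB hl
  set X := (univ.filter (· ∈ B) : Finset (IrrCharacter G)) with hXdef
  have hBX : B = (X : Set (IrrCharacter G)) := by
    ext χ
    simp [hXdef]
  have hmemX : ∀ χ, χ ∈ X ↔ χ ∈ B := fun χ => by simp [hXdef]
  have hXcard : X.card = Nat.card B := by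
    rw [hBX, Nat.card_coe_set_eq, Set.ncard_coe_finset]
  have h1reg : IsPRegular p (1 : G) := by
    show ¬ p ∣ orderOf (1 : G)
    rw [orderOf_one]
    exact hpp.one_lt.ne' ∘ Nat.dvd_one.mp
  have hdeg1 : ∀ χ : IrrCharacter G, (χ : G → ℂ) 1 = (charDegree (χ : G → ℂ) : ℂ) := fun χ => irr_one_eq χ
  -- the integer
  set f : ℤ := ∑ ψ ∈ X, (n ψ : ℤ) * (charDegree (ψ : G → ℂ) : ℤ) with hf
  have hφ1 : φ 1 = (f : ℂ) := by
    rw [hn 1 h1reg, hBX, finsum_mem_coe_finset]
    simp only [hdeg1, hf]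
    push_cast
    rfl
  have hdegZ : ∀ χ ∈ B, (charDegree (χ : G → ℂ) : ℤ) = (d χ : ℤ) * f := by
    intro χ hχ
    have h3 := hd χ hχ 1 h1reg
    rw [hdeg1, hφ1] at h3
    exact_mod_cast h3
  obtain ⟨χ₀, hχ₀⟩ := IsPBlock.nonempty hB
  have hf0 : f ≠ 0 := by
    intro h0
    have h3 := hdegZ χ₀ hχ₀
    rw [h0, mul_zero] at h3
    exact (charDegree_pos χ₀.2).ne' (by exact_mod_cast h3)
  have hdpos : ∀ χ ∈ B, 0 < d χ := by
    intro χ hχ
    rcases Nat.eq_zero_or_pos (d χ) with h0 | h0
    · have h3 := hdegZ χ hχ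
      rw [h0] at h3
      simp only [Nat.cast_zero, zero_mul] at h3
      exact absurd (by exact_mod_cast h3) (charDegree_pos χ.2).ne'
    · exact h0
  have hdegN : ∀ χ ∈ B, charDegree (χ : G → ℂ) = d χ * f.natAbs := by
    intro χ hχ
    have h3 := hdegZ χ hχ
    have h4 := congrArg Int.natAbs h3
    simpa [Int.natAbs_mul] using h4
  have hsumd : ∑ χ ∈ X, d χ ^ 2 = p ^ blockDefect p B := by
    rw [← hdsum, hBX, finsum_mem_coe_finset]
  have hcardD : Nat.card D = p ^ blockDefect p B := card_defectGroup hM hB hD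
  -- the algebra
  haveI hk' : CharP (Blocks.ResF M) p := charP_resF hM
  have hfin := finrank_blockAlg B hB
  rw [← hXdef] at hfin
  have hfin2 : finrank (Blocks.ResF M) (BA (epsRes_class M B hB)) = f.natAbs ^ 2 * p ^ blockDefect p B := by
    rw [hfin, ← hsumd, Finset.mul_sum]
    refine Finset.sum_congr rfl fun χ hχ => ?_
    rw [hdegN χ ((hmemX χ).mp hχ)]
    ring
  have hpos : 0 < finrank (Blocks.ResF M) (BA (epsRes_class M B hB)) := by
    rw [hfin2]
    have : f.natAbs ≠ 0 := Int.natAbs_ne_zero.mpr hf0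
    exact Nat.mul_pos (pow_pos (Nat.pos_of_ne_zero this) 2) (pow_pos hpp.pos _)
  haveI : Nontrivial (BA (epsRes_class M B hB)) := Module.nontrivial_of_finrank_pos hpos
  have hz1 : finrank (Blocks.ResF M) (traceFun (Blocks.ResF M) (BA (epsRes_class M B hB))) ≤ X.card :=
    finrank_traceFun_le_of_bound (epsRes_class M B hB) (epsRes_id M B hB) X.card
      (fun ι _ _ τ h1 h2 h3 => card_le_of_fix hB τ h1 h2 h3)
  let P₀ : Sylow p G := default
  -- the relative projectivity data
  obtain ⟨g₀, hg₀, S, hDeq⟩ := id hD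
  letI : Fintype (G ⧸ D) := Fintype.ofFinite _
  have hle : D ≤ Subgroup.centralizer ({g₀} : Set G) := by
    rw [hDeq]
    exact Subgroup.map_subtype_le _
  have hcomm : ∀ z ∈ D, z * g₀ = g₀ * z := by
    intro z hz
    have h2 := Subgroup.mem_centralizer_iff.mp (hle hz) g₀ rfl
    exact h2.symm
  have hidx : ¬ p ∣ D.relIndex (Subgroup.centralizer ({g₀} : Set G)) := by
    rw [Subgroup.relIndex, hDeq, Subgroup.subgroupOf, Subgroup.comap_map_eq_self_of_injective (Subgroup.subtype_injective _)]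
    exact S.not_dvd_index
  have hnn := zNot_not_nilpotent hM hB hg₀ D hle hidx hcomm
  obtain ⟨x₀, hx₀⟩ := IsCyclic.exists_monoid_generator (α := D)
  have hgen : ∀ z ∈ D, ∃ k : ℕ, z = (x₀ : G) ^ k := by
    intro z hz
    obtain ⟨k, hk⟩ := Submonoid.mem_powers_iff _ _ |>.mp (hx₀ ⟨z, hz⟩)
    refine ⟨k, ?_⟩
    have h3 := congrArg Subtype.val hk
    simpa using h3.symm
  have hq₀ : (kapA (epsRes_class M B hB) (x₀ : G) - 1) ^ (p ^ blockDefect p B) = 0 := by
    haveI : CharP (BA (epsRes_class M B hB)) p :=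
      charP_of_injective_algebraMap (algebraMap (Blocks.ResF M) (BA (epsRes_class M B hB))).injective p
    haveI : ExpChar (BA (epsRes_class M B hB)) p := ExpChar.prime hpp
    rw [sub_pow_expChar_pow_of_commute p _ (Commute.one_right _), one_pow, ← map_pow, sub_eq_zero]
    have h3 : (x₀ : G) ^ (p ^ blockDefect p B) = 1 := by
      rw [← hcardD]
      have h4 : x₀ ^ Nat.card D = 1 := pow_card_eq_one'
      have h5 : ((x₀ ^ Nat.card D : D) : G) = ((1 : D) : G) := congrArg Subtype.val h4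
      rwa [Subgroup.coe_pow, Subgroup.coe_one] at h5
    rw [h3, map_one]
  obtain ⟨m, hm0, hm1, hm2⟩ := block_dims_of_relproj (epsRes_class M B hB) (p := p) (epsRes_id M B hB)
    (fun m τ h1 h2 h3 h4 => rank_le_one_of_blockRank hM hB hl m τ h1 h2 h3 h4) D (x₀ : G) g₀ hgen hcomm hnn hq₀ P₀ P₀.isPGroup'
  set z := finrank (Blocks.ResF M) (traceFun (Blocks.ResF M) (BA (epsRes_class M B hB))) with hz
  have hz0 : z ≠ 0 := by
    intro h0
    rw [h0, mul_zero] at hm1
    omega
  have hcardP : Nat.card P₀ = p ^ (Nat.card G).factorization p := P₀.card_eq_multiplicity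
  rw [hcardP] at hm2
  have hmain : f.natAbs ^ 2 * p ^ blockDefect p B = m ^ 2 * z := by
    rw [← hfin2, hm1]
  -- valuation of the integer
  obtain ⟨χ₁, hχ₁, h00⟩ := exists_height_zero (p := p) (IsPBlock.nonempty hB)
  have hval := val_eq_minVal_add_height (p := p) hχ₁
  rw [h00, add_zero] at hval
  have hval2 := card_val_eq_minVal_add_defect (p := p) (IsPBlock.nonempty hB)
  have hval3 : f.natAbs.factorization p ≤ (charDegree (χ₁ : G → ℂ)).factorization p := by
    rw [hdegN χ₁ hχ₁, Nat.factorization_mul (hdpos χ₁ hχ₁).ne' (Int.natAbs_ne_zero.mpr hf0), Finsupp.add_apply]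
    omega
  have hdvd := numeric_kulsh hpp hmain (Int.natAbs_ne_zero.mpr hf0) hm0.ne' hz0 hm2 (by omega)
  have hle2 := Nat.le_of_dvd (Nat.pos_of_ne_zero hz0) hdvd
  rw [hcardD, ← hXcard]
  omega

end Main

end Cfsg.Agent.Lib.LocalAlg
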