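import Cfsg.Agent.Lib.LocalAlg.Alg

/-!
# Symmetric local algebras with a small centre are commutative (Külshammer)
-/

set_option autoImplicit false
set_option linter.unusedSectionVars false
set_option linter.unusedVariables false

namespace Cfsg.Agent.Lib.LocalAlg

open Finset Module

universe u v

/-- A symmetric local algebra, inside an ambient ring. -/
structure SymLocal (F : Type u) (A : Type v) [Field F] [Ring A] [Algebra F A] where
  C : Submodule F A
  ε : A
  L : Submodule F A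
  lam : Module.Dual F A
  N : ℕ
  hεC : ε ∈ C
  hmulC : ∀ a ∈ C, ∀ b ∈ C, a * b ∈ C
  hl : ∀ a ∈ C, ε * a = a
  hr : ∀ a ∈ C, a * ε = a
  hLC : L ≤ C
  hLL : L * L ≤ L
  hdec : ∀ a ∈ C, ∃ l : F, a - l • ε ∈ L
  hεL : ε ∉ L
  hN : L ^ N = ⊥
  hsym : ∀ a ∈ C, ∀ b ∈ C, lam (a * b) = lam (b * a)
  hnd : ∀ a ∈ C, (∀ b ∈ C, lam (a * b) = 0) → a = 0

theorem exists_isotropic {F : Type u} [Field F] [IsAlgClosed F] (p q t : F) (ht : t ≠ 0) :
    ∃ β : F, p + β * q + β ^ 2 * t = 0 := by
  classical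
  let f : Polynomial F := Polynomial.C t * Polynomial.X ^ 2 + Polynomial.C q * Polynomial.X + Polynomial.C p
  have hdeg : f.degree = 2 := Polynomial.degree_quadratic ht
  obtain ⟨β, hβ⟩ := IsAlgClosed.exists_root f (by rw [hdeg]; norm_num)
  refine ⟨β, ?_⟩
  have h1 : Polynomial.eval β f = 0 := hβ
  simp only [f, Polynomial.eval_add, Polynomial.eval_mul, Polynomial.eval_C, Polynomial.eval_pow, Polynomial.eval_X] at h1
  linear_combination h1

namespace SymLocal

variable {F : Type u} {A : Type v} [Field F] [Ring A] [Algebra F A] (D : SymLocal F A)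

theorem mul_L {a u : A} (ha : a ∈ D.C) (hu : u ∈ D.L) : a * u ∈ D.L := by
  obtain ⟨l, hl⟩ := D.hdec a ha
  have h1 : a * u = (a - l • D.ε) * u + l • u := by
    rw [sub_mul, smul_mul_assoc, D.hl u (D.hLC hu)]
    abel
  rw [h1]
  exact Submodule.add_mem _ (D.hLL (Submodule.mul_mem_mul hl hu)) (Submodule.smul_mem _ _ hu)

theorem L_mul {a u : A} (ha : a ∈ D.C) (hu : u ∈ D.L) : u * a ∈ D.L := by
  obtain ⟨l, hl⟩ := D.hdec a ha
  have h1 : u * a = u * (a - l • D.ε) + l • u := by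
    rw [mul_sub, mul_smul_comm, D.hr u (D.hLC hu)]
    abel
  rw [h1]
  exact Submodule.add_mem _ (D.hLL (Submodule.mul_mem_mul hu hl)) (Submodule.smul_mem _ _ hu)

theorem mul_mem_pow {i j m : ℕ} (e : i + j = m) {a b : A} (ha : a ∈ D.L ^ i) (hb : b ∈ D.L ^ j) : a * b ∈ D.L ^ m := by
  subst e
  rw [pow_add]
  exact Submodule.mul_mem_mul ha hb

theorem pow_succ_le (k : ℕ) : D.L ^ (k + 2) ≤ D.L ^ (k + 1) := by
  have h1 : D.L ^ (k + 2) = D.L ^ k * (D.L * D.L) := by rw [pow_succ, pow_succ, mul_assoc]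
  rw [h1, pow_succ]
  exact mul_le_mul' le_rfl D.hLL

theorem pow_anti {i j : ℕ} (h : i ≤ j) : D.L ^ (j + 1) ≤ D.L ^ (i + 1) := by
  induction j, h using Nat.le_induction with
  | base => exact le_rfl
  | succ j _ ih => exact (D.pow_succ_le j).trans ih

theorem mem_pow_of_le {i j : ℕ} (hi : 1 ≤ i) (hij : i ≤ j) {a : A} (ha : a ∈ D.L ^ j) : a ∈ D.L ^ i := by
  obtain ⟨i', rfl⟩ : ∃ i', i = i' + 1 := ⟨i - 1, by omega⟩
  obtain ⟨j', rfl⟩ : ∃ j', j = j' + 1 := ⟨j - 1, by omega⟩
  exact D.pow_anti (by omega) ha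

theorem mem_L_of_pow {j : ℕ} (hj : 1 ≤ j) {a : A} (ha : a ∈ D.L ^ j) : a ∈ D.L := by
  have h := D.mem_pow_of_le (le_refl 1) hj ha
  rwa [pow_one] at h

theorem mem_C_of_pow {j : ℕ} (hj : 1 ≤ j) {a : A} (ha : a ∈ D.L ^ j) : a ∈ D.C := D.hLC (D.mem_L_of_pow hj ha)

theorem pow_bot {m : ℕ} (hm : D.N ≤ m) : D.L ^ m = ⊥ := by
  obtain ⟨d, rfl⟩ := Nat.exists_eq_add_of_le hm
  rw [pow_add, D.hN, Submodule.bot_mul]

theorem pow_stable (k : ℕ) (h : D.L ^ (k + 1) ≤ D.L ^ (k + 2)) : D.L ^ (k + 1) = ⊥ := by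
  have h1 : ∀ t, D.L ^ (k + 1 + t) ≤ D.L ^ (k + 2 + t) := by
    intro t
    induction t with
    | zero => exact h
    | succ t ih =>
      rw [show k + 1 + (t + 1) = (k + 1 + t) + 1 by ring, show k + 2 + (t + 1) = (k + 2 + t) + 1 by ring, pow_succ, pow_succ _ (k + 2 + t)]
      exact mul_le_mul' ih le_rfl
  have h2 : ∀ t, D.L ^ (k + 1) ≤ D.L ^ (k + 1 + t) := by
    intro t
    induction t with
    | zero => exact le_rfl
    | succ t ih =>
      have h3 := h1 t
      rw [show k + 2 + t = k + 1 + (t + 1) by ring] at h3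
      exact ih.trans h3
  exact le_bot_iff.mp ((h2 D.N).trans (by rw [D.pow_bot (by omega)]))

/-- Elements killed by the radical on the left and by the form vanish. -/
theorem left_ann {x : A} (hx : x ∈ D.C) (hJ : ∀ j ∈ D.L, j * x = 0) (hlam : D.lam x = 0) : x = 0 := by
  refine D.hnd x hx fun b hb => ?_
  rw [D.hsym x hx b hb]
  obtain ⟨l, hl⟩ := D.hdec b hb
  have h1 : b * x = (b - l • D.ε) * x + l • x := by
    rw [sub_mul, smul_mul_assoc, D.hl x hx]
    abel
  rw [h1, hJ _ hl, zero_add, map_smul, hlam, smul_zero]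

theorem comm_eq {a b : A} (ha : a ∈ D.C) (hb : b ∈ D.C) (l m : F) :
    a * b - b * a = (a - l • D.ε) * (b - m • D.ε) - (b - m • D.ε) * (a - l • D.ε) := by
  have h1 := D.hl a ha
  have h2 := D.hr a ha
  have h3 := D.hl b hb
  have h4 := D.hr b hb
  have h5 := D.hl D.ε D.hεC
  simp only [mul_sub, sub_mul, smul_mul_assoc, mul_smul_comm, h1, h2, h3, h4, h5, smul_sub, smul_smul]
  rw [mul_comm m l]
  abel

theorem comm_mem_sq {a b : A} (ha : a ∈ D.C) (hb : b ∈ D.C) : a * b - b * a ∈ D.L ^ 2 := by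
  obtain ⟨l, hl⟩ := D.hdec a ha
  obtain ⟨m, hm⟩ := D.hdec b hb
  rw [D.comm_eq ha hb l m]
  exact Submodule.sub_mem _ (D.mul_mem_pow (i := 1) (j := 1) rfl (by rwa [pow_one]) (by rwa [pow_one]))
    (D.mul_mem_pow (i := 1) (j := 1) rfl (by rwa [pow_one]) (by rwa [pow_one]))

/-- The layers of the radical powers are at most one dimensional. -/
theorem layers_of_isotropic {a b : A} (ha : a ∈ D.L) (hb : b ∈ D.L)
    (hgen : ∀ j ∈ D.L, ∃ α β : F, j - α • a - β • b ∈ D.L ^ 2)
    (haa : a * a ∈ D.L ^ 3)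
    (h1 : ∀ x ∈ D.L ^ 2, ∃ μ : F, x - μ • (a * b - b * a) ∈ D.L ^ 3) :
    ∀ k, ∃ w ∈ D.L ^ (k + 2), ∀ x ∈ D.L ^ (k + 2), ∃ μ : F, x - μ • w ∈ D.L ^ (k + 3) := by
  classical
  set c := a * b - b * a with hc
  have ha1 : a ∈ D.L ^ 1 := by rwa [pow_one]
  have hb1 : b ∈ D.L ^ 1 := by rwa [pow_one]
  have hc2 : c ∈ D.L ^ 2 := Submodule.sub_mem _ (D.mul_mem_pow rfl ha1 hb1) (D.mul_mem_pow rfl hb1 ha1)
  obtain ⟨γ, hγ⟩ := h1 (a * b) (D.mul_mem_pow rfl ha1 hb1)
  have hac : a * c ∈ D.L ^ 4 := by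
    by_cases hγ0 : γ = 0
    · subst hγ0
      rw [zero_smul, sub_zero] at hγ
      have h2 : a * c = (a * a) * b - (a * b) * a := by
        rw [hc, mul_sub, mul_assoc, mul_assoc]
      rw [h2]
      exact Submodule.sub_mem _ (D.mul_mem_pow rfl haa hb1) (D.mul_mem_pow rfl hγ ha1)
    · have h2 : a * c = γ⁻¹ • ((a * a) * b) - γ⁻¹ • (a * (a * b - γ • c)) := by
        have h3 : a * (a * b - γ • c) = a * (a * b) - γ • (a * c) := by
          rw [mul_sub a (a * b) (γ • c), mul_smul_comm]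
        rw [h3, smul_sub, smul_smul, inv_mul_cancel₀ hγ0, one_smul, mul_assoc]
        abel
      rw [h2]
      exact Submodule.sub_mem _ (Submodule.smul_mem _ _ (D.mul_mem_pow rfl haa hb1))
        (Submodule.smul_mem _ _ (D.mul_mem_pow rfl ha1 hγ))
  -- the even layers
  have hQ : ∀ i, c ^ (i + 1) ∈ D.L ^ (2 * i + 2) ∧ ∀ x ∈ D.L ^ (2 * i + 2), ∃ μ : F, x - μ • c ^ (i + 1) ∈ D.L ^ (2 * i + 3) := by
    intro i
    induction i with
    | zero =>
      refine ⟨by simpa using hc2, fun x hx => ?_⟩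
      obtain ⟨μ, hμ⟩ := h1 x (by simpa using hx)
      exact ⟨μ, by simpa using hμ⟩
    | succ i ih =>
      obtain ⟨hi1, hi2⟩ := ih
      refine ⟨?_, ?_⟩
      · rw [pow_succ c (i + 1)]
        exact D.mul_mem_pow (by ring) hi1 hc2
      · intro x hx
        rw [show 2 * (i + 1) + 2 = (2 * i + 2) + 2 by ring, pow_add] at hx
        induction hx using Submodule.mul_induction_on' with
        | mem_mul_mem v hv w hw =>
          obtain ⟨μ, hμ⟩ := hi2 v hv
          obtain ⟨ν, hν⟩ := h1 w hw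
          refine ⟨μ * ν, ?_⟩
          have h2 : v * w - (μ * ν) • c ^ (i + 1 + 1) = (v - μ • c ^ (i + 1)) * w + μ • (c ^ (i + 1) * (w - ν • c)) := by
            rw [pow_succ c (i + 1)]
            simp only [mul_sub, sub_mul, smul_mul_assoc, mul_smul_comm, smul_sub, smul_smul]
            abel
          rw [h2]
          exact Submodule.add_mem _ (D.mul_mem_pow (by ring) hμ hw)
            (Submodule.smul_mem _ _ (D.mul_mem_pow (by ring) hi1 hν))
        | add u _ v _ hu hv =>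
          obtain ⟨μ, hμ⟩ := hu
          obtain ⟨ν, hν⟩ := hv
          refine ⟨μ + ν, ?_⟩
          have h2 : u + v - (μ + ν) • c ^ (i + 1 + 1) = (u - μ • c ^ (i + 1 + 1)) + (v - ν • c ^ (i + 1 + 1)) := by
            rw [add_smul]
            abel
          rw [h2]
          exact Submodule.add_mem _ hμ hν
  -- the odd layers
  have hR : ∀ i, b * c ^ (i + 1) ∈ D.L ^ (2 * i + 3) ∧ ∀ x ∈ D.L ^ (2 * i + 3), ∃ μ : F, x - μ • (b * c ^ (i + 1)) ∈ D.L ^ (2 * i + 4) := by
    intro i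
    obtain ⟨hi1, hi2⟩ := hQ i
    refine ⟨D.mul_mem_pow (by ring) hb1 hi1, ?_⟩
    have hacp : a * c ^ (i + 1) ∈ D.L ^ (2 * i + 4) := by
      have h2 : c ^ i ∈ D.L ^ (2 * i) := by
        induction i with
        | zero => simp [Submodule.one_le.mp le_rfl]
        | succ i ih =>
          have := (hQ i).1
          rw [show 2 * (i + 1) = 2 * i + 2 by ring]
          exact this
      rw [pow_succ' c i, ← mul_assoc]
      exact D.mul_mem_pow (by ring) hac h2
    intro x hx
    rw [show 2 * i + 3 = 1 + (2 * i + 2) by ring, pow_add, pow_one] at hx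
    induction hx using Submodule.mul_induction_on' with
    | mem_mul_mem u hu v hv =>
      obtain ⟨α, β, hαβ⟩ := hgen u hu
      obtain ⟨μ, hμ⟩ := hi2 v hv
      refine ⟨β * μ, ?_⟩
      have h2 : u * v - (β * μ) • (b * c ^ (i + 1)) =
          (u - α • a - β • b) * v + (α • a + β • b) * (v - μ • c ^ (i + 1)) + (α * μ) • (a * c ^ (i + 1)) := by
        simp only [mul_sub, sub_mul, add_mul, smul_mul_assoc, mul_smul_comm, smul_add, smul_smul]
        rw [mul_comm μ α, mul_comm μ β]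
        abel
      rw [h2]
      refine Submodule.add_mem _ (Submodule.add_mem _ (D.mul_mem_pow (by ring) hαβ hv) ?_) (Submodule.smul_mem _ _ hacp)
      have h3 : α • a + β • b ∈ D.L ^ 1 := by
        rw [pow_one]
        exact Submodule.add_mem _ (Submodule.smul_mem _ _ ha) (Submodule.smul_mem _ _ hb)
      exact D.mul_mem_pow (by ring) h3 hμ
    | add u _ v _ hu hv =>
      obtain ⟨μ, hμ⟩ := hu
      obtain ⟨ν, hν⟩ := hv
      refine ⟨μ + ν, ?_⟩
      have h2 : u + v - (μ + ν) • (b * c ^ (i + 1)) = (u - μ • (b * c ^ (i + 1))) + (v - ν • (b * c ^ (i + 1))) := by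
        rw [add_smul]
        abel
      rw [h2]
      exact Submodule.add_mem _ hμ hν
  intro k
  rcases Nat.even_or_odd' k with ⟨i, rfl | rfl⟩
  · exact ⟨c ^ (i + 1), (hQ i).1, (hQ i).2⟩
  · refine ⟨b * c ^ (i + 1), (hR i).1, fun x hx => ?_⟩
    exact (hR i).2 x hx

/-- The last part of the proof: a contradiction from the layer structure. -/
theorem false_of_layers [FiniteDimensional F A] {a b : A} (ha : a ∈ D.L) (hb : b ∈ D.L)
    (hgen : ∀ j ∈ D.L, ∃ α β : F, j - α • a - β • b ∈ D.L ^ 2)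
    (hc3 : a * b - b * a ∉ D.L ^ 3)
    (hdim : finrank F D.C = finrank F (D.L ^ 2 : Submodule F A) + 3)
    {r : ℕ} (hr2 : 2 ≤ r) (hr1 : D.L ^ (r + 1) ≠ ⊥) (htop : D.L ^ (r + 2) = ⊥)
    (hlayer : ∀ k, ∃ w ∈ D.L ^ (k + 2), ∀ x ∈ D.L ^ (k + 2), ∃ μ : F, x - μ • w ∈ D.L ^ (k + 3)) : False := by
  classical
  set c := a * b - b * a with hc
  have ha1 : a ∈ D.L ^ 1 := by rwa [pow_one]
  have hb1 : b ∈ D.L ^ 1 := by rwa [pow_one]
  have hL2C : D.L ^ 2 ≤ D.C := fun x hx => D.mem_C_of_pow (by norm_num) hx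
  -- the annihilator
  let Θ : D.C →ₗ[F] Module.Dual F (D.L ^ 2 : Submodule F A) :=
    { toFun := fun y =>
        { toFun := fun u => D.lam ((y : A) * (u : A))
          map_add' := fun u v => by
            rw [Submodule.coe_add, mul_add, map_add]
          map_smul' := fun t u => by
            rw [Submodule.coe_smul, mul_smul_comm, map_smul]
            rfl }
      map_add' := fun y z => by
        ext u
        simp [add_mul]
      map_smul' := fun t y => by
        ext u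
        simp }
  have hΘ : ∀ (y : D.C) (u : A) (hu : u ∈ D.L ^ 2), Θ y ⟨u, hu⟩ = D.lam ((y : A) * u) := fun y u hu => rfl
  have hL2mul : ∀ u ∈ D.L ^ 2, ∀ v ∈ D.C, u * v ∈ D.L ^ 2 := by
    intro u hu v hv
    rw [pow_two] at hu ⊢
    induction hu using Submodule.mul_induction_on' with
    | mem_mul_mem x hx y hy => 
      rw [mul_assoc]
      exact Submodule.mul_mem_mul hx (D.L_mul hv hy)
    | add x _ y _ hx hy =>
      rw [add_mul]
      exact Submodule.add_mem _ hx hy
  have hker : ∀ y : D.C, Θ y = 0 → ∀ u ∈ D.L ^ 2, (y : A) * u = 0 := by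
    intro y hy u hu
    refine D.hnd _ (D.hmulC _ y.2 _ (hL2C hu)) fun v hv => ?_
    have h1 := LinearMap.congr_fun hy ⟨u * v, hL2mul u hu v hv⟩
    rw [hΘ] at h1
    rw [mul_assoc]
    exact h1
  have hcent : ∀ y : D.C, Θ y = 0 → ∀ v ∈ D.C, (y : A) * v = v * y := by
    intro y hy v hv
    have h1 := hker y hy
    have h2 : (y : A) * v - v * y = 0 := by
      refine D.hnd _ (Submodule.sub_mem _ (D.hmulC _ y.2 _ hv) (D.hmulC _ hv _ y.2)) fun w hw => ?_
      have h3 : D.lam (v * ((y : A) * w)) = D.lam (((y : A) * w) * v) :=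
        D.hsym _ hv _ (D.hmulC _ y.2 _ hw)
      have h4 := h1 _ (D.comm_mem_sq hv hw)
      rw [sub_mul, map_sub, mul_assoc, mul_assoc, h3, mul_assoc, ← map_sub, ← mul_sub, h4, map_zero]
    exact sub_eq_zero.mp h2
  -- elements of the kernel lie deep in the radical
  have hL3 : D.L ^ 2 ≠ ⊥ := by
    intro h
    apply hr1
    have h1 : D.L ^ (r + 1) ≤ D.L ^ (1 + 1) := D.pow_anti (by omega)
    exact le_bot_iff.mp (h1.trans (by rw [show 1 + 1 = 2 from rfl, h]))
  have hdeep : ∀ y : D.C, Θ y = 0 → (y : A) ∈ D.L ^ r := by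
    intro y hy
    have hk := hker y hy
    have hz := hcent y hy
    -- in the radical
    obtain ⟨l, hl⟩ := D.hdec y y.2
    have hyL : (y : A) ∈ D.L := by
      by_cases hl0 : l = 0
      · simpa [hl0] using hl
      · exfalso
        have h1 : D.L ^ 2 ≤ D.L ^ 3 := by
          intro u hu
          have h2 : u = -l⁻¹ • (((y : A) - l • D.ε) * u) := by
            rw [sub_mul, hk u hu, smul_mul_assoc, D.hl u (hL2C hu), zero_sub, smul_neg, neg_smul, neg_neg, smul_smul,
              inv_mul_cancel₀ hl0, one_smul]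
          rw [h2]
          refine Submodule.smul_mem _ _ (D.mul_mem_pow (i := 1) (j := 2) rfl (by rwa [pow_one]) hu)
        exact hL3 (D.pow_stable 1 h1)
    -- in the square
    obtain ⟨α, β, hαβ⟩ := hgen _ hyL
    have hmemc : ∀ t : F, t • c ∈ D.L ^ 3 → t = 0 := by
      intro t ht
      by_contra h0
      apply hc3
      have h2 : c = t⁻¹ • (t • c) := by rw [smul_smul, inv_mul_cancel₀ h0, one_smul]
      rw [h2]
      exact Submodule.smul_mem _ _ ht
    set y₂ := (y : A) - α • a - β • b with hy₂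
    have hy : (y : A) = α • a + β • b + y₂ := by
      rw [hy₂]
      abel
    have hα : α = 0 := by
      apply hmemc
      have h1 := hz b (D.hLC hb)
      rw [hy] at h1
      have h2 : α • c = b * y₂ - y₂ * b := by
        have h3 : (α • a + β • b + y₂) * b - b * (α • a + β • b + y₂) = 0 := sub_eq_zero.mpr h1
        simp only [add_mul, mul_add, smul_mul_assoc, mul_smul_comm] at h3
        rw [hc, smul_sub]
        linear_combination (norm := abel) h3
      rw [h2]
      exact Submodule.sub_mem _ (D.mul_mem_pow (by ring) hb1 hαβ) (D.mul_mem_pow (by ring) hαβ hb1)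
    have hβ : β = 0 := by
      apply hmemc
      have h1 := hz a (D.hLC ha)
      rw [hy] at h1
      have h2 : β • c = y₂ * a - a * y₂ := by
        have h3 : (α • a + β • b + y₂) * a - a * (α • a + β • b + y₂) = 0 := sub_eq_zero.mpr h1
        simp only [add_mul, mul_add, smul_mul_assoc, mul_smul_comm] at h3
        rw [hc, smul_sub]
        linear_combination (norm := abel) -h3
      rw [h2]
      exact Submodule.sub_mem _ (D.mul_mem_pow (by ring) hαβ ha1) (D.mul_mem_pow (by ring) ha1 hαβ)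
    have hy2 : (y : A) ∈ D.L ^ 2 := by
      rw [hy, hα, hβ]
      simpa using hαβ
    -- going down the layers
    have hj : ∀ j, j + 2 ≤ r → (y : A) ∈ D.L ^ (j + 2) := by
      intro j
      induction j with
      | zero => intro _; simpa using hy2
      | succ j ih =>
        intro hjr
        have hy' := ih (by omega)
        obtain ⟨w, hw, hwx⟩ := hlayer j
        obtain ⟨μ₀, hμ₀⟩ := hwx _ hy'
        by_cases hμ0 : μ₀ = 0
        · rw [hμ0, zero_smul, sub_zero] at hμ₀
          exact hμ₀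
        · exfalso
          have h1 : D.L ^ (j + 3 + 1) ≤ D.L ^ (j + 3 + 2) := by
            intro u hu
            rw [show j + 3 + 1 = (j + 2) + 2 by ring, pow_add] at hu
            induction hu using Submodule.mul_induction_on' with
            | mem_mul_mem x hx v hv =>
              obtain ⟨μ, hμ⟩ := hwx x hx
              have h2 : x * v = (x - μ • w - (μ * μ₀⁻¹) • ((y : A) - μ₀ • w)) * v := by
                have h3 : (y : A) * v = 0 := hk v hv
                have h5 : μ * μ₀⁻¹ * μ₀ = μ := by field_simp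
                simp only [sub_mul, smul_mul_assoc, smul_sub, smul_smul, h3, smul_zero, h5]
                abel
              rw [h2]
              exact D.mul_mem_pow (by ring) (Submodule.sub_mem _ hμ (Submodule.smul_mem _ _ hμ₀)) hv
            | add x _ v _ hx hv => exact Submodule.add_mem _ hx hv
          have h2 := D.pow_stable (j + 3) h1
          apply hr1
          have h3 : D.L ^ (r + 1) ≤ D.L ^ (j + 3 + 1) := D.pow_anti (by omega)
          exact le_bot_iff.mp (h3.trans (by rw [h2]))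
    have h1 := hj (r - 2) (by omega)
    rwa [show r - 2 + 2 = r by omega] at h1
  -- dimensions
  obtain ⟨w₁, -, hx₁⟩ := hlayer (r - 2)
  rw [show r - 2 + 2 = r by omega, show r - 2 + 3 = r + 1 by omega] at hx₁
  obtain ⟨w₂, -, hx₂⟩ := hlayer (r - 1)
  rw [show r - 1 + 2 = r + 1 by omega, show r - 1 + 3 = r + 2 by omega, htop] at hx₂
  have hle : D.L ^ r ≤ Submodule.span F ({w₁, w₂} : Set A) := by
    intro x hx
    obtain ⟨μ, hμ⟩ := hx₁ x hx
    obtain ⟨ν, hν⟩ := hx₂ _ hμ
    have h1 : x = μ • w₁ + ν • w₂ := by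
      have h2 := (Submodule.mem_bot F).mp hν
      rw [sub_eq_zero, sub_eq_iff_eq_add] at h2
      rw [h2]
      abel
    rw [h1]
    exact Submodule.add_mem _ (Submodule.smul_mem _ _ (Submodule.subset_span (by simp)))
      (Submodule.smul_mem _ _ (Submodule.subset_span (by simp)))
  have hf1 : finrank F (D.L ^ r : Submodule F A) ≤ 2 := by
    refine (Submodule.finrank_mono hle).trans ?_
    have h2 := finrank_span_finset_le_card (R := F) ({w₁, w₂} : Finset A)
    have h3 : (({w₁, w₂} : Finset A) : Set A) = {w₁, w₂} := by simp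
    rw [h3] at h2
    exact h2.trans Finset.card_le_two
  have hf2 := LinearMap.finrank_range_add_finrank_ker Θ
  have hf3 : finrank F (LinearMap.range Θ) ≤ finrank F (D.L ^ 2 : Submodule F A) := by
    refine (Submodule.finrank_le _).trans ?_
    rw [Subspace.dual_finrank_eq]
  have hf4 : finrank F (LinearMap.ker Θ) ≤ finrank F (D.L ^ r : Submodule F A) := by
    let g : LinearMap.ker Θ →ₗ[F] (D.L ^ r : Submodule F A) :=
      { toFun := fun y => ⟨((y : D.C) : A), hdeep y (LinearMap.mem_ker.mp y.2)⟩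
        map_add' := fun _ _ => rfl
        map_smul' := fun _ _ => rfl }
    refine LinearMap.finrank_le_finrank_of_injective (f := g) ?_
    intro y z h
    apply Subtype.ext
    apply Subtype.ext
    exact congrArg (fun t : (D.L ^ r : Submodule F A) => (t : A)) h
  omega

/-- **Külshammer's theorem**: a symmetric local algebra with at most four trace functionals is commutative. -/
theorem comm_of_count [IsAlgClosed F] [FiniteDimensional F A]
    (hcount : ∀ K : Submodule F A, K ≤ D.C → (∀ a ∈ D.C, ∀ b ∈ D.C, a * b - b * a ∈ K) →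
      finrank F D.C ≤ finrank F K + 4) : ∀ a ∈ D.C, ∀ b ∈ D.C, a * b = b * a := by
  classical
  by_contra hne
  push Not at hne
  obtain ⟨a₀, ha₀, b₀, hb₀, hab⟩ := hne
  have hab' : a₀ * b₀ - b₀ * a₀ ≠ 0 := sub_ne_zero.mpr hab
  have hL2C : D.L ^ 2 ≤ D.C := fun x hx => D.mem_C_of_pow (by norm_num) hx
  have hL2L : D.L ^ 2 ≤ D.L := fun x hx => D.mem_L_of_pow (by norm_num) hx
  -- no single generator
  have hnotgen : ∀ x₀ ∈ D.L, ¬ ∀ j ∈ D.L, ∃ μ : F, j - μ • x₀ ∈ D.L * D.L := by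
    intro x₀ hx₀ hg
    have h1 := commute_of_gen D.L D.hLL hx₀ hg D.hN
    obtain ⟨l, hl⟩ := D.hdec a₀ ha₀
    obtain ⟨m, hm⟩ := D.hdec b₀ hb₀
    apply hab'
    rw [D.comm_eq ha₀ hb₀ l m, h1 _ hl _ hm, sub_self]
  have hLle : ¬ D.L ≤ D.L ^ 2 := by
    intro h
    refine hnotgen 0 (Submodule.zero_mem _) fun j hj => ⟨0, ?_⟩
    rw [zero_smul, sub_zero, ← pow_two]
    exact h hj
  -- the top power
  have hex : ∃ k, D.L ^ (k + 1) = ⊥ := ⟨D.N, D.pow_bot (by omega)⟩
  have hk0 : Nat.find hex ≠ 0 := by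
    intro h0
    have h1 := Nat.find_spec hex
    rw [h0, zero_add, pow_one] at h1
    apply hLle
    rw [h1]
    exact bot_le
  obtain ⟨r, hr⟩ : ∃ r, Nat.find hex = r + 1 := ⟨Nat.find hex - 1, by omega⟩
  have htop : D.L ^ (r + 2) = ⊥ := by
    have h1 := Nat.find_spec hex
    rwa [hr] at h1
  have hr1 : D.L ^ (r + 1) ≠ ⊥ := Nat.find_min hex (by omega)
  obtain ⟨s, hs, hs0⟩ := Submodule.exists_mem_ne_zero_of_ne_bot hr1
  have hsC : s ∈ D.C := D.mem_C_of_pow (by omega) hs
  have hLs : ∀ j ∈ D.L, j * s = 0 := by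
    intro j hj
    have h1 : j * s ∈ D.L ^ (r + 2) := D.mul_mem_pow (i := 1) (by ring) (by rwa [pow_one]) hs
    rw [htop] at h1
    exact (Submodule.mem_bot F).mp h1
  have hlams : D.lam s ≠ 0 := fun h => hs0 (D.left_ann hsC hLs h)
  have hcommsq := D.comm_mem_sq ha₀ hb₀
  have hL2ne : D.L ^ 2 ≠ ⊥ := by
    intro h
    rw [h] at hcommsq
    exact hab' ((Submodule.mem_bot F).mp hcommsq)
  have hr_1 : 1 ≤ r := by
    by_contra h
    have h0 : r = 0 := by omega
    subst h0
    exact hL2ne htop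
  have hsL2 : s ∈ D.L ^ 2 := D.mem_pow_of_le (by norm_num) (by omega) hs
  -- the commutator space
  set K₀ : Submodule F A := Submodule.span F {z | ∃ a ∈ D.C, ∃ b ∈ D.C, z = a * b - b * a} with hK₀
  have hK₀L2 : K₀ ≤ D.L ^ 2 := by
    rw [hK₀, Submodule.span_le]
    rintro z ⟨a, ha, b, hb, rfl⟩
    exact D.comm_mem_sq ha hb
  have hK₀lam : ∀ k ∈ K₀, D.lam k = 0 := by
    intro k hk
    induction hk using Submodule.span_induction with
    | mem z hz =>
      obtain ⟨a, ha, b, hb, rfl⟩ := hz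
      rw [map_sub, D.hsym a ha b hb, sub_self]
    | zero => exact map_zero _
    | add x y _ _ hx hy => rw [map_add, hx, hy, add_zero]
    | smul t x _ hx => rw [map_smul, hx, smul_zero]
  have hK₀mem : ∀ a ∈ D.C, ∀ b ∈ D.C, a * b - b * a ∈ K₀ := fun a ha b hb =>
    Submodule.subset_span ⟨a, ha, b, hb, rfl⟩
  have hc4 := hcount K₀ (hK₀L2.trans hL2C) hK₀mem
  have hsK : s ∉ K₀ := fun h => hlams (hK₀lam s h)
  -- the generators
  obtain ⟨a, haL, haL2⟩ := SetLike.not_le_iff_exists.mp hLle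
  have hLle2 : ¬ D.L ≤ D.L ^ 2 ⊔ Submodule.span F {a} := by
    intro h
    refine hnotgen a haL fun j hj => ?_
    obtain ⟨k, hk, z, hz, rfl⟩ := Submodule.mem_sup.mp (h hj)
    obtain ⟨μ, rfl⟩ := Submodule.mem_span_singleton.mp hz
    exact ⟨μ, by rw [← pow_two]; simpa using hk⟩
  obtain ⟨b, hbL, hbL2⟩ := SetLike.not_le_iff_exists.mp hLle2
  -- counting
  have hf1 := Submodule.finrank_sup_span_singleton hsK
  have hf2 := Submodule.finrank_sup_span_singleton haL2
  have hf3 := Submodule.finrank_sup_span_singleton hbL2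
  have hf4 := Submodule.finrank_sup_span_singleton D.hεL
  have hle1 : K₀ ⊔ Submodule.span F {s} ≤ D.L ^ 2 :=
    sup_le hK₀L2 ((Submodule.span_singleton_le_iff_mem _ _).mpr hsL2)
  have hle2 : D.L ^ 2 ⊔ Submodule.span F {a} ⊔ Submodule.span F {b} ≤ D.L :=
    sup_le (sup_le hL2L ((Submodule.span_singleton_le_iff_mem _ _).mpr haL))
      ((Submodule.span_singleton_le_iff_mem _ _).mpr hbL)
  have hle3 : D.L ⊔ Submodule.span F {D.ε} ≤ D.C :=
    sup_le D.hLC ((Submodule.span_singleton_le_iff_mem _ _).mpr D.hεC)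
  have hg1 := Submodule.finrank_mono hle1
  have hg2 := Submodule.finrank_mono hle2
  have hg3 := Submodule.finrank_mono hle3
  have heq1 : K₀ ⊔ Submodule.span F {s} = D.L ^ 2 := Submodule.eq_of_le_of_finrank_le hle1 (by omega)
  have heq2 : D.L ^ 2 ⊔ Submodule.span F {a} ⊔ Submodule.span F {b} = D.L :=
    Submodule.eq_of_le_of_finrank_le hle2 (by omega)
  have hdim : finrank F D.C = finrank F (D.L ^ 2 : Submodule F A) + 3 := by omega
  have hgen : ∀ j ∈ D.L, ∃ α β : F, j - α • a - β • b ∈ D.L ^ 2 := by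
    intro j hj
    rw [← heq2, Submodule.mem_sup] at hj
    obtain ⟨u, hu, z, hz, rfl⟩ := hj
    obtain ⟨β, rfl⟩ := Submodule.mem_span_singleton.mp hz
    obtain ⟨k, hk, z', hz', rfl⟩ := Submodule.mem_sup.mp hu
    obtain ⟨α, rfl⟩ := Submodule.mem_span_singleton.mp hz'
    refine ⟨α, β, ?_⟩
    have h1 : k + α • a + β • b - α • a - β • b = k := by abel
    rw [h1]
    exact hk
  have hsq : ∀ x ∈ D.L ^ 2, ∃ μ : F, x - μ • s ∈ K₀ := by
    intro x hx
    rw [← heq1, Submodule.mem_sup] at hx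
    obtain ⟨k, hk, z, hz, rfl⟩ := hx
    obtain ⟨μ, rfl⟩ := Submodule.mem_span_singleton.mp hz
    exact ⟨μ, by simpa using hk⟩
  -- `r ≥ 2`
  have hL3 : D.L ^ 3 ≠ ⊥ := by
    intro h
    apply hab'
    have hk : a₀ * b₀ - b₀ * a₀ ∈ K₀ := hK₀mem _ ha₀ _ hb₀
    refine D.left_ann (hL2C (hK₀L2 hk)) (fun j hj => ?_) (hK₀lam _ hk)
    have h1 : j * (a₀ * b₀ - b₀ * a₀) ∈ D.L ^ 3 := D.mul_mem_pow (i := 1) (by ring) (by rwa [pow_one]) (hK₀L2 hk)
    rw [h] at h1
    exact (Submodule.mem_bot F).mp h1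
  have hr2 : 2 ≤ r := by
    by_contra h
    apply hL3
    have h1 : D.L ^ (r + 2) = D.L ^ 3 := by
      have : r = 1 := by omega
      rw [this]
    rw [← h1, htop]
  have hsL3 : s ∈ D.L ^ 3 := D.mem_pow_of_le (by norm_num) (by omega) hs
  have haL1 : a ∈ D.L ^ 1 := by rwa [pow_one]
  have hbL1 : b ∈ D.L ^ 1 := by rwa [pow_one]
  -- commutators modulo the cube
  set c := a * b - b * a with hc
  have hK3 : ∀ k ∈ K₀, ∃ μ : F, k - μ • c ∈ D.L ^ 3 := by
    intro k hk
    induction hk using Submodule.span_induction with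
    | mem z hz =>
      obtain ⟨u, hu, v, hv, rfl⟩ := hz
      obtain ⟨l, hl⟩ := D.hdec u hu
      obtain ⟨m, hm⟩ := D.hdec v hv
      obtain ⟨α, β, hαβ⟩ := hgen _ hl
      obtain ⟨α', β', hαβ'⟩ := hgen _ hm
      rw [D.comm_eq hu hv l m]
      set u₁ := u - l • D.ε
      set v₁ := v - m • D.ε
      refine ⟨α * β' - β * α', ?_⟩
      set u₂ := u₁ - α • a - β • b with hu₂
      set v₂ := v₁ - α' • a - β' • b with hv₂
      have hu₁ : u₁ = α • a + β • b + u₂ := by rw [hu₂]; abel
      have hv₁ : v₁ = α' • a + β' • b + v₂ := by rw [hv₂]; abel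
      have hX : α • a + β • b ∈ D.L ^ 1 := by
        rw [pow_one]
        exact Submodule.add_mem _ (Submodule.smul_mem _ _ haL) (Submodule.smul_mem _ _ hbL)
      have hY : α' • a + β' • b ∈ D.L ^ 1 := by
        rw [pow_one]
        exact Submodule.add_mem _ (Submodule.smul_mem _ _ haL) (Submodule.smul_mem _ _ hbL)
      have h1 : u₁ * v₁ - v₁ * u₁ - (α * β' - β * α') • c =
          (α • a + β • b) * v₂ + u₂ * (α' • a + β' • b) + u₂ * v₂ -
            (α' • a + β' • b) * u₂ - v₂ * (α • a + β • b) - v₂ * u₂ := by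
        rw [hu₁, hv₁, hc]
        generalize u₂ = U
        generalize v₂ = V
        simp only [add_mul, mul_add, smul_mul_assoc, mul_smul_comm, smul_add, smul_sub, smul_smul, sub_smul]
        rw [mul_comm β' α, mul_comm α' β, mul_comm α' α, mul_comm β' β]
        abel
      rw [h1]
      have hm3 : ∀ {x y : A}, (x ∈ D.L ^ 1 → y ∈ D.L ^ 2 → x * y ∈ D.L ^ 3) := fun hx hy => D.mul_mem_pow rfl hx hy
      have hm3' : ∀ {x y : A}, (x ∈ D.L ^ 2 → y ∈ D.L ^ 1 → x * y ∈ D.L ^ 3) := fun hx hy => D.mul_mem_pow rfl hx hy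
      have hm4 : ∀ {x y : A}, (x ∈ D.L ^ 2 → y ∈ D.L ^ 2 → x * y ∈ D.L ^ 3) := fun hx hy =>
        D.mem_pow_of_le (j := 4) (by norm_num) (by norm_num) (D.mul_mem_pow rfl hx hy)
      exact Submodule.sub_mem _ (Submodule.sub_mem _ (Submodule.sub_mem _ (Submodule.add_mem _ (Submodule.add_mem _
        (hm3 hX hαβ') (hm3' hαβ hY)) (hm4 hαβ hαβ')) (hm3 hY hαβ)) (hm3' hαβ' hX)) (hm4 hαβ' hαβ)
    | zero => exact ⟨0, by simp⟩
    | add x y _ _ hx hy =>
      obtain ⟨μ, hμ⟩ := hx
      obtain ⟨ν, hν⟩ := hy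
      refine ⟨μ + ν, ?_⟩
      have h2 : x + y - (μ + ν) • c = (x - μ • c) + (y - ν • c) := by
        rw [add_smul]
        abel
      rw [h2]
      exact Submodule.add_mem _ hμ hν
    | smul t x _ hx =>
      obtain ⟨μ, hμ⟩ := hx
      refine ⟨t * μ, ?_⟩
      have h2 : t • x - (t * μ) • c = t • (x - μ • c) := by
        rw [smul_sub t x (μ • c), smul_smul]
      rw [h2]
      exact Submodule.smul_mem _ _ hμ
  have h1 : ∀ x ∈ D.L ^ 2, ∃ μ : F, x - μ • c ∈ D.L ^ 3 := by
    intro x hx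
    obtain ⟨μ₀, hμ₀⟩ := hsq x hx
    obtain ⟨μ₁, hμ₁⟩ := hK3 _ hμ₀
    refine ⟨μ₁, ?_⟩
    have h2 : x - μ₁ • c = (x - μ₀ • s - μ₁ • c) + μ₀ • s := by abel
    rw [h2]
    exact Submodule.add_mem _ hμ₁ (Submodule.smul_mem _ _ hsL3)
  have hc3 : c ∉ D.L ^ 3 := by
    intro hc3
    have h2 : D.L ^ (1 + 1) ≤ D.L ^ (1 + 2) := by
      intro x hx
      obtain ⟨μ, hμ⟩ := h1 x hx
      have h3 : x = (x - μ • c) + μ • c := by abel
      rw [h3]
      exact Submodule.add_mem _ hμ (Submodule.smul_mem _ _ hc3)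
    exact hL2ne (D.pow_stable 1 h2)
  -- the isotropic vector
  obtain ⟨p, hp⟩ := h1 (a * a) (D.mul_mem_pow rfl haL1 haL1)
  obtain ⟨q, hq⟩ := h1 (a * b) (D.mul_mem_pow rfl haL1 hbL1)
  obtain ⟨q', hq'⟩ := h1 (b * a) (D.mul_mem_pow rfl hbL1 haL1)
  obtain ⟨t, ht⟩ := h1 (b * b) (D.mul_mem_pow rfl hbL1 hbL1)
  have hlayer : ∀ k, ∃ w ∈ D.L ^ (k + 2), ∀ x ∈ D.L ^ (k + 2), ∃ μ : F, x - μ • w ∈ D.L ^ (k + 3) := by
    by_cases ht0 : t = 0
    · -- `b` is isotropic
      subst ht0
      rw [zero_smul, sub_zero] at ht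
      refine D.layers_of_isotropic hbL haL (fun j hj => ?_) ht (fun x hx => ?_)
      · obtain ⟨α, β, h⟩ := hgen j hj
        refine ⟨β, α, ?_⟩
        have h2 : j - β • b - α • a = j - α • a - β • b := by abel
        rwa [h2]
      · obtain ⟨μ, hμ⟩ := h1 x hx
        refine ⟨-μ, ?_⟩
        have h2 : x - (-μ) • (b * a - a * b) = x - μ • c := by
          rw [hc, neg_smul, smul_sub, smul_sub]
          abel
        rwa [h2]
    · -- a twist
      obtain ⟨β, hβ⟩ := exists_isotropic p (q + q') t ht0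
      have ha' : a + β • b ∈ D.L := Submodule.add_mem _ haL (Submodule.smul_mem _ _ hbL)
      have hcomm : (a + β • b) * b - b * (a + β • b) = c := by
        simp only [add_mul, mul_add, smul_mul_assoc, mul_smul_comm]
        rw [hc]
        abel
      refine D.layers_of_isotropic ha' hbL (fun j hj => ?_) ?_ (fun x hx => ?_)
      · obtain ⟨α, γ, h⟩ := hgen j hj
        refine ⟨α, γ - α * β, ?_⟩
        have h2 : j - α • (a + β • b) - (γ - α * β) • b = j - α • a - γ • b := by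
          rw [smul_add, smul_smul, sub_smul]
          abel
        rwa [h2]
      · have h2 : ∀ C : A, (a + β • b) * (a + β • b) = (a * a - p • C) + β • (a * b - q • C) + β • (b * a - q' • C) + (β ^ 2) • (b * b - t • C) +
            (p + β * (q + q') + β ^ 2 * t) • C := by
          intro C
          simp only [add_mul, mul_add, smul_mul_assoc, mul_smul_comm]
          module
        rw [h2 c]
        rw [hβ, zero_smul, add_zero]
        exact Submodule.add_mem _ (Submodule.add_mem _ (Submodule.add_mem _ hp (Submodule.smul_mem _ _ hq))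
          (Submodule.smul_mem _ _ hq')) (Submodule.smul_mem _ _ ht)
      · rw [hcomm]
        exact h1 x hx
  exact D.false_of_layers haL hbL hgen hc3 hdim hr2 hr1 htop hlayer

end SymLocal

end Cfsg.Agent.Lib.LocalAlg
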