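import Cfsg.Agent.Lib.LocalAlg.Kulsh

/-!
# Dimensions for a symmetric algebra with one simple module and few trace functionals
-/

set_option autoImplicit false
set_option linter.unusedSectionVars false
set_option linter.unusedVariables false

namespace Cfsg.Agent.Lib.LocalAlg

open Finset Module

universe u v

variable {F : Type u} {A : Type v} [Field F] [Ring A] [Algebra F A]

section

variable [FiniteDimensional F A] {n : ℕ} [NeZero n] (π : A →ₐ[F] Matrix (Fin n) (Fin n) F) {ε : A} {x y : Fin n → A}
  (hπ : Function.Surjective π) {N : ℕ} (hN : (LinearMap.ker π.toLinearMap) ^ N = ⊥)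
  (hε : IsIdempotentElem ε) (hπε : π ε = Matrix.single 0 0 (1 : F)) (hx : ∀ i, π (x i) = Matrix.single i 0 (1 : F)) (hy : ∀ i, π (y i) = Matrix.single 0 i (1 : F))
  (h1 : ∑ i, x i * ε * y i = 1)

/-- The corner is a symmetric local algebra. -/
noncomputable def cornerSymLocal (lam : Module.Dual F A) (hlam : lam ∈ traceFun F A)
    (hnd : ∀ a, (∀ b, lam (a * b) = 0) → a = 0) (hN : (LinearMap.ker π.toLinearMap) ^ N = ⊥)
    (hπε : π ε = Matrix.single 0 0 (1 : F)) : SymLocal F A where
  C := corner (F := F) ε hε
  ε := ε
  L := corner (F := F) ε hε ⊓ LinearMap.ker π.toLinearMap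
  lam := lam
  N := N + 1
  hεC := ⟨hε.eq, hε.eq⟩
  hmulC := fun a ha b hb => mul_mem_corner ha hb
  hl := fun a ha => ha.1
  hr := fun a ha => ha.2
  hLC := inf_le_left
  hLL := by
    rw [Submodule.mul_le]
    intro a ha b hb
    rw [Submodule.mem_inf, mem_ker_iff] at ha hb ⊢
    exact ⟨mul_mem_corner ha.1 hb.1, by rw [map_mul, ha.2, zero_mul]⟩
  hdec := by
    intro a ha
    obtain ⟨l, hl⟩ := exists_scalar_of_corner π hε hπε ha
    refine ⟨l, ?_⟩
    rw [Submodule.mem_inf, mem_ker_iff]
    exact ⟨Submodule.sub_mem _ ha (Submodule.smul_mem _ _ ⟨hε.eq, hε.eq⟩), hl⟩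
  hεL := by
    intro h
    rw [Submodule.mem_inf, mem_ker_iff] at h
    have h2 := h.2
    rw [hπε] at h2
    have h3 := congrFun (congrFun h2 0) 0
    simp at h3
  hN := by
    have h5 : ∀ k, (corner (F := F) ε hε ⊓ LinearMap.ker π.toLinearMap) ^ k ≤ (LinearMap.ker π.toLinearMap) ^ k := fun k => by
      induction k with
      | zero => exact le_rfl
      | succ k ih =>
        rw [pow_succ, pow_succ]
        exact mul_le_mul' ih inf_le_right
    have h6 := h5 N
    rw [hN] at h6
    rw [pow_succ, le_bot_iff.mp h6, Submodule.bot_mul]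
  hsym := fun a _ b _ => hlam a b
  hnd := by
    intro a ha hb
    refine hnd a fun b => ?_
    have h2 : a * b = ε * (a * b) := by rw [← mul_assoc, ha.1]
    have h3 : lam (a * b) = lam (a * (ε * b * ε)) := by
      conv_lhs => rw [h2, hlam ε (a * b)]
      congr 1
      calc a * b * ε = (a * ε) * b * ε := by rw [ha.2]
        _ = _ := by simp only [mul_assoc]
    rw [h3]
    exact hb _ (sandwich_mem_corner hε b)

include hπ hN hε hπε hx hy h1 in
/-- Külshammer's commutativity theorem: the corner is commutative if there are at most four trace functionals. -/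
theorem corner_comm_of_sym [IsAlgClosed F] (lam : Module.Dual F A) (hlam : lam ∈ traceFun F A)
    (hnd : ∀ a, (∀ b, lam (a * b) = 0) → a = 0) (hd : finrank F (traceFun F A) ≤ 4) :
    ∀ a ∈ corner (F := F) ε hε, ∀ b ∈ corner (F := F) ε hε, a * b = b * a := by
  have := (cornerSymLocal π hε lam hlam hnd hN hπε).comm_of_count (fun K hK hcomm => by
    have h2 := finrank_corner_le (F := F) hε h1 K hK hcomm
    show finrank F (corner (F := F) ε hε) ≤ _
    omega)
  exact this

include hπ hN hε hπε hx hy h1 in
theorem finrank_corner_eq_of_comm (hc : ∀ a ∈ corner (F := F) ε hε, ∀ b ∈ corner (F := F) ε hε, a * b = b * a) :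
    finrank F (corner (F := F) ε hε) = finrank F (traceFun F A) := by
  classical
  apply le_antisymm
  · have h2 := finrank_corner_le (F := F) hε h1 ⊥ bot_le (fun a ha b hb => by
      rw [hc a ha b hb, sub_self]
      exact Submodule.zero_mem _)
    simpa using h2
  · -- restriction to the corner is injective
    let Φ : traceFun F A →ₗ[F] Module.Dual F (corner (F := F) ε hε) :=
      { toFun := fun f => (f : Module.Dual F A).comp (corner (F := F) ε hε).subtype
        map_add' := fun f g => rfl
        map_smul' := fun c f => rfl }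
    have hinj : Function.Injective Φ := by
      intro f g hfg
      apply Subtype.ext
      apply LinearMap.ext
      intro a
      have h2 : ∀ (f : traceFun F A) (a : A), (f : Module.Dual F A) a = (f : Module.Dual F A) (transferMap (F := F) ε x y a) := by
        intro f a
        rw [transferMap_apply, map_sum]
        conv_lhs => rw [← one_mul a, ← h1, Finset.sum_mul, map_sum]
        refine Finset.sum_congr rfl fun i _ => ?_
        have h3 := f.2 (x i * ε) (ε * y i * a)
        have h4 : x i * ε * y i * a = x i * ε * (ε * y i * a) := by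
          calc x i * ε * y i * a = x i * (ε * ε) * y i * a := by rw [hε.eq]
            _ = _ := by simp only [mul_assoc]
        rw [h4, h3]
      rw [h2 f a, h2 g a]
      have h3 := congrArg (fun t : Module.Dual F (corner (F := F) ε hε) => t ⟨_, transferMap_mem (F := F) (x := x) (y := y) hε a⟩) hfg
      exact h3
    have h5 := LinearMap.finrank_le_finrank_of_injective hinj
    rwa [Subspace.dual_finrank_eq] at h5

include hπ hN hπε hx hy h1 in
theorem finrank_eq_of_corner :
    finrank F A = n ^ 2 * finrank F (corner (F := F) ε hε) := by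
  classical
  let e := LinearEquiv.ofBijective (cornerMatrix (F := F) ε hε x y)
    ⟨cornerMatrix_injective π hπ hN hε hπε hx hy h1, cornerMatrix_surjective hε h1⟩
  rw [← e.finrank_eq, Module.finrank_pi_fintype]
  simp only [Module.finrank_pi_fintype, Finset.sum_const, Finset.card_univ, Fintype.card_fin, smul_eq_mul]
  rw [pow_two, mul_assoc]

/-- The map from row vectors over the corner. -/
noncomputable def cornerRow (ε : A) (hε : IsIdempotentElem ε) (y : Fin n → A) :
    (Fin n → corner (F := F) ε hε) →ₗ[F] A where
  toFun := fun c => ∑ j, (c j : A) * y j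
  map_add' := fun c d => by
    simp only [Pi.add_apply, Submodule.coe_add, add_mul, Finset.sum_add_distrib]
  map_smul' := fun t c => by
    simp only [Pi.smul_apply, Submodule.coe_smul, smul_mul_assoc, RingHom.id_apply, Finset.smul_sum]

include hπ hN hπε hx hy h1 in
theorem cornerRow_injective : Function.Injective (cornerRow (F := F) ε hε y) := by
  classical
  rw [injective_iff_map_eq_zero]
  intro c hc
  have hc' : ∑ j, (c j : A) * y j = 0 := hc
  let c' : Fin n → Fin n → corner (F := F) ε hε := fun i j => if i = 0 then c j else 0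
  have h2 : cornerMatrix (F := F) ε hε x y c' = 0 := by
    show ∑ i, ∑ j, x i * (c' i j : A) * y j = 0
    rw [Finset.sum_eq_single 0]
    · simp only [c', if_true]
      have h3 : ∀ j, x 0 * (c j : A) * y j = x 0 * ((c j : A) * y j) := fun j => mul_assoc _ _ _
      simp only [h3]
      rw [← Finset.mul_sum, hc', mul_zero]
    · intro i _ hi
      simp [c', hi]
    · simp
  have h3 : c' = 0 := cornerMatrix_injective π hπ hN hε hπε hx hy h1 (by rw [h2, map_zero])
  funext j
  have h4 := congrFun (congrFun h3 0) j
  simpa [c'] using h4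

include h1 in
theorem range_cornerRow : LinearMap.range (cornerRow (F := F) ε hε y) = LinearMap.range (LinearMap.mulLeft F ε) := by
  ext a
  constructor
  · rintro ⟨c, rfl⟩
    refine ⟨∑ j, (c j : A) * y j, ?_⟩
    show ε * ∑ j, (c j : A) * y j = ∑ j, (c j : A) * y j
    rw [Finset.mul_sum]
    refine Finset.sum_congr rfl fun j _ => ?_
    rw [← mul_assoc, (c j).2.1]
  · rintro ⟨b, rfl⟩
    refine ⟨fun j => ⟨ε * (b * x j) * ε, sandwich_mem_corner hε _⟩, ?_⟩
    show ∑ j, (ε * (b * x j) * ε) * y j = ε * b
    have h2 : ∀ j, (ε * (b * x j) * ε) * y j = ε * b * (x j * ε * y j) := fun j => by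
      simp only [mul_assoc]
    simp only [h2]
    rw [← Finset.mul_sum, h1, mul_one]

include hπ hN hπε hx hy h1 in
theorem finrank_range_mulLeft_eq :
    finrank F (LinearMap.range (LinearMap.mulLeft F ε)) = n * finrank F (corner (F := F) ε hε) := by
  classical
  rw [← range_cornerRow hε h1, LinearMap.finrank_range_of_inj (cornerRow_injective π hπ hN hε hπε hx hy h1),
    Module.finrank_pi_fintype]
  simp

end

/-- **The main dimension count** for a symmetric algebra with one simple module and at most four
trace functionals: its dimension and that of a principal indecomposable module. -/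
theorem exists_idem_dims [IsAlgClosed F] [FiniteDimensional F A] {n : ℕ} [NeZero n] (π : A →ₐ[F] Matrix (Fin n) (Fin n) F)
    (hπ : Function.Surjective π) {N : ℕ} (hN : (LinearMap.ker π.toLinearMap) ^ N = ⊥)
    (lam : Module.Dual F A) (hlam : lam ∈ traceFun F A)
    (hnd : ∀ a, (∀ b, lam (a * b) = 0) → a = 0) (hd : finrank F (traceFun F A) ≤ 4) :
    finrank F A = n ^ 2 * finrank F (traceFun F A) ∧
      ∃ ε : A, IsIdempotentElem ε ∧ finrank F (LinearMap.range (LinearMap.mulLeft F ε)) = n * finrank F (traceFun F A) := by
  obtain ⟨ε, x, y, hε, hπε, hx, hy, h1⟩ := exists_corner_data π hπ hN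
  have hc := corner_comm_of_sym π hπ hN hε hπε hx hy h1 lam hlam hnd hd
  have hz := finrank_corner_eq_of_comm π hπ hN hε hπε hx hy h1 hc
  refine ⟨?_, ε, hε, ?_⟩
  · rw [finrank_eq_of_corner π hπ hN hε hπε hx hy h1, hz]
  · rw [finrank_range_mulLeft_eq π hπ hN hε hπε hx hy h1, hz]

end Cfsg.Agent.Lib.LocalAlg
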