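import Cfsg.Agent.Lib.LocalAlg.GAlg

/-!
# Projective modules over group algebras have dimension divisible by the order of a `p`-subgroup

An idempotent `w` of the group algebra `F G` in characteristic `p` and a `p`-subgroup `P` of `G`:
the dimension of the left ideal `w F G` is divisible by `|P|`. (Dickson's theorem in an elementary form.)
-/

set_option autoImplicit false
set_option linter.unusedSectionVars false
set_option linter.unusedVariables false

namespace Cfsg.Agent.Lib.LocalAlg

open Finset Module MonoidAlgebra

universe u v w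

section Fixed

variable {P : Type u} [Group P] [Finite P] {p : ℕ} [hp : Fact p.Prime]
  {F : Type v} [Field F] [CharP F p] {V : Type w} [AddCommGroup V] [Module F V]

/-- A `p`-group acting linearly on a nonzero subspace in characteristic `p` has a nonzero fixed vector. -/
theorem exists_fixed_vector (hP : IsPGroup p P) (ρ : P →* (V →ₗ[F] V)) (X : Submodule F V)
    (hX : ∀ g, ∀ x ∈ X, ρ g x ∈ X) (hne : X ≠ ⊥) : ∃ x ∈ X, x ≠ 0 ∧ ∀ g, ρ g x = x := by
  classical
  have hpp : p.Prime := hp.out
  obtain ⟨x₀, hx₀X, hx₀⟩ := Submodule.exists_mem_ne_zero_of_ne_bot hne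
  have hpV : ∀ v : V, p • v = 0 := by
    intro v
    rw [← Nat.cast_smul_eq_nsmul F, CharP.cast_eq_zero, zero_smul]
  let S : Set V := Set.range fun g => ρ g x₀
  let W : AddSubgroup V := AddSubgroup.closure S
  have hSX : ∀ v ∈ W, v ∈ X := by
    intro v hv
    induction hv using AddSubgroup.closure_induction with
    | mem x hx =>
      obtain ⟨g, rfl⟩ := hx
      exact hX g _ hx₀X
    | zero => exact X.zero_mem
    | add x y _ _ hx hy => exact X.add_mem hx hy
    | neg x _ hx => exact X.neg_mem hx
  have hWst : ∀ g : P, ∀ v ∈ W, ρ g v ∈ W := by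
    intro g v hv
    induction hv using AddSubgroup.closure_induction with
    | mem x hx =>
      obtain ⟨h, rfl⟩ := hx
      refine AddSubgroup.subset_closure ⟨g * h, ?_⟩
      simp [map_mul]
    | zero => simp [W.zero_mem]
    | add x y _ _ hx hy =>
      rw [map_add]
      exact W.add_mem hx hy
    | neg x _ hx =>
      rw [map_neg]
      exact W.neg_mem hx
  have hx₀W : x₀ ∈ W := by
    refine AddSubgroup.subset_closure ⟨1, ?_⟩
    simp
  -- finiteness
  haveI hSfin : Finite S := Set.finite_range _ |>.to_subtype
  haveI hfg : AddGroup.FG W := (AddGroup.fg_iff_addSubgroup_fg W).mpr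
    ⟨(Set.finite_range (fun g => ρ g x₀)).toFinset, by simp [W, S]⟩
  haveI hWfin : Finite W := AddCommGroup.finite_of_fg_isAddTorsion W (by
    rintro ⟨v, hv⟩
    rw [isOfFinAddOrder_iff_nsmul_eq_zero]
    refine ⟨p, hpp.pos, Subtype.ext ?_⟩
    exact hpV v)
  -- the action
  letI act : MulAction P W :=
    { smul := fun g v => ⟨ρ g v, hWst g v v.2⟩
      one_smul := fun v => Subtype.ext (by
        show ρ 1 v = v
        simp)
      mul_smul := fun a b v => Subtype.ext (by
        show ρ (a * b) v = ρ a (ρ b v)
        simp [map_mul]) }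
  have hsmul : ∀ (g : P) (v : W), ((g • v : W) : V) = ρ g v := fun g v => rfl
  have hfix0 : (0 : W) ∈ MulAction.fixedPoints P W := by
    intro g
    apply Subtype.ext
    rw [hsmul]
    simp
  have hdvd : p ∣ Nat.card W := by
    have h1 : addOrderOf (⟨x₀, hx₀W⟩ : W) = p := by
      apply addOrderOf_eq_prime
      · exact Subtype.ext (hpV x₀)
      · intro h
        exact hx₀ (congrArg Subtype.val h)
    rw [← h1]
    exact addOrderOf_dvd_natCard _
  obtain ⟨b, hb, hne0⟩ := hP.exists_fixed_point_of_prime_dvd_card_of_fixed_point W hdvd hfix0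
  refine ⟨b, hSX _ b.2, ?_, ?_⟩
  · intro h
    exact hne0 (Subtype.ext h.symm)
  · intro g
    have h2 := hb g
    have h3 := congrArg Subtype.val h2
    rwa [hsmul] at h3

end Fixed

section PIM

variable {G : Type u} [Group G] [Fintype G] {F : Type v} [Field F] {p : ℕ} [hp : Fact p.Prime] [CharP F p]
  (P₀ : Subgroup G) [Fintype P₀]

/-- The sum of the elements of a subgroup. -/
noncomputable def normElt : MonoidAlgebra F G := ∑ u : P₀, single (u : G) 1

/-- A right `P₀`-stable subspace is at least `|P₀|` times as large as its image under the norm element. -/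
theorem finrank_map_mul_le [DecidableEq G] (hP : IsPGroup p P₀) (W : Submodule F (MonoidAlgebra F G))
    (hW : ∀ y ∈ W, ∀ u ∈ P₀, y * single u 1 ∈ W) :
    finrank F (W.map (LinearMap.mulRight F (normElt (F := F) P₀))) * Nat.card P₀ ≤ finrank F W := by
  classical
  set T := LinearMap.mulRight F (normElt (F := F) P₀) with hT
  set s := finrank F (W.map T) with hs
  let b := finBasis F (W.map T)
  have hex : ∀ i, ∃ y ∈ W, T y = (b i : MonoidAlgebra F G) := fun i => (b i).2
  choose y hyW hy using hex
  let Ψ : (Fin s × P₀ → F) →ₗ[F] MonoidAlgebra F G :=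
    { toFun := fun β => ∑ q, β q • (y q.1 * single (q.2 : G) 1)
      map_add' := fun β γ => by
        simp [add_smul, Finset.sum_add_distrib]
      map_smul' := fun c β => by
        simp [smul_smul, Finset.smul_sum] }
  have hΨ : ∀ β, Ψ β = ∑ q, β q • (y q.1 * single (q.2 : G) 1) := fun β => rfl
  -- the action on functions
  let ρ : P₀ →* ((Fin s × P₀ → F) →ₗ[F] (Fin s × P₀ → F)) :=
    { toFun := fun u =>
        { toFun := fun β q => β (q.1, q.2 * u)
          map_add' := fun β γ => rfl
          map_smul' := fun c β => rfl }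
      map_one' := by
        ext β q
        simp
      map_mul' := fun u v => by
        apply LinearMap.ext
        intro β
        funext q
        show β (q.1, q.2 * (u * v)) = β (q.1, q.2 * u * v)
        rw [mul_assoc] }
  have hρ : ∀ u β q, ρ u β q = β (q.1, q.2 * u) := fun u β q => rfl
  have hΨρ : ∀ u β, Ψ (ρ u β) = Ψ β * single ((u⁻¹ : P₀) : G) 1 := by
    intro u β
    rw [hΨ, hΨ, Finset.sum_mul]
    let E : Fin s × P₀ ≃ Fin s × P₀ := Equiv.prodCongr (Equiv.refl _) (Equiv.mulRight u)
    refine Fintype.sum_equiv E _ _ fun q => ?_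
    simp only [hρ, E, Equiv.prodCongr_apply, Equiv.coe_refl, Equiv.coe_mulRight]
    rw [smul_mul_assoc, mul_assoc, single_mul_single, one_mul]
    congr 3
    simp
  have hinj : Function.Injective Ψ := by
    rw [← LinearMap.ker_eq_bot]
    by_contra hker
    obtain ⟨β, hβ, hβ0, hfix⟩ := exists_fixed_vector hP ρ (LinearMap.ker Ψ) (fun u β hβ => by
      rw [LinearMap.mem_ker] at hβ ⊢
      rw [hΨρ, hβ, zero_mul]) hker
    have hconst : ∀ i u, β (i, u) = β (i, 1) := by
      intro i u
      have h1 := congrFun (hfix u) (i, 1)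
      rw [hρ] at h1
      simpa using h1
    have h2 : Ψ β = ∑ i, β (i, 1) • (b i : MonoidAlgebra F G) := by
      rw [hΨ, Fintype.sum_prod_type]
      refine Finset.sum_congr rfl fun i _ => ?_
      rw [← hy i, hT, LinearMap.mulRight_apply, normElt, Finset.mul_sum, Finset.smul_sum]
      refine Finset.sum_congr rfl fun u _ => ?_
      rw [hconst]
    have h3 : ∑ i, β (i, 1) • b i = 0 := by
      apply Subtype.ext
      rw [AddSubmonoidClass.coe_finsetSum]
      simp only [Submodule.coe_smul, ZeroMemClass.coe_zero]
      rw [← h2]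
      exact hβ
    have h4 := Fintype.linearIndependent_iff.mp b.linearIndependent _ h3
    apply hβ0
    funext q
    rw [show q = (q.1, q.2) from rfl, hconst, h4]
    rfl
  have hrange : ∀ β, Ψ β ∈ W := by
    intro β
    rw [hΨ]
    exact Submodule.sum_mem _ fun q _ => Submodule.smul_mem _ _ (hW _ (hyW _) _ q.2.2)
  let Ψ' : (Fin s × P₀ → F) →ₗ[F] W := Ψ.codRestrict W hrange
  have hinj' : Function.Injective Ψ' := fun a b hab => hinj (congrArg Subtype.val hab)
  have h5 := LinearMap.finrank_le_finrank_of_injective hinj'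
  rw [Module.finrank_fintype_fun_eq_card, Fintype.card_prod, Fintype.card_fin, ← Nat.card_eq_fintype_card (α := P₀)] at h5
  exact h5

/-- The image of the norm element has dimension at least the index of the subgroup. -/
theorem card_le_finrank_range_mul [DecidableEq G] :
    Nat.card G ≤ finrank F (LinearMap.range (LinearMap.mulRight F (normElt (F := F) P₀))) * Nat.card P₀ := by
  classical
  set T := LinearMap.mulRight F (normElt (F := F) P₀) with hT
  haveI : Fintype (G ⧸ P₀) := Fintype.ofFinite _
  let σ : G ⧸ P₀ → G := Quotient.out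
  have hσ : ∀ q, (QuotientGroup.mk (σ q) : G ⧸ P₀) = q := fun q => Quotient.out_eq' q
  let Θ : (G ⧸ P₀ → F) →ₗ[F] MonoidAlgebra F G :=
    { toFun := fun c => ∑ q, c q • T (single (σ q) 1)
      map_add' := fun c d => by
        simp [add_smul, Finset.sum_add_distrib]
      map_smul' := fun t c => by
        simp [smul_smul, Finset.smul_sum] }
  have hcoef : ∀ (q q' : G ⧸ P₀), (T (single (σ q') 1)).coeff (σ q) = if q' = q then 1 else 0 := by
    intro q q'
    rw [hT, LinearMap.mulRight_apply, normElt, Finset.mul_sum]
    simp only [single_mul_single, one_mul, coeff_sum, Finsupp.finsetSum_apply, coeff_single, Finsupp.single_apply]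
    by_cases hqq : q' = q
    · subst hqq
      rw [if_pos rfl, Finset.sum_eq_single 1]
      · simp
      · intro u _ hu
        rw [if_neg]
        intro h
        apply hu
        apply Subtype.ext
        simpa using h
      · simp
    · rw [if_neg hqq]
      refine Finset.sum_eq_zero fun u _ => ?_
      rw [if_neg]
      intro h
      apply hqq
      rw [← hσ q', ← hσ q, ← h]
      rw [QuotientGroup.eq]
      simp
  have hinj : Function.Injective Θ := by
    rw [injective_iff_map_eq_zero]
    intro c hc
    funext q
    have h1 := congrArg (fun a : MonoidAlgebra F G => a.coeff (σ q)) hc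
    have h2 : (Θ c).coeff (σ q) = c q := by
      show (∑ q', c q' • T (single (σ q') 1)).coeff (σ q) = c q
      rw [coeff_sum, Finsupp.finsetSum_apply]
      simp only [coeff_smul, Finsupp.smul_apply, hcoef, smul_eq_mul, mul_ite, mul_one, mul_zero]
      simp
    rw [← h2]
    exact h1
  have hrange : ∀ c, Θ c ∈ LinearMap.range T := by
    intro c
    refine Submodule.sum_mem _ fun q _ => Submodule.smul_mem _ _ ⟨_, rfl⟩
  let Θ' : (G ⧸ P₀ → F) →ₗ[F] LinearMap.range T := Θ.codRestrict _ hrange
  have hinj' : Function.Injective Θ' := fun a b hab => hinj (congrArg Subtype.val hab)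
  have h5 := LinearMap.finrank_le_finrank_of_injective hinj'
  rw [Module.finrank_fintype_fun_eq_card, ← Nat.card_eq_fintype_card] at h5
  rw [Subgroup.card_eq_card_quotient_mul_card_subgroup P₀]
  exact Nat.mul_le_mul_right _ h5

theorem finrank_groupAlgebra : finrank F (MonoidAlgebra F G) = Nat.card G := by
  classical
  rw [(coeffLinearEquiv (S := F) (M := G) F).finrank_eq, Module.finrank_finsupp_self, Nat.card_eq_fintype_card]

/-- **Dickson's theorem, elementary form.** -/
theorem card_dvd_finrank_of_idem (hP : IsPGroup p P₀) {w : MonoidAlgebra F G} (hw : IsIdempotentElem w) :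
    Nat.card P₀ ∣ finrank F (LinearMap.range (LinearMap.mulLeft F w)) := by
  classical
  set T := LinearMap.mulRight F (normElt (F := F) P₀) with hT
  set W := LinearMap.range (LinearMap.mulLeft F w) with hW
  set W' := LinearMap.range (LinearMap.mulLeft F (1 - w)) with hW'
  have hst : ∀ (a : MonoidAlgebra F G) , ∀ y ∈ LinearMap.range (LinearMap.mulLeft F a), ∀ u ∈ P₀,
      y * single u 1 ∈ LinearMap.range (LinearMap.mulLeft F a) := by
    rintro a _ ⟨c, rfl⟩ u _
    exact ⟨c * single u 1, by simp [mul_assoc]⟩
  have h1 : finrank F (W.map T) * Nat.card P₀ ≤ finrank F W := finrank_map_mul_le (F := F) P₀ hP W (hst w)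
  have h2 : finrank F (W'.map T) * Nat.card P₀ ≤ finrank F W' := finrank_map_mul_le (F := F) P₀ hP W' (hst (1 - w))
  have h3 : Nat.card G ≤ finrank F (LinearMap.range T) * Nat.card P₀ := card_le_finrank_range_mul (F := F) P₀
  have h4 : finrank F W + finrank F W' = Nat.card G := by
    have h5 := LinearMap.finrank_range_add_finrank_ker (LinearMap.mulLeft F w)
    rw [finrank_groupAlgebra] at h5
    have h6 : LinearMap.ker (LinearMap.mulLeft F w) = W' := by
      ext a
      rw [LinearMap.mem_ker, LinearMap.mulLeft_apply]
      constructor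
      · intro h
        exact ⟨a, by simp [sub_mul, h]⟩
      · rintro ⟨c, rfl⟩
        show w * ((1 - w) * c) = 0
        rw [← mul_assoc, mul_sub, mul_one, hw.eq, sub_self, zero_mul]
    rw [h6] at h5
    exact h5
  have h5 : LinearMap.range T ≤ W.map T ⊔ W'.map T := by
    rintro _ ⟨a, rfl⟩
    have h6 : a = w * a + (1 - w) * a := by
      rw [sub_mul, one_mul]
      abel
    rw [h6, map_add]
    exact Submodule.add_mem_sup ⟨_, ⟨a, rfl⟩, rfl⟩ ⟨_, ⟨a, rfl⟩, rfl⟩
  have h6 := (Submodule.finrank_mono h5).trans (Submodule.finrank_add_le_finrank_add_finrank _ _)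
  have h7 : finrank F (LinearMap.range T) * Nat.card P₀ ≤
      finrank F (W.map T) * Nat.card P₀ + finrank F (W'.map T) * Nat.card P₀ := by
    rw [← add_mul]
    exact Nat.mul_le_mul_right _ h6
  have h8 : finrank F W = finrank F (W.map T) * Nat.card P₀ := by omega
  rw [h8]
  exact Dvd.intro_left _ rfl

end PIM

end Cfsg.Agent.Lib.LocalAlg
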