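import Cfsg.Agent.Lib.LocalAlg.Kulsh2
import Cfsg.Agent.Lib.LocalAlg.PIM
import Cfsg.Agent.Lib.LocalAlg.Block

/-!
# Blocks of rank one with at most four characters: the defect group has order `k(B)`
-/

set_option autoImplicit false
set_option linter.unusedSectionVars false
set_option linter.unusedVariables false

namespace Cfsg.Agent.Lib.LocalAlg

open Cfsg Cfsg.Agent.Lib.Char Cfsg.Agent.Lib.Blocks Cfsg.Agent.Lib.H8Group Finset Module MonoidAlgebra
open scoped ComplexConjugate

universe u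

section Generic

variable {G : Type u} [Group G] [Fintype G] {F : Type} [Field F] {e : G → F} (hcl : ∀ g x, e (x * g * x⁻¹) = e g)
  (hid : ∀ t, ∑ w, e w * e (w⁻¹ * t) = e t)

include hid in
/-- Idempotents of the block algebra lift to the group algebra, keeping the dimension of the left ideal. -/
theorem exists_lift_idem {ε : BA hcl} (hε : IsIdempotentElem ε) :
    ∃ w : MonoidAlgebra F G, IsIdempotentElem w ∧
      finrank F (LinearMap.range (LinearMap.mulLeft F w)) = finrank F (LinearMap.range (LinearMap.mulLeft F ε)) := by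
  classical
  obtain ⟨ε₀, rfl⟩ := qA_surjective hcl ε
  have h1 : eltOf e * (ε₀ * ε₀) = eltOf e * ε₀ := by
    have h2 : qA hcl (ε₀ * ε₀ - ε₀) = 0 := by
      rw [map_sub, map_mul, hε.eq, sub_self]
    rw [qA_eq_zero_iff] at h2
    rw [mul_sub, sub_eq_zero] at h2
    exact h2
  have hee : eltOf e * eltOf e = eltOf e := eltOf_idem hid
  have hw : IsIdempotentElem (eltOf e * ε₀) := by
    show eltOf e * ε₀ * (eltOf e * ε₀) = eltOf e * ε₀
    calc eltOf e * ε₀ * (eltOf e * ε₀) = eltOf e * (ε₀ * eltOf e) * ε₀ := by simp only [mul_assoc]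
      _ = eltOf e * (eltOf e * ε₀) * ε₀ := by rw [eltOf_central hcl ε₀]
      _ = (eltOf e * eltOf e) * (ε₀ * ε₀) := by simp only [mul_assoc]
      _ = eltOf e * ε₀ := by rw [hee, h1]
  refine ⟨eltOf e * ε₀, hw, ?_⟩
  set W := LinearMap.range (LinearMap.mulLeft F (eltOf e * ε₀)) with hW
  let φ : W →ₗ[F] BA hcl := (qA hcl).toLinearMap.comp W.subtype
  have hφ : ∀ a : W, φ a = qA hcl (a : MonoidAlgebra F G) := fun a => rfl
  have hinj : Function.Injective φ := by
    rw [injective_iff_map_eq_zero]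
    rintro ⟨_, c, rfl⟩ hc
    apply Subtype.ext
    rw [hφ, qA_eq_zero_iff] at hc
    show (eltOf e * ε₀) * c = 0
    have h2 : eltOf e * ((LinearMap.mulLeft F (eltOf e * ε₀)) c) = (eltOf e * ε₀) * c := by
      rw [LinearMap.mulLeft_apply, ← mul_assoc, ← mul_assoc, hee]
    rw [← h2]
    exact hc
  have hrange : LinearMap.range φ = LinearMap.range (LinearMap.mulLeft F (qA hcl ε₀)) := by
    ext a
    constructor
    · rintro ⟨⟨_, c, rfl⟩, rfl⟩
      refine ⟨qA hcl c, ?_⟩
      rw [hφ]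
      show qA hcl ε₀ * qA hcl c = qA hcl ((eltOf e * ε₀) * c)
      rw [mul_assoc, qA_elt_mul hcl hid, map_mul]
    · rintro ⟨c, rfl⟩
      obtain ⟨c, rfl⟩ := qA_surjective hcl c
      refine ⟨⟨(eltOf e * ε₀) * c, c, rfl⟩, ?_⟩
      rw [hφ]
      show qA hcl ((eltOf e * ε₀) * c) = qA hcl ε₀ * qA hcl c
      rw [mul_assoc, qA_elt_mul hcl hid, map_mul]
  rw [← hrange, LinearMap.finrank_range_of_inj hinj]

include hid in
/-- The block algebra is a symmetric algebra. -/
theorem exists_symm_form : ∃ lam ∈ traceFun F (BA hcl), ∀ a, (∀ b, lam (a * b) = 0) → a = 0 := by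
  classical
  let t : G → F := fun g => e g⁻¹
  have htcl : ∀ g x, t (x * g * x⁻¹) = t g := by
    intro g x
    simp only [t]
    have h3 : (x * g * x⁻¹)⁻¹ = x * g⁻¹ * x⁻¹ := by group
    rw [h3]
    exact hcl _ _
  have htfix : ∀ g, ∑ u, e u * t (u * g) = t g := by
    intro g
    simp only [t]
    rw [← hid g⁻¹]
    refine sum_congr rfl fun u _ => ?_
    congr 1
    rw [← hcl ((u * g)⁻¹) u⁻¹]
    congr 1
    group
  obtain ⟨f, hfmem, hft⟩ := exists_dual_of_fun hcl hid t htcl htfix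
  refine ⟨f, hfmem, ?_⟩
  intro a ha
  obtain ⟨a, rfl⟩ := qA_surjective hcl a
  rw [qA_eq_zero_iff]
  ext h
  have h1 := ha (qA hcl (single h⁻¹ 1))
  rw [← map_mul] at h1
  have h2 : f (qA hcl (a * single h⁻¹ 1)) = ∑ g, a.coeff g * e (h * g⁻¹) := by
    conv_lhs => rw [eq_sum_single a]
    rw [Finset.sum_mul, map_sum, map_sum]
    refine Finset.sum_congr rfl fun g _ => ?_
    rw [single_mul_single, mul_one]
    have h3 : (single (g * h⁻¹) (a.coeff g) : MonoidAlgebra F G) = a.coeff g • single (g * h⁻¹) 1 := by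
      rw [smul_single, smul_eq_mul, mul_one]
    rw [h3, map_smul, map_smul, smul_eq_mul]
    congr 1
    have h4 := hft (g * h⁻¹)
    simp only [ofDual, t] at h4
    rw [h4]
    congr 1
    group
  rw [h2] at h1
  have h3 : (eltOf e * a).coeff h = ∑ g, a.coeff g * e (h * g⁻¹) := by
    conv_lhs => rw [← eltOf_coeff a]
    rw [coeff_eltOf_mul]
    refine Fintype.sum_equiv ((Equiv.inv G).trans (Equiv.mulRight h)) _ _ fun w => ?_
    simp only [Equiv.trans_apply, Equiv.inv_apply, Equiv.coe_mulRight]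
    rw [mul_comm]
    congr 2
    group
  rw [h3, h1]
  rfl

/-- The dimension data of a block algebra with one simple module and at most four trace functionals. -/
theorem exists_dims [IsAlgClosed F] {p : ℕ} [Fact p.Prime] [CharP F p] [Nontrivial (BA hcl)]
    (hid : ∀ t, ∑ w, e w * e (w⁻¹ * t) = e t)
    (hrank : ∀ (m : ℕ) (τ : Fin m → G → F), LinearIndependent F τ → (∀ i g x, τ i (x * g * x⁻¹) = τ i g) →
      (∀ i a b j, Commute a b → orderOf a = p ^ j → τ i (a * b) = τ i b) →
      (∀ i g, ∑ u, e u * τ i (u * g) = τ i g) → m ≤ 1)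
    (hd : finrank F (traceFun F (BA hcl)) ≤ 4) (P₀ : Subgroup G) (hP : IsPGroup p P₀) :
    ∃ n : ℕ, 0 < n ∧ finrank F (BA hcl) = n ^ 2 * finrank F (traceFun F (BA hcl)) ∧
      Nat.card P₀ ∣ n * finrank F (traceFun F (BA hcl)) := by
  classical
  obtain ⟨n, hn0, π, hπ, N, hN⟩ := exists_matrix_quotient hcl (p := p) hid hrank
  obtain ⟨lam, hlam, hnd⟩ := exists_symm_form hcl hid
  obtain ⟨h1, ε, hε, h2⟩ := exists_idem_dims π hπ hN lam hlam hnd hd
  refine ⟨n, Nat.pos_of_ne_zero hn0.out, h1, ?_⟩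
  rw [← h2]
  obtain ⟨w, hw, h3⟩ := exists_lift_idem hcl hid hε
  rw [← h3]
  haveI : Fintype P₀ := Fintype.ofFinite _
  exact card_dvd_finrank_of_idem (p := p) P₀ hP hw

end Generic

section Numeric

theorem numeric_kulsh {p f n z de a : ℕ} (hp : p.Prime) (h : f ^ 2 * p ^ de = n ^ 2 * z) (hf : f ≠ 0) (hn : n ≠ 0)
    (hz : z ≠ 0) (hdvd : p ^ a ∣ n * z) (hμ : f.factorization p + de ≤ a) : p ^ de ∣ z := by
  have h1 := congrArg (fun x => x.factorization p) h
  simp only [Nat.factorization_mul (pow_ne_zero 2 hf) (pow_ne_zero de hp.ne_zero),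
    Nat.factorization_mul (pow_ne_zero 2 hn) hz, Finsupp.add_apply, Nat.factorization_pow,
    Finsupp.smul_apply, smul_eq_mul, hp.factorization_self] at h1
  have h2 := (hp.pow_dvd_iff_le_factorization (Nat.mul_ne_zero hn hz)).mp hdvd
  rw [Nat.factorization_mul hn hz, Finsupp.add_apply] at h2
  rw [hp.pow_dvd_iff_le_factorization hz]
  omega

end Numeric

section Main

variable {G : Type u} [Group G] [Fintype G] {p : ℕ} [hp : Fact p.Prime] {M : Ideal AlgInt} [hMp : M.IsPrime]

theorem charP_resF (hM : IsPModular p M) : CharP (ResF M) p := by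
  have hpp : p.Prime := hp.out
  refine (CharP.charP_iff_prime_eq_zero hpp).mpr ?_
  have h1 : ((p : locRing M)) ∈ locMax M := by
    rw [mem_locMax]
    simpa using p_memLocalIdeal hM
  have h2 : (Ideal.Quotient.mk (locMax M)) (p : locRing M) = 0 := Ideal.Quotient.eq_zero_iff_mem.mpr h1
  simpa using h2

/-- **A block of rank one with at most four characters: `|D| = k(B)`.** -/
theorem card_defect_eq_card_of_rank_one (hM : IsPModular p M) {B : Set (IrrCharacter G)} (hB : IsPBlock M B)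
    {D : Subgroup G} (hD : IsDefectGroup p M B D) (hl : blockRank p B = 1) (hk : Nat.card B ≤ 4) :
    Nat.card D = Nat.card B := by
  classical
  have hpp : p.Prime := hp.out
  obtain ⟨φ, d, ⟨n, hn⟩, hd, hdsum⟩ := exists_rank_one_data hM hB hl
  set X := (univ.filter (· ∈ B) : Finset (IrrCharacter G)) with hXdef
  have hBX : B = (X : Set (IrrCharacter G)) := by
    ext χ
    simp [hXdef]
  have hmemX : ∀ χ, χ ∈ X ↔ χ ∈ B := fun χ => by simp [hXdef]
  have hXcard : X.card = Nat.card B := by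
    rw [hBX, Nat.card_coe_set_eq, Set.ncard_coe_finset]
  have h1reg : IsPRegular p (1 : G) := by
    show ¬ p ∣ orderOf (1 : G)
    rw [orderOf_one]
    exact hpp.one_lt.ne' ∘ Nat.dvd_one.mp
  have hdeg1 : ∀ χ : IrrCharacter G, (χ : G → ℂ) 1 = (charDegree (χ : G → ℂ) : ℂ) := fun χ => irr_one_eq χ
  -- the integer
  set f : ℤ := ∑ ψ ∈ X, (n ψ : ℤ) * (charDegree (ψ : G → ℂ) : ℤ) with hf
  have hφ1 : φ 1 = (f : ℂ) := by
    rw [hn 1 h1reg, hBX, finsum_mem_coe_finset]
    simp only [hdeg1, hf]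
    push_cast
    rfl
  have hdegZ : ∀ χ ∈ B, (charDegree (χ : G → ℂ) : ℤ) = (d χ : ℤ) * f := by
    intro χ hχ
    have h3 := hd χ hχ 1 h1reg
    rw [hdeg1, hφ1] at h3
    exact_mod_cast h3
  obtain ⟨χ₀, hχ₀⟩ := IsPBlock.nonempty hB
  have hf0 : f ≠ 0 := by
    intro h0
    have h3 := hdegZ χ₀ hχ₀
    rw [h0, mul_zero] at h3
    exact (charDegree_pos χ₀.2).ne' (by exact_mod_cast h3)
  have hdpos : ∀ χ ∈ B, 0 < d χ := by
    intro χ hχ
    rcases Nat.eq_zero_or_pos (d χ) with h0 | h0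
    · have h3 := hdegZ χ hχ
      rw [h0] at h3
      simp only [Nat.cast_zero, zero_mul] at h3
      exact absurd (by exact_mod_cast h3) (charDegree_pos χ.2).ne'
    · exact h0
  have hdegN : ∀ χ ∈ B, charDegree (χ : G → ℂ) = d χ * f.natAbs := by
    intro χ hχ
    have h3 := hdegZ χ hχ
    have h4 := congrArg Int.natAbs h3
    simpa [Int.natAbs_mul] using h4
  have hsumd : ∑ χ ∈ X, d χ ^ 2 = p ^ blockDefect p B := by
    rw [← hdsum, hBX, finsum_mem_coe_finset]
  have hcardD : Nat.card D = p ^ blockDefect p B := card_defectGroup hM hB hD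
  have hXle : X.card ≤ p ^ blockDefect p B := by
    rw [← hsumd, Finset.card_eq_sum_ones]
    refine Finset.sum_le_sum fun χ hχ => ?_
    exact Nat.one_le_pow _ _ (hdpos χ ((hmemX χ).mp hχ))
  -- the algebra
  haveI hk' : CharP (ResF M) p := charP_resF hM
  have hfin := finrank_blockAlg B hB
  rw [← hXdef] at hfin
  have hfin2 : finrank (ResF M) (BA (epsRes_class M B hB)) = f.natAbs ^ 2 * p ^ blockDefect p B := by
    rw [hfin, ← hsumd, Finset.mul_sum]
    refine Finset.sum_congr rfl fun χ hχ => ?_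
    rw [hdegN χ ((hmemX χ).mp hχ)]
    ring
  have hpos : 0 < finrank (ResF M) (BA (epsRes_class M B hB)) := by
    rw [hfin2]
    have : f.natAbs ≠ 0 := Int.natAbs_ne_zero.mpr hf0
    exact Nat.mul_pos (pow_pos (Nat.pos_of_ne_zero this) 2) (pow_pos hpp.pos _)
  haveI : Nontrivial (BA (epsRes_class M B hB)) := Module.nontrivial_of_finrank_pos hpos
  have hz1 : finrank (ResF M) (traceFun (ResF M) (BA (epsRes_class M B hB))) ≤ X.card :=
    finrank_traceFun_le_of_bound (epsRes_class M B hB) (epsRes_id M B hB) X.card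
      (fun ι _ _ τ h1 h2 h3 => card_le_of_fix hB τ h1 h2 h3)
  have hz4 : finrank (ResF M) (traceFun (ResF M) (BA (epsRes_class M B hB))) ≤ 4 := by
    rw [hXcard] at hz1
    omega
  let P₀ : Sylow p G := default
  obtain ⟨m, hm0, hm1, hm2⟩ := exists_dims (epsRes_class M B hB) (p := p) (epsRes_id M B hB)
    (fun m τ h1 h2 h3 h4 => rank_le_one_of_blockRank hM hB hl m τ h1 h2 h3 h4) hz4 P₀ P₀.isPGroup'
  set z := finrank (ResF M) (traceFun (ResF M) (BA (epsRes_class M B hB))) with hz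
  have hz0 : z ≠ 0 := by
    intro h0
    rw [h0, mul_zero] at hm1
    omega
  have hcardP : Nat.card P₀ = p ^ (Nat.card G).factorization p := P₀.card_eq_multiplicity
  rw [hcardP] at hm2
  have hmain : f.natAbs ^ 2 * p ^ blockDefect p B = m ^ 2 * z := by
    rw [← hfin2, hm1]
  -- valuation of the integer
  obtain ⟨χ₁, hχ₁, h00⟩ := exists_height_zero (p := p) (IsPBlock.nonempty hB)
  have hval := val_eq_minVal_add_height (p := p) hχ₁
  rw [h00, add_zero] at hval
  have hval2 := card_val_eq_minVal_add_defect (p := p) (IsPBlock.nonempty hB)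
  have hval3 : f.natAbs.factorization p ≤ (charDegree (χ₁ : G → ℂ)).factorization p := by
    rw [hdegN χ₁ hχ₁, Nat.factorization_mul (hdpos χ₁ hχ₁).ne' (Int.natAbs_ne_zero.mpr hf0), Finsupp.add_apply]
    omega
  have hdvd := numeric_kulsh hpp hmain (Int.natAbs_ne_zero.mpr hf0) hm0.ne' hz0 hm2 (by omega)
  have hle := Nat.le_of_dvd (Nat.pos_of_ne_zero hz0) hdvd
  rw [hcardD, ← hXcard]
  omega

end Main

end Cfsg.Agent.Lib.LocalAlg
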