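import Cfsg.Agent.Lib.LocalAlg.CycDefect

/-!
# Blocks of minimal dimension
-/

set_option autoImplicit false
set_option linter.unusedSectionVars false
set_option linter.unusedVariables false

namespace Cfsg.Agent.Lib.LocalAlg

open Cfsg Cfsg.Agent.Lib.Char Cfsg.Agent.Lib.Blocks Cfsg.Agent.Lib.H8Group Finset Module MonoidAlgebra
open scoped ComplexConjugate

universe u v

section DC

variable {G : Type u} [Group G] [Fintype G] (P₀ : Subgroup G)

/-- The double coset relation. -/
def dcRel : Setoid G where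
  r x y := ∃ u ∈ P₀, ∃ v ∈ P₀, y = u * x * v
  iseqv :=
    { refl := fun x => ⟨1, P₀.one_mem, 1, P₀.one_mem, by simp⟩
      symm := by
        rintro x y ⟨u, hu, v, hv, rfl⟩
        exact ⟨u⁻¹, P₀.inv_mem hu, v⁻¹, P₀.inv_mem hv, by group⟩
      trans := by
        rintro x y z ⟨u, hu, v, hv, rfl⟩ ⟨u', hu', v', hv', rfl⟩
        exact ⟨u' * u, P₀.mul_mem hu' hu, v * v', P₀.mul_mem hv hv', by group⟩ }

/-- The double cosets. -/
abbrev DC := Quotient (dcRel P₀)

noncomputable instance instFintypeDC : Fintype (DC P₀) := Fintype.ofFinite _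

/-- A double coset, as a finite set. -/
noncomputable def dc (x : G) : Finset G := by
  classical
  exact univ.filter (fun h => (dcRel P₀).r x h)

theorem mem_dc {x h : G} : h ∈ dc P₀ x ↔ ∃ u ∈ P₀, ∃ v ∈ P₀, h = u * x * v := by
  classical
  simp only [dc, Finset.mem_filter, Finset.mem_univ, true_and]
  rfl

theorem self_mem_dc (x : G) : x ∈ dc P₀ x := (mem_dc P₀).mpr ⟨1, P₀.one_mem, 1, P₀.one_mem, by simp⟩

theorem dc_eq_of_mem {x h : G} (hh : h ∈ dc P₀ x) : dc P₀ h = dc P₀ x := by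
  obtain ⟨u, hu, v, hv, rfl⟩ := (mem_dc P₀).mp hh
  ext z
  rw [mem_dc, mem_dc]
  constructor
  · rintro ⟨a, ha, b, hb, rfl⟩
    exact ⟨a * u, P₀.mul_mem ha hu, v * b, P₀.mul_mem hv hb, by group⟩
  · rintro ⟨a, ha, b, hb, rfl⟩
    exact ⟨a * u⁻¹, P₀.mul_mem ha (P₀.inv_mem hu), v⁻¹ * b, P₀.mul_mem (P₀.inv_mem hv) hb, by group⟩

theorem mul_mem_dc {x h : G} (hh : h ∈ dc P₀ x) {u v : G} (hu : u ∈ P₀) (hv : v ∈ P₀) : u * h * v ∈ dc P₀ x := by
  obtain ⟨a, ha, b, hb, rfl⟩ := (mem_dc P₀).mp hh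
  exact (mem_dc P₀).mpr ⟨u * a, P₀.mul_mem hu ha, b * v, P₀.mul_mem hb hv, by group⟩

/-- Translation permutes a double coset. -/
theorem sum_dc_translate {A : Type*} [AddCommMonoid A] (f : G → A) (x : G) {u v : G} (hu : u ∈ P₀) (hv : v ∈ P₀) :
    ∑ h ∈ dc P₀ x, f (u * h * v) = ∑ h ∈ dc P₀ x, f h := by
  classical
  refine Finset.sum_bij (fun h _ => u * h * v) (fun h hh => mul_mem_dc P₀ hh hu hv) ?_ ?_ (fun _ _ => rfl)
  · intro a _ b _ hab
    simpa using hab
  · intro b hb
    refine ⟨u⁻¹ * b * v⁻¹, mul_mem_dc P₀ hb (P₀.inv_mem hu) (P₀.inv_mem hv), by group⟩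

/-- Summation over a group by double cosets. -/
theorem sum_by_dc {A : Type*} [AddCommMonoid A] (f : G → A) :
    ∑ h, f h = ∑ O : DC P₀, ∑ h ∈ dc P₀ (Quotient.out O), f h := by
  classical
  rw [← Finset.sum_fiberwise (s := univ) (g := fun h => (Quotient.mk (dcRel P₀) h : DC P₀)) (f := f)]
  refine Finset.sum_congr rfl fun O _ => ?_
  refine Finset.sum_congr ?_ fun _ _ => rfl
  ext h
  simp only [Finset.mem_filter, Finset.mem_univ, true_and]
  rw [mem_dc]
  constructor
  · rintro rfl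
    have h3 : (dcRel P₀).r (Quotient.out (Quotient.mk (dcRel P₀) h)) h := Quotient.exact (Quotient.out_eq _)
    exact h3
  · intro hh
    have h1 : (dcRel P₀).r (Quotient.out O) h := hh
    have h2 : Quotient.mk (dcRel P₀) (Quotient.out O) = Quotient.mk (dcRel P₀) h := Quotient.sound h1
    rw [← h2, Quotient.out_eq]

variable [Fintype P₀]

/-- The number of ways to fix an element by translations. -/
noncomputable def nStab (x : G) : ℕ := by
  classical
  exact (univ.filter (fun t : P₀ × P₀ => (t.1 : G) * x * (t.2 : G) = x)).card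

theorem nStab_pos (x : G) : 0 < nStab P₀ x := by
  classical
  rw [nStab, Finset.card_pos]
  exact ⟨(1, 1), by simp⟩

/-- The number of ways of reaching an element of the double coset is constant. -/
theorem card_fiber_dc {x h : G} (hh : h ∈ dc P₀ x) [DecidableEq G] :
    (univ.filter (fun t : P₀ × P₀ => (t.1 : G) * x * (t.2 : G) = h)).card = nStab P₀ x := by
  classical
  obtain ⟨a, ha, b, hb, rfl⟩ := (mem_dc P₀).mp hh
  rw [nStab]
  refine Finset.card_bij (fun t _ => ((⟨a, ha⟩ : P₀)⁻¹ * t.1, t.2 * (⟨b, hb⟩ : P₀)⁻¹)) ?_ ?_ ?_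
  · intro t ht
    simp only [Finset.mem_filter, Finset.mem_univ, true_and] at ht ⊢
    simp only [Subgroup.coe_mul, Subgroup.coe_inv]
    calc a⁻¹ * (t.1 : G) * x * ((t.2 : G) * b⁻¹) = a⁻¹ * ((t.1 : G) * x * (t.2 : G)) * b⁻¹ := by group
      _ = x := by rw [ht]; group
  · intro t _ t' _ htt
    simp only [Prod.mk.injEq, mul_right_inj, mul_left_inj] at htt
    exact Prod.ext htt.1 htt.2
  · intro t ht
    simp only [Finset.mem_filter, Finset.mem_univ, true_and] at ht
    refine ⟨((⟨a, ha⟩ : P₀) * t.1, t.2 * (⟨b, hb⟩ : P₀)), ?_, ?_⟩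
    · simp only [Finset.mem_filter, Finset.mem_univ, true_and, Subgroup.coe_mul]
      calc a * (t.1 : G) * x * ((t.2 : G) * b) = a * ((t.1 : G) * x * (t.2 : G)) * b := by group
        _ = a * x * b := by rw [ht]
    · simp

/-- Summation over pairs of translations. -/
theorem sum_pairs {A : Type*} [AddCommMonoid A] (f : G → A) (x : G) :
    ∑ u : P₀, ∑ v : P₀, f ((u : G) * x * (v : G)) = nStab P₀ x • ∑ h ∈ dc P₀ x, f h := by
  classical
  rw [← Finset.sum_product', Finset.univ_product_univ]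
  rw [← Finset.sum_fiberwise_of_maps_to (s := univ) (t := dc P₀ x) (g := fun t : P₀ × P₀ => (t.1 : G) * x * (t.2 : G))
    (fun t _ => (mem_dc P₀).mpr ⟨t.1, t.1.2, t.2, t.2.2, rfl⟩)]
  rw [Finset.smul_sum]
  refine Finset.sum_congr rfl fun h hh => ?_
  have h1 : ∀ t ∈ univ.filter (fun t : P₀ × P₀ => (t.1 : G) * x * (t.2 : G) = h), f ((t.1 : G) * x * (t.2 : G)) = f h := by
    intro t ht
    rw [(Finset.mem_filter.mp ht).2]
  rw [Finset.sum_congr rfl h1, Finset.sum_const, card_fiber_dc P₀ hh]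

theorem nStab_mul_card (x : G) : nStab P₀ x * (dc P₀ x).card = Fintype.card P₀ ^ 2 := by
  classical
  have h1 := sum_pairs P₀ (fun _ : G => (1 : ℕ)) x
  simp only [Finset.sum_const, Finset.card_univ, smul_eq_mul, mul_one] at h1
  rw [← h1]
  ring

end DC

section Fixed

variable {Q : Type*} [Group Q] [Finite Q] {p : ℕ} [hp : Fact p.Prime] {F : Type*} [Field F] [CharP F p]
  {X : Type*} [Fintype X] [MulAction Q X]

/-- An invariant function on a set without fixed points of a `p`-group has sum zero in characteristic `p`. -/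
theorem sum_eq_zero_of_no_fixed (hQ : IsPGroup p Q) (f : X → F) (hf : ∀ (u : Q) x, f (u • x) = f x)
    (hno : ∀ x : X, ∃ u : Q, u • x ≠ x) : ∑ x, f x = 0 := by
  classical
  have hpp : p.Prime := hp.out
  letI : Fintype (MulAction.orbitRel.Quotient Q X) := Fintype.ofFinite _
  rw [← Finset.sum_fiberwise (s := univ) (g := fun x => (Quotient.mk (MulAction.orbitRel Q X) x : MulAction.orbitRel.Quotient Q X)) (f := f)]
  refine Finset.sum_eq_zero fun O _ => ?_
  induction O using Quotient.inductionOn with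
  | h x₀ =>
    have h1 : ∀ x ∈ univ.filter (fun x => (Quotient.mk (MulAction.orbitRel Q X) x : MulAction.orbitRel.Quotient Q X) = Quotient.mk (MulAction.orbitRel Q X) x₀), f x = f x₀ := by
      intro x hx
      have h2 := Quotient.exact (Finset.mem_filter.mp hx).2
      obtain ⟨u, rfl⟩ := h2
      exact hf _ _
    rw [Finset.sum_congr rfl h1, Finset.sum_const]
    have h3 : (univ.filter (fun x => (Quotient.mk (MulAction.orbitRel Q X) x : MulAction.orbitRel.Quotient Q X) = Quotient.mk (MulAction.orbitRel Q X) x₀)).card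
        = Nat.card (MulAction.orbit Q x₀) := by
      rw [Nat.card_eq_fintype_card, ← Set.toFinset_card]
      congr 1
      ext x
      simp only [Finset.mem_filter, Finset.mem_univ, true_and, Set.mem_toFinset]
      constructor
      · intro h
        exact Quotient.exact h
      · intro h
        exact Quotient.sound h
    obtain ⟨n, hn⟩ := hQ.card_orbit x₀
    rw [h3, hn]
    have hn0 : n ≠ 0 := by
      rintro rfl
      obtain ⟨u, hu⟩ := hno x₀
      rw [pow_zero] at hn
      have h4 := Nat.card_eq_one_iff_unique.mp hn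
      haveI := h4.1
      have h5 : (⟨u • x₀, MulAction.mem_orbit x₀ u⟩ : MulAction.orbit Q x₀) = ⟨x₀, MulAction.mem_orbit_self x₀⟩ := Subsingleton.elim _ _
      exact hu (congrArg Subtype.val h5)
    rw [nsmul_eq_mul]
    have h6 : ((p ^ n : ℕ) : F) = 0 := by
      rw [Nat.cast_pow, CharP.cast_eq_zero, zero_pow hn0]
    rw [h6, zero_mul]

end Fixed

section Abstract

variable {G : Type u} [Group G] [Fintype G] {p : ℕ} [hp : Fact p.Prime] {F : Type v} [Field F] [CharP F p]
  {e : G → F} (hcl : ∀ g x, e (x * g * x⁻¹) = e g) (hid : ∀ t, ∑ w, e w * e (w⁻¹ * t) = e t)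
  (P₀ : Subgroup G) (hP : IsPGroup p P₀)

/-- The matrix of the idempotent on the double cosets. -/
noncomputable def Edc (e : G → F) (x y : G) : F := ∑ h ∈ dc P₀ x, e (h * y⁻¹)

theorem Edc_congr (e : G → F) {x x' : G} (hx : x' ∈ dc P₀ x) (y : G) : Edc P₀ e x' y = Edc P₀ e x y := by
  rw [Edc, Edc, dc_eq_of_mem P₀ hx]

include hcl in
theorem Edc_right (x y : G) {u v : G} (hu : u ∈ P₀) (hv : v ∈ P₀) : Edc P₀ e x (u * y * v) = Edc P₀ e x y := by
  rw [Edc, Edc, ← sum_dc_translate P₀ (fun h => e (h * y⁻¹)) x (P₀.inv_mem hu) (P₀.inv_mem hv)]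
  refine Finset.sum_congr rfl fun h _ => ?_
  rw [← hcl (h * (u * y * v)⁻¹) u⁻¹]
  congr 1
  group

theorem coeff_single_mul' [DecidableEq G] (u : G) (x : MonoidAlgebra F G) (z : G) :
    (single u (1 : F) * x).coeff z = x.coeff (u⁻¹ * z) := by
  rw [coeff_mul_eq_sum, Finset.sum_eq_single u]
  · simp
  · intro b _ hb
    simp [coeff_single, Finsupp.single_apply, hb.symm]
  · simp

theorem coeff_mul_single' [DecidableEq G] (v : G) (x : MonoidAlgebra F G) (z : G) :
    (x * single v (1 : F)).coeff z = x.coeff (z * v⁻¹) := by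
  rw [coeff_mul_eq_sum, Finset.sum_eq_single (z * v⁻¹)]
  · simp [coeff_single, Finsupp.single_apply]
  · intro b _ hb
    have h1 : v ≠ b⁻¹ * z := by
      intro h2
      apply hb
      rw [h2]
      group
    simp [coeff_single, Finsupp.single_apply, h1]
  · simp

theorem coeff_elt_mul [DecidableEq G] (x : MonoidAlgebra F G) (z : G) :
    (eltOf e * x).coeff z = ∑ h, x.coeff h * e (z * h⁻¹) := by
  rw [coeff_mul_eq_sum]
  simp only [coeff_eltOf]
  refine Fintype.sum_equiv ((Equiv.inv G).trans (Equiv.mulRight z)) _ _ fun w => ?_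
  simp only [Equiv.trans_apply, Equiv.inv_apply, Equiv.coe_mulRight]
  rw [mul_comm]
  congr 2
  group

include hcl hid in
/-- Multiplying a group element by the idempotent. -/
theorem kap_eq_sum (x : G) : kapA hcl x = ∑ h, e (h * x⁻¹) • kapA hcl h := by
  classical
  have h1 : kapA hcl x = qA hcl (eltOf e * single x 1) := by
    rw [qA_elt_mul hcl hid]
    rfl
  rw [h1, eltOf, Finset.sum_mul, map_sum]
  refine Fintype.sum_equiv (Equiv.mulRight x) _ _ fun w => ?_
  simp only [Equiv.coe_mulRight, single_mul_single, mul_one, mul_inv_cancel_right]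
  have h2 : (single (w * x) (e w) : MonoidAlgebra F G) = e w • single (w * x) 1 := by
    rw [smul_single, smul_eq_mul, mul_one]
  rw [h2, map_smul]
  rfl

section Nak

variable {A : Type*} [Ring A] [Algebra F A] [FiniteDimensional F A] (κ : G →* A)
  (hspan : ∀ a : A, a ∈ Submodule.span F (Set.range κ)) (hk : ∀ x, κ x = ∑ h, e (h * x⁻¹) • κ h)

include hP hspan hk in
/-- **Nakayama: the double coset of a nonzero diagonal entry spans the algebra.** -/
theorem span_dc_eq_top [Fintype P₀]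
    (H1 : ∀ x₁ y₁ x₂ y₂, Edc P₀ e x₁ y₁ * Edc P₀ e x₂ y₂ = Edc P₀ e x₁ y₂ * Edc P₀ e x₂ y₁) {g₀ : G} (h0 : Edc P₀ e g₀ g₀ ≠ 0)
    (a : A) : a ∈ Submodule.span F ((fun h => κ h) '' (dc P₀ g₀ : Set G)) := by
  classical
  by_contra hcon
  set U := Submodule.span F ((fun h => κ h) '' (dc P₀ g₀ : Set G)) with hU
  have hUleft : ∀ u ∈ P₀, ∀ b ∈ U, κ u * b ∈ U := by
    intro u hu b hb
    induction hb using Submodule.span_induction with
    | mem x hx =>
      obtain ⟨h, hh, rfl⟩ := hx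
      refine Submodule.subset_span ⟨u * h, ?_, ?_⟩
      · have := mul_mem_dc P₀ (Finset.mem_coe.mp hh) hu P₀.one_mem
        rw [mul_one] at this
        exact Finset.mem_coe.mpr this
      · exact map_mul κ u h
    | zero => simp
    | add x y _ _ hx hy =>
      rw [mul_add]
      exact Submodule.add_mem _ hx hy
    | smul c x _ hx =>
      rw [mul_smul_comm]
      exact Submodule.smul_mem _ _ hx
  have hUright : ∀ v ∈ P₀, ∀ b ∈ U, b * κ v ∈ U := by
    intro v hv b hb
    induction hb using Submodule.span_induction with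
    | mem x hx =>
      obtain ⟨h, hh, rfl⟩ := hx
      refine Submodule.subset_span ⟨h * v, ?_, ?_⟩
      · have := mul_mem_dc P₀ (Finset.mem_coe.mp hh) P₀.one_mem hv
        rw [one_mul] at this
        exact Finset.mem_coe.mpr this
      · exact map_mul κ h v
    | zero => simp
    | add x y _ _ hx hy =>
      rw [add_mul]
      exact Submodule.add_mem _ hx hy
    | smul c x _ hx =>
      rw [smul_mul_assoc]
      exact Submodule.smul_mem _ _ hx
  obtain ⟨f, hf, hfU⟩ := Submodule.exists_le_ker_of_notMem hcon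
  let ρL : P₀ →* (Module.Dual F A →ₗ[F] Module.Dual F A) :=
    { toFun := fun u => (LinearMap.mulLeft F (κ (u : G)⁻¹)).dualMap
      map_one' := by
        ext θ a
        simp
      map_mul' := fun u v => by
        ext θ a
        simp [Module.End.mul_apply, LinearMap.dualMap_apply, mul_assoc] }
  let ρR : P₀ →* (Module.Dual F A →ₗ[F] Module.Dual F A) :=
    { toFun := fun v => (LinearMap.mulRight F (κ (v : G))).dualMap
      map_one' := by
        ext θ a
        simp
      map_mul' := fun u v => by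
        ext θ a
        simp [Module.End.mul_apply, LinearMap.dualMap_apply, mul_assoc] }
  have hρL : ∀ (u : P₀) θ b, ρL u θ b = θ (κ (u : G)⁻¹ * b) := fun _ _ _ => rfl
  have hρR : ∀ (v : P₀) θ b, ρR v θ b = θ (b * κ (v : G)) := fun _ _ _ => rfl
  have hX₀ : U.dualAnnihilator ≠ ⊥ := by
    intro h
    have h1 : f ∈ U.dualAnnihilator := by
      rw [Submodule.mem_dualAnnihilator]
      exact fun w hw => LinearMap.mem_ker.mp (hfU hw)
    rw [h, Submodule.mem_bot] at h1
    rw [h1] at hf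
    simp at hf
  obtain ⟨θ₁, hθ₁X, hθ₁0, hθ₁fix⟩ := exists_fixed_vector hP ρL U.dualAnnihilator (by
    intro u θ hθ
    rw [Submodule.mem_dualAnnihilator] at hθ ⊢
    intro w hw
    rw [hρL]
    exact hθ _ (hUleft _ (P₀.inv_mem u.2) _ hw)) hX₀
  let X₁ : Submodule F (Module.Dual F A) :=
    U.dualAnnihilator ⊓ ⨅ u : P₀, LinearMap.ker (ρL u - LinearMap.id)
  have hmemX₁ : ∀ θ, θ ∈ X₁ ↔ θ ∈ U.dualAnnihilator ∧ ∀ u : P₀, ρL u θ = θ := by
    intro θ
    simp only [X₁, Submodule.mem_inf, Submodule.mem_iInf, LinearMap.mem_ker, LinearMap.sub_apply, LinearMap.id_apply, sub_eq_zero]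
  have hX₁ : X₁ ≠ ⊥ := by
    intro h
    have h1 : θ₁ ∈ X₁ := (hmemX₁ θ₁).mpr ⟨hθ₁X, hθ₁fix⟩
    rw [h, Submodule.mem_bot] at h1
    exact hθ₁0 h1
  obtain ⟨θ, hθX, hθ0, hθfix⟩ := exists_fixed_vector hP ρR X₁ (by
    intro v θ' hθ'
    rw [hmemX₁] at hθ' ⊢
    refine ⟨?_, ?_⟩
    · rw [Submodule.mem_dualAnnihilator]
      intro w hw
      rw [hρR]
      exact (Submodule.mem_dualAnnihilator _).mp hθ'.1 _ (hUright _ v.2 _ hw)
    · intro u
      ext b
      have h9 : θ' (κ (u : G)⁻¹ * (b * κ v)) = θ' (b * κ v) :=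
        congrArg (fun t : Module.Dual F A => t (b * κ v)) (hθ'.2 u)
      rw [hρL, hρR, hρR, mul_assoc, h9]) hX₁
  have hθ' := (hmemX₁ θ).mp hθX
  -- the function on the group
  let Θ : G → F := fun x => θ (κ x)
  have hΘ : ∀ x, ∀ u ∈ P₀, ∀ v ∈ P₀, Θ (u * x * v) = Θ x := by
    intro x u hu v hv
    have h1 : θ (κ (u * x * v)) = ρL ⟨u⁻¹, P₀.inv_mem hu⟩ (ρR ⟨v, hv⟩ θ) (κ x) := by
      rw [hρL, hρR]
      simp only [inv_inv, map_mul, mul_assoc]
    show θ (κ (u * x * v)) = θ (κ x)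
    rw [h1, hθfix ⟨v, hv⟩, hθ'.2 ⟨u⁻¹, P₀.inv_mem hu⟩]
  have hΘ₀ : ∀ h ∈ dc P₀ g₀, Θ h = 0 := by
    intro h hh
    exact (Submodule.mem_dualAnnihilator _).mp hθ'.1 _ (Submodule.subset_span ⟨h, Finset.mem_coe.mpr hh, rfl⟩)
  have hg₀0 : Θ g₀ = 0 := hΘ₀ g₀ (self_mem_dc P₀ g₀)
  -- the key identity
  have hkey : ∀ x, Θ x = ∑ O : DC P₀, Θ (Quotient.out O) * Edc P₀ e (Quotient.out O) x := by
    intro x
    have h1 : Θ x = ∑ h, e (h * x⁻¹) * Θ h := by
      show θ (κ x) = _
      conv_lhs => rw [hk x]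
      rw [map_sum]
      simp only [map_smul, smul_eq_mul, Θ]
    rw [h1, sum_by_dc P₀]
    refine Finset.sum_congr rfl fun O _ => ?_
    rw [Edc, Finset.mul_sum]
    refine Finset.sum_congr rfl fun h hh => ?_
    obtain ⟨u, hu, v, hv, rfl⟩ := (mem_dc P₀).mp hh
    rw [hΘ _ u hu v hv, mul_comm]
  have hzero : ∀ x, Θ x = 0 := by
    intro x
    have h1 : Θ x * Edc P₀ e g₀ g₀ = Edc P₀ e g₀ x * Θ g₀ := by
      conv_rhs => rw [hkey g₀]
      rw [hkey x, Finset.sum_mul, Finset.mul_sum]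
      refine Finset.sum_congr rfl fun O _ => ?_
      have h2 := H1 (Quotient.out O) x g₀ g₀
      linear_combination (Θ (Quotient.out O)) * h2
    rw [hg₀0, mul_zero] at h1
    exact (mul_eq_zero.mp h1).resolve_right h0
  apply hθ0
  ext b
  have h3 : ∀ b : A, θ b = 0 := by
    intro b
    induction hspan b using Submodule.span_induction with
    | mem x hx =>
      obtain ⟨h, rfl⟩ := hx
      exact hzero h
    | zero => simp
    | add x y _ _ hx hy => rw [map_add, hx, hy, add_zero]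
    | smul c x _ hx => rw [map_smul, hx, smul_zero]
  rw [h3 b]
  rfl

end Nak

include hcl hP in
/-- The idempotent acts injectively on the span of a double coset with nonzero diagonal entry. -/
theorem inj_dc (g₀ : G) (H3 : ∑ h ∈ dc P₀ g₀, e (g₀ * h⁻¹) ≠ 0) (x : MonoidAlgebra F G)
    (hsupp : ∀ h, h ∉ dc P₀ g₀ → x.coeff h = 0) (hx : eltOf e * x = 0) : x = 0 := by
  classical
  by_contra hne
  let K : Submodule F (MonoidAlgebra F G) :=
    { carrier := {x | (∀ h, h ∉ dc P₀ g₀ → x.coeff h = 0) ∧ eltOf e * x = 0}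
      add_mem' := fun {a b} ha hb => ⟨fun h hh => by
        rw [coeff_add, Finsupp.add_apply, ha.1 h hh, hb.1 h hh, add_zero], by rw [mul_add, ha.2, hb.2, add_zero]⟩
      zero_mem' := ⟨fun h _ => rfl, mul_zero _⟩
      smul_mem' := fun c a ha => ⟨fun h hh => by
        rw [coeff_smul, Finsupp.smul_apply, ha.1 h hh, smul_zero], by rw [mul_smul_comm, ha.2, smul_zero]⟩ }
  have hmemK : ∀ y, y ∈ K ↔ (∀ h, h ∉ dc P₀ g₀ → y.coeff h = 0) ∧ eltOf e * y = 0 := fun _ => Iff.rfl
  have hK : K ≠ ⊥ := by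
    intro h
    have h1 : x ∈ K := (hmemK x).mpr ⟨hsupp, hx⟩
    rw [h, Submodule.mem_bot] at h1
    exact hne h1
  let LL : P₀ →* (MonoidAlgebra F G →ₗ[F] MonoidAlgebra F G) :=
    { toFun := fun u => LinearMap.mulLeft F (single (u : G) 1)
      map_one' := by
        ext a
        have h1 : (single ((1 : P₀) : G) (1 : F) : MonoidAlgebra F G) = 1 := rfl
        simp [h1]
      map_mul' := fun u v => by
        refine LinearMap.ext fun a => ?_
        simp only [LinearMap.mulLeft_apply, Module.End.mul_apply, Subgroup.coe_mul]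
        rw [← mul_assoc, single_mul_single, mul_one] }
  let RR : P₀ →* (MonoidAlgebra F G →ₗ[F] MonoidAlgebra F G) :=
    { toFun := fun v => LinearMap.mulRight F (single (v : G)⁻¹ 1)
      map_one' := by
        ext a
        have h1 : (single ((1 : P₀) : G)⁻¹ (1 : F) : MonoidAlgebra F G) = 1 := by
          simp only [Subgroup.coe_one, inv_one]
          rfl
        simp [h1]
      map_mul' := fun u v => by
        refine LinearMap.ext fun a => ?_
        simp only [LinearMap.mulRight_apply, Module.End.mul_apply, Subgroup.coe_mul, mul_inv_rev]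
        rw [mul_assoc, single_mul_single, mul_one] }
  have hLL : ∀ (u : P₀) a, LL u a = single (u : G) 1 * a := fun _ _ => rfl
  have hRR : ∀ (v : P₀) a, RR v a = a * single (v : G)⁻¹ 1 := fun _ _ => rfl
  obtain ⟨x₁, hx₁K, hx₁0, hx₁fix⟩ := exists_fixed_vector hP LL K (by
    intro u a ha
    rw [hmemK] at ha ⊢
    constructor
    · intro h hh
      rw [hLL, coeff_single_mul']
      apply ha.1
      intro h2
      apply hh
      have := mul_mem_dc P₀ h2 u.2 P₀.one_mem
      simpa using this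
    · rw [hLL, ← mul_assoc, eltOf_central hcl, mul_assoc, ha.2, mul_zero]) hK
  let K₁ : Submodule F (MonoidAlgebra F G) := K ⊓ ⨅ u : P₀, LinearMap.ker (LL u - LinearMap.id)
  have hmemK₁ : ∀ y, y ∈ K₁ ↔ y ∈ K ∧ ∀ u : P₀, LL u y = y := by
    intro y
    simp only [K₁, Submodule.mem_inf, Submodule.mem_iInf, LinearMap.mem_ker, LinearMap.sub_apply, LinearMap.id_apply, sub_eq_zero]
  have hK₁ : K₁ ≠ ⊥ := by
    intro h
    have h1 : x₁ ∈ K₁ := (hmemK₁ x₁).mpr ⟨hx₁K, hx₁fix⟩
    rw [h, Submodule.mem_bot] at h1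
    exact hx₁0 h1
  obtain ⟨x₀, hx₀K, hx₀0, hx₀fix⟩ := exists_fixed_vector hP RR K₁ (by
    intro v a ha
    rw [hmemK₁, hmemK] at ha ⊢
    refine ⟨⟨?_, ?_⟩, ?_⟩
    · intro h hh
      rw [hRR, coeff_mul_single', inv_inv]
      apply ha.1.1
      intro h2
      apply hh
      have := mul_mem_dc P₀ h2 P₀.one_mem (P₀.inv_mem v.2)
      simpa using this
    · rw [hRR, ← mul_assoc, ha.1.2, zero_mul]
    · intro u
      rw [hRR, hLL, ← mul_assoc, ← hLL, ha.2 u]) hK₁
  have hx₀' := (hmemK₁ x₀).mp hx₀K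
  have hx₀'' := (hmemK x₀).mp hx₀'.1
  have hinv : ∀ h ∈ dc P₀ g₀, x₀.coeff h = x₀.coeff g₀ := by
    intro h hh
    obtain ⟨u, hu, v, hv, rfl⟩ := (mem_dc P₀).mp hh
    have h1 : x₀.coeff (u * g₀ * v) = x₀.coeff (g₀ * v) := by
      conv_lhs => rw [← hx₀'.2 ⟨u, hu⟩]
      rw [hLL, coeff_single_mul']
      congr 1
      simp [mul_assoc]
    have h2 : x₀.coeff (g₀ * v) = x₀.coeff g₀ := by
      conv_rhs => rw [← hx₀fix ⟨v, hv⟩]
      rw [hRR, coeff_mul_single', inv_inv]
    rw [h1, h2]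
  have hc : x₀.coeff g₀ ≠ 0 := by
    intro h0
    apply hx₀0
    apply alg_ext
    intro h
    by_cases hh : h ∈ dc P₀ g₀
    · rw [hinv h hh, h0]
      rfl
    · rw [hx₀''.1 h hh]
      rfl
  have h5 := congrArg (fun a : MonoidAlgebra F G => a.coeff g₀) hx₀''.2
  simp only [coeff_elt_mul] at h5
  have h6 : ∑ h, x₀.coeff h * e (g₀ * h⁻¹) = x₀.coeff g₀ * ∑ h ∈ dc P₀ g₀, e (g₀ * h⁻¹) := by
    rw [Finset.mul_sum]
    symm
    refine Finset.sum_subset_zero_on_sdiff (Finset.subset_univ _) ?_ ?_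
    · intro h hh
      rw [hx₀''.1 h (Finset.mem_sdiff.mp hh).2, zero_mul]
    · intro h hh
      rw [hinv h hh]
  rw [h6] at h5
  exact (mul_ne_zero hc H3) h5

include hcl hP in
/-- The fixed point argument. -/
theorem exists_fix_of_dc (g₀ : G)
    (hsurj : ∀ t : G, ∃ x : MonoidAlgebra F G, (∀ h, h ∉ dc P₀ g₀ → x.coeff h = 0) ∧ eltOf e * x = eltOf e * single t 1)
    (hinj : ∀ x : MonoidAlgebra F G, (∀ h, h ∉ dc P₀ g₀ → x.coeff h = 0) → eltOf e * x = 0 → x = 0)
    (Q : Subgroup G) (hQ : Q ≤ P₀) (t : G) (htQ : ∀ u ∈ Q, t * u * t⁻¹ ∈ Q) (c₀ : G) (hc₀ : ∀ u ∈ Q, c₀ * u = u * c₀)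
    (hec : e c₀ ≠ 0) : ∃ ω ∈ dc P₀ g₀, ∀ u ∈ Q, t * u * t⁻¹ * ω = ω * u := by
  classical
  obtain ⟨x, hx1, hx2⟩ := hsurj t
  have hcenter : ∀ a : MonoidAlgebra F G, eltOf e * a = a * eltOf e := eltOf_central hcl
  -- invariance of x
  have hxinv : ∀ u ∈ Q, ∀ z, x.coeff (t * u * t⁻¹ * z * u⁻¹) = x.coeff z := by
    intro u hu z
    set φ := t * u * t⁻¹ with hφ
    have hφP : φ ∈ P₀ := hQ (htQ u hu)
    have huP : u ∈ P₀ := hQ hu
    let x' : MonoidAlgebra F G := single φ⁻¹ 1 * x * single u 1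
    have hx'c : ∀ z, x'.coeff z = x.coeff (φ * z * u⁻¹) := by
      intro z
      simp only [x']
      rw [coeff_mul_single', coeff_single_mul', inv_inv]
      congr 1
      group
    have hx' : eltOf e * x' = eltOf e * single t 1 := by
      calc eltOf e * x' = single φ⁻¹ 1 * (eltOf e * x) * single u 1 := by
            simp only [x', ← mul_assoc]
            rw [hcenter (single φ⁻¹ 1)]
        _ = single φ⁻¹ 1 * (eltOf e * single t 1) * single u 1 := by rw [hx2]
        _ = eltOf e * (single φ⁻¹ 1 * single t 1 * single u 1) := by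
            rw [← mul_assoc, ← hcenter (single φ⁻¹ 1)]
            simp only [mul_assoc]
        _ = _ := by
            rw [single_mul_single, single_mul_single, mul_one, mul_one]
            congr 2
            rw [hφ]
            group
    have h1 : x' = x := by
      have h2 : x' - x = 0 := by
        apply hinj
        · intro h hh
          rw [coeff_sub, Finsupp.sub_apply, hx'c, hx1 h hh, sub_zero]
          apply hx1
          intro h3
          apply hh
          have := mul_mem_dc P₀ h3 (P₀.inv_mem hφP) huP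
          convert this using 1
          group
        · rw [mul_sub, hx', hx2, sub_self]
      exact sub_eq_zero.mp h2
    rw [← hx'c, h1]
  by_contra hcon
  push Not at hcon
  set z := c₀ * t with hz
  let X := {h // h ∈ dc P₀ g₀}
  have hact : ∀ (u : Q) (h : X), t * (u : G) * t⁻¹ * h.1 * (u : G)⁻¹ ∈ dc P₀ g₀ := fun u h =>
    mul_mem_dc P₀ h.2 (hQ (htQ u u.2)) (P₀.inv_mem (hQ u.2))
  letI : MulAction Q X :=
    { smul := fun u h => ⟨t * (u : G) * t⁻¹ * h.1 * (u : G)⁻¹, hact u h⟩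
      one_smul := fun h => by
        apply Subtype.ext
        show t * ((1 : Q) : G) * t⁻¹ * h.1 * ((1 : Q) : G)⁻¹ = h.1
        simp
      mul_smul := fun u v h => by
        apply Subtype.ext
        show t * ((u * v : Q) : G) * t⁻¹ * h.1 * ((u * v : Q) : G)⁻¹ =
          t * (u : G) * t⁻¹ * (t * (v : G) * t⁻¹ * h.1 * (v : G)⁻¹) * (u : G)⁻¹
        simp only [Subgroup.coe_mul]
        group }
  have hsmul : ∀ (u : Q) (h : X), ((u • h : X) : G) = t * (u : G) * t⁻¹ * h.1 * (u : G)⁻¹ := fun _ _ => rfl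
  have hsum := sum_eq_zero_of_no_fixed (p := p) (hP.to_le hQ) (fun h : X => x.coeff h.1 * e (z * h.1⁻¹))
    (by
      intro u h
      simp only [hsmul]
      rw [hxinv u u.2]
      congr 1
      rw [← hcl (z * h.1⁻¹) (t * (u : G) * t⁻¹)]
      congr 1
      have h3 : z * (u : G) = t * (u : G) * t⁻¹ * z := by
        rw [hz]
        calc c₀ * t * (u : G) = c₀ * (t * (u : G) * t⁻¹) * t := by group
          _ = t * (u : G) * t⁻¹ * c₀ * t := by rw [hc₀ _ (htQ u u.2)]
          _ = _ := by group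
      calc z * (t * (u : G) * t⁻¹ * h.1 * (u : G)⁻¹)⁻¹ = z * (u : G) * h.1⁻¹ * (t * (u : G) * t⁻¹)⁻¹ := by group
        _ = _ := by rw [h3]; group)
    (by
      intro h
      obtain ⟨u, hu, hne⟩ := hcon h.1 h.2
      refine ⟨⟨u, hu⟩, fun h2 => hne ?_⟩
      have h3 := congrArg Subtype.val h2
      rw [hsmul] at h3
      calc t * u * t⁻¹ * h.1 = t * u * t⁻¹ * h.1 * u⁻¹ * u := by group
        _ = h.1 * u := by
          show t * u * t⁻¹ * h.1 * (u : G)⁻¹ * u = _
          rw [show t * u * t⁻¹ * h.1 * (u : G)⁻¹ = h.1 from h3])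
  have h5 : (eltOf e * x).coeff z = ∑ h : X, x.coeff h.1 * e (z * h.1⁻¹) := by
    rw [coeff_elt_mul]
    rw [Finset.sum_coe_sort (dc P₀ g₀) (fun h => x.coeff h * e (z * h⁻¹))]
    symm
    refine Finset.sum_subset (Finset.subset_univ _) ?_
    intro h _ hh
    rw [hx1 h hh, zero_mul]
  rw [hsum, hx2, coeff_mul_single', coeff_eltOf, hz, mul_inv_cancel_right] at h5
  exact hec h5

include hcl hid in
/-- **The fusion conclusion.** -/
theorem fusion_of_rank_one [Fintype P₀] (hP : IsPGroup p P₀)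
    (H1 : ∀ x₁ y₁ x₂ y₂, Edc P₀ e x₁ y₁ * Edc P₀ e x₂ y₂ = Edc P₀ e x₁ y₂ * Edc P₀ e x₂ y₁)
    {g₀ : G} (h0 : Edc P₀ e g₀ g₀ ≠ 0) (H3 : ∑ h ∈ dc P₀ g₀, e (g₀ * h⁻¹) ≠ 0)
    (Dd : Subgroup G) (hDP : Dd ≤ P₀) {y₀ : G} (hy₀ : ∀ u ∈ Dd, y₀ * u = u * y₀) (hey : e y₀ ≠ 0)
    (hdim : finrank F (BA hcl) * Nat.card Dd = Fintype.card P₀ ^ 2)
    (Q : Subgroup G) (hQ : Q ≤ P₀) (t : G) (htQ : ∀ u ∈ Q, t * u * t⁻¹ ∈ Q) (c₀ : G) (hc₀ : ∀ u ∈ Q, c₀ * u = u * c₀)
    (hec : e c₀ ≠ 0) : ∃ w ∈ P₀, ∀ u ∈ Q, t * u * t⁻¹ = w * u * w⁻¹ := by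
  classical
  have hinj := inj_dc hcl P₀ hP g₀ H3
  have hspan := span_dc_eq_top P₀ hP (kapA hcl) (span_kapA hcl) (kap_eq_sum hcl hid) H1 h0
  have hlift : ∀ a ∈ Submodule.span F ((fun h => kapA hcl h) '' (dc P₀ g₀ : Set G)),
      ∃ x : MonoidAlgebra F G, (∀ h, h ∉ dc P₀ g₀ → x.coeff h = 0) ∧ qA hcl x = a := by
    intro a ha
    induction ha using Submodule.span_induction with
    | mem a ha =>
      obtain ⟨h, hh, rfl⟩ := ha
      refine ⟨single h 1, fun h' hh' => ?_, rfl⟩
      have : h ≠ h' := by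
        rintro rfl
        exact hh' (Finset.mem_coe.mp hh)
      simp [coeff_single, Finsupp.single_apply, this]
    | zero => exact ⟨0, fun _ _ => rfl, map_zero _⟩
    | add a b _ _ ha hb =>
      obtain ⟨x, hx, rfl⟩ := ha
      obtain ⟨y, hy, rfl⟩ := hb
      exact ⟨x + y, fun h hh => by rw [coeff_add, Finsupp.add_apply, hx h hh, hy h hh, add_zero], map_add _ _ _⟩
    | smul c a _ ha =>
      obtain ⟨x, hx, rfl⟩ := ha
      exact ⟨c • x, fun h hh => by rw [coeff_smul, Finsupp.smul_apply, hx h hh, smul_zero], map_smul _ _ _⟩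
  have hsurj : ∀ t : G, ∃ x : MonoidAlgebra F G, (∀ h, h ∉ dc P₀ g₀ → x.coeff h = 0) ∧ eltOf e * x = eltOf e * single t 1 := by
    intro t
    obtain ⟨x, hx, hq⟩ := hlift _ (hspan (kapA hcl t))
    refine ⟨x, hx, ?_⟩
    have h2 : qA hcl (x - single t 1) = 0 := by
      rw [map_sub, hq, sub_eq_zero]
      rfl
    rw [qA_eq_zero_iff, mul_sub, sub_eq_zero] at h2
    exact h2
  have hfix := exists_fix_of_dc hcl P₀ hP g₀ hsurj hinj
  -- the dimension
  have hfinrank : finrank F (BA hcl) = (dc P₀ g₀).card := by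
    let L : ({h // h ∈ dc P₀ g₀} → F) →ₗ[F] BA hcl :=
      { toFun := fun c => ∑ h, c h • kapA hcl h.1
        map_add' := fun c d => by simp only [Pi.add_apply, add_smul, Finset.sum_add_distrib]
        map_smul' := fun a c => by simp only [Pi.smul_apply, smul_eq_mul, mul_smul, Finset.smul_sum, RingHom.id_apply] }
    have hLbij : Function.Bijective L := by
      constructor
      · rw [injective_iff_map_eq_zero]
        intro c hc
        let X : MonoidAlgebra F G := ∑ h : {h // h ∈ dc P₀ g₀}, single h.1 (c h)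
        have hX : ∀ h : {h // h ∈ dc P₀ g₀}, X.coeff h.1 = c h := by
          intro h
          simp only [X, coeff_sum, Finsupp.finsetSum_apply, coeff_single, Finsupp.single_apply]
          rw [Finset.sum_eq_single h]
          · simp
          · intro b _ hb
            rw [if_neg]
            intro h2
            exact hb (Subtype.ext h2)
          · simp
        have hXout : ∀ h, h ∉ dc P₀ g₀ → X.coeff h = 0 := by
          intro h hh
          simp only [X, coeff_sum, Finsupp.finsetSum_apply, coeff_single, Finsupp.single_apply]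
          refine Finset.sum_eq_zero fun b _ => ?_
          rw [if_neg]
          intro h2
          exact hh (h2 ▸ b.2)
        have hXq : qA hcl X = L c := by
          simp only [X, map_sum]
          refine Finset.sum_congr rfl fun h _ => ?_
          have h2 : (single h.1 (c h) : MonoidAlgebra F G) = c h • single h.1 1 := by
            rw [smul_single, smul_eq_mul, mul_one]
          rw [h2, map_smul]
          rfl
        have hX0 : X = 0 := hinj X hXout (by
          rw [← qA_eq_zero_iff hcl, hXq, hc])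
        funext h
        rw [← hX h, hX0]
        rfl
      · intro a
        obtain ⟨x, hx, rfl⟩ := hlift a (hspan a)
        refine ⟨fun h => x.coeff h.1, ?_⟩
        show ∑ h : {h // h ∈ dc P₀ g₀}, x.coeff h.1 • kapA hcl h.1 = _
        conv_rhs => rw [eq_sum_single x, map_sum]
        rw [Finset.sum_coe_sort (dc P₀ g₀) (fun h => x.coeff h • kapA hcl h)]
        refine Finset.sum_subset_zero_on_sdiff (Finset.subset_univ _) ?_ ?_
        · intro h hh
          rw [hx h (Finset.mem_sdiff.mp hh).2]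
          simp
        · intro h _
          have h2 : (single h (x.coeff h) : MonoidAlgebra F G) = x.coeff h • single h 1 := by
            rw [smul_single, smul_eq_mul, mul_one]
          rw [h2, map_smul]
          rfl
    rw [← (LinearEquiv.ofBijective L hLbij).finrank_eq, Module.finrank_fintype_fun_eq_card]
    simp
  -- the base point
  obtain ⟨ω₀, hω₀, hω₀c⟩ := hfix Dd hDP 1 (by simpa using fun u hu => hu) y₀ hy₀ hey
  have hω₀c' : ∀ u ∈ Dd, u * ω₀ = ω₀ * u := by
    intro u hu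
    simpa using hω₀c u hu
  have hdcω : dc P₀ ω₀ = dc P₀ g₀ := dc_eq_of_mem P₀ hω₀
  have hcardnS : nStab P₀ ω₀ = Nat.card Dd := by
    have h2 := nStab_mul_card P₀ ω₀
    rw [hdcω, ← hfinrank, ← hdim] at h2
    have hpos : 0 < finrank F (BA hcl) := by
      by_contra h3
      have h4 : finrank F (BA hcl) = 0 := by omega
      rw [h4] at h2
      simp only [mul_zero, zero_mul] at h2
      have := Fintype.card_pos (α := P₀)
      have h5 : Fintype.card P₀ ^ 2 = 0 := by
        rw [← hdim, h4, zero_mul]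
      have h6 : 0 < Fintype.card P₀ ^ 2 := by positivity
      omega
    have h7 : nStab P₀ ω₀ * finrank F (BA hcl) = Nat.card Dd * finrank F (BA hcl) := by
      rw [h2]
      ring
    exact Nat.eq_of_mul_eq_mul_right hpos h7
  -- the intersection is the defect group
  have hI : ∀ v ∈ P₀, ω₀ * v * ω₀⁻¹ ∈ P₀ → v ∈ Dd := by
    let In : Finset P₀ := univ.filter (fun v : P₀ => ω₀ * (v : G) * ω₀⁻¹ ∈ P₀)
    let D' : Finset P₀ := univ.filter (fun v : P₀ => (v : G) ∈ Dd)
    have hD'In : D' ⊆ In := by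
      intro v hv
      have h2 : (v : G) ∈ Dd := (Finset.mem_filter.mp hv).2
      refine Finset.mem_filter.mpr ⟨Finset.mem_univ _, ?_⟩
      have h3 : ω₀ * (v : G) * ω₀⁻¹ = v := by
        rw [← hω₀c' _ h2]
        group
      rw [h3]
      exact v.2
    have hcardD' : D'.card = Nat.card Dd := by
      rw [Nat.card_eq_fintype_card]
      refine Finset.card_bij' (i := fun v hv => ⟨v.1, (Finset.mem_filter.mp hv).2⟩) (j := fun v _ => ⟨v.1, hDP v.2⟩) ?_ ?_ ?_ ?_ (s := D') (t := Finset.univ)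
      · intro _ _
        exact Finset.mem_univ _
      · intro v _
        exact Finset.mem_filter.mpr ⟨Finset.mem_univ _, v.2⟩
      · intro _ _
        rfl
      · intro _ _
        rfl
    have hcardIn : In.card = nStab P₀ ω₀ := by
      rw [nStab]
      refine Finset.card_bij (fun v hv => (⟨ω₀ * (v : G)⁻¹ * ω₀⁻¹, ?_⟩, v)) ?_ ?_ ?_
      · have h2 := (Finset.mem_filter.mp hv).2
        have h3 := P₀.inv_mem h2
        convert h3 using 1
        group
      · intro v hv
        refine Finset.mem_filter.mpr ⟨Finset.mem_univ _, ?_⟩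
        show ω₀ * (v : G)⁻¹ * ω₀⁻¹ * ω₀ * (v : G) = ω₀
        group
      · intro v _ v' _ h2
        exact (Prod.mk.inj h2).2
      · rintro ⟨a, b⟩ hab
        have h2 : (a : G) * ω₀ * (b : G) = ω₀ := (Finset.mem_filter.mp hab).2
        have h3 : (a : G) = ω₀ * (b : G)⁻¹ * ω₀⁻¹ := by
          calc (a : G) = ((a : G) * ω₀ * (b : G)) * (b : G)⁻¹ * ω₀⁻¹ := by group
            _ = _ := by rw [h2]
        have h4 : ω₀ * (b : G) * ω₀⁻¹ = (a : G)⁻¹ := by
          rw [h3]
          group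
        refine ⟨b, Finset.mem_filter.mpr ⟨Finset.mem_univ _, ?_⟩, ?_⟩
        · rw [h4]
          exact P₀.inv_mem a.2
        · apply Prod.ext
          · apply Subtype.ext
            exact h3.symm
          · rfl
    have hEq : D' = In := Finset.eq_of_subset_of_card_le hD'In (by rw [hcardIn, hcardD', hcardnS])
    intro v hv hv2
    have h2 : (⟨v, hv⟩ : P₀) ∈ In := Finset.mem_filter.mpr ⟨Finset.mem_univ _, hv2⟩
    rw [← hEq] at h2
    exact (Finset.mem_filter.mp h2).2
  -- the general case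
  obtain ⟨ω, hω, hωc⟩ := hfix Q hQ t htQ c₀ hc₀ hec
  rw [← hdcω] at hω
  obtain ⟨a, ha, b, hb, rfl⟩ := (mem_dc P₀).mp hω
  refine ⟨a * b, P₀.mul_mem ha hb, fun u hu => ?_⟩
  have h2 : t * u * t⁻¹ = (a * ω₀ * b) * u * (a * ω₀ * b)⁻¹ := by
    rw [← hωc u hu]
    group
  have huP := hQ hu
  have hvP : b * u * b⁻¹ ∈ P₀ := P₀.mul_mem (P₀.mul_mem hb huP) (P₀.inv_mem hb)
  have h3 : ω₀ * (b * u * b⁻¹) * ω₀⁻¹ = a⁻¹ * (t * u * t⁻¹) * a := by
    rw [h2]
    group
  have h4 : ω₀ * (b * u * b⁻¹) * ω₀⁻¹ ∈ P₀ := by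
    rw [h3]
    exact P₀.mul_mem (P₀.mul_mem (P₀.inv_mem ha) (hQ (htQ u hu))) ha
  have h5 := hI _ hvP h4
  have h6 : ω₀ * (b * u * b⁻¹) * ω₀⁻¹ = b * u * b⁻¹ := by
    rw [← hω₀c' _ h5]
    group
  rw [h6] at h3
  calc t * u * t⁻¹ = a * (a⁻¹ * (t * u * t⁻¹) * a) * a⁻¹ := by group
    _ = a * (b * u * b⁻¹) * a⁻¹ := by rw [h3]
    _ = _ := by group

end Abstract

end Cfsg.Agent.Lib.LocalAlg
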