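import Cfsg.Agent.Lib.LocalAlg.MinDim

/-!
# Blocks of minimal dimension: the character computation
-/

set_option autoImplicit false
set_option linter.unusedSectionVars false
set_option linter.unusedVariables false

namespace Cfsg.Agent.Lib.LocalAlg

open Cfsg Cfsg.Agent.Lib.Char Cfsg.Agent.Lib.Blocks Cfsg.Agent.Lib.H8Group Finset Module MonoidAlgebra
open scoped ComplexConjugate

universe u v

section Rep

variable {G : Type u} [Group G] [Fintype G] (P₀ : Subgroup G) [Fintype P₀]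

theorem avg_facts {χ : G → ℂ} (hχ : IsIrrCharacter G χ) :
    ∃ m : ℕ, (∑ u : P₀, χ u = (Fintype.card P₀ : ℂ) * m) ∧ (m = 0 → ∀ x, ∑ u : P₀, χ (u * x) = 0) ∧
      (m = 1 → ∀ g y, ∑ u : P₀, ∑ v : P₀, χ (u * g * v * y) =
        (∑ u : P₀, χ (u * g)) * (∑ v : P₀, χ (v * y))) := by
  classical
  obtain ⟨n, ρ, hρ, rfl⟩ := hχ
  have hN : (Fintype.card P₀ : ℂ) ≠ 0 := Nat.cast_ne_zero.mpr Fintype.card_ne_zero
  set N : ℂ := (Fintype.card P₀ : ℂ) with hNdef
  let R : Module.End ℂ (Fin n → ℂ) := ∑ u : P₀, ρ u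
  let T : Module.End ℂ (Fin n → ℂ) := N⁻¹ • R
  have hRR : R * R = N • R := by
    simp only [R]
    rw [Finset.sum_mul]
    have h1 : ∀ u : P₀, ρ u * ∑ v : P₀, ρ v = ∑ w : P₀, ρ w := by
      intro u
      rw [Finset.mul_sum]
      refine Fintype.sum_equiv (Equiv.mulLeft u) _ _ fun v => ?_
      simp only [Equiv.coe_mulLeft, Subgroup.coe_mul, map_mul]
    rw [Finset.sum_congr rfl fun u _ => h1 u, Finset.sum_const, Finset.card_univ, hNdef, Nat.cast_smul_eq_nsmul]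
  have hTT : T * T = T := by
    simp only [T]
    rw [smul_mul_assoc, mul_smul_comm, hRR, smul_smul, smul_smul]
    congr 1
    field_simp
  have hchar : ∀ x, ρ.character x = LinearMap.trace ℂ (Fin n → ℂ) (ρ x) := fun _ => rfl
  have hNT : ∀ A : Module.End ℂ (Fin n → ℂ), N * LinearMap.trace ℂ (Fin n → ℂ) (T * A) =
      ∑ u : P₀, LinearMap.trace ℂ (Fin n → ℂ) (ρ u * A) := by
    intro A
    simp only [T, R]
    rw [smul_mul_assoc, map_smul, smul_eq_mul, ← mul_assoc, mul_inv_cancel₀ hN, one_mul, Finset.sum_mul, map_sum]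
  have hproj := LinearMap.IsIdempotentElem.isProj_range T hTT
  have htrT : LinearMap.trace ℂ (Fin n → ℂ) T = (finrank ℂ (LinearMap.range T) : ℂ) := hproj.trace
  refine ⟨finrank ℂ (LinearMap.range T), ?_, ?_, ?_⟩
  · rw [← htrT]
    have h1 := hNT 1
    rw [mul_one] at h1
    rw [h1]
    simp only [mul_one]
    rfl
  · intro hm x
    have h1 : T = 0 := by
      have h2 : LinearMap.range T = ⊥ := Submodule.finrank_eq_zero.mp hm
      exact LinearMap.range_eq_bot.mp h2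
    have h3 := hNT (ρ x)
    rw [h1, zero_mul, map_zero, mul_zero] at h3
    have h4 : ∀ u : P₀, ρ.character (u * x) = LinearMap.trace ℂ (Fin n → ℂ) (ρ u * ρ x) := fun u => by
      rw [hchar, map_mul ρ]
    rw [Finset.sum_congr rfl fun u _ => h4 u]
    exact h3.symm
  · intro hm g y
    obtain ⟨v, hv0, hv⟩ := finrank_eq_one_iff'.mp hm
    have hTv : ∀ w, ∃ s : ℂ, s • (v : Fin n → ℂ) = T w := by
      intro w
      obtain ⟨s, hs⟩ := hv ⟨T w, w, rfl⟩
      exact ⟨s, congrArg Subtype.val hs⟩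
    have hTfix : T (v : Fin n → ℂ) = v := by
      obtain ⟨w, hw⟩ := v.2
      rw [← hw]
      show (T * T) w = T w
      rw [hTT]
    have hkey : ∀ A : Module.End ℂ (Fin n → ℂ),
        T * A * T = LinearMap.trace ℂ (Fin n → ℂ) (T * A) • T := by
      intro A
      obtain ⟨c, hc⟩ := hTv (A (v : Fin n → ℂ))
      have h1 : T * A * T = c • T := by
        refine LinearMap.ext fun w => ?_
        obtain ⟨s, hs⟩ := hTv w
        simp only [Module.End.mul_apply, LinearMap.smul_apply]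
        rw [← hs, map_smul, map_smul, ← hc, smul_comm]
      have h2 : LinearMap.trace ℂ (Fin n → ℂ) (T * A * T) = LinearMap.trace ℂ (Fin n → ℂ) (T * A) := by
        rw [LinearMap.trace_mul_comm, ← mul_assoc, hTT]
      rw [h1, map_smul, htrT, hm, smul_eq_mul] at h2
      simp only [Nat.cast_one, mul_one] at h2
      rw [h1, h2]
    have hR : R = N • T := by
      simp only [T, smul_smul, mul_inv_cancel₀ hN, one_smul]
    have h1 : N * N * LinearMap.trace ℂ (Fin n → ℂ) (T * ρ g * T * ρ y) =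
        ∑ u : P₀, ∑ v : P₀, ρ.character (u * g * v * y) := by
      have h2 : N * N * LinearMap.trace ℂ (Fin n → ℂ) (T * ρ g * T * ρ y) =
          LinearMap.trace ℂ (Fin n → ℂ) (R * ρ g * R * ρ y) := by
        rw [hR]
        simp only [smul_mul_assoc, mul_smul_comm, map_smul, smul_eq_mul]
        ring
      rw [h2]
      simp only [R, Finset.sum_mul, Finset.mul_sum, map_sum]
      rw [Finset.sum_comm]
      refine Finset.sum_congr rfl fun u _ => Finset.sum_congr rfl fun v _ => ?_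
      rw [hchar]
      simp only [map_mul ρ]
    have h6 : ∀ x, N * LinearMap.trace ℂ (Fin n → ℂ) (T * ρ x) = ∑ u : P₀, ρ.character (u * x) := by
      intro x
      rw [hNT]
      refine Finset.sum_congr rfl fun u _ => ?_
      rw [hchar, map_mul ρ]
    rw [← h1, ← h6, ← h6, hkey (ρ g), smul_mul_assoc, map_smul, smul_eq_mul]
    ring

end Rep

section Block

variable {G : Type u} [Group G] [Fintype G] {p : ℕ} [hp : Fact p.Prime] {M : Ideal AlgInt} [hMp : M.IsPrime]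
  (P₀ : Subgroup G) [Fintype P₀]

/-- The unique character of the block containing the trivial character of a Sylow subgroup. -/
theorem exists_fixed_char (hM : IsPModular p M) {B : Set (IrrCharacter G)} (hB : IsPBlock M B)
    {a d : ℕ} (ha : (Nat.card G).factorization p = a) (hcard : Nat.card P₀ = p ^ a)
    (hdd : blockDefect p B = d)
    (hmin : ∑ᶠ χ ∈ B, charDegree (χ : G → ℂ) ^ 2 = p ^ (2 * a - d)) :
    ∃ χ₀ ∈ B, (∑ u : P₀, (χ₀ : G → ℂ) u = (Fintype.card P₀ : ℂ)) ∧ ∀ χ ∈ B, χ ≠ χ₀ → ∑ u : P₀, (χ : G → ℂ) u = 0 := by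
  classical
  have hpp : p.Prime := hp.out
  have hN : (Fintype.card P₀ : ℂ) ≠ 0 := Nat.cast_ne_zero.mpr Fintype.card_ne_zero
  choose m hm1 hm2 hm3 using fun χ : IrrCharacter G => avg_facts P₀ χ.2
  set X := (univ.filter (· ∈ B) : Finset (IrrCharacter G)) with hXdef
  have hBX : B = (X : Set (IrrCharacter G)) := by
    ext χ
    simp [hXdef]
  have hmemX : ∀ χ, χ ∈ X ↔ χ ∈ B := fun χ => by simp [hXdef]
  have hdeg1 : ∀ χ : IrrCharacter G, (χ : G → ℂ) 1 = (charDegree (χ : G → ℂ) : ℂ) := fun χ => irr_one_eq χ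
  have hsum2 : ∑ χ ∈ X, charDegree (χ : G → ℂ) ^ 2 = p ^ (2 * a - d) := by
    rw [← hmin, hBX, finsum_mem_coe_finset]
  -- the degree count
  have hortho : ∀ u : G, u ≠ 1 → u ∈ P₀ → ∑ χ ∈ X, (χ : G → ℂ) 1 * (χ : G → ℂ) u = 0 := by
    intro u hu huP
    have hPp : IsPGroup p P₀ := by
      apply IsPGroup.of_card
      exact hcard
    obtain ⟨k, hk⟩ := (IsPGroup.iff_orderOf.mp hPp) ⟨u, huP⟩
    have hord : orderOf u = p ^ k := by
      rw [← hk]
      exact (Subgroup.orderOf_mk u huP).symm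
    have hk0 : k ≠ 0 := by
      rintro rfl
      rw [pow_zero, orderOf_eq_one_iff] at hord
      exact hu hord
    have hy : p ∣ orderOf u⁻¹ := by
      rw [orderOf_inv, hord]
      exact dvd_pow_self p hk0
    have hone : ¬ p ∣ orderOf (1 : G) := by
      rw [orderOf_one]
      exact hpp.one_lt.ne' ∘ Nat.dvd_one.mp
    have h1 := weak_block_orthogonality hM hB hone hy
    rw [hBX, finsum_mem_coe_finset] at h1
    rw [← h1]
    refine Finset.sum_congr rfl fun χ _ => ?_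
    rw [irr_apply_inv, Complex.conj_conj]
  have hcount : (Fintype.card P₀ : ℂ) * ∑ χ ∈ X, (charDegree (χ : G → ℂ) : ℂ) * (m χ : ℂ) =
      ∑ χ ∈ X, (charDegree (χ : G → ℂ) : ℂ) ^ 2 := by
    have h1 : ∑ u : P₀, ∑ χ ∈ X, (χ : G → ℂ) 1 * (χ : G → ℂ) u = ∑ χ ∈ X, (charDegree (χ : G → ℂ) : ℂ) ^ 2 := by
      rw [Finset.sum_eq_single (1 : P₀)]
      · refine Finset.sum_congr rfl fun χ _ => ?_
        simp only [Subgroup.coe_one, hdeg1]
        ring
      · intro u _ hu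
        exact hortho u (fun h => hu (Subtype.ext h)) u.2
      · simp
    rw [← h1, Finset.sum_comm, Finset.mul_sum]
    refine Finset.sum_congr rfl fun χ _ => ?_
    rw [← Finset.mul_sum, hm1 χ, hdeg1]
    ring
  have hcountN : Fintype.card P₀ * ∑ χ ∈ X, charDegree (χ : G → ℂ) * m χ = p ^ (2 * a - d) := by
    rw [← hsum2]
    exact_mod_cast hcount
  have hcardF : Fintype.card P₀ = p ^ a := by rw [← hcard, Nat.card_eq_fintype_card]
  obtain ⟨χ₁, hχ₁⟩ := IsPBlock.nonempty hB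
  have hda : d ≤ a := by
    have h2 := card_val_eq_minVal_add_defect (p := p) (IsPBlock.nonempty hB)
    omega
  have h2a : 2 * a - d = a + (a - d) := by omega
  have hcountN2 : ∑ χ ∈ X, charDegree (χ : G → ℂ) * m χ = p ^ (a - d) := by
    rw [hcardF, h2a, pow_add] at hcountN
    exact Nat.eq_of_mul_eq_mul_left (pow_pos hpp.pos a) hcountN
  have hdvd : ∀ χ ∈ X, p ^ (a - d) ∣ charDegree (χ : G → ℂ) := by
    intro χ hχ
    have h3 := val_eq_minVal_add_height (p := p) ((hmemX χ).mp hχ)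
    have h4 := card_val_eq_minVal_add_defect (p := p) (IsPBlock.nonempty hB)
    rw [hpp.pow_dvd_iff_le_factorization (charDegree_pos χ.2).ne']
    omega
  choose! x hx using hdvd
  have hxpos : ∀ χ ∈ X, 0 < x χ := by
    intro χ hχ
    rcases Nat.eq_zero_or_pos (x χ) with h0 | h0
    · have h3 := hx χ hχ
      rw [h0, mul_zero] at h3
      exact absurd h3 (charDegree_pos χ.2).ne'
    · exact h0
  have hone : ∑ χ ∈ X, x χ * m χ = 1 := by
    have h3 : p ^ (a - d) * ∑ χ ∈ X, x χ * m χ = ∑ χ ∈ X, charDegree (χ : G → ℂ) * m χ := by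
      rw [Finset.mul_sum]
      refine Finset.sum_congr rfl fun χ hχ => ?_
      conv_rhs => rw [hx χ hχ]
      ring
    exact Nat.eq_of_mul_eq_mul_left (pow_pos hpp.pos (a - d)) (h3.trans (by rw [hcountN2, mul_one]))
  obtain ⟨χ₀, hχ₀X, hχ₀ne⟩ := Finset.exists_ne_zero_of_sum_ne_zero (s := X) (f := fun χ => x χ * m χ) (by rw [hone]; exact one_ne_zero)
  have hrest := Finset.add_sum_erase X (fun χ => x χ * m χ) hχ₀X
  rw [hone] at hrest
  have hpos₀ : 0 < x χ₀ * m χ₀ := Nat.pos_of_ne_zero hχ₀ne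
  have herase : ∑ χ ∈ X.erase χ₀, x χ * m χ = 0 := by
    omega
  have hm₀ : m χ₀ = 1 := by
    have h3 : x χ₀ * m χ₀ = 1 := by
      omega
    exact Nat.eq_one_of_mul_eq_one_left h3
  refine ⟨χ₀, (hmemX χ₀).mp hχ₀X, ?_, ?_⟩
  · rw [hm1 χ₀, hm₀, Nat.cast_one, mul_one]
  · intro χ hχ hne
    have h3 := (Finset.sum_eq_zero_iff.mp herase) χ (Finset.mem_erase.mpr ⟨hne, (hmemX χ).mpr hχ⟩)
    have h4 : m χ = 0 := (mul_eq_zero.mp h3).resolve_left (hxpos χ ((hmemX χ).mpr hχ)).ne'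
    rw [hm1 χ, h4, Nat.cast_zero, mul_zero]

/-- The double sum of the coefficients of the block idempotent. -/
noncomputable def Wdc (B : Set (IrrCharacter G)) (g y : G) : ℂ :=
  ∑ u : P₀, ∑ v : P₀, coef (indic B) ((u : G) * g * v * y⁻¹)

/-- The product form of the double sum. -/
theorem Wdc_eq {B : Set (IrrCharacter G)} {χ₀ : IrrCharacter G} (hχ₀ : χ₀ ∈ B)
    (hfix : ∑ u : P₀, (χ₀ : G → ℂ) u = (Fintype.card P₀ : ℂ))
    (hzero : ∀ χ ∈ B, χ ≠ χ₀ → ∑ u : P₀, (χ : G → ℂ) u = 0) (g y : G) :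
    Wdc P₀ B g y = (Nat.card G : ℂ)⁻¹ * (χ₀ : G → ℂ) 1 *
      (conj (∑ u : P₀, (χ₀ : G → ℂ) (u * g)) * conj (∑ v : P₀, (χ₀ : G → ℂ) (v * y⁻¹))) := by
  classical
  have hN : (Fintype.card P₀ : ℂ) ≠ 0 := Nat.cast_ne_zero.mpr Fintype.card_ne_zero
  obtain ⟨m₀, h₀1, h₀2, h₀3⟩ := avg_facts P₀ χ₀.2
  have hm₀ : m₀ = 1 := by
    rw [hfix] at h₀1
    have h3 : (Fintype.card P₀ : ℂ) * 1 = (Fintype.card P₀ : ℂ) * m₀ := by rw [mul_one]; exact h₀1
    have h4 := mul_left_cancel₀ hN h3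
    exact_mod_cast h4.symm
  have hrest : ∀ χ ∈ B, χ ≠ χ₀ → ∑ u : P₀, ∑ v : P₀, (χ : G → ℂ) (u * g * v * y⁻¹) = 0 := by
    intro χ hχ hne
    obtain ⟨m, h1, h2, -⟩ := avg_facts P₀ χ.2
    have hm : m = 0 := by
      rw [hzero χ hχ hne] at h1
      have h3 := (mul_eq_zero.mp h1.symm).resolve_left hN
      exact_mod_cast h3
    rw [Finset.sum_comm]
    refine Finset.sum_eq_zero fun v _ => ?_
    have h3 := h2 hm (g * v * y⁻¹)
    rw [← h3]
    refine Finset.sum_congr rfl fun u _ => ?_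
    congr 1
    group
  have h1 : Wdc P₀ B g y = (Nat.card G : ℂ)⁻¹ * ∑ χ : IrrCharacter G, indic B χ * ((χ : G → ℂ) 1 *
      conj (∑ u : P₀, ∑ v : P₀, (χ : G → ℂ) (u * g * v * y⁻¹))) := by
    simp only [Wdc, coef, map_sum, Finset.mul_sum]
    symm
    rw [Finset.sum_comm]
    refine Finset.sum_congr rfl fun u _ => ?_
    rw [Finset.sum_comm]
  rw [h1, Finset.sum_eq_single χ₀]
  · rw [indic_apply_of_mem hχ₀, one_mul, h₀3 hm₀ g y⁻¹, map_mul]
    ring
  · intro χ _ hne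
    by_cases hχ : χ ∈ B
    · rw [hrest χ hχ hne, map_zero, mul_zero, mul_zero]
    · rw [indic_apply_of_notMem hχ, zero_mul]
  · simp

theorem Wdc_eq_smul (B : Set (IrrCharacter G)) (g y : G) :
    Wdc P₀ B g y = nStab P₀ g • Edc P₀ (coef (indic B)) g y := by
  have h1 := sum_pairs P₀ (fun h => coef (indic B) (h * y⁻¹)) g
  exact h1

theorem nStab_cast_ne (g : G) : ((nStab P₀ g : ℕ) : ℂ) ≠ 0 := Nat.cast_ne_zero.mpr (nStab_pos P₀ g).ne'

/-- Rank one in characteristic zero. -/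
theorem Edc_rank_one {B : Set (IrrCharacter G)} {χ₀ : IrrCharacter G} (hχ₀ : χ₀ ∈ B)
    (hfix : ∑ u : P₀, (χ₀ : G → ℂ) u = (Fintype.card P₀ : ℂ))
    (hzero : ∀ χ ∈ B, χ ≠ χ₀ → ∑ u : P₀, (χ : G → ℂ) u = 0) (x₁ y₁ x₂ y₂ : G) :
    Edc P₀ (coef (indic B)) x₁ y₁ * Edc P₀ (coef (indic B)) x₂ y₂ =
      Edc P₀ (coef (indic B)) x₁ y₂ * Edc P₀ (coef (indic B)) x₂ y₁ := by
  have h1 : ∀ x y, Edc P₀ (coef (indic B)) x y = (nStab P₀ x : ℂ)⁻¹ * Wdc P₀ B x y := by
    intro x y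
    rw [Wdc_eq_smul, nsmul_eq_mul, ← mul_assoc, inv_mul_cancel₀ (nStab_cast_ne P₀ x), one_mul]
  rw [h1, h1, h1, h1]
  simp only [Wdc_eq P₀ hχ₀ hfix hzero]
  ring

/-- The symmetry of the diagonal entries. -/
theorem Edc_symm (B : Set (IrrCharacter G)) (g : G) :
    ∑ h ∈ dc P₀ g, coef (indic B) (g * h⁻¹) = Edc P₀ (coef (indic B)) g g := by
  have hcl := coef_isClassFunction (indic B)
  have h1 := sum_pairs P₀ (fun h => coef (indic B) (g * h⁻¹)) g
  have h2 := sum_pairs P₀ (fun h => coef (indic B) (h * g⁻¹)) g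
  have h3 : ∑ u : P₀, ∑ v : P₀, coef (indic B) (g * ((u : G) * g * (v : G))⁻¹) =
      ∑ u : P₀, ∑ v : P₀, coef (indic B) ((u : G) * g * (v : G) * g⁻¹) := by
    rw [← Equiv.sum_comp (Equiv.inv P₀)]
    refine Finset.sum_congr rfl fun u _ => ?_
    rw [← Equiv.sum_comp (Equiv.inv P₀)]
    refine Finset.sum_congr rfl fun v _ => ?_
    simp only [Equiv.inv_apply, Subgroup.coe_inv]
    rw [← hcl _ (u : G)]
    congr 1
    group
  rw [h3] at h1
  have h4 : nStab P₀ g • ∑ h ∈ dc P₀ g, coef (indic B) (g * h⁻¹) = nStab P₀ g • Edc P₀ (coef (indic B)) g g := by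
    rw [← h1]
    exact h2
  rw [nsmul_eq_mul, nsmul_eq_mul] at h4
  exact mul_left_cancel₀ (nStab_cast_ne P₀ g) h4

/-- The orthogonality relation used for the trace. -/
theorem sum_irr_mul_irr_inv {χ : IrrCharacter G} (u v : G) :
    ∑ g, (χ : G → ℂ) (u * g) * (χ : G → ℂ) (v * g⁻¹) = (Nat.card G : ℂ) / (χ : G → ℂ) 1 * (χ : G → ℂ) (u * v) := by
  classical
  have h1 := sum_conj_irr_mul_irr χ.2 χ.2 (v * u)
  rw [if_pos rfl] at h1
  have hcl := irr_isClassFunction χ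
  have h2 : (χ : G → ℂ) (v * u) = (χ : G → ℂ) (u * v) := by
    rw [← hcl (u * v) v]
    congr 1
    group
  rw [h2] at h1
  rw [← h1]
  refine Fintype.sum_equiv (Equiv.mulRight v⁻¹) _ _ fun g => ?_
  simp only [Equiv.coe_mulRight]
  rw [mul_comm]
  congr 1
  · rw [← irr_apply_inv]
    congr 1
    group
  · have h3 : g * v⁻¹ * (v * u) = g * u := by group
    have h4 : g * (u * g) * g⁻¹ = g * u := by group
    rw [h3, ← h4, hcl]

/-- The trace of the rank one matrix. -/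
theorem sum_Edc_diag {B : Set (IrrCharacter G)} {χ₀ : IrrCharacter G} (hχ₀ : χ₀ ∈ B)
    (hfix : ∑ u : P₀, (χ₀ : G → ℂ) u = (Fintype.card P₀ : ℂ))
    (hzero : ∀ χ ∈ B, χ ≠ χ₀ → ∑ u : P₀, (χ : G → ℂ) u = 0) :
    ∑ O : DC P₀, Edc P₀ (coef (indic B)) (Quotient.out O) (Quotient.out O) = 1 := by
  classical
  have hcl := coef_isClassFunction (indic B)
  have hN : (Fintype.card P₀ : ℂ) ≠ 0 := Nat.cast_ne_zero.mpr Fintype.card_ne_zero
  have hG : (Nat.card G : ℂ) ≠ 0 := NeZero.ne _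
  have h10 : (χ₀ : G → ℂ) 1 ≠ 0 := IsIrrCharacter.apply_one_ne_zero χ₀.2
  have hdeg1 : (χ₀ : G → ℂ) 1 = (charDegree (χ₀ : G → ℂ) : ℂ) := irr_one_eq χ₀
  have hconj1 : conj ((χ₀ : G → ℂ) 1) = (χ₀ : G → ℂ) 1 := by
    rw [hdeg1]
    simp
  -- the sum over the group
  have hS : ∑ g : G, (∑ u : P₀, (χ₀ : G → ℂ) (u * g)) * (∑ v : P₀, (χ₀ : G → ℂ) (v * g⁻¹)) =
      (Nat.card G : ℂ) / (χ₀ : G → ℂ) 1 * ((Fintype.card P₀ : ℂ) * (Fintype.card P₀ : ℂ)) := by
    simp only [Finset.sum_mul, Finset.mul_sum]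
    have h2 : ∀ v : P₀, ∑ g : G, ∑ u : P₀, (χ₀ : G → ℂ) (u * g) * (χ₀ : G → ℂ) (v * g⁻¹) =
        (Nat.card G : ℂ) / (χ₀ : G → ℂ) 1 * (Fintype.card P₀ : ℂ) := by
      intro v
      rw [Finset.sum_comm]
      simp only [sum_irr_mul_irr_inv]
      rw [← Finset.mul_sum, ← hfix]
      congr 1
      refine Fintype.sum_equiv (Equiv.mulRight v) _ _ fun u => ?_
      simp
    rw [Finset.sum_comm]
    rw [Finset.sum_congr rfl fun u _ => h2 u, Finset.sum_const, Finset.card_univ, nsmul_eq_mul]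
    ring
  have hW : ∑ g : G, Wdc P₀ B g g = (Fintype.card P₀ : ℂ) * (Fintype.card P₀ : ℂ) := by
    simp only [Wdc_eq P₀ hχ₀ hfix hzero]
    rw [← Finset.mul_sum]
    have h3 : ∑ g : G, conj (∑ u : P₀, (χ₀ : G → ℂ) (u * g)) * conj (∑ v : P₀, (χ₀ : G → ℂ) (v * g⁻¹)) =
        conj (∑ g : G, (∑ u : P₀, (χ₀ : G → ℂ) (u * g)) * (∑ v : P₀, (χ₀ : G → ℂ) (v * g⁻¹))) := by
      rw [map_sum]
      exact Finset.sum_congr rfl fun g _ => (map_mul _ _ _).symm
    rw [h3, hS]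
    simp only [map_mul, map_div₀, hconj1, map_natCast]
    field_simp
  -- grouping
  have hO : ∑ g : G, Wdc P₀ B g g = (Fintype.card P₀ : ℂ) * (Fintype.card P₀ : ℂ) *
      ∑ O : DC P₀, Edc P₀ (coef (indic B)) (Quotient.out O) (Quotient.out O) := by
    rw [sum_by_dc P₀, Finset.mul_sum]
    refine Finset.sum_congr rfl fun O _ => ?_
    have h4 : ∀ g ∈ dc P₀ (Quotient.out O), Wdc P₀ B g g =
        (nStab P₀ (Quotient.out O) : ℂ) * Edc P₀ (coef (indic B)) (Quotient.out O) (Quotient.out O) := by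
      intro g hg
      rw [Wdc_eq_smul, nsmul_eq_mul, Edc_congr P₀ _ hg]
      obtain ⟨u, hu, v, hv, rfl⟩ := (mem_dc P₀).mp hg
      rw [Edc_right (fun g x => hcl g x) P₀ _ _ hu hv]
      congr 1
      have h5 := nStab_mul_card P₀ (u * Quotient.out O * v)
      have h6 := nStab_mul_card P₀ (Quotient.out O)
      rw [dc_eq_of_mem P₀ hg] at h5
      have h7 : 0 < (dc P₀ (Quotient.out O)).card := Finset.card_pos.mpr ⟨_, self_mem_dc P₀ _⟩
      have h8 : nStab P₀ (u * Quotient.out O * v) = nStab P₀ (Quotient.out O) :=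
        Nat.eq_of_mul_eq_mul_right h7 (h5.trans h6.symm)
      rw [h8]
    rw [Finset.sum_congr rfl h4, Finset.sum_const, nsmul_eq_mul, ← mul_assoc]
    congr 1
    have h6 := nStab_mul_card P₀ (Quotient.out O)
    have h7 : ((nStab P₀ (Quotient.out O) * (dc P₀ (Quotient.out O)).card : ℕ) : ℂ) = ((Fintype.card P₀ ^ 2 : ℕ) : ℂ) := by
      rw [h6]
    push_cast at h7
    rw [mul_comm, h7]
    ring
  rw [hW] at hO
  have h9 := mul_left_cancel₀ (mul_ne_zero hN hN) (hO.symm.trans (mul_one _).symm)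
  exact h9

end Block

section Final

variable {G : Type u} [Group G] [Fintype G] {p : ℕ} [hp : Fact p.Prime] {M : Ideal AlgInt} [hMp : M.IsPrime]

theorem epsRes_eq_resC {B : Set (IrrCharacter G)} (hB : IsPBlock M B) (u : G) :
    epsRes M B hB u = resC M (coef (indic B) u) := by
  rw [resC_of_mem (coef_memLocalRing (indic_mem_zS hB) u)]
  rfl

theorem resC_one' : resC M (1 : ℂ) = 1 := by
  rw [resC_of_mem memLocalRing_one]
  exact map_one (Ideal.Quotient.mk (locMax M))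

theorem Edc_epsRes (P₀ : Subgroup G) {B : Set (IrrCharacter G)} (hB : IsPBlock M B) (x y : G) :
    Edc P₀ (epsRes M B hB) x y = resC M (Edc P₀ (coef (indic B)) x y) := by
  rw [Edc, Edc, resC_sum _ _ fun h _ => coef_memLocalRing (indic_mem_zS hB) _]
  exact Finset.sum_congr rfl fun h _ => epsRes_eq_resC hB _

theorem memLocalRing_Edc (P₀ : Subgroup G) {B : Set (IrrCharacter G)} (hB : IsPBlock M B) (x y : G) :
    MemLocalRing M (Edc P₀ (coef (indic B)) x y) :=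
  MemLocalRing.sum _ fun h _ => coef_memLocalRing (indic_mem_zS hB) _

/-- A regular element acting on a subgroup as a `p`-element does centralizes it. -/
theorem centralizes_of_regular {Q : Subgroup G} {x w : G} {k : ℕ} (hreg : ¬ p ∣ orderOf x)
    (hw : w ^ p ^ k = 1) (hxQ : ∀ u ∈ Q, x * u * x⁻¹ ∈ Q) (hconj : ∀ u ∈ Q, x * u * x⁻¹ = w * u * w⁻¹) :
    ∀ u ∈ Q, x * u = u * x := by
  have hpp : p.Prime := hp.out
  have hpow : ∀ j : ℕ, ∀ u ∈ Q, x ^ j * u * (x ^ j)⁻¹ = w ^ j * u * (w ^ j)⁻¹ ∧ x ^ j * u * (x ^ j)⁻¹ ∈ Q := by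
    intro j
    induction j with
    | zero =>
      intro u hu
      simpa using hu
    | succ j ih =>
      intro u hu
      have h1 := hxQ u hu
      obtain ⟨h2, h3⟩ := ih (x * u * x⁻¹) h1
      have h4 : x ^ (j + 1) * u * (x ^ (j + 1))⁻¹ = x ^ j * (x * u * x⁻¹) * (x ^ j)⁻¹ := by
        rw [pow_succ]
        group
      constructor
      · rw [h4, h2, hconj u hu, pow_succ]
        group
      · rw [h4]
        exact h3
  have hfix : ∀ u ∈ Q, x ^ p ^ k * u * (x ^ p ^ k)⁻¹ = u := by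
    intro u hu
    rw [(hpow (p ^ k) u hu).1, hw]
    group
  have hcop : (p ^ k).Coprime (orderOf x) := by
    apply Nat.Coprime.pow_left
    exact (Nat.Prime.coprime_iff_not_dvd hpp).mpr hreg
  obtain ⟨m, hm⟩ := exists_pow_eq_self_of_coprime hcop
  intro u hu
  have h5 : ∀ j : ℕ, (x ^ p ^ k) ^ j * u = u * (x ^ p ^ k) ^ j := by
    intro j
    have h6 : Commute (x ^ p ^ k) u := by
      have h7 := hfix u hu
      show x ^ p ^ k * u = u * x ^ p ^ k
      calc x ^ p ^ k * u = x ^ p ^ k * u * (x ^ p ^ k)⁻¹ * x ^ p ^ k := by group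
        _ = u * x ^ p ^ k := by rw [h7]
    exact (h6.pow_left j).eq
  have h8 := h5 m
  rwa [hm] at h8

/-- **A block of minimal dimension is nilpotent.** -/
theorem isNilpotentBlock_of_min (hM : IsPModular p M) {B : Set (IrrCharacter G)} (hB : IsPBlock M B)
    {D : Subgroup G} (hD : IsDefectGroup p M B D) {a d : ℕ} (ha : (Nat.card G).factorization p = a)
    (hd : Nat.card D = p ^ d) (hmin : ∑ᶠ χ ∈ B, charDegree (χ : G → ℂ) ^ 2 = p ^ (2 * a - d)) :
    IsNilpotentBlock p M B := by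
  classical
  have hpp : p.Prime := hp.out
  have hcD := card_defectGroup hM hB hD
  have hdd : blockDefect p B = d := by
    rw [hd] at hcD
    exact (Nat.pow_right_injective hpp.two_le hcD).symm
  obtain ⟨S, hDS⟩ := (IsDefectGroup.isPGroup hD).exists_le_sylow
  set P₀ : Subgroup G := (S : Subgroup G) with hP₀
  letI : Fintype P₀ := Fintype.ofFinite _
  have hPp : IsPGroup p P₀ := S.isPGroup'
  have hcard : Nat.card P₀ = p ^ a := by
    rw [← ha]
    exact S.card_eq_multiplicity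
  obtain ⟨χ₀, hχ₀, hfix, hzero⟩ := exists_fixed_char P₀ hM hB ha hcard hdd hmin
  haveI hk' : CharP (Blocks.ResF M) p := charP_resF hM
  set e := epsRes M B hB with he
  have H1 : ∀ x₁ y₁ x₂ y₂, Edc P₀ e x₁ y₁ * Edc P₀ e x₂ y₂ = Edc P₀ e x₁ y₂ * Edc P₀ e x₂ y₁ := by
    intro x₁ y₁ x₂ y₂
    simp only [he, Edc_epsRes]
    rw [← resC_mul (memLocalRing_Edc P₀ hB _ _) (memLocalRing_Edc P₀ hB _ _),
      ← resC_mul (memLocalRing_Edc P₀ hB _ _) (memLocalRing_Edc P₀ hB _ _),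
      Edc_rank_one P₀ hχ₀ hfix hzero]
  obtain ⟨O, -, hO⟩ : ∃ O ∈ (Finset.univ : Finset (DC P₀)), Edc P₀ e (Quotient.out O) (Quotient.out O) ≠ 0 := by
    apply Finset.exists_ne_zero_of_sum_ne_zero
    simp only [he, Edc_epsRes]
    rw [← resC_sum _ _ fun O _ => memLocalRing_Edc P₀ hB _ _, sum_Edc_diag P₀ hχ₀ hfix hzero, resC_one']
    exact one_ne_zero
  set g₀ := Quotient.out O with hg₀
  have H3 : ∑ h ∈ dc P₀ g₀, e (g₀ * h⁻¹) ≠ 0 := by
    have h1 : ∑ h ∈ dc P₀ g₀, e (g₀ * h⁻¹) = Edc P₀ e g₀ g₀ := by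
      simp only [he]
      rw [Edc_epsRes, ← Edc_symm, resC_sum _ _ fun h _ => coef_memLocalRing (indic_mem_zS hB) _]
      exact Finset.sum_congr rfl fun h _ => epsRes_eq_resC hB _
    rw [h1]
    exact hO
  -- the defect class
  obtain ⟨y₀, hy₀, S', hDeq⟩ := id hD
  have hle : D ≤ Subgroup.centralizer ({y₀} : Set G) := by
    rw [hDeq]
    exact Subgroup.map_subtype_le _
  have hy₀c : ∀ u ∈ D, y₀ * u = u * y₀ := fun u hu => Subgroup.mem_centralizer_iff.mp (hle hu) y₀ rfl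
  have hey : e y₀ ≠ 0 := epsRes_ne_zero_of_defectClass hB hy₀
  have hda : d ≤ a := by
    have h2 := card_val_eq_minVal_add_defect (p := p) (IsPBlock.nonempty hB)
    omega
  have hdim : finrank (Blocks.ResF M) (BA (epsRes_class M B hB)) * Nat.card D = Fintype.card P₀ ^ 2 := by
    have hfin := finrank_blockAlg B hB
    have hX : ∑ χ ∈ univ.filter (· ∈ B), charDegree (χ : G → ℂ) ^ 2 = p ^ (2 * a - d) := by
      rw [← hmin]
      have hBX : B = ((univ.filter (· ∈ B) : Finset (IrrCharacter G)) : Set (IrrCharacter G)) := by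
        ext χ
        simp
      conv_rhs => rw [hBX]
      rw [finsum_mem_coe_finset]
    rw [hfin, hX, hd, ← Nat.card_eq_fintype_card, hcard, ← pow_add, ← pow_mul]
    congr 1
    omega
  have hfus := fusion_of_rank_one (epsRes_class M B hB) (epsRes_id M B hB) P₀ hPp H1 hO H3 D hDS hy₀c hey hdim
  refine ⟨hB, fun Q f hQf x hxN hxs hxreg => ?_⟩
  have hQp : IsPGroup p Q := hQf.1.1
  have hfB : IsPBlock M f := hQf.1.2
  letI : Fintype (Subgroup.centralizer (Q : Set G)) := Fintype.ofFinite _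
  -- an element of the centralizer on which the idempotent does not vanish
  obtain ⟨c, hcC, hcne⟩ : ∃ c ∈ Subgroup.centralizer (Q : Set G), ¬ MemLocalIdeal M (blockCoeff B c) := by
    by_contra hcon
    push Not at hcon
    obtain ⟨ξ, hξ⟩ := IsPBlock.nonempty hfB
    have h1 := hQf.2.2 ξ hξ
    have hcl : IsClassFunction (Subgroup.centralizer (Q : Set G)) (fun z => blockCoeff B (z : G)) := by
      intro z w
      simp only [blockCoeff_eq_coef]
      exact coef_isClassFunction _ _ _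
    have h2 := spec_memLocalIdeal hcl (fun z => hcon z z.2) ξ
    have h3 : brauerOmega Q (blockCoeff B) (ξ : Subgroup.centralizer (Q : Set G) → ℂ) =
        spec (fun z : Subgroup.centralizer (Q : Set G) => blockCoeff B (z : G)) ξ := by
      rw [brauerOmega, finsum_eq_sum_of_fintype, spec, Finset.sum_div]
    rw [← h3] at h2
    have h4 := MemLocalIdeal.sub h2 h1
    simp only [sub_sub_cancel] at h4
    exact not_memLocalIdeal_one h4
  -- conjugate into the Sylow subgroup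
  obtain ⟨S₂, hS₂⟩ := hQp.exists_le_sylow
  obtain ⟨s, hs⟩ := MulAction.exists_smul_eq G S₂ S
  have hconjS : ∀ u ∈ Q, s * u * s⁻¹ ∈ P₀ := by
    intro u hu
    rw [hP₀, ← hs]
    exact (Subgroup.mem_smul_pointwise_iff_exists _ _ _).mpr ⟨u, hS₂ hu, rfl⟩
  have hxQ : ∀ u ∈ Q, x * u * x⁻¹ ∈ Q := fun u hu => (Subgroup.mem_normalizer_iff.mp hxN u).mp hu
  let Q' : Subgroup G := conjS s Q
  have hmemQ' : ∀ z, z ∈ Q' ↔ s⁻¹ * z * s ∈ Q := fun z => mem_conjS
  have hQ'P : Q' ≤ P₀ := by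
    intro z hz
    have h1 := hconjS _ ((hmemQ' z).mp hz)
    have h2 : s * (s⁻¹ * z * s) * s⁻¹ = z := by group
    rwa [h2] at h1
  have hec : e (s * c * s⁻¹) ≠ 0 := by
    have hcc : e (s * c * s⁻¹) = e c := by
      simp only [he]
      exact epsRes_class M B hB _ _
    rw [hcc]
    intro h
    apply hcne
    have h1 : ∀ g : G, epsRes M B hB g = 0 → MemLocalIdeal M (blockCoeff B g) := by
      intro g hg
      have h2 := Ideal.Quotient.eq_zero_iff_mem.mp hg
      have h3 := mem_locMax.mp h2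
      rw [blockCoeff_eq_coef]
      exact h3
    exact h1 c h
  have hc₀ : ∀ u ∈ Q', (s * c * s⁻¹) * u = u * (s * c * s⁻¹) := by
    intro z hz
    have h1 := (hmemQ' z).mp hz
    have h2 := Subgroup.mem_centralizer_iff.mp hcC _ h1
    calc (s * c * s⁻¹) * z = s * (c * (s⁻¹ * z * s)) * s⁻¹ := by group
      _ = s * ((s⁻¹ * z * s) * c) * s⁻¹ := by rw [h2]
      _ = _ := by group
  obtain ⟨w, hw, hwc⟩ := hfus Q' hQ'P (s * x * s⁻¹) (by
    intro z hz
    rw [hmemQ']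
    have h1 := hxQ _ ((hmemQ' z).mp hz)
    convert h1 using 1
    group) (s * c * s⁻¹) hc₀ hec
  -- back to x
  set w' := s⁻¹ * w * s with hw'
  have hconj' : ∀ u ∈ Q, x * u * x⁻¹ = w' * u * w'⁻¹ := by
    intro u hu
    have h1 : s * u * s⁻¹ ∈ Q' := by
      rw [hmemQ']
      convert hu using 1
      group
    have h2 := hwc _ h1
    have h3 : s⁻¹ * (s * x * s⁻¹ * (s * u * s⁻¹) * (s * x * s⁻¹)⁻¹) * s =
        s⁻¹ * (w * (s * u * s⁻¹) * w⁻¹) * s := by rw [h2]
    calc x * u * x⁻¹ = s⁻¹ * (s * x * s⁻¹ * (s * u * s⁻¹) * (s * x * s⁻¹)⁻¹) * s := by group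
      _ = s⁻¹ * (w * (s * u * s⁻¹) * w⁻¹) * s := h3
      _ = _ := by rw [hw']; group
  obtain ⟨k, hk⟩ := (IsPGroup.iff_orderOf.mp hPp) ⟨w, hw⟩
  have hwk : w ^ p ^ k = 1 := by
    have h1 : orderOf w = p ^ k := by
      rw [← hk]
      exact (Subgroup.orderOf_mk w hw).symm
    rw [← h1]
    exact pow_orderOf_eq_one w
  have hw'k : w' ^ p ^ k = 1 := by
    have h1 : (s⁻¹ * w * s⁻¹⁻¹) ^ p ^ k = s⁻¹ * w ^ p ^ k * s⁻¹⁻¹ := conj_pow
    rw [inv_inv] at h1
    rw [hw', h1, hwk]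
    group
  have hfinal := centralizes_of_regular (p := p) hxreg hw'k hxQ hconj'
  rw [Subgroup.mem_centralizer_iff]
  intro u hu
  exact (hfinal u hu).symm

end Final

end Cfsg.Agent.Lib.LocalAlg
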