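import Cfsg.Agent.Lib.LocalAlg.OBr

/-!
# Blocks all of whose characters have the same degree

The block algebra is a full matrix algebra over the corner of a primitive idempotent
which has rank one at every character of the block.
-/

set_option autoImplicit false
set_option linter.unusedSectionVars false
set_option linter.unusedVariables false

namespace Cfsg.Agent.Lib.LocalAlg

open Cfsg Cfsg.Agent.Lib.Char Cfsg.Agent.Lib.Blocks Cfsg.Agent.Lib.H8Group Finset Module MonoidAlgebra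
open scoped ComplexConjugate

universe u

section Elt

variable {M : Ideal AlgInt} [hMp : M.IsPrime] {G : Type u} [Group G] [Fintype G]

theorem o_eq_sum_single [DecidableEq G] (a : MonoidAlgebra (locRing M) G) : a = ∑ g, single g (a.coeff g) := by
  ext h
  simp [MonoidAlgebra.coeff_sum, Finsupp.finsetSum_apply, Finsupp.single_apply]

theorem chiL_mul_single (χ : G → ℂ) (x : MonoidAlgebra (locRing M) G) (u : G) :
    chiL χ (x * single u 1) = ∑ g, ((x.coeff g : locRing M) : ℂ) * χ (g * u) := by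
  classical
  conv_lhs => rw [o_eq_sum_single x]
  rw [Finset.sum_mul, chiL_sum]
  refine Finset.sum_congr rfl fun g _ => ?_
  rw [single_mul_single, mul_one, chiL_single]

theorem chiL_single_mul (χ : G → ℂ) (x : MonoidAlgebra (locRing M) G) (u : G) :
    chiL χ (single u 1 * x) = ∑ g, ((x.coeff g : locRing M) : ℂ) * χ (u * g) := by
  classical
  conv_lhs => rw [o_eq_sum_single x]
  rw [Finset.mul_sum, chiL_sum]
  refine Finset.sum_congr rfl fun g _ => ?_
  rw [single_mul_single, one_mul, chiL_single]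

/-- **Fourier inversion.** -/
theorem coeff_eq_sum_chiL (x : MonoidAlgebra (locRing M) G) (h : G) :
    ((x.coeff h : locRing M) : ℂ) = (Nat.card G : ℂ)⁻¹ * ∑ χ : IrrCharacter G,
      (χ : G → ℂ) 1 * chiL (χ : G → ℂ) (x * single h⁻¹ 1) := by
  classical
  have hG : (Nat.card G : ℂ) ≠ 0 := card_ne_zero_complex
  have h1 : ∑ χ : IrrCharacter G, (χ : G → ℂ) 1 * chiL (χ : G → ℂ) (x * single h⁻¹ 1) =
      ∑ g, ((x.coeff g : locRing M) : ℂ) * ∑ χ : IrrCharacter G, (χ : G → ℂ) 1 * (χ : G → ℂ) (g * h⁻¹) := by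
    simp only [chiL_mul_single, Finset.mul_sum]
    rw [Finset.sum_comm]
    refine Finset.sum_congr rfl fun g _ => Finset.sum_congr rfl fun χ _ => ?_
    ring
  rw [h1, Finset.sum_eq_single h]
  · rw [mul_inv_cancel, sum_irr_degree_mul_apply, if_pos rfl]
    field_simp
  · intro g _ hg
    rw [sum_irr_degree_mul_apply, if_neg, mul_zero]
    intro h2
    exact hg (mul_inv_eq_one.mp h2)
  · simp

theorem incA_injective : Function.Injective (incA : MonoidAlgebra (locRing M) G → MonoidAlgebra ℂ G) := by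
  intro a b h
  ext g
  have h1 := congrArg (fun z : MonoidAlgebra ℂ G => z.coeff g) h
  simp only [incA_coeff] at h1
  exact congrArg _ (Subtype.ext h1)

/-- The central element of the group ring with given spectrum. -/
noncomputable def eltZ (c : IrrCharacter G → ℂ) (hc : c ∈ zS M G) : MonoidAlgebra (locRing M) G :=
  ∑ g, single g ⟨coef c g, hc g⟩

theorem eltZ_coeff {c : IrrCharacter G → ℂ} (hc : c ∈ zS M G) (g : G) :
    (((eltZ c hc).coeff g : locRing M) : ℂ) = coef c g := by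
  classical
  simp [eltZ, MonoidAlgebra.coeff_sum, Finsupp.finsetSum_apply, Finsupp.single_apply]

theorem chiL_eltZ {c : IrrCharacter G → ℂ} (hc : c ∈ zS M G) (χ : IrrCharacter G) :
    chiL (χ : G → ℂ) (eltZ c hc) = c χ * (χ : G → ℂ) 1 := by
  have h1 := congrFun (spec_coef c) χ
  rw [spec] at h1
  rw [← h1, div_mul_cancel₀ _ (irr_apply_one_ne_zero χ)]
  simp only [chiL, eltZ_coeff]

theorem incA_eltZ {c : IrrCharacter G → ℂ} (hc : c ∈ zS M G) : incA (eltZ c hc) = eltOf (coef c) := by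
  classical
  ext g
  rw [incA_coeff, eltZ_coeff, coeff_eltOf]

theorem eltZ_mul {c d : IrrCharacter G → ℂ} (hc : c ∈ zS M G) (hd : d ∈ zS M G) :
    eltZ c hc * eltZ d hd = eltZ (c * d) ((zS M G).mul_mem hc hd) := by
  classical
  apply incA_injective
  rw [map_mul, incA_eltZ, incA_eltZ, incA_eltZ]
  ext t
  rw [coeff_eltOf_mul, coeff_eltOf, coef_mul]
  rfl

theorem eltZ_central {c : IrrCharacter G → ℂ} (hc : c ∈ zS M G) (a : MonoidAlgebra (locRing M) G) :
    eltZ c hc * a = a * eltZ c hc := by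
  classical
  apply incA_injective
  rw [map_mul, map_mul, incA_eltZ]
  exact eltOf_central (fun g x => coef_isClassFunction c g x) _

theorem matrix_eq_zero_of_rank {n K : Type*} [Fintype n] [DecidableEq n] [Field K] {X : Matrix n n K}
    (h : X.rank = 0) : X = 0 := by
  have h9 : LinearMap.range X.mulVecLin = ⊥ := by
    rw [← Submodule.finrank_eq_zero]
    exact h
  have h10 : Matrix.toLin' X = 0 := by
    rw [Matrix.toLin'_apply']
    exact LinearMap.range_eq_bot.mp h9
  exact (LinearEquiv.map_eq_zero_iff Matrix.toLin').mp h10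

theorem chiL_mul_of_top {χ : G → ℂ} (hχ : IsCharacter G χ) {w : MonoidAlgebra (locRing M) G} (hw : w * w = w)
    (h1 : chiL χ w = χ 1) (a : MonoidAlgebra (locRing M) G) : chiL χ (w * a) = chiL χ a := by
  classical
  obtain ⟨n, R, hR⟩ := exists_matrix_rep (M := M) hχ
  have h2 := (chiL_eq_idN_of_rep hR hw).1
  have h3 : χ 1 = (n : ℂ) := by
    have h4 := hR 1
    rw [map_one, Matrix.trace_one, OFrame.chiL_one] at h4
    rw [← h4]
    simp
  rw [h1, h3] at h2
  have h5 : (R w).rank = n := by exact_mod_cast h2.symm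
  have h6 := rank_add_rank_of_idem (R w) (by rw [← map_mul, hw])
  simp only [Fintype.card_fin] at h6
  have h7 : (1 - R w).rank = 0 := by omega
  have h8 : 1 - R w = 0 := matrix_eq_zero_of_rank h7
  have h11 : R w = 1 := (sub_eq_zero.mp h8).symm
  rw [← hR, ← hR, map_mul, h11, one_mul]

theorem chiL_mul_of_zero {χ : G → ℂ} (hχ : IsCharacter G χ) {w : MonoidAlgebra (locRing M) G} (hw : w * w = w)
    (h1 : chiL χ w = 0) (a : MonoidAlgebra (locRing M) G) : chiL χ (w * a) = 0 := by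
  classical
  obtain ⟨n, R, hR⟩ := exists_matrix_rep (M := M) hχ
  have h2 := (chiL_eq_idN_of_rep hR hw).1
  rw [h1] at h2
  have h7 : (R w).rank = 0 := by exact_mod_cast h2.symm
  have h8 : R w = 0 := matrix_eq_zero_of_rank h7
  rw [← hR, map_mul, h8, zero_mul, Matrix.trace_zero]

theorem OFrame.pA_central (𝓕 : OFrame M G) {z : MonoidAlgebra (locRing M) G} (hz : ∀ a, z * a = a * z) (hzz : z * z = z)
    (k : Fin 𝓕.l) : 𝓕.pA (resA z) k = 0 ∨ 𝓕.pA (resA z) k = 1 := by
  classical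
  set Z := 𝓕.pA (resA z) k with hZ
  have hcomm : ∀ X : Matrix (Fin (𝓕.m k)) (Fin (𝓕.m k)) (OF M), Z * X = X * Z := by
    intro X
    obtain ⟨a, ha⟩ := 𝓕.pR_surj (fun j => if h : j = k then h ▸ X else 0)
    have h1 : 𝓕.pR a k = X := by
      rw [ha]
      simp
    have h2 := congrFun (congrArg 𝓕.pR (hz a)) k
    rw [map_mul, map_mul, Pi.mul_apply, Pi.mul_apply, h1] at h2
    exact h2
  have hidem : Z * Z = Z := by
    have h2 := congrFun (congrArg 𝓕.pR hzz) k
    rw [map_mul, Pi.mul_apply] at h2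
    exact h2
  have hc : Z ∈ Subring.center (Matrix (Fin (𝓕.m k)) (Fin (𝓕.m k)) (OF M)) :=
    Subring.mem_center_iff.mpr fun X => (hcomm X).symm
  haveI : Nonempty (Fin (𝓕.m k)) := ⟨⟨0, 𝓕.mpos k⟩⟩
  obtain ⟨α, hα⟩ := (Matrix.mem_range_scalar_iff_commute_single').mpr (fun i j => (hcomm _).symm)
  have h3 : α * α = α := by
    rw [← hα] at hidem
    have := congrFun (congrFun hidem ⟨0, 𝓕.mpos k⟩) ⟨0, 𝓕.mpos k⟩
    simpa [Matrix.scalar_apply, Matrix.diagonal_apply] using this
  have h4 : α * (α - 1) = 0 := by rw [mul_sub, h3, mul_one, sub_self]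
  rcases mul_eq_zero.mp h4 with h | h
  · left
    rw [← hα, h, map_zero]
  · right
    rw [← hα, sub_eq_zero.mp h, map_one]

end Elt

section Main

variable {M : Ideal AlgInt} [hMp : M.IsPrime] {G : Type u} [Group G] [Fintype G]

/-- The sum of the characters of a block, a character. -/
theorem isCharacter_sum_block (S : Finset (IrrCharacter G)) : IsCharacter G (∑ χ ∈ S, (χ : G → ℂ)) := by
  classical
  induction S using Finset.induction_on with
  | empty =>
    rw [Finset.sum_empty]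
    exact isCharacter_zero
  | insert a s ha ih =>
    rw [Finset.sum_insert ha]
    exact IsCharacter.add (IsIrrCharacter.isCharacter a.2) ih

/-- **The Azumaya structure** of a block all of whose characters have the same degree. -/
theorem exists_azumaya {p : ℕ} (hM : IsPModular p M) {B : Set (IrrCharacter G)} (hB : IsPBlock M B) {f : ℕ}
    (hf0 : 0 < f) (hf : ∀ χ ∈ B, (χ : G → ℂ) 1 = f) :
    ∃ (P : MonoidAlgebra (locRing M) G) (n : ℕ) (x y : Fin n → MonoidAlgebra (locRing M) G), P * P = P ∧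
      (∀ χ ∈ B, chiL (χ : G → ℂ) P = 1) ∧ (∀ χ : IrrCharacter G, χ ∉ B → chiL (χ : G → ℂ) P = 0) ∧
      (∀ s, x s * P = x s) ∧ (∀ s, P * y s = y s) ∧ ∑ s, x s * y s = eltZ (indic B) (indic_mem_zS hB) := by
  classical
  obtain ⟨𝓕⟩ := exists_oFrame (M := M) (G := G)
  have hpp : p.Prime := hM.1
  set e := eltZ (indic B) (indic_mem_zS hB) with he
  have hee : e * e = e := by
    rw [he, eltZ_mul]
    simp only [indic_mul_self]
  have hcent : ∀ a, e * a = a * e := eltZ_central _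
  have hχc : ∀ χ : IrrCharacter G, IsCharacter G (χ : G → ℂ) := fun χ => IsIrrCharacter.isCharacter χ.2
  let d : IrrCharacter G → Fin 𝓕.l → ℕ := fun χ k => idN (χ : G → ℂ) (𝓕.P k)
  have hd : ∀ (χ : IrrCharacter G) k, chiL (χ : G → ℂ) (𝓕.P k) = (d χ k : ℂ) := fun χ k => chiL_eq_idN (hχc χ) (𝓕.idem _)
  let Kb : Fin 𝓕.l → Prop := fun k => 𝓕.pA (resA e) k = 1
  have hae : ∀ k, (Kb k ∧ 𝓕.a e k = 𝓕.m k) ∨ (¬ Kb k ∧ 𝓕.a e k = 0) := by
    intro k
    rcases 𝓕.pA_central hcent hee k with h | h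
    · right
      haveI : Nonempty (Fin (𝓕.m k)) := ⟨⟨0, 𝓕.mpos k⟩⟩
      refine ⟨?_, ?_⟩
      · intro h1
        have h2 : (1 : Matrix (Fin (𝓕.m k)) (Fin (𝓕.m k)) (OF M)) = 0 := by
          rw [← h]
          exact h1.symm
        exact one_ne_zero h2
      · rw [OFrame.a, h]
        exact Matrix.rank_zero
    · left
      refine ⟨h, ?_⟩
      rw [OFrame.a, h, Matrix.rank_one]
      simp
  have heq1 : ∀ χ : IrrCharacter G, indic B χ * (χ : G → ℂ) 1 = ∑ k, (𝓕.a e k : ℂ) * (d χ k : ℂ) := by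
    intro χ
    rw [← chiL_eltZ (indic_mem_zS hB), 𝓕.chiL_eq_sum (hχc χ) hee]
    exact Finset.sum_congr rfl fun k _ => by rw [hd]
  have heq1B : ∀ χ ∈ B, f = ∑ k, 𝓕.a e k * d χ k := by
    intro χ hχ
    have h1 := heq1 χ
    rw [indic_apply_of_mem hχ, one_mul, hf χ hχ] at h1
    exact_mod_cast h1
  have heq1N : ∀ χ : IrrCharacter G, χ ∉ B → ∑ k, 𝓕.a e k * d χ k = 0 := by
    intro χ hχ
    have h1 := heq1 χ
    rw [indic_apply_of_notMem hχ, zero_mul] at h1
    exact_mod_cast h1.symm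
  have hdeg : ∀ χ ∈ B, f = ∑ k, 𝓕.m k * d χ k := by
    intro χ hχ
    have h1 := 𝓕.apply_one_eq_sum (hχc χ)
    rw [hf χ hχ, Finset.sum_congr rfl fun k _ => by rw [hd]] at h1
    exact_mod_cast h1
  have h0 : ∀ χ : IrrCharacter G, χ ∉ B → ∀ k, Kb k → d χ k = 0 := by
    intro χ hχ k hk
    have h1 := (Finset.sum_eq_zero_iff.mp (heq1N χ hχ)) k (Finset.mem_univ _)
    rcases hae k with ⟨-, h2⟩ | ⟨h2, -⟩
    · rw [h2] at h1
      exact (mul_eq_zero.mp h1).resolve_left (𝓕.mpos k).ne'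
    · exact absurd hk h2
  have h1B : ∀ χ ∈ B, ∀ k, ¬ Kb k → d χ k = 0 := by
    intro χ hχ k hk
    have hle : ∀ j ∈ (Finset.univ : Finset (Fin 𝓕.l)), 𝓕.a e j * d χ j ≤ 𝓕.m j * d χ j :=
      fun j _ => Nat.mul_le_mul_right _ (𝓕.a_le e j)
    have heq : ∑ j, 𝓕.a e j * d χ j = ∑ j, 𝓕.m j * d χ j := by rw [← heq1B χ hχ, ← hdeg χ hχ]
    have h2 := (Finset.sum_eq_sum_iff_of_le hle).mp heq k (Finset.mem_univ _)
    rcases hae k with ⟨h3, -⟩ | ⟨-, h3⟩
    · exact absurd h3 hk
    · rw [h3, zero_mul] at h2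
      exact (mul_eq_zero.mp h2.symm).resolve_left (𝓕.mpos k).ne'
  -- the integral coordinates of the sum of the characters
  set S : Finset (IrrCharacter G) := Finset.univ.filter (· ∈ B) with hS
  set α : G → ℂ := ∑ χ ∈ S, (χ : G → ℂ) with hα
  have hαc : IsCharacter G α := isCharacter_sum_block S
  have hαval : ∀ g, α g = ∑ χ : IrrCharacter G, indic B χ * (χ : G → ℂ) g := by
    intro g
    rw [hα, Finset.sum_apply, hS, Finset.sum_filter]
    refine Finset.sum_congr rfl fun χ _ => ?_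
    by_cases hχ : χ ∈ B
    · simp [hχ]
    · simp [hχ]
  have hαv : ∀ g : G, p ∣ orderOf g → α g = 0 := by
    intro g hg
    haveI : Fact p.Prime := ⟨hpp⟩
    have h1 : ¬ p ∣ orderOf (1 : G) := by
      rw [orderOf_one]
      exact fun h => hpp.one_lt.ne' (Nat.dvd_one.mp h)
    have h2 := weak_block_orthogonality hM hB h1 (y := g⁻¹) (by rwa [orderOf_inv])
    rw [finsum_mem_eq_sum_indic] at h2
    have h3 : ∑ χ : IrrCharacter G, indic B χ * ((χ : G → ℂ) 1 * conj ((χ : G → ℂ) g⁻¹)) = (f : ℂ) * α g := by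
      rw [hαval, Finset.mul_sum]
      refine Finset.sum_congr rfl fun χ _ => ?_
      by_cases hχ : χ ∈ B
      · rw [indic_apply_of_mem hχ, hf χ hχ, irr_apply_inv, Complex.conj_conj]
        ring
      · rw [indic_apply_of_notMem hχ]
        ring
    rw [h3] at h2
    exact (mul_eq_zero.mp h2).resolve_left (by exact_mod_cast hf0.ne')
  have hαgen : IsGeneralizedCharacter G α := IsGeneralizedCharacter.of_character hαc
  obtain ⟨N, hN⟩ := 𝓕.exists_N hM (mem_projClosure_of_vanish hpp hαgen hαv)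
  have hαin : ∀ χ : IrrCharacter G, classInner α (χ : G → ℂ) = indic B χ := by
    intro χ
    rw [hα, classInner_sum_left]
    by_cases hχ : χ ∈ B
    · rw [indic_apply_of_mem hχ, Finset.sum_eq_single χ]
      · exact classInner_irr_self χ.2
      · intro ξ _ hξ
        exact classInner_irr_of_ne ξ.2 χ.2 (fun h => hξ (Subtype.ext h))
      · intro h
        exact absurd (Finset.mem_filter.mpr ⟨Finset.mem_univ _, hχ⟩) h
    · rw [indic_apply_of_notMem hχ]
      refine Finset.sum_eq_zero fun ξ hξ => ?_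
      refine classInner_irr_of_ne ξ.2 χ.2 (fun h => hχ ?_)
      have : ξ = χ := Subtype.ext h
      rw [← this]
      exact (Finset.mem_filter.mp hξ).2
  -- the relation
  let c : Fin 𝓕.l → ℤ := fun k => if Kb k then (𝓕.m k : ℤ) - f * N k else 0
  have hc : ∀ χ : IrrCharacter G, ∑ k, (c k : ℂ) * chiL (χ : G → ℂ) (𝓕.P k) = 0 := by
    intro χ
    by_cases hχ : χ ∈ B
    · have h1 : ∀ k, (c k : ℂ) * chiL (χ : G → ℂ) (𝓕.P k) =
          (𝓕.a e k : ℂ) * (d χ k : ℂ) - f * ((N k : ℂ) * chiL (χ : G → ℂ) (𝓕.P k)) := by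
        intro k
        rw [hd]
        rcases hae k with ⟨h2, h3⟩ | ⟨h2, h3⟩
        · simp only [c, if_pos h2]
          rw [h3]
          push_cast
          ring
        · simp only [c, if_neg h2]
          rw [h3, h1B χ hχ k h2]
          simp
      rw [Finset.sum_congr rfl fun k _ => h1 k, Finset.sum_sub_distrib, ← Finset.mul_sum, ← hN, hαin,
        indic_apply_of_mem hχ, mul_one]
      have h2 := heq1B χ hχ
      have h3 : ∑ k, (𝓕.a e k : ℂ) * (d χ k : ℂ) = (f : ℂ) := by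
        rw [h2]
        push_cast
        rfl
      rw [h3, sub_self]
    · refine Finset.sum_eq_zero fun k _ => ?_
      by_cases hk : Kb k
      · rw [hd, h0 χ hχ k hk]
        simp
      · simp only [c, if_neg hk]
        simp
  have hc0 : c = 0 := 𝓕.indep hM c hc
  have hdvd : ∀ k, Kb k → f ∣ 𝓕.m k := by
    intro k hk
    have h1 := congrFun hc0 k
    simp only [c, if_pos hk, Pi.zero_apply] at h1
    have h2 : (f : ℤ) ∣ (𝓕.m k : ℤ) := ⟨N k, sub_eq_zero.mp h1⟩
    exact_mod_cast h2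
  -- a simple module of the block
  obtain ⟨χ₁, hχ₁⟩ := IsPBlock.nonempty hB
  obtain ⟨k₀, hk₀⟩ : ∃ k, Kb k := by
    by_contra h
    push Not at h
    have h1 := heq1B χ₁ hχ₁
    have h2 : ∑ k, 𝓕.a e k * d χ₁ k = 0 := by
      refine Finset.sum_eq_zero fun k _ => ?_
      rcases hae k with ⟨h3, -⟩ | ⟨-, h3⟩
      · exact absurd h3 (h k)
      · rw [h3, zero_mul]
    omega
  have hfm : f ≤ 𝓕.m k₀ := Nat.le_of_dvd (𝓕.mpos k₀) (hdvd k₀ hk₀)
  obtain ⟨χ₀, hχ₀⟩ : ∃ χ, d χ k₀ ≠ 0 := by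
    by_contra h
    push Not at h
    have h1 := 𝓕.indep hM (fun k => if k = k₀ then 1 else 0) (by
      intro χ
      rw [Finset.sum_eq_single k₀]
      · rw [hd, h χ]
        simp
      · intro k _ hk
        simp [hk]
      · simp)
    have h2 := congrFun h1 k₀
    simp at h2
  have hχ₀B : χ₀ ∈ B := by
    by_contra h
    exact hχ₀ (h0 χ₀ h k₀ hk₀)
  have hmf : 𝓕.m k₀ = f := by
    apply le_antisymm _ hfm
    have h1 := hdeg χ₀ hχ₀B
    have h2 : 𝓕.m k₀ * d χ₀ k₀ ≤ ∑ k, 𝓕.m k * d χ₀ k :=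
      Finset.single_le_sum (f := fun k => 𝓕.m k * d χ₀ k) (fun _ _ => Nat.zero_le _) (Finset.mem_univ k₀)
    have h3 : 𝓕.m k₀ * 1 ≤ 𝓕.m k₀ * d χ₀ k₀ := Nat.mul_le_mul_left _ (Nat.pos_of_ne_zero hχ₀)
    omega
  have hdle : ∀ χ ∈ B, d χ k₀ ≤ 1 := by
    intro χ hχ
    have h1 := hdeg χ hχ
    have h2 : 𝓕.m k₀ * d χ k₀ ≤ ∑ k, 𝓕.m k * d χ k :=
      Finset.single_le_sum (f := fun k => 𝓕.m k * d χ k) (fun _ _ => Nat.zero_le _) (Finset.mem_univ k₀)
    rw [← h1, hmf] at h2
    by_contra h3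
    have h4 : f * 2 ≤ f * d χ k₀ := Nat.mul_le_mul_left _ (by omega)
    omega
  -- the sum of the frame idempotents at `k₀`
  set S₀ : Finset (Σ k, Fin (𝓕.m k)) := Finset.univ.filter fun i => i.1 = k₀ with hS₀
  set w := 𝓕.J S₀ with hw
  have hww : w * w = w := 𝓕.J_idem S₀
  have hwa : ∀ k, 𝓕.a w k = if k = k₀ then f else 0 := by
    intro k
    rw [hw, OFrame.a_J]
    by_cases hk : k = k₀
    · subst hk
      rw [if_pos rfl, ← hmf, Finset.filter_true_of_mem (fun s _ => by simp [hS₀]), Finset.card_univ, Fintype.card_fin]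
    · rw [if_neg hk, Finset.card_eq_zero]
      ext s
      simp [hS₀, hk]
  have hwχ : ∀ χ : IrrCharacter G, chiL (χ : G → ℂ) w = (f : ℂ) * (d χ k₀ : ℂ) := by
    intro χ
    rw [𝓕.chiL_eq_sum (hχc χ) hww, Finset.sum_eq_single k₀]
    · rw [hwa, if_pos rfl, hd]
    · intro k _ hk
      rw [hwa, if_neg hk]
      simp
    · simp
  set S₁ : Set (IrrCharacter G) := {χ | d χ k₀ = 1} with hS₁
  have hS₁B : ∀ χ ∈ S₁, χ ∈ B := by
    intro χ hχ
    by_contra h
    have h1 := h0 χ h k₀ hk₀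
    rw [show d χ k₀ = 1 from hχ] at h1
    omega
  have hwmul : ∀ χ : IrrCharacter G, ∀ a, chiL (χ : G → ℂ) (w * a) = indic S₁ χ * chiL (χ : G → ℂ) a := by
    intro χ a
    by_cases hχ : χ ∈ S₁
    · rw [indic_apply_of_mem hχ, one_mul]
      apply chiL_mul_of_top (hχc χ) hww
      rw [hwχ, show d χ k₀ = 1 from hχ, hf χ (hS₁B χ hχ)]
      simp
    · rw [indic_apply_of_notMem hχ, zero_mul]
      apply chiL_mul_of_zero (hχc χ) hww
      have h1 : d χ k₀ = 0 := by
        by_cases hB' : χ ∈ B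
        · have h2 := hdle χ hB'
          have h3 : d χ k₀ ≠ 1 := hχ
          omega
        · exact h0 χ hB' k₀ hk₀
      rw [hwχ, h1]
      simp
  have hwcoeff : ∀ h : G, ((w.coeff h : locRing M) : ℂ) = coef (indic S₁) h := by
    intro h
    rw [coeff_eq_sum_chiL, coef]
    congr 1
    refine Finset.sum_congr rfl fun χ _ => ?_
    have h1 : chiL (χ : G → ℂ) (single h⁻¹ 1 : MonoidAlgebra (locRing M) G) = (χ : G → ℂ) h⁻¹ := by
      rw [chiL_single]
      simp
    rw [hwmul, h1, irr_apply_inv]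
    ring
  have hzS : indic S₁ ∈ zS M G := fun g => by
    rw [← hwcoeff]
    exact (w.coeff g).2
  have hS₁eq : S₁ = B := by
    ext χ
    refine ⟨hS₁B χ, fun hχ => ?_⟩
    by_contra h
    have h1 := sameBlock_congr (sameBlock_of_mem hB hχ₀B hχ) hzS
    have h2 : χ₀ ∈ S₁ := by
      have h3 := hdle χ₀ hχ₀B
      show d χ₀ k₀ = 1
      omega
    rw [indic_apply_of_mem h2, indic_apply_of_notMem h, sub_zero] at h1
    exact not_memLocalIdeal_one h1
  have hwe : w = e := by
    ext h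
    congr 1
    apply Subtype.ext
    rw [hwcoeff, he, eltZ_coeff, hS₁eq]
  have hs : ∀ s : Fin (𝓕.m k₀), ∃ x y, x * y = 𝓕.I ⟨k₀, s⟩ ∧ x * 𝓕.P k₀ = x ∧ 𝓕.P k₀ * y = y := by
    intro s
    obtain ⟨x, y, h1, -, h2, h3, -⟩ := exists_mul_eq_of_rank_le 𝓕.pR 𝓕.pR_surj 𝓕.jac (𝓕.idem ⟨k₀, s⟩) (𝓕.idem ⟨k₀, ⟨0, 𝓕.mpos k₀⟩⟩)
      (fun k => by
        have h4 := 𝓕.a_I ⟨k₀, s⟩ k
        have h5 := 𝓕.a_P k₀ k
        show 𝓕.a (𝓕.I ⟨k₀, s⟩) k ≤ 𝓕.a (𝓕.P k₀) k
        rw [h4, h5])
    exact ⟨x, y, h1, h2, h3⟩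
  choose x y hxy hx hy using hs
  refine ⟨𝓕.P k₀, 𝓕.m k₀, x, y, 𝓕.idem _, ?_, ?_, hx, hy, ?_⟩
  · intro χ hχ
    rw [hd]
    have h1 : χ ∈ S₁ := by rwa [hS₁eq]
    rw [show d χ k₀ = 1 from h1]
    simp
  · intro χ hχ
    rw [hd, h0 χ hχ k₀ hk₀]
    simp
  · rw [Finset.sum_congr rfl fun s _ => hxy s, ← hwe, hw, OFrame.J, hS₀, Finset.sum_filter, Fintype.sum_sigma,
      Finset.sum_eq_single k₀]
    · exact Finset.sum_congr rfl fun s _ => by simp
    · intro k _ hk
      exact Finset.sum_eq_zero fun s _ => by simp [hk]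
    · simp

/-- A rank one idempotent sandwich. -/
theorem idem_sandwich {n K : Type*} [Fintype n] [DecidableEq n] [Field K] (X A : Matrix n n K) (hX : X * X = X)
    (hr : X.rank ≤ 1) : X * A * X = (X * A).trace • X := by
  classical
  obtain ⟨r, hr', B, C, B', C', h1, h2, h3⟩ := exists_rank_factor X
  have hCB : C * B = 1 := by
    have h4 : B' * (X * X) * C' = B' * X * C' := by rw [hX]
    rw [h1] at h4
    have h5 : B' * (B * C * (B * C)) * C' = (B' * B) * (C * B) * (C * C') := by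
      simp only [Matrix.mul_assoc]
    have h6 : B' * (B * C) * C' = (B' * B) * (C * C') := by
      simp only [Matrix.mul_assoc]
    rw [h5, h6, h2, h3, Matrix.one_mul, Matrix.mul_one, Matrix.mul_one] at h4
    exact h4
  have hr1 : r = 0 ∨ r = 1 := by omega
  rcases hr1 with rfl | rfl
  · have h0 : X = 0 := matrix_eq_zero_of_rank hr'.symm
    rw [h0]
    simp
  · set c : K := (C * A * B) 0 0 with hc
    have h4 : C * A * B = c • 1 := by
      ext a b
      have ha : a = 0 := Subsingleton.elim _ _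
      have hb : b = 0 := Subsingleton.elim _ _
      subst ha hb
      simp [hc]
    have h5 : (X * A).trace = c := by
      rw [h1, Matrix.mul_assoc, Matrix.trace_mul_comm, Matrix.mul_assoc C, ← Matrix.mul_assoc C, h4]
      simp [Matrix.trace]
    rw [h5, h1]
    calc B * C * A * (B * C) = B * (C * A * B) * C := by simp only [Matrix.mul_assoc]
      _ = c • (B * C) := by rw [h4]; simp [Matrix.mul_smul, Matrix.smul_mul]

theorem chiL_corner {χ : G → ℂ} (hχ : IsCharacter G χ) {P b x y : MonoidAlgebra (locRing M) G} (hPP : P * P = P)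
    (hrank : chiL χ P = 0 ∨ chiL χ P = 1) (hb : P * b * P = b) (hx : x * P = x) (hy : P * y = y)
    (a : MonoidAlgebra (locRing M) G) : chiL χ (x * b * y * a) = chiL χ b * chiL χ (x * y * a) := by
  classical
  obtain ⟨n, R, hR⟩ := exists_matrix_rep (M := M) hχ
  have h1 := (chiL_eq_idN_of_rep hR hPP).1
  have hrk : (R P).rank ≤ 1 := by
    rcases hrank with h | h
    · rw [h1] at h
      have : (R P).rank = 0 := by exact_mod_cast h
      omega
    · rw [h1] at h
      have : (R P).rank = 1 := by exact_mod_cast h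
      omega
  have hPb : P * b = b := by
    conv_lhs => rw [← hb]
    rw [← mul_assoc, ← mul_assoc, hPP, hb]
  have h2 : R b = chiL χ b • R P := by
    have h3 := idem_sandwich (R P) (R b) (by rw [← map_mul, hPP]) hrk
    rw [← map_mul, ← map_mul, hb, hPb, hR] at h3
    exact h3
  have h4 : R x * R P = R x := by rw [← map_mul, hx]
  have h5 : R (x * b * y * a) = chiL χ b • R (x * y * a) := by
    rw [map_mul, map_mul, map_mul, h2, map_mul R (x * y), map_mul R x y, Matrix.mul_smul, h4, Matrix.smul_mul,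
      Matrix.smul_mul]
  rw [← hR (x * b * y * a), h5, Matrix.trace_smul, smul_eq_mul, hR]

/-- **The integrality of the block sums.** -/
theorem coef_block_memLocalRing {p : ℕ} (hM : IsPModular p M) {B : Set (IrrCharacter G)} (hB : IsPBlock M B) {f : ℕ}
    (hf0 : 0 < f) (hf : ∀ χ ∈ B, (χ : G → ℂ) 1 = f) (g h : G) :
    MemLocalRing M ((f : ℂ) / (Nat.card G : ℂ) * ∑ χ : IrrCharacter G, indic B χ * ((χ : G → ℂ) g * conj ((χ : G → ℂ) h))) := by
  classical
  obtain ⟨P, n, x, y, hPP, hP1, hP0, hx, hy, hsum⟩ := exists_azumaya hM hB hf0 hf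
  set e := eltZ (indic B) (indic_mem_zS hB) with he
  have hee : e * e = e := by
    rw [he, eltZ_mul]
    simp only [indic_mul_self]
  have hχc : ∀ χ : IrrCharacter G, IsCharacter G (χ : G → ℂ) := fun χ => IsIrrCharacter.isCharacter χ.2
  have hrank : ∀ χ : IrrCharacter G, chiL (χ : G → ℂ) P = 0 ∨ chiL (χ : G → ℂ) P = 1 := by
    intro χ
    by_cases hχ : χ ∈ B
    · exact Or.inr (hP1 χ hχ)
    · exact Or.inl (hP0 χ hχ)
  have hemul : ∀ (χ : IrrCharacter G) a, chiL (χ : G → ℂ) (e * a) = indic B χ * chiL (χ : G → ℂ) a := by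
    intro χ a
    by_cases hχ : χ ∈ B
    · rw [indic_apply_of_mem hχ, one_mul]
      apply chiL_mul_of_top (hχc χ) hee
      rw [he, chiL_eltZ, indic_apply_of_mem hχ, one_mul]
    · rw [indic_apply_of_notMem hχ, zero_mul]
      apply chiL_mul_of_zero (hχc χ) hee
      rw [he, chiL_eltZ, indic_apply_of_notMem hχ, zero_mul]
  let Z : MonoidAlgebra (locRing M) G → MonoidAlgebra (locRing M) G := fun b => ∑ s, x s * b * y s
  have hZ : ∀ b, P * b * P = b → ∀ (χ : IrrCharacter G) a, chiL (χ : G → ℂ) (Z b * a) =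
      chiL (χ : G → ℂ) b * (indic B χ * chiL (χ : G → ℂ) a) := by
    intro b hb χ a
    simp only [Z]
    rw [Finset.sum_mul, chiL_sum, Finset.sum_congr rfl fun s _ => chiL_corner (hχc χ) hPP (hrank χ) hb (hx s) (hy s) a,
      ← Finset.mul_sum, ← chiL_sum, ← Finset.sum_mul, hsum, hemul]
  have hcoeff : ∀ b, P * b * P = b → (((Z b).coeff h : locRing M) : ℂ) =
      (f : ℂ) / (Nat.card G : ℂ) * ∑ χ : IrrCharacter G, indic B χ * (chiL (χ : G → ℂ) b * conj ((χ : G → ℂ) h)) := by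
    intro b hb
    rw [coeff_eq_sum_chiL, div_eq_mul_inv, mul_comm (f : ℂ), mul_assoc]
    congr 1
    rw [Finset.mul_sum]
    refine Finset.sum_congr rfl fun χ _ => ?_
    have h1 : chiL (χ : G → ℂ) (single h⁻¹ 1 : MonoidAlgebra (locRing M) G) = (χ : G → ℂ) h⁻¹ := by
      rw [chiL_single]
      simp
    rw [hZ b hb, h1, irr_apply_inv]
    by_cases hχ : χ ∈ B
    · rw [hf χ hχ, indic_apply_of_mem hχ]
      ring
    · rw [indic_apply_of_notMem hχ]
      ring
  let bs : Fin n → MonoidAlgebra (locRing M) G := fun s => y s * single g 1 * x s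
  have hbs : ∀ s, P * bs s * P = bs s := by
    intro s
    simp only [bs]
    rw [mul_assoc, mul_assoc, hx s, ← mul_assoc, ← mul_assoc, hy s]
  have hbschi : ∀ χ : IrrCharacter G, ∑ s, chiL (χ : G → ℂ) (bs s) = indic B χ * (χ : G → ℂ) g := by
    intro χ
    have h1 : ∀ s, chiL (χ : G → ℂ) (bs s) = chiL (χ : G → ℂ) (single g 1 * (x s * y s)) := by
      intro s
      simp only [bs]
      rw [mul_assoc, IsCharacter.isClass_trace (hχc χ), mul_assoc]
    rw [Finset.sum_congr rfl fun s _ => h1 s, ← chiL_sum, ← Finset.mul_sum, hsum, ← eltZ_central, hemul, chiL_single]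
    simp
  have h2 : (f : ℂ) / (Nat.card G : ℂ) * ∑ χ : IrrCharacter G, indic B χ * ((χ : G → ℂ) g * conj ((χ : G → ℂ) h)) =
      ∑ s, (((Z (bs s)).coeff h : locRing M) : ℂ) := by
    rw [Finset.sum_congr rfl fun s _ => hcoeff (bs s) (hbs s), ← Finset.mul_sum]
    congr 1
    rw [Finset.sum_comm]
    refine Finset.sum_congr rfl fun χ _ => ?_
    rw [← Finset.mul_sum, ← Finset.sum_mul, hbschi]
    by_cases hχ : χ ∈ B
    · rw [indic_apply_of_mem hχ]
      ring
    · rw [indic_apply_of_notMem hχ]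
      ring
  rw [h2]
  exact MemLocalRing.sum _ fun s _ => ((Z (bs s)).coeff h).2

/-- **Divisibility of the number of characters.** -/
theorem card_block_div_memLocalRing {p : ℕ} (hM : IsPModular p M) {B : Set (IrrCharacter G)} (hB : IsPBlock M B) {f : ℕ}
    (hf0 : 0 < f) (hf : ∀ χ ∈ B, (χ : G → ℂ) 1 = f) :
    MemLocalRing M ((f : ℂ) / (Nat.card G : ℂ) * ∑ χ : IrrCharacter G, indic B χ) := by
  classical
  obtain ⟨P, n, x, y, hPP, hP1, hP0, hx, hy, hsum⟩ := exists_azumaya hM hB hf0 hf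
  have h1 : ∑ χ : IrrCharacter G, indic B χ = ∑ χ : IrrCharacter G, indic B χ * chiL (χ : G → ℂ) P := by
    refine Finset.sum_congr rfl fun χ _ => ?_
    by_cases hχ : χ ∈ B
    · rw [hP1 χ hχ, mul_one]
    · rw [indic_apply_of_notMem hχ, zero_mul]
  have h2 : (f : ℂ) / (Nat.card G : ℂ) * ∑ χ : IrrCharacter G, indic B χ * chiL (χ : G → ℂ) P =
      ∑ g, ((P.coeff g : locRing M) : ℂ) * coef (indic B) g⁻¹ := by
    simp only [chiL, coef, Finset.mul_sum]
    rw [Finset.sum_comm]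
    refine Finset.sum_congr rfl fun g _ => Finset.sum_congr rfl fun χ _ => ?_
    rw [irr_apply_inv, Complex.conj_conj]
    by_cases hχ : χ ∈ B
    · rw [indic_apply_of_mem hχ, hf χ hχ]
      ring
    · rw [indic_apply_of_notMem hχ]
      ring
  rw [h1, h2]
  exact MemLocalRing.sum _ fun g _ => MemLocalRing.mul (P.coeff g).2 (coef_memLocalRing (indic_mem_zS hB) _)

end Main

end Cfsg.Agent.Lib.LocalAlg
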