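import Cfsg.Agent.Lib.LocalAlg.OChar

/-!
# Generalized characters vanishing off the `p`-regular elements

Such a function is an integral combination of functions induced from linear characters of
subgroups of order prime to `p` (from Brauer's induction theorem).
-/

set_option autoImplicit false
set_option linter.unusedSectionVars false
set_option linter.unusedVariables false

namespace Cfsg.Agent.Lib.LocalAlg

open Cfsg Cfsg.Agent.Lib.Char Cfsg.Agent.Lib.Blocks Cfsg.Agent.Lib.H8Group Finset Module MonoidAlgebra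
open scoped ComplexConjugate

universe u

section Closure

variable {G : Type u} [Group G] [Fintype G]

/-- Combinations of functions induced from linear characters of subgroups of order prime to `p`. -/
def projClosure (p : ℕ) (G : Type u) [Group G] [Fintype G] : AddSubgroup (G → ℂ) :=
  AddSubgroup.closure {f | ∃ (R : Subgroup G) (μ : R →* ℂˣ), ¬ p ∣ Nat.card R ∧ f = indFun R (fun y => ((μ y : ℂˣ) : ℂ))}

theorem indFun_mem_projClosure {p : ℕ} (R : Subgroup G) [Fintype R] (hR : ¬ p ∣ Nat.card R) {f : R → ℂ}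
    (hf : f ∈ linClosure R) : indFun R f ∈ projClosure p G := by
  classical
  induction hf using AddSubgroup.closure_induction with
  | mem f hf =>
    obtain ⟨S', lam, q, hq, hE, rfl⟩ := hf
    let S : Subgroup G := S'.map R.subtype
    have hSR : S ≤ R := by
      rintro _ ⟨y, -, rfl⟩
      exact y.2
    have hS' : S.subgroupOf R = S' := Subgroup.comap_map_eq_self_of_injective R.subtype_injective S'
    obtain ⟨lam', hlam'⟩ := indFun_indFun_aux R S hSR S' hS' lam
    rw [hlam']
    apply AddSubgroup.subset_closure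
    refine ⟨S, lam', fun h => hR (h.trans (Subgroup.card_dvd_of_le hSR)), rfl⟩
  | zero =>
    rw [indFun_zero]
    exact AddSubgroup.zero_mem _
  | add a b _ _ ha hb =>
    rw [indFun_add]
    exact AddSubgroup.add_mem _ ha hb
  | neg a _ ha =>
    have h1 : -a = (-1 : ℂ) • a := by simp
    rw [h1, indFun_smul]
    have h2 : (-1 : ℂ) • indFun R a = - indFun R a := by simp
    rw [h2]
    exact AddSubgroup.neg_mem _ ha

theorem indFun_elementary_mem {p q : ℕ} (hp : p.Prime) (hq : q.Prime) (E : Subgroup G) [Fintype E]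
    (hE : IsElementary q E) {φ : E → ℂ} (hφ : IsGeneralizedCharacter E φ)
    (hv : ∀ e : E, p ∣ orderOf e → φ e = 0) : indFun E φ ∈ projClosure p G := by
  classical
  set a := (Nat.card E).factorization p with ha
  set m := p ^ a with hm
  set n := Nat.card E / p ^ a with hn
  have hmn : m * n = Nat.card E := Nat.ordProj_mul_ordCompl_eq_self _ p
  have hcard0 : Nat.card E ≠ 0 := Nat.card_pos.ne'
  have hmpos : 0 < m := pow_pos hp.pos _
  have hnpos : 0 < n := Nat.pos_of_ne_zero fun h => by
    rw [h, mul_zero] at hmn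
    exact hcard0 hmn.symm
  have hpn : ¬ p ∣ n := Nat.not_dvd_ordCompl hp hcard0
  have hcop : m.Coprime n := Nat.Coprime.pow_left _ ((Nat.Prime.coprime_iff_not_dvd hp).mpr hpn)
  obtain ⟨k, w, hk0, hk1⟩ := exists_exponent_of_coprime hmpos hnpos hcop
  let σ : E →* E := elemPowHom hq hE hcop (by rw [hmn]) hk0 hk1
  have hσ : ∀ e, σ e = e ^ k := fun e => rfl
  have hdn : ∀ e : E, orderOf e ∣ m * n := fun e => by
    rw [hmn]
    exact orderOf_dvd_natCard e
  have hreg : ∀ e : E, ¬ p ∣ orderOf e → e ^ k = e := by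
    intro e he
    have h1 : Nat.Coprime (orderOf e) m := Nat.Coprime.pow_right _ ((Nat.coprime_comm.mp ((Nat.Prime.coprime_iff_not_dvd hp).mpr he)))
    have h2 : orderOf e ∣ n := h1.dvd_of_dvd_mul_left (hdn e)
    have h3 : e ^ n = 1 := orderOf_dvd_iff_pow_eq_one.mp h2
    rw [hk1, pow_succ, pow_mul, h3, one_pow, one_mul]
  have hpow : ∀ e : E, ¬ p ∣ orderOf (e ^ k) := by
    intro e h
    have h1 : (e ^ k) ^ n = 1 := by
      obtain ⟨c, hc⟩ := hk0
      rw [hc, ← pow_mul, show m * c * n = (m * n) * c by ring, pow_mul, hmn, pow_card_eq_one', one_pow]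
    exact hpn (h.trans (orderOf_dvd_of_pow_eq_one h1))
  have hmemR : ∀ e : E, e ∈ σ.range ↔ ¬ p ∣ orderOf e := by
    intro e
    constructor
    · rintro ⟨z, rfl⟩
      rw [hσ]
      exact hpow z
    · intro he
      exact ⟨e, by rw [hσ, hreg e he]⟩
  let R : Subgroup G := σ.range.map E.subtype
  have hRE : R ≤ E := by
    rintro _ ⟨y, -, rfl⟩
    exact y.2
  have hmemG : ∀ e : E, (e : G) ∈ R ↔ ¬ p ∣ orderOf e := by
    intro e
    rw [← hmemR]
    constructor
    · rintro ⟨y, hy, hye⟩
      have : y = e := Subtype.ext hye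
      rwa [← this]
    · intro h
      exact ⟨e, h, rfl⟩
  letI : Fintype R := Fintype.ofFinite _
  have hRp : ¬ p ∣ Nat.card R := by
    intro h
    haveI : Fact p.Prime := ⟨hp⟩
    obtain ⟨x, hx⟩ := exists_prime_orderOf_dvd_card' (G := R) p h
    have h1 : orderOf ((⟨x, hRE x.2⟩ : E)) = p := by
      rw [← hx, ← Subgroup.orderOf_coe x, ← Subgroup.orderOf_coe (⟨x, hRE x.2⟩ : E)]
    exact (hmemG ⟨x, hRE x.2⟩).mp x.2 (by rw [h1])
  -- the retraction
  let στ : E →* R := (E.subtype.comp σ).codRestrict R fun e => ⟨σ e, ⟨e, rfl⟩, rfl⟩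
  have hστ : ∀ e : E, ((στ e : R) : G) = ((e ^ k : E) : G) := fun e => rfl
  have hιστ : ∀ y : R, στ ⟨y, hRE y.2⟩ = y := by
    intro y
    apply Subtype.ext
    rw [hστ]
    have h1 := (hmemG ⟨y, hRE y.2⟩).mp y.2
    rw [hreg _ h1]
  set c : ℂ := (Nat.card R : ℂ) / (Nat.card E : ℂ) with hc
  have hEC : (Nat.card E : ℂ) ≠ 0 := by exact_mod_cast hcard0
  have hRC : (Nat.card R : ℂ) ≠ 0 := by exact_mod_cast Nat.card_pos.ne'
  let θ : R → ℂ := fun y => c * φ ⟨y, hRE y.2⟩
  have hφcl : IsClassFunction E φ := IsGeneralizedCharacter.isClassFunction hφ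
  have hθcl : IsClassFunction R θ := by
    intro y h
    simp only [θ]
    congr 1
    exact hφcl ⟨y, hRE y.2⟩ ⟨h, hRE h.2⟩
  -- the inner products
  have hin : ∀ η : IrrCharacter R, ∃ n : ℤ, classInner θ (η : R → ℂ) = n := by
    intro η
    have h1 : IsCharacter E ((η : R → ℂ) ∘ στ) := IsCharacter.comp (IsIrrCharacter.isCharacter η.2) στ
    obtain ⟨n, hn⟩ := IsGeneralizedCharacter.classInner_int hφ (IsGeneralizedCharacter.of_character h1)
    refine ⟨n, ?_⟩
    rw [← hn]
    simp only [classInner]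
    have h2 : ∑ e : E, φ e * conj (((η : R → ℂ) ∘ στ) e) = ∑ y : R, φ ⟨y, hRE y.2⟩ * conj ((η : R → ℂ) y) := by
      symm
      refine Fintype.sum_of_injective (fun y : R => (⟨y, hRE y.2⟩ : E)) ?_ _ _ ?_ ?_
      · intro y y' h
        exact Subtype.ext (congrArg (fun z : E => (z : G)) h)
      · intro e he
        have h3 : p ∣ orderOf e := by
          by_contra h4
          exact he ⟨⟨e, (hmemG e).mpr h4⟩, rfl⟩
        rw [hv e h3, zero_mul]
      · intro y
        simp only [Function.comp]
        rw [hιστ]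
    rw [h2]
    have h3 : ∑ y : R, θ y * conj ((η : R → ℂ) y) = c * ∑ y : R, φ ⟨y, hRE y.2⟩ * conj ((η : R → ℂ) y) := by
      rw [Finset.mul_sum]
      exact Finset.sum_congr rfl fun y _ => by simp only [θ]; ring
    rw [h3, hc]
    field_simp
  have hθlin : θ ∈ linClosure R := by
    rw [classFunction_eq_sum θ hθcl]
    apply AddSubgroup.sum_mem
    intro η _
    obtain ⟨n, hn⟩ := hin η
    rw [hn]
    have h1 : (n : ℂ) • (η : R → ℂ) = n • (η : R → ℂ) := by
      funext x
      simp
    rw [h1]
    exact AddSubgroup.zsmul_mem _ (character_mem_linClosure (IsIrrCharacter.isCharacter η.2)) _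
  have hind : indFun E φ = indFun R θ := by
    rw [← indFun_indFun R E hRE θ]
    congr 1
    funext e
    rw [indFun_apply]
    have hcard : Nat.card (R.subgroupOf E) = Nat.card R :=
      Nat.card_congr (Subgroup.subgroupOfEquivOfLe hRE).toEquiv
    have hconj : ∀ x : E, orderOf (x⁻¹ * e * x) = orderOf e := by
      intro x
      have h1 := orderOf_injective (MulAut.conj x⁻¹).toMonoidHom (MulAut.conj x⁻¹).injective e
      simpa using h1
    by_cases he : p ∣ orderOf e
    · rw [hv e he]
      symm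
      apply mul_eq_zero_of_right
      refine Finset.sum_eq_zero fun x _ => ?_
      apply extendByZero_of_notMem
      rw [Subgroup.mem_subgroupOf, hmemG, hconj]
      exact not_not.mpr he
    · have h1 : ∀ x : E, extendByZero (R.subgroupOf E) (fun x => θ ⟨(x : E), Subgroup.mem_subgroupOf.mp x.2⟩) (x⁻¹ * e * x) =
          c * φ e := by
        intro x
        have h2 : x⁻¹ * e * x ∈ R.subgroupOf E := by
          rw [Subgroup.mem_subgroupOf, hmemG, hconj]
          exact he
        rw [extendByZero_of_mem _ _ h2]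
        simp only [θ]
        congr 1
        have h3 := hφcl e x⁻¹
        rw [inv_inv] at h3
        exact h3
      rw [Finset.sum_congr rfl fun x _ => h1 x, Finset.sum_const, Finset.card_univ, hcard, nsmul_eq_mul,
        ← Nat.card_eq_fintype_card, hc]
      field_simp
  rw [hind]
  exact indFun_mem_projClosure R hRp hθlin

/-- **Generalized characters vanishing on `p`-singular elements.** -/
theorem mem_projClosure_of_vanish {p : ℕ} (hp : p.Prime) {ψ : G → ℂ} (hψ : IsGeneralizedCharacter G ψ)
    (hv : ∀ g : G, p ∣ orderOf g → ψ g = 0) : ψ ∈ projClosure p G := by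
  classical
  have hcl : IsClassFunction G ψ := IsGeneralizedCharacter.isClassFunction hψ
  have key : ∀ f ∈ linClosure G, f * ψ ∈ projClosure p G := by
    intro f hf
    induction hf using AddSubgroup.closure_induction with
    | mem f hf =>
      obtain ⟨E, lam, q, hq, hEl, rfl⟩ := hf
      rw [← indFun_mul_res E _ hcl]
      letI : Fintype E := Fintype.ofFinite _
      apply indFun_elementary_mem hp hq E hEl
      · have h0 : IsGeneralizedCharacter E (fun e : E => ψ e) := by
          obtain ⟨a, b, ha, hb, rfl⟩ := hψ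
          exact ⟨_, _, IsCharacter.comp ha E.subtype, IsCharacter.comp hb E.subtype, rfl⟩
        have h1 := IsGeneralizedCharacter.mul_character h0 (IsIrrCharacter.isCharacter (isIrrCharacter_of_monoidHom lam))
        have e : (fun h : E => ((lam h : ℂˣ) : ℂ) * ψ h) = (fun e : E => ψ e) * fun h : E => ((lam h : ℂˣ) : ℂ) := by
          funext x
          simp [mul_comm]
        rw [e]
        exact h1
      · intro e he
        rw [hv _ (by rwa [Subgroup.orderOf_coe]), mul_zero]
    | zero =>
      rw [zero_mul]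
      exact AddSubgroup.zero_mem _
    | add a b _ _ ha hb =>
      rw [add_mul]
      exact AddSubgroup.add_mem _ ha hb
    | neg a _ ha =>
      rw [neg_mul]
      exact AddSubgroup.neg_mem _ ha
  have := key _ one_mem_linClosure
  have e : (fun _ : G => (1 : ℂ)) * ψ = ψ := by
    funext x
    simp
  rwa [e] at this

end Closure

section Frame

variable {M : Ideal AlgInt} [hMp : M.IsPrime] {G : Type u} [Group G] [Fintype G]

/-- The idempotent of a linear character of a subgroup of order prime to `p`. -/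
theorem exists_idem_of_linear {p : ℕ} (hM : IsPModular p M) (R : Subgroup G) [Fintype R] (hR : ¬ p ∣ Nat.card R)
    (μ : R →* ℂˣ) : ∃ w : MonoidAlgebra (locRing M) G, w * w = w ∧ ∀ χ : G → ℂ, (∀ y, χ y⁻¹ = conj (χ y)) →
      classInner (fun y : R => ((μ y : ℂˣ) : ℂ)) (fun y : R => χ y) = chiL χ w := by
  classical
  have hRC : (Nat.card R : ℂ) ≠ 0 := by exact_mod_cast Nat.card_pos.ne'
  have hR1 : MemLocalRing M ((Nat.card R : ℂ)⁻¹) := by
    apply inv_memLocalRing (MemLocalRing.natCast _)
    rw [natCast_memLocalIdeal_iff hM]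
    exact hR
  have hmuint : ∀ y : R, MemLocalRing M ((μ y : ℂˣ) : ℂ) := by
    intro y
    have h1 : IsIntegral ℤ ((μ y : ℂˣ) : ℂ) := by
      apply IsIntegral.of_pow (Nat.card_pos (α := R))
      have h2 : ((μ y : ℂˣ) : ℂ) ^ Nat.card R = 1 := by
        rw [← Units.val_pow_eq_pow_val, ← map_pow, pow_card_eq_one', map_one, Units.val_one]
      rw [h2]
      exact isIntegral_one
    exact memLocalRing_of_algInt ⟨_, h1⟩
  let r : locRing M := ⟨(Nat.card R : ℂ)⁻¹, hR1⟩
  let ν : R → locRing M := fun y => ⟨((μ y⁻¹ : ℂˣ) : ℂ), hmuint _⟩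
  have hν : ∀ y z, ν y * ν z = ν (y * z) := by
    intro y z
    apply Subtype.ext
    show ((μ y⁻¹ : ℂˣ) : ℂ) * ((μ z⁻¹ : ℂˣ) : ℂ) = ((μ (y * z)⁻¹ : ℂˣ) : ℂ)
    rw [mul_inv_rev, map_mul, Units.val_mul, mul_comm]
  have hrc : (Nat.card R : locRing M) * r = 1 := by
    apply Subtype.ext
    show ((Nat.card R : locRing M) : ℂ) * (Nat.card R : ℂ)⁻¹ = 1
    push_cast
    exact mul_inv_cancel₀ hRC
  refine ⟨∑ y : R, single (y : G) (r * ν y), ?_, ?_⟩
  · rw [Finset.sum_mul_sum]
    have h1 : ∀ y : R, ∑ z : R, (single (y : G) (r * ν y) : MonoidAlgebra (locRing M) G) * single (z : G) (r * ν z) =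
        ∑ t : R, single (t : G) (r * (r * ν t)) := by
      intro y
      refine Fintype.sum_equiv (Equiv.mulLeft y) _ _ fun z => ?_
      rw [single_mul_single]
      simp only [Equiv.coe_mulLeft, Subgroup.coe_mul]
      congr 1
      rw [← hν]
      ring
    rw [Finset.sum_congr rfl fun y _ => h1 y, Finset.sum_const, Finset.card_univ, ← Nat.card_eq_fintype_card,
      Finset.smul_sum]
    refine Finset.sum_congr rfl fun t _ => ?_
    rw [MonoidAlgebra.smul_single, nsmul_eq_mul, ← mul_assoc, hrc, one_mul]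
  · intro χ hχ
    rw [chiL_sum]
    simp only [chiL_single, classInner]
    rw [Finset.mul_sum]
    refine Fintype.sum_equiv (Equiv.inv R) _ _ fun y => ?_
    simp only [Equiv.inv_apply]
    have h1 : (((r * ν y⁻¹ : locRing M) : ℂ)) = (Nat.card R : ℂ)⁻¹ * ((μ y : ℂˣ) : ℂ) := by
      show (Nat.card R : ℂ)⁻¹ * ((μ y⁻¹⁻¹ : ℂˣ) : ℂ) = _
      rw [inv_inv]
    rw [h1, Subgroup.coe_inv, hχ]
    ring

namespace OFrame

variable (𝓕 : OFrame M G)

/-- **Integral coordinates.** -/
theorem exists_N {p : ℕ} (hM : IsPModular p M) {ψ : G → ℂ} (hψ : ψ ∈ projClosure p G) :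
    ∃ N : Fin 𝓕.l → ℤ, ∀ χ : IrrCharacter G, classInner ψ (χ : G → ℂ) =
      ∑ k, (N k : ℂ) * chiL (χ : G → ℂ) (𝓕.P k) := by
  classical
  induction hψ using AddSubgroup.closure_induction with
  | mem f hf =>
    obtain ⟨R, μ, hR, rfl⟩ := hf
    letI : Fintype R := Fintype.ofFinite _
    obtain ⟨w, hw, hw2⟩ := exists_idem_of_linear hM R hR μ
    refine ⟨fun k => 𝓕.a w k, fun χ => ?_⟩
    rw [classInner_indFun_left R _ _ (irr_isClassFunction χ), hw2 _ (fun y => irr_apply_inv χ y),
      𝓕.chiL_eq_sum (IsIrrCharacter.isCharacter χ.2) hw]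
    simp
  | zero =>
    refine ⟨0, fun χ => ?_⟩
    simp [classInner]
  | add a b _ _ ha hb =>
    obtain ⟨N, hN⟩ := ha
    obtain ⟨N', hN'⟩ := hb
    refine ⟨N + N', fun χ => ?_⟩
    rw [classInner_add_left, hN, hN', ← Finset.sum_add_distrib]
    refine Finset.sum_congr rfl fun k _ => ?_
    simp only [Pi.add_apply]
    push_cast
    ring
  | neg a _ ha =>
    obtain ⟨N, hN⟩ := ha
    refine ⟨-N, fun χ => ?_⟩
    have h1 : classInner (-a) (χ : G → ℂ) = - classInner a (χ : G → ℂ) := by
      simp [classInner, Finset.sum_neg_distrib, mul_neg]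
    rw [h1, hN, ← Finset.sum_neg_distrib]
    refine Finset.sum_congr rfl fun k _ => ?_
    simp only [Pi.neg_apply]
    push_cast
    ring

end OFrame

end Frame

end Cfsg.Agent.Lib.LocalAlg
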