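import Cfsg.Agent.Lib.LocalAlg.OLift

/-!
# Linear extensions of characters to the group ring; decomposition numbers
-/

set_option autoImplicit false
set_option linter.unusedSectionVars false
set_option linter.unusedVariables false

namespace Cfsg.Agent.Lib.LocalAlg

open Cfsg Cfsg.Agent.Lib.Char Cfsg.Agent.Lib.Blocks Cfsg.Agent.Lib.H8Group Finset Module MonoidAlgebra
open scoped ComplexConjugate

universe u

section Lin

variable {M : Ideal AlgInt} [hMp : M.IsPrime] {G : Type u} [Group G] [Fintype G]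

/-- The linear extension of a function to the group ring. -/
noncomputable def chiL (χ : G → ℂ) (a : MonoidAlgebra (locRing M) G) : ℂ :=
  ∑ g, ((a.coeff g : locRing M) : ℂ) * χ g

theorem chiL_add (χ : G → ℂ) (a b : MonoidAlgebra (locRing M) G) :
    chiL χ (a + b) = chiL χ a + chiL χ b := by
  simp only [chiL, ← Finset.sum_add_distrib]
  refine Finset.sum_congr rfl fun g _ => ?_
  rw [MonoidAlgebra.coeff_add, Finsupp.add_apply]
  push_cast
  ring

theorem chiL_zero (χ : G → ℂ) : chiL χ (0 : MonoidAlgebra (locRing M) G) = 0 := by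
  simp [chiL]

theorem chiL_sum (χ : G → ℂ) {ι : Type*} (s : Finset ι) (f : ι → MonoidAlgebra (locRing M) G) :
    chiL χ (∑ i ∈ s, f i) = ∑ i ∈ s, chiL χ (f i) := by
  classical
  induction s using Finset.induction_on with
  | empty => simp [chiL_zero]
  | insert a s ha ih => rw [Finset.sum_insert ha, Finset.sum_insert ha, chiL_add, ih]

theorem chiL_single (χ : G → ℂ) (g : G) (c : locRing M) :
    chiL χ (single g c : MonoidAlgebra (locRing M) G) = (c : ℂ) * χ g := by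
  classical
  rw [chiL, Finset.sum_eq_single g]
  · simp
  · intro h _ hne
    simp [Finsupp.single_apply, Ne.symm hne]
  · simp

theorem exists_matrix_rep {χ : G → ℂ} (hχ : IsCharacter G χ) :
    ∃ (n : ℕ) (R : MonoidAlgebra (locRing M) G →+* Matrix (Fin n) (Fin n) ℂ), ∀ a, (R a).trace = chiL χ a := by
  classical
  obtain ⟨n, ρ, rfl⟩ := hχ
  let Φ : MonoidAlgebra ℂ G →ₐ[ℂ] Matrix (Fin n) (Fin n) ℂ :=
    (LinearMap.toMatrixAlgEquiv' : ((Fin n → ℂ) →ₗ[ℂ] (Fin n → ℂ)) ≃ₐ[ℂ] _).toAlgHom.comp ρ.asAlgebraHom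
  refine ⟨n, (Φ : MonoidAlgebra ℂ G →+* _).comp incA, fun a => ?_⟩
  show (Φ (incA a)).trace = _
  have h1 : incA a = ∑ g, single g ((a.coeff g : locRing M) : ℂ) := by
    ext h
    rw [incA_coeff]
    simp [MonoidAlgebra.coeff_sum, Finsupp.finsetSum_apply, Finsupp.single_apply]
  rw [h1, map_sum, Matrix.trace_sum]
  refine Finset.sum_congr rfl fun g _ => ?_
  have h2 : Φ (single g ((a.coeff g : locRing M) : ℂ)) =
      ((a.coeff g : locRing M) : ℂ) • LinearMap.toMatrix' (ρ g) := by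
    show LinearMap.toMatrixAlgEquiv' (ρ.asAlgebraHom (single g _)) = _
    rw [Representation.asAlgebraHom_single, map_smul]
    rfl
  rw [h2, Matrix.trace_smul, smul_eq_mul]
  congr 1
  rw [← LinearMap.toMatrix_eq_toMatrix', ← LinearMap.trace_eq_matrix_trace]
  rfl

/-- The natural number attached to an idempotent. -/
noncomputable def idN (χ : G → ℂ) (w : MonoidAlgebra (locRing M) G) : ℕ := ⌊(chiL χ w).re⌋₊

theorem chiL_eq_idN_of_rep {χ : G → ℂ} {n : ℕ} {R : MonoidAlgebra (locRing M) G →+* Matrix (Fin n) (Fin n) ℂ}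
    (hR : ∀ a, (R a).trace = chiL χ a) {w : MonoidAlgebra (locRing M) G} (hw : w * w = w) :
    chiL χ w = ((R w).rank : ℂ) ∧ idN χ w = (R w).rank := by
  have h1 : chiL χ w = ((R w).rank : ℂ) := by
    rw [← hR, ← rank_eq_trace_of_idem (R w) (by rw [← map_mul, hw])]
  refine ⟨h1, ?_⟩
  rw [idN, h1]
  simp

theorem chiL_eq_idN {χ : G → ℂ} (hχ : IsCharacter G χ) {w : MonoidAlgebra (locRing M) G} (hw : w * w = w) :
    chiL χ w = (idN χ w : ℂ) := by
  obtain ⟨n, R, hR⟩ := exists_matrix_rep (M := M) hχ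
  obtain ⟨h1, h2⟩ := chiL_eq_idN_of_rep hR hw
  rw [h1, h2]

theorem idN_le_of_transfer {χ : G → ℂ} (hχ : IsCharacter G χ) {w w' x y : MonoidAlgebra (locRing M) G}
    (hw : w * w = w) (hw' : w' * w' = w') (h1 : x * y = w) (h2 : x * w' = x) : idN χ w ≤ idN χ w' := by
  obtain ⟨n, R, hR⟩ := exists_matrix_rep (M := M) hχ
  rw [(chiL_eq_idN_of_rep hR hw).2, (chiL_eq_idN_of_rep hR hw').2]
  exact rank_le_of_transfer R h1 h2

theorem IsCharacter.isClass_trace {χ : G → ℂ} (hχ : IsCharacter G χ) (a b : MonoidAlgebra (locRing M) G) :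
    chiL χ (a * b) = chiL χ (b * a) := by
  obtain ⟨n, R, hR⟩ := exists_matrix_rep (M := M) hχ
  rw [← hR, ← hR, map_mul, map_mul, Matrix.trace_mul_comm]

end Lin

section Frame

variable {M : Ideal AlgInt} [hMp : M.IsPrime] {G : Type u} [Group G] [Fintype G] (𝓕 : OFrame M G)

namespace OFrame

/-- The ranks of an element at the simple modules. -/
noncomputable def a (w : MonoidAlgebra (locRing M) G) (k : Fin 𝓕.l) : ℕ := (𝓕.pA (resA w) k).rank

/-- The ring homomorphism to the semisimple quotient. -/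
noncomputable def pR : MonoidAlgebra (locRing M) G →+* ∀ k, Matrix (Fin (𝓕.m k)) (Fin (𝓕.m k)) (OF M) :=
  (𝓕.pA : MonoidAlgebra (OF M) G →+* _).comp resA

theorem pR_apply (w : MonoidAlgebra (locRing M) G) : 𝓕.pR w = 𝓕.pA (resA w) := rfl

theorem pR_surj : Function.Surjective 𝓕.pR := 𝓕.surj.comp resA_surjective

theorem idN_le {χ : G → ℂ} (hχ : IsCharacter G χ) {w w' : MonoidAlgebra (locRing M) G} (hw : w * w = w)
    (hw' : w' * w' = w') (h : ∀ k, 𝓕.a w k ≤ 𝓕.a w' k) : idN χ w ≤ idN χ w' := by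
  obtain ⟨x, y, h1, -, h2, -, -⟩ := exists_mul_eq_of_rank_le 𝓕.pR 𝓕.pR_surj 𝓕.jac hw hw' h
  exact idN_le_of_transfer hχ hw hw' h1 h2

theorem chiL_eq_of_a {χ : G → ℂ} (hχ : IsCharacter G χ) {w w' : MonoidAlgebra (locRing M) G} (hw : w * w = w)
    (hw' : w' * w' = w') (h : ∀ k, 𝓕.a w k = 𝓕.a w' k) : chiL χ w = chiL χ w' := by
  rw [chiL_eq_idN hχ hw, chiL_eq_idN hχ hw',
    le_antisymm (𝓕.idN_le hχ hw hw' fun k => (h k).le) (𝓕.idN_le hχ hw' hw fun k => (h k).ge)]

/-- The sum of a set of frame idempotents. -/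
noncomputable def J (S : Finset (Σ k, Fin (𝓕.m k))) : MonoidAlgebra (locRing M) G := ∑ i ∈ S, 𝓕.I i

theorem J_idem (S : Finset (Σ k, Fin (𝓕.m k))) : 𝓕.J S * 𝓕.J S = 𝓕.J S := by
  classical
  rw [J, Finset.sum_mul]
  refine Finset.sum_congr rfl fun i hi => ?_
  rw [Finset.mul_sum, Finset.sum_eq_single i]
  · exact 𝓕.idem i
  · intro j _ hj
    exact 𝓕.orth i j (Ne.symm hj)
  · intro h
    exact absurd hi h

theorem pA_J (S : Finset (Σ k, Fin (𝓕.m k))) (k : Fin 𝓕.l) :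
    𝓕.pA (resA (𝓕.J S)) k = Matrix.diagonal fun s => if (⟨k, s⟩ : Σ k, Fin (𝓕.m k)) ∈ S then 1 else 0 := by
  classical
  rw [J, map_sum, map_sum, Finset.sum_apply]
  rw [Finset.sum_congr rfl fun i _ => 𝓕.val i k]
  ext a b
  rw [Matrix.sum_apply]
  by_cases hab : a = b
  · subst hab
    simp only [Matrix.diagonal_apply_eq]
    simp [Finset.sum_ite_eq]
  · simp [Matrix.diagonal_apply_ne _ hab]

theorem a_J (S : Finset (Σ k, Fin (𝓕.m k))) (k : Fin 𝓕.l) :
    𝓕.a (𝓕.J S) k = (Finset.univ.filter fun s : Fin (𝓕.m k) => (⟨k, s⟩ : Σ k, Fin (𝓕.m k)) ∈ S).card := by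
  classical
  rw [a, pA_J, Matrix.rank_diagonal, Fintype.card_subtype]
  congr 1
  ext s
  simp

/-- The frame idempotent at the first place. -/
noncomputable def P (k : Fin 𝓕.l) : MonoidAlgebra (locRing M) G := 𝓕.I ⟨k, ⟨0, 𝓕.mpos k⟩⟩

theorem J_singleton (i : Σ k, Fin (𝓕.m k)) : 𝓕.J {i} = 𝓕.I i := by
  simp [J]

theorem a_I (i : Σ k, Fin (𝓕.m k)) (k : Fin 𝓕.l) : 𝓕.a (𝓕.I i) k = if k = i.1 then 1 else 0 := by
  classical
  rw [← J_singleton, a_J]
  obtain ⟨k₀, s₀⟩ := i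
  by_cases hk : k = k₀
  · subst hk
    rw [if_pos rfl, Finset.card_eq_one]
    refine ⟨s₀, ?_⟩
    ext s
    simp
  · rw [if_neg hk, Finset.card_eq_zero]
    ext s
    simp [hk]

theorem a_P (j k : Fin 𝓕.l) : 𝓕.a (𝓕.P j) k = if k = j then 1 else 0 := by
  rw [P, a_I]

theorem chiL_I {χ : G → ℂ} (hχ : IsCharacter G χ) (i : Σ k, Fin (𝓕.m k)) :
    chiL χ (𝓕.I i) = chiL χ (𝓕.P i.1) :=
  𝓕.chiL_eq_of_a hχ (𝓕.idem _) (𝓕.idem _) fun k => by rw [a_I, a_P]

theorem a_le (w : MonoidAlgebra (locRing M) G) (k : Fin 𝓕.l) : 𝓕.a w k ≤ 𝓕.m k := by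
  have := Matrix.rank_le_card_width (𝓕.pA (resA w) k)
  rw [a]
  simpa using this

/-- **The decomposition formula.** -/
theorem chiL_eq_sum {χ : G → ℂ} (hχ : IsCharacter G χ) {w : MonoidAlgebra (locRing M) G} (hw : w * w = w) :
    chiL χ w = ∑ k, (𝓕.a w k : ℂ) * chiL χ (𝓕.P k) := by
  classical
  set S : Finset (Σ k, Fin (𝓕.m k)) := Finset.univ.filter fun i => (i.2 : ℕ) < 𝓕.a w i.1 with hS
  have hcard : ∀ k, (Finset.univ.filter fun s : Fin (𝓕.m k) => (⟨k, s⟩ : Σ k, Fin (𝓕.m k)) ∈ S).card = 𝓕.a w k := by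
    intro k
    have h1 : (Finset.univ.filter fun s : Fin (𝓕.m k) => (⟨k, s⟩ : Σ k, Fin (𝓕.m k)) ∈ S) =
        Finset.univ.filter fun s : Fin (𝓕.m k) => (s : ℕ) < 𝓕.a w k := by
      ext s
      simp [hS]
    rw [h1]
    have h2 := 𝓕.a_le w k
    rw [Fin.card_filter_val_lt]
    omega
  have h1 : chiL χ w = chiL χ (𝓕.J S) :=
    𝓕.chiL_eq_of_a hχ hw (𝓕.J_idem S) fun k => by rw [a_J, hcard]
  rw [h1, J, chiL_sum, Finset.sum_congr rfl fun i _ => 𝓕.chiL_I hχ i]
  have h2 : ∑ i ∈ S, chiL χ (𝓕.P i.1) = ∑ i : (Σ k, Fin (𝓕.m k)), if i ∈ S then chiL χ (𝓕.P i.1) else 0 := by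
    rw [Finset.sum_ite_mem, Finset.univ_inter]
  rw [h2, Fintype.sum_sigma]
  refine Finset.sum_congr rfl fun k _ => ?_
  rw [Finset.sum_ite, Finset.sum_const_zero, add_zero]
  have h3 : ∀ x : Fin (𝓕.m k), chiL χ (𝓕.P (⟨k, x⟩ : Σ k, Fin (𝓕.m k)).1) = chiL χ (𝓕.P k) := fun _ => rfl
  simp only [h3]
  rw [Finset.sum_const, hcard, nsmul_eq_mul]

omit 𝓕 in
theorem chiL_one (χ : G → ℂ) : chiL χ (1 : MonoidAlgebra (locRing M) G) = χ 1 := by
  rw [one_def, chiL_single]
  simp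

theorem a_one (k : Fin 𝓕.l) : 𝓕.a 1 k = 𝓕.m k := by
  rw [a, map_one, map_one]
  show (1 : Matrix (Fin (𝓕.m k)) (Fin (𝓕.m k)) (OF M)).rank = _
  rw [Matrix.rank_one]
  simp

/-- The degree formula. -/
theorem apply_one_eq_sum {χ : G → ℂ} (hχ : IsCharacter G χ) :
    χ 1 = ∑ k, (𝓕.m k : ℂ) * chiL χ (𝓕.P k) := by
  rw [← chiL_one (M := M) χ, 𝓕.chiL_eq_sum hχ (mul_one 1)]
  exact Finset.sum_congr rfl fun k _ => by rw [a_one]

theorem chiL_classFun (t : G → ℂ) (ht : IsClassFunction G t) (a : MonoidAlgebra (locRing M) G) :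
    chiL t a = ∑ χ : IrrCharacter G, classInner t (χ : G → ℂ) * chiL (χ : G → ℂ) a := by
  classical
  have h1 := classFunction_eq_sum t ht
  have h2 : ∀ y, t y = ∑ χ : IrrCharacter G, classInner t (χ : G → ℂ) * (χ : G → ℂ) y := by
    intro y
    have h3 := congrFun h1 y
    rw [Finset.sum_apply] at h3
    simpa using h3
  simp only [chiL]
  simp only [Finset.mul_sum]
  rw [Finset.sum_comm]
  refine Finset.sum_congr rfl fun g _ => ?_
  rw [h2 g, Finset.mul_sum]
  refine Finset.sum_congr rfl fun χ _ => ?_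
  ring

/-- **Independence of the columns of the decomposition matrix.** -/
theorem indep {p : ℕ} (hM : IsPModular p M) (c : Fin 𝓕.l → ℤ)
    (hc : ∀ χ : IrrCharacter G, ∑ k, (c k : ℂ) * chiL (χ : G → ℂ) (𝓕.P k) = 0) : c = 0 := by
  classical
  by_contra hne
  have hpp : p.Prime := hM.1
  -- take out the gcd
  have hne' : ∃ k, c k ≠ 0 := by
    by_contra h
    push Not at h
    exact hne (funext h)
  obtain ⟨k₀, hk₀⟩ := hne'
  have hk₀u : k₀ ∈ (Finset.univ : Finset (Fin 𝓕.l)) := Finset.mem_univ _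
  obtain ⟨c', hc', hgcd⟩ := Finset.extract_gcd c ⟨k₀, hk₀u⟩
  set g := Finset.univ.gcd c with hg
  have hg0 : g ≠ 0 := by
    intro h0
    apply hk₀
    rw [hc' k₀ hk₀u, h0, zero_mul]
  have hgC : (g : ℂ) ≠ 0 := by exact_mod_cast hg0
  have hc'' : ∀ χ : IrrCharacter G, ∑ k, (c' k : ℂ) * chiL (χ : G → ℂ) (𝓕.P k) = 0 := by
    intro χ
    have h1 := hc χ
    have h2 : ∑ k, (c k : ℂ) * chiL (χ : G → ℂ) (𝓕.P k) =
        (g : ℂ) * ∑ k, (c' k : ℂ) * chiL (χ : G → ℂ) (𝓕.P k) := by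
      rw [Finset.mul_sum]
      refine Finset.sum_congr rfl fun k _ => ?_
      rw [hc' k (Finset.mem_univ _)]
      push_cast
      ring
    rw [h2] at h1
    exact (mul_eq_zero.mp h1).resolve_left hgC
  -- a coordinate prime to `p`
  obtain ⟨j, hj⟩ : ∃ j, ¬ (p : ℤ) ∣ c' j := by
    by_contra h
    push Not at h
    have h1 : (p : ℤ) ∣ Finset.univ.gcd c' := Finset.dvd_gcd fun k _ => h k
    rw [hgcd] at h1
    have h2 := Int.eq_one_of_dvd_one (by positivity) h1
    have h3 := hpp.one_lt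
    omega
  -- the trace at `j` lifted
  let sec : OF M → locRing M := Function.surjInv Ideal.Quotient.mk_surjective
  have hsec : ∀ z, Ideal.Quotient.mk (locMax M) (sec z) = z := Function.surjInv_eq _
  let ζ : G → OF M := fun g => (𝓕.pA (single g 1) j).trace
  have hζ : ∀ g x, ζ (x * g * x⁻¹) = ζ g := by
    intro g x
    simp only [ζ]
    have h1 : (single (x * g * x⁻¹) 1 : MonoidAlgebra (OF M) G) =
        single x 1 * (single g 1 * single x⁻¹ 1) := by
      simp [single_mul_single, mul_assoc]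
    rw [h1, map_mul, map_mul, Pi.mul_apply, Pi.mul_apply, Matrix.trace_mul_comm, Matrix.mul_assoc]
    have h2 : (single x⁻¹ 1 : MonoidAlgebra (OF M) G) * single x 1 = 1 := by
      simp [single_mul_single, one_def]
    have h3 : (𝓕.pA (single x⁻¹ 1)) j * (𝓕.pA (single x 1)) j = 1 := by
      rw [← Pi.mul_apply, ← map_mul, h2, map_one]
      rfl
    rw [h3, Matrix.mul_one]
  let t : G → ℂ := fun g => (sec (ζ g) : ℂ)
  have ht : IsClassFunction G t := by
    intro g x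
    simp only [t]
    rw [hζ]
  have h0 : ∑ k, (c' k : ℂ) * chiL t (𝓕.P k) = 0 := by
    simp only [chiL_classFun t ht, Finset.mul_sum]
    rw [Finset.sum_comm]
    refine Finset.sum_eq_zero fun χ _ => ?_
    have h1 := hc'' χ
    calc ∑ k, (c' k : ℂ) * (classInner t (χ : G → ℂ) * chiL (χ : G → ℂ) (𝓕.P k))
        = classInner t (χ : G → ℂ) * ∑ k, (c' k : ℂ) * chiL (χ : G → ℂ) (𝓕.P k) := by
          rw [Finset.mul_sum]
          exact Finset.sum_congr rfl fun k _ => by ring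
      _ = 0 := by rw [h1, mul_zero]
  -- reduce
  let o : Fin 𝓕.l → locRing M := fun k => ∑ g, (𝓕.P k).coeff g * sec (ζ g)
  have ho : ∀ k, chiL t (𝓕.P k) = (o k : ℂ) := by
    intro k
    simp only [o, chiL, t]
    push_cast
    rfl
  have hred : ∀ k, Ideal.Quotient.mk (locMax M) (o k) = if k = j then 1 else 0 := by
    intro k
    have h1 : Ideal.Quotient.mk (locMax M) (o k) = (𝓕.pA (resA (𝓕.P k)) j).trace := by
      have h2 : resA (𝓕.P k) = ∑ g, (Ideal.Quotient.mk (locMax M) ((𝓕.P k).coeff g)) • (single g 1 : MonoidAlgebra (OF M) G) := by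
        ext h
        rw [resA_coeff]
        simp [MonoidAlgebra.coeff_sum, Finsupp.finsetSum_apply, Finsupp.single_apply]
      have h3 : (𝓕.pA (∑ g, (Ideal.Quotient.mk (locMax M) ((𝓕.P k).coeff g)) • (single g 1 : MonoidAlgebra (OF M) G)) j).trace =
          ∑ g, Ideal.Quotient.mk (locMax M) ((𝓕.P k).coeff g) * ζ g := by
        rw [map_sum, Finset.sum_apply, Matrix.trace_sum]
        refine Finset.sum_congr rfl fun g _ => ?_
        rw [map_smul, Pi.smul_apply, Matrix.trace_smul, smul_eq_mul]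
      rw [h2, h3]
      simp only [o, map_sum, map_mul, hsec]
    rw [h1, P, 𝓕.val, Matrix.trace_diagonal]
    by_cases hk : k = j
    · subst hk
      rw [if_pos rfl, Finset.sum_eq_single ⟨0, 𝓕.mpos k⟩]
      · simp
      · intro s _ hs
        rw [if_neg]
        intro h
        apply hs
        simpa using h
      · simp
    · rw [if_neg hk]
      refine Finset.sum_eq_zero fun s _ => ?_
      rw [if_neg]
      intro h
      exact hk (congrArg Sigma.fst h).symm
  have h1 : ∑ k, (c' k : locRing M) * o k = 0 := by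
    apply Subtype.ext
    push_cast
    have : ∑ k, (c' k : ℂ) * chiL t (𝓕.P k) = ∑ k, (c' k : ℂ) * (o k : ℂ) :=
      Finset.sum_congr rfl fun k _ => by rw [ho]
    rw [← this, h0]
  have h2 := congrArg (Ideal.Quotient.mk (locMax M)) h1
  simp only [map_sum, map_mul, map_intCast, hred, map_zero] at h2
  rw [Finset.sum_eq_single j] at h2
  · rw [if_pos rfl, mul_one] at h2
    apply hj
    haveI : Fact p.Prime := ⟨hpp⟩
    haveI : CharP (OF M) p := charP_resF hM
    exact (CharP.intCast_eq_zero_iff (OF M) p _).mp h2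
  · intro k _ hk
    rw [if_neg hk, mul_zero]
  · simp

end OFrame

end Frame

end Cfsg.Agent.Lib.LocalAlg
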