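import Cfsg.Agent.Lib.LocalAlg.MinDim2

/-!
# Lifting orthogonal idempotents to the group ring over the local ring

An abstract form: a ring `Λ` with a surjection to a product of matrix algebras whose kernel lies
in the radical (in the form `1 - u` is right invertible).
-/

set_option autoImplicit false
set_option linter.unusedSectionVars false
set_option linter.unusedVariables false

namespace Cfsg.Agent.Lib.LocalAlg

open Cfsg Cfsg.Agent.Lib.Char Cfsg.Agent.Lib.Blocks Cfsg.Agent.Lib.H8Group Finset Module MonoidAlgebra Polynomial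

section Abstract

variable {F : Type*} [Field F]

/-- Idempotent matrices with comparable ranks. -/
theorem exists_transfer_of_rank_le {ι : Type*} [Fintype ι] [DecidableEq ι] (E E' : Matrix ι ι F)
    (hE : E * E = E) (hE' : E' * E' = E') (h : E.rank ≤ E'.rank) :
    ∃ X Y : Matrix ι ι F, X * Y = E ∧ E * X = X ∧ X * E' = X ∧ E' * Y = Y ∧ Y * E = Y := by
  classical
  obtain ⟨r, hr, B, C, B', C', h1, h2, h3⟩ := exists_rank_factor E
  obtain ⟨r₂, hr₂, B₂, C₂, B₂', C₂', h1₂, h2₂, h3₂⟩ := exists_rank_factor E'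
  have hCB : C * B = 1 := by
    have h4 : B' * (E * E) * C' = B' * E * C' := by rw [hE]
    rw [h1] at h4
    have h5 : B' * (B * C * (B * C)) * C' = (B' * B) * (C * B) * (C * C') := by
      simp only [Matrix.mul_assoc]
    have h6 : B' * (B * C) * C' = (B' * B) * (C * C') := by
      simp only [Matrix.mul_assoc]
    rw [h5, h6, h2, h3, Matrix.one_mul, Matrix.mul_one, Matrix.mul_one] at h4
    exact h4
  have hCB₂ : C₂ * B₂ = 1 := by
    have h4 : B₂' * (E' * E') * C₂' = B₂' * E' * C₂' := by rw [hE']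
    rw [h1₂] at h4
    have h5 : B₂' * (B₂ * C₂ * (B₂ * C₂)) * C₂' = (B₂' * B₂) * (C₂ * B₂) * (C₂ * C₂') := by
      simp only [Matrix.mul_assoc]
    have h6 : B₂' * (B₂ * C₂) * C₂' = (B₂' * B₂) * (C₂ * C₂') := by
      simp only [Matrix.mul_assoc]
    rw [h5, h6, h2₂, h3₂, Matrix.one_mul, Matrix.mul_one, Matrix.mul_one] at h4
    exact h4
  have hrr : r ≤ r₂ := by omega
  let J : Matrix (Fin r) (Fin r₂) F := Matrix.of fun a b => if b = Fin.castLE hrr a then 1 else 0
  have hJ : J * J.transpose = 1 := by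
    ext a a'
    rw [Matrix.mul_apply]
    simp only [Matrix.transpose_apply, J, Matrix.of_apply]
    rw [Finset.sum_eq_single (Fin.castLE hrr a)]
    · simp only [if_true]
      by_cases haa : a = a'
      · subst haa
        simp
      · have hne : Fin.castLE hrr a ≠ Fin.castLE hrr a' := fun h => haa (Fin.castLE_injective hrr h)
        simp [hne, haa, Matrix.one_apply]
    · intro b _ hb
      rw [if_neg hb, zero_mul]
    · simp
  refine ⟨B * J * C₂, B₂ * J.transpose * C, ?_, ?_, ?_, ?_, ?_⟩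
  · calc B * J * C₂ * (B₂ * J.transpose * C) = B * J * (C₂ * B₂) * J.transpose * C := by
          simp only [Matrix.mul_assoc]
      _ = B * (J * J.transpose) * C := by
          rw [hCB₂, Matrix.mul_one]
          simp only [Matrix.mul_assoc]
      _ = E := by rw [hJ, Matrix.mul_one, h1]
  · rw [h1]
    calc B * C * (B * J * C₂) = B * (C * B) * J * C₂ := by simp only [Matrix.mul_assoc]
      _ = _ := by rw [hCB, Matrix.mul_one]
  · rw [h1₂]
    calc B * J * C₂ * (B₂ * C₂) = B * J * (C₂ * B₂) * C₂ := by simp only [Matrix.mul_assoc]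
      _ = _ := by rw [hCB₂, Matrix.mul_one]
  · rw [h1₂]
    calc B₂ * C₂ * (B₂ * J.transpose * C) = B₂ * (C₂ * B₂) * J.transpose * C := by simp only [Matrix.mul_assoc]
      _ = _ := by rw [hCB₂, Matrix.mul_one]
  · rw [h1]
    calc B₂ * J.transpose * C * (B * C) = B₂ * J.transpose * (C * B) * C := by simp only [Matrix.mul_assoc]
      _ = _ := by rw [hCB, Matrix.mul_one]

variable {Λ : Type*} [Ring Λ] {l : ℕ} {m : Fin l → ℕ}
  (Pi' : Λ →+* ∀ k, Matrix (Fin (m k)) (Fin (m k)) F)

/-- **Comparing idempotents**: the lifted form. -/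
theorem exists_mul_eq_of_rank_le (hsurj : Function.Surjective Pi')
    (hjac : ∀ u, Pi' u = 0 → ∃ v, (1 - u) * v = 1) {w w' : Λ} (hw : w * w = w) (hw' : w' * w' = w')
    (h : ∀ k, (Pi' w k).rank ≤ (Pi' w' k).rank) :
    ∃ x y, x * y = w ∧ w * x = x ∧ x * w' = x ∧ w' * y = y ∧ y * w = y := by
  classical
  have hEk : ∀ k, Pi' w k * Pi' w k = Pi' w k := fun k => by
    have := congrFun (congrArg Pi' hw) k
    rwa [map_mul] at this
  have hEk' : ∀ k, Pi' w' k * Pi' w' k = Pi' w' k := fun k => by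
    have := congrFun (congrArg Pi' hw') k
    rwa [map_mul] at this
  choose X Y hXY hX1 hX2 hY1 hY2 using fun k =>
    exists_transfer_of_rank_le (Pi' w k) (Pi' w' k) (hEk k) (hEk' k) (h k)
  obtain ⟨x₀, hx₀⟩ := hsurj X
  obtain ⟨y₀, hy₀⟩ := hsurj Y
  set x := w * x₀ * w' with hx
  set y := w' * y₀ * w with hy
  have hPx : Pi' x = X := by
    funext k
    rw [hx, map_mul, map_mul, hx₀, Pi.mul_apply, Pi.mul_apply, hX1, hX2]
  have hPy : Pi' y = Y := by
    funext k
    rw [hy, map_mul, map_mul, hy₀, Pi.mul_apply, Pi.mul_apply, hY1, hY2]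
  have hwx : w * x = x := by rw [hx, ← mul_assoc, ← mul_assoc, hw]
  have hxw : x * w' = x := by rw [hx, mul_assoc, hw']
  have hw'y : w' * y = y := by rw [hy, ← mul_assoc, ← mul_assoc, hw']
  have hyw : y * w = y := by rw [hy, mul_assoc, hw]
  set u := w - x * y with hu
  have hPu : Pi' u = 0 := by
    funext k
    rw [hu, map_sub, map_mul, hPx, hPy, Pi.sub_apply, Pi.mul_apply, hXY, sub_self]
    rfl
  obtain ⟨v, hv⟩ := hjac u hPu
  have hwu : w * u = u := by
    rw [hu, mul_sub, hw, ← mul_assoc, hwx]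
  have hxy : x * y = w * (1 - u) := by
    rw [mul_sub, mul_one, hwu, hu]
    abel
  refine ⟨x, y * v * w, ?_, hwx, hxw, ?_, ?_⟩
  · calc x * (y * v * w) = (x * y) * v * w := by simp only [mul_assoc]
      _ = w * ((1 - u) * v) * w := by rw [hxy]; simp only [mul_assoc]
      _ = w := by rw [hv, mul_one, hw]
  · rw [← mul_assoc, ← mul_assoc, hw'y]
  · rw [mul_assoc, hw]

/-- Rank comparison through the transfer. -/
theorem rank_le_of_transfer {Γ : Type*} [Ring Γ] {n : Type*} [Fintype n] [DecidableEq n] {K : Type*} [Field K]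
    (ρ : Γ →+* Matrix n n K) {w w' x y : Γ} (h1 : x * y = w) (h2 : x * w' = x) :
    (ρ w).rank ≤ (ρ w').rank := by
  rw [← h1, map_mul]
  refine (Matrix.rank_mul_le_left _ _).trans ?_
  rw [← h2, map_mul]
  exact Matrix.rank_mul_le_right _ _

end Abstract

section Orth

variable {F : Type*} [Field F] [Infinite F] {O : Type*} [CommRing O] {Λ : Type*} [Ring Λ] [Algebra O Λ] [Nontrivial Λ]
  {l : ℕ} {m : Fin l → ℕ} (Pi' : Λ →+* ∀ k, Matrix (Fin (m k)) (Fin (m k)) F) (q : O →+* F)

/-- Evaluation at a diagonal element. -/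
theorem pi_aeval_diag (hPi : ∀ (a : O) k, Pi' (algebraMap O Λ a) k = Matrix.diagonal fun _ => q a)
    (lam : (Σ k, Fin (m k)) → F) {x : Λ} (hx : ∀ k, Pi' x k = Matrix.diagonal fun s => lam ⟨k, s⟩)
    (g : O[X]) (k : Fin l) :
    Pi' (aeval x g) k = Matrix.diagonal fun s => (g.map q).eval (lam ⟨k, s⟩) := by
  classical
  induction g using Polynomial.induction_on' with
  | add p r hp hr =>
    rw [map_add, map_add, Pi.add_apply, hp, hr, Matrix.diagonal_add]
    congr 1
    funext s
    simp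
  | monomial n a =>
    rw [aeval_monomial, map_mul, map_pow, Pi.mul_apply, hPi, Pi.pow_apply, hx, Matrix.diagonal_pow,
      Matrix.diagonal_mul_diagonal]
    congr 1
    funext s
    simp [Polynomial.map_monomial]

/-- **Orthogonal lifting of a diagonal frame.** -/
theorem exists_orthogonal_lift (hq : Function.Surjective q) (hunit : ∀ a : O, q a ≠ 0 → IsUnit a)
    (hsplit : ∀ P : O[X], P.Monic → ∃ (n : ℕ) (r : Fin n → O), P = ∏ a, (X - C (r a)))
    (hint : ∀ x : Λ, IsIntegral O x) (hsurj : Function.Surjective Pi')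
    (hjac : ∀ u, Pi' u = 0 → ∃ v, (1 - u) * v = 1)
    (hPi : ∀ (a : O) k, Pi' (algebraMap O Λ a) k = Matrix.diagonal fun _ => q a) :
    ∃ I : (Σ k, Fin (m k)) → Λ, (∀ i, I i * I i = I i) ∧ (∀ i j, i ≠ j → I i * I j = 0) ∧ ∑ i, I i = 1 ∧
      ∀ i k, Pi' (I i) k = Matrix.diagonal fun s => if (⟨k, s⟩ : Σ k, Fin (m k)) = i then 1 else 0 := by
  classical
  let lamE : (Σ k, Fin (m k)) ↪ F :=
    (Fintype.equivFin _).toEmbedding.trans (Fin.valEmbedding.trans (Infinite.natEmbedding F))
  set lam : (Σ k, Fin (m k)) → F := ⇑lamE with hlam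
  have hlaminj : Function.Injective lam := lamE.injective
  obtain ⟨x, hx⟩ := hsurj (fun k => Matrix.diagonal fun s => lam ⟨k, s⟩)
  have hx' : ∀ k, Pi' x k = Matrix.diagonal fun s => lam ⟨k, s⟩ := fun k => congrFun hx k
  obtain ⟨P, hPm, hP0⟩ := hint x
  have hPe : aeval x P = 0 := by rwa [aeval_def]
  obtain ⟨n, r, hPr⟩ := hsplit P hPm
  have hEv : ∀ (g : O[X]) k (s : Fin (m k)), (Pi' (aeval x g) k) s s = (g.map q).eval (lam ⟨k, s⟩) := by
    intro g k s
    rw [pi_aeval_diag Pi' q hPi lam hx' g k, Matrix.diagonal_apply_eq]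
  -- the residues
  set Ψ : Finset F := Finset.univ.image (fun a => q (r a)) with hΨ
  set Pt : F → O[X] := fun t => ∏ a ∈ Finset.univ.filter (fun a => q (r a) = t), (X - C (r a)) with hPt
  have hPprod : P = ∏ t ∈ Ψ, Pt t := by
    rw [hPr]
    exact (Finset.prod_fiberwise_of_maps_to (fun a _ => Finset.mem_image_of_mem _ (Finset.mem_univ a)) _).symm
  have hΨne : Ψ.Nonempty := by
    rw [Finset.nonempty_iff_ne_empty]
    intro h0
    rw [h0, Finset.prod_empty] at hPprod
    rw [hPprod, map_one] at hPe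
    exact one_ne_zero hPe
  have hcop : Pairwise (Function.onFun IsCoprime fun t : Ψ => Pt t) := by
    intro t t' htt
    show IsCoprime (Pt t) (Pt t')
    refine IsCoprime.prod_left fun a ha => IsCoprime.prod_right fun b hb => ?_
    apply isCoprime_X_sub_C_of_isUnit_sub
    apply hunit
    rw [map_sub, (Finset.mem_filter.mp ha).2, (Finset.mem_filter.mp hb).2]
    exact sub_ne_zero.mpr fun h => htt (Subtype.ext h)
  obtain ⟨μ, hμ⟩ := (exists_sum_eq_one_iff_pairwise_coprime hΨne).mpr hcop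
  set g : F → O[X] := fun t => μ t * ∏ j ∈ Ψ \ {t}, Pt j with hg
  set e : F → Λ := fun t => aeval x (g t) with he
  have hsum : ∑ t ∈ Ψ, e t = 1 := by
    have := congrArg (aeval x) hμ
    rw [map_sum, map_one] at this
    exact this
  have hdiv : ∀ t ∈ Ψ, P = (∏ j ∈ Ψ \ {t}, Pt j) * Pt t := by
    intro t ht
    rw [hPprod, ← Finset.prod_sdiff (Finset.singleton_subset_iff.mpr ht), Finset.prod_singleton]
  have horth : ∀ t ∈ Ψ, ∀ t' ∈ Ψ, t ≠ t' → e t * e t' = 0 := by
    intro t ht t' ht' htt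
    have h1 : Pt t ∣ ∏ j ∈ Ψ \ {t'}, Pt j :=
      Finset.dvd_prod_of_mem _ (Finset.mem_sdiff.mpr ⟨ht, by simpa using htt⟩)
    obtain ⟨c, hc⟩ := h1
    have h2 : g t * g t' = P * (μ t * μ t' * c) := by
      rw [hdiv t ht, hg]
      simp only
      rw [hc]
      ring
    simp only [he]
    rw [← map_mul, h2, map_mul, hPe, zero_mul]
  have hidem : ∀ t ∈ Ψ, e t * e t = e t := by
    intro t ht
    have h1 : e t * ∑ t' ∈ Ψ, e t' = e t := by rw [hsum, mul_one]
    rw [Finset.mul_sum, Finset.sum_eq_single t] at h1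
    · exact h1
    · intro b hb hbt
      exact horth t ht b hb (Ne.symm hbt)
    · intro h
      exact absurd ht h
  -- values at the `lam`
  have hroot : ∀ i, lam i ∈ Ψ := by
    rintro ⟨k, s⟩
    have h1 := hEv P k s
    rw [hPe, map_zero] at h1
    have h2 : (P.map q).eval (lam ⟨k, s⟩) = 0 := by
      rw [← h1]
      rfl
    rw [hPr, Polynomial.map_prod, Polynomial.eval_prod, Finset.prod_eq_zero_iff] at h2
    obtain ⟨a, -, ha⟩ := h2
    simp only [Polynomial.map_sub, map_X, map_C, eval_sub, eval_X, eval_C, sub_eq_zero] at ha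
    exact Finset.mem_image.mpr ⟨a, Finset.mem_univ _, ha.symm⟩
  have hPtz : ∀ i, ((Pt (lam i)).map q).eval (lam i) = 0 := by
    intro i
    obtain ⟨a, -, ha⟩ := Finset.mem_image.mp (hroot i)
    simp only [hPt]
    rw [Polynomial.map_prod, Polynomial.eval_prod]
    apply Finset.prod_eq_zero (Finset.mem_filter.mpr ⟨Finset.mem_univ a, ha⟩)
    simp [ha]
  have hg0 : ∀ i, ∀ t ∈ Ψ, t ≠ lam i → ((g t).map q).eval (lam i) = 0 := by
    intro i t ht hne
    have h1 : Pt (lam i) ∣ ∏ j ∈ Ψ \ {t}, Pt j :=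
      Finset.dvd_prod_of_mem _ (Finset.mem_sdiff.mpr ⟨hroot i, by simpa using Ne.symm hne⟩)
    obtain ⟨c, hc⟩ := h1
    simp only [hg]
    rw [hc, Polynomial.map_mul, Polynomial.map_mul, eval_mul, eval_mul, hPtz, zero_mul, mul_zero]
  have hg1 : ∀ i, ((g (lam i)).map q).eval (lam i) = 1 := by
    intro i
    have h1 : ((∑ t ∈ Ψ, g t).map q).eval (lam i) = 1 := by
      rw [show ∑ t ∈ Ψ, g t = 1 from hμ, Polynomial.map_one, eval_one]
    rw [Polynomial.map_sum, Polynomial.eval_finsetSum, Finset.sum_eq_single (lam i)] at h1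
    · exact h1
    · intro b hb hne
      exact hg0 i b hb hne
    · intro h
      exact absurd (hroot i) h
  have hPe' : ∀ t ∈ Ψ, ∀ k, Pi' (e t) k = Matrix.diagonal fun s => if t = lam ⟨k, s⟩ then 1 else 0 := by
    intro t ht k
    simp only [he]
    rw [pi_aeval_diag Pi' q hPi lam hx' (g t) k]
    congr 1
    funext s
    by_cases hts : t = lam ⟨k, s⟩
    · rw [if_pos hts, hts]
      exact hg1 _
    · rw [if_neg hts]
      exact hg0 _ t ht hts
  -- the extra ones vanish
  have hextra : ∀ t ∈ Ψ, (∀ i, t ≠ lam i) → e t = 0 := by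
    intro t ht hne
    have h1 : Pi' (e t) = 0 := by
      funext k
      rw [hPe' t ht k]
      have : (fun s : Fin (m k) => if t = lam ⟨k, s⟩ then (1 : F) else 0) = 0 := by
        funext s
        rw [if_neg (hne _)]
        rfl
      rw [this]
      ext a b
      simp [Matrix.diagonal_apply]
    obtain ⟨v, hv⟩ := hjac (e t) h1
    calc e t = e t * ((1 - e t) * v) := by rw [hv, mul_one]
      _ = (e t - e t * e t) * v := by rw [← mul_assoc, mul_sub, mul_one]
      _ = 0 := by rw [hidem t ht, sub_self, zero_mul]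
  refine ⟨fun i => e (lam i), fun i => hidem _ (hroot i), ?_, ?_, ?_⟩
  · intro i j hij
    exact horth _ (hroot i) _ (hroot j) (fun h => hij (hlaminj h))
  · rw [← hsum]
    have h1 : ∑ i, e (lam i) = ∑ t ∈ Finset.univ.image lam, e t :=
      (Finset.sum_image fun a _ b _ h => hlaminj h).symm
    rw [h1]
    apply Finset.sum_subset
    · intro t ht
      obtain ⟨i, -, rfl⟩ := Finset.mem_image.mp ht
      exact hroot i
    · intro t ht hnot
      apply hextra t ht
      intro i hi
      exact hnot (Finset.mem_image.mpr ⟨i, Finset.mem_univ _, hi.symm⟩)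
  · intro i k
    rw [hPe' _ (hroot i) k]
    congr 1
    funext s
    by_cases hs : (⟨k, s⟩ : Σ k, Fin (m k)) = i
    · rw [if_pos hs, if_pos (by rw [hs])]
    · rw [if_neg hs, if_neg (fun h => hs (hlaminj h).symm)]

end Orth

section Loc

variable {M : Ideal AlgInt} [hMp : M.IsPrime]

/-- The local ring is integrally closed in `ℂ`. -/
theorem memLocalRing_of_isIntegral {z : ℂ} (hz : IsIntegral (locRing M) z) : MemLocalRing M z := by
  classical
  obtain ⟨P, hPm, hP⟩ := hz
  have h1 : ∀ i, ∃ s : AlgInt, s ∉ M ∧ ∃ a : AlgInt, (a : ℂ) = (s : ℂ) * ((P.coeff i : locRing M) : ℂ) := by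
    intro i
    obtain ⟨a, b, hb, hab⟩ := (P.coeff i).2
    refine ⟨b, hb, a, ?_⟩
    rw [← hab]
    field_simp [coe_ne_zero_of_notMem hb]
  choose s hs a ha using h1
  set S : AlgInt := ∏ i ∈ Finset.range (P.natDegree + 1), s i with hSdef
  have hS : S ∉ M := by
    rw [hSdef, hMp.prod_mem_iff]
    rintro ⟨i, -, hi⟩
    exact hs i hi
  set Pc : ℂ[X] := P.map (algebraMap (locRing M) ℂ) with hPc
  have hPcm : Pc.Monic := hPm.map _
  have hdeg : Pc.natDegree = P.natDegree := hPm.natDegree_map _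
  have hlift : ∀ i, i < P.natDegree + 1 → ∃ c : AlgInt, (c : ℂ) = (S : ℂ) * ((P.coeff i : locRing M) : ℂ) := by
    intro i hi
    have hmem : i ∈ Finset.range (P.natDegree + 1) := Finset.mem_range.mpr hi
    refine ⟨a i * ∏ j ∈ (Finset.range (P.natDegree + 1)).erase i, s j, ?_⟩
    have h2 : S = s i * ∏ j ∈ (Finset.range (P.natDegree + 1)).erase i, s j :=
      (Finset.mul_prod_erase _ _ hmem).symm
    rw [h2]
    push_cast
    rw [ha i]
    ring
  set Q : ℂ[X] := scaleRoots Pc (S : ℂ) with hQ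
  have hQm : Q.Monic := monic_scaleRoots_iff _ |>.mpr hPcm
  have hQl : Q ∈ Polynomial.lifts (algebraMap AlgInt ℂ) := by
    rw [Polynomial.lifts_iff_coeff_lifts]
    intro i
    rw [hQ, coeff_scaleRoots, hdeg, hPc, Polynomial.coeff_map]
    by_cases hi : i < P.natDegree
    · obtain ⟨c, hc⟩ := hlift i (by omega)
      obtain ⟨k, hk⟩ : ∃ k, P.natDegree - i = k + 1 := ⟨P.natDegree - i - 1, by omega⟩
      refine ⟨c * S ^ k, ?_⟩
      show ((c * S ^ k : AlgInt) : ℂ) = _
      rw [hk, pow_succ]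
      push_cast
      rw [hc]
      show _ = ((P.coeff i : locRing M) : ℂ) * _
      ring
    · by_cases hi2 : i = P.natDegree
      · subst hi2
        refine ⟨1, ?_⟩
        have h3 : P.coeff P.natDegree = 1 := hPm
        simp [h3]
      · have h3 : P.coeff i = 0 := coeff_eq_zero_of_natDegree_lt (by omega)
        refine ⟨0, ?_⟩
        simp [h3]
  obtain ⟨q, hq1, -, hq3⟩ := Polynomial.lifts_and_natDegree_eq_and_monic hQl hQm
  have hroot : eval₂ (RingHom.id ℂ) ((S : ℂ) * z) Q = 0 := by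
    have h4 := scaleRoots_eval₂_mul (p := Pc) (RingHom.id ℂ) z (S : ℂ)
    simp only [RingHom.id_apply] at h4
    rw [hQ, h4]
    have h5 : eval₂ (RingHom.id ℂ) z Pc = 0 := by
      rw [hPc, eval₂_map]
      exact hP
    rw [h5, mul_zero]
  have hint : IsIntegral AlgInt ((S : ℂ) * z) := by
    refine ⟨q, hq3, ?_⟩
    rw [← hq1, eval₂_map] at hroot
    exact hroot
  have hint2 : IsIntegral ℤ ((S : ℂ) * z) := isIntegral_trans _ hint
  refine ⟨⟨_, hint2⟩, S, hS, ?_⟩
  have hS0 := coe_ne_zero_of_notMem hS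
  show (S : ℂ) * z / (S : ℂ) = z
  field_simp

/-- Monic polynomials split over the local ring. -/
theorem locRing_split (P : (locRing M)[X]) (hP : P.Monic) :
    ∃ (n : ℕ) (r : Fin n → locRing M), P = ∏ a, (X - C (r a)) := by
  classical
  set Q : ℂ[X] := P.map (algebraMap (locRing M) ℂ) with hQ
  have hQm : Q.Monic := hP.map _
  have hsp : Q.Splits := IsAlgClosed.splits Q
  have h1 := hsp.eq_prod_roots_of_monic hQm
  have hroots : ∀ z ∈ Q.roots, MemLocalRing M z := by
    intro z hz
    apply memLocalRing_of_isIntegral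
    refine ⟨P, hP, ?_⟩
    have h2 := (Polynomial.mem_roots'.mp hz).2
    rw [IsRoot.def, hQ, eval_map] at h2
    exact h2
  set L := Q.roots.toList with hL
  have hLm : ∀ z ∈ L, MemLocalRing M z := fun z hz => hroots z (by simpa [hL] using hz)
  refine ⟨L.length, fun a => ⟨L.get a, hLm _ (List.get_mem _ _)⟩, ?_⟩
  apply Polynomial.map_injective (algebraMap (locRing M) ℂ) Subtype.coe_injective
  rw [Polynomial.map_prod]
  have h3 : ∀ a : Fin L.length, ((X - C (⟨L.get a, hLm _ (List.get_mem _ _)⟩ : locRing M)) : (locRing M)[X]).map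
      (algebraMap (locRing M) ℂ) = (fun z : ℂ => X - C z) (L.get a) := by
    intro a
    simp only [Polynomial.map_sub, map_X, map_C]
    rfl
  rw [Finset.prod_congr rfl fun a _ => h3 a]
  have h4 : ∏ a : Fin L.length, (fun z : ℂ => (X - C z : ℂ[X])) (L.get a) = (L.map fun z : ℂ => (X - C z : ℂ[X])).prod :=
    Fin.prod_univ_fun_getElem L (fun z : ℂ => (X - C z : ℂ[X]))
  rw [h4, ← hQ, h1]
  have h5 : (L.map fun z : ℂ => (X - C z : ℂ[X])).prod = (Q.roots.map fun z : ℂ => (X - C z : ℂ[X])).prod := by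
    conv_rhs => rw [← Multiset.coe_toList Q.roots]
    rw [Multiset.map_coe, Multiset.prod_coe]
  rw [h5]

end Loc

section Frame

universe u

variable {M : Ideal AlgInt} [hMp : M.IsPrime] {G : Type u} [Group G] [Fintype G]

/-- The residue field, as a plain quotient. -/
abbrev OF (M : Ideal AlgInt) [M.IsPrime] := locRing M ⧸ locMax M

/-- Reduction of group algebra elements. -/
noncomputable def resA : MonoidAlgebra (locRing M) G →+* MonoidAlgebra (OF M) G :=
  MonoidAlgebra.mapRingHom G (Ideal.Quotient.mk (locMax M))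

/-- Inclusion of group algebra elements. -/
noncomputable def incA : MonoidAlgebra (locRing M) G →+* MonoidAlgebra ℂ G :=
  MonoidAlgebra.mapRingHom G (locRing M).subtype

theorem resA_coeff (a : MonoidAlgebra (locRing M) G) (g : G) :
    (resA a).coeff g = Ideal.Quotient.mk (locMax M) (a.coeff g) := by
  simp [resA, MonoidAlgebra.coeff_map]

theorem incA_coeff (a : MonoidAlgebra (locRing M) G) (g : G) :
    (incA a).coeff g = ((a.coeff g : locRing M) : ℂ) := by
  simp [incA, MonoidAlgebra.coeff_map]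

theorem isUnit_of_notMem_locMax (a : locRing M) (h : a ∉ locMax M) : IsUnit a := by
  have h1 : MemLocalRing M ((a : ℂ)⁻¹) := inv_memLocalRing a.2 h
  refine IsUnit.of_mul_eq_one (⟨(a : ℂ)⁻¹, h1⟩ : locRing M) ?_
  apply Subtype.ext
  exact mul_inv_cancel₀ (ne_zero_of_not_memLocalIdeal h)

/-- Elements reducing to zero are in the radical. -/
theorem exists_right_inv_of_res_eq_zero (n : MonoidAlgebra (locRing M) G) (hn : resA n = 0) :
    ∃ v, (1 - n) * v = 1 := by
  classical
  let L : Matrix G G (locRing M) := Matrix.of fun h g => (n * single g 1).coeff h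
  let X : Matrix G G (locRing M) := 1 - L
  have hL : L.map (Ideal.Quotient.mk (locMax M)) = 0 := by
    ext h g
    show Ideal.Quotient.mk (locMax M) ((n * single g 1).coeff h) = 0
    rw [← resA_coeff, map_mul, hn, zero_mul]
    rfl
  have hX : X.map (Ideal.Quotient.mk (locMax M)) = 1 := by
    have : X.map (Ideal.Quotient.mk (locMax M)) = 1 - L.map (Ideal.Quotient.mk (locMax M)) := by
      ext a b
      by_cases hab : a = b
      · subst hab
        simp [X, Matrix.sub_apply]
      · simp [X, Matrix.sub_apply, hab]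
    rw [this, hL, sub_zero]
  have hdet : IsUnit X.det := by
    apply isUnit_of_notMem_locMax
    intro h
    have h1 : Ideal.Quotient.mk (locMax M) X.det = 0 := Ideal.Quotient.eq_zero_iff_mem.mpr h
    rw [RingHom.map_det] at h1
    have h2 : ((Ideal.Quotient.mk (locMax M)).mapMatrix X) = 1 := hX
    rw [h2, Matrix.det_one] at h1
    exact one_ne_zero h1
  let y : G → locRing M := X⁻¹.mulVec (Pi.single 1 1)
  have hy : X.mulVec y = Pi.single 1 1 := by
    simp only [y]
    rw [Matrix.mulVec_mulVec, Matrix.mul_nonsing_inv X hdet, Matrix.one_mulVec]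
  refine ⟨∑ g, single g (y g), ?_⟩
  ext h
  have h1 : (n * ∑ g, single g (y g)).coeff h = ∑ g, L h g * y g := by
    rw [Finset.mul_sum, MonoidAlgebra.coeff_sum, Finsupp.finsetSum_apply]
    refine Finset.sum_congr rfl fun g _ => ?_
    have h2 : (single g (y g) : MonoidAlgebra (locRing M) G) = y g • single g 1 := by
      rw [smul_single, smul_eq_mul, mul_one]
    rw [h2, mul_smul_comm, MonoidAlgebra.coeff_smul, Finsupp.smul_apply, smul_eq_mul, mul_comm]
    rfl
  have h3 : (∑ g, single g (y g) : MonoidAlgebra (locRing M) G).coeff h = y h := by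
    simp [MonoidAlgebra.coeff_sum, Finsupp.finsetSum_apply, Finsupp.single_apply]
  have h4 : y h - ∑ g, L h g * y g = (Pi.single 1 1 : G → locRing M) h := by
    rw [← hy]
    have h5 : X.mulVec y = y - L.mulVec y := by
      simp only [X, Matrix.sub_mulVec, Matrix.one_mulVec]
    rw [h5]
    rfl
  rw [sub_mul, one_mul, MonoidAlgebra.coeff_sub, Finsupp.sub_apply, h1, h3, h4, one_def]
  simp [Finsupp.single_apply, Pi.single_apply, eq_comm]

/-- The Wedderburn quotient of a group algebra. -/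
theorem exists_wedderburn (F : Type*) [Field F] [IsAlgClosed F] (G : Type*) [Group G] [Fintype G] :
    ∃ (l : ℕ) (m : Fin l → ℕ) (π : MonoidAlgebra F G →ₐ[F] ∀ k, Matrix (Fin (m k)) (Fin (m k)) F),
      (∀ k, 0 < m k) ∧ Function.Surjective π ∧ ∃ N, ∀ a, π a = 0 → a ^ N = 0 := by
  classical
  set A := MonoidAlgebra F G with hA
  haveI : IsArtinianRing A := IsArtinianRing.of_finite F A
  let jac := Ring.jacobson A
  obtain ⟨l, d, hd, ⟨e₀⟩⟩ := IsSemisimpleRing.exists_algEquiv_pi_matrix_of_isAlgClosed F (A ⧸ jac)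
  let P : A →ₐ[F] A ⧸ jac := Ideal.Quotient.mkₐ F jac
  have hP : Function.Surjective P := Ideal.Quotient.mkₐ_surjective F jac
  refine ⟨l, d, e₀.toAlgHom.comp P, fun k => Nat.pos_of_ne_zero (hd k).out, ?_, ?_⟩
  · intro w
    obtain ⟨a, ha⟩ := hP (e₀.symm w)
    exact ⟨a, by simp [ha]⟩
  · obtain ⟨N, hN⟩ : IsNilpotent jac := IsSemiprimaryRing.isNilpotent
    refine ⟨N, fun a ha => ?_⟩
    have h1 : P a = 0 := by
      apply e₀.injective
      rw [map_zero]
      exact ha
    have h2 : a ∈ jac := Ideal.Quotient.eq_zero_iff_mem.mp h1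
    have h3 := Ideal.pow_mem_pow h2 N
    rw [hN] at h3
    simpa using h3

/-- A frame of orthogonal idempotents of the group ring over the local ring. -/
structure OFrame (M : Ideal AlgInt) [M.IsPrime] (G : Type u) [Group G] [Fintype G] where
  l : ℕ
  m : Fin l → ℕ
  mpos : ∀ k, 0 < m k
  pA : MonoidAlgebra (OF M) G →ₐ[OF M] ∀ k, Matrix (Fin (m k)) (Fin (m k)) (OF M)
  surj : Function.Surjective pA
  jac : ∀ u : MonoidAlgebra (locRing M) G, pA (resA u) = 0 → ∃ v, (1 - u) * v = 1
  I : (Σ k, Fin (m k)) → MonoidAlgebra (locRing M) G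
  idem : ∀ i, I i * I i = I i
  orth : ∀ i j, i ≠ j → I i * I j = 0
  sum : ∑ i, I i = 1
  val : ∀ i k, pA (resA (I i)) k = Matrix.diagonal fun s => if (⟨k, s⟩ : Σ k, Fin (m k)) = i then 1 else 0

theorem resA_surjective : Function.Surjective (resA : MonoidAlgebra (locRing M) G → MonoidAlgebra (OF M) G) := by
  classical
  intro a
  have h : ∀ g, ∃ c : locRing M, Ideal.Quotient.mk (locMax M) c = a.coeff g :=
    fun g => Ideal.Quotient.mk_surjective _
  choose c hc using h
  refine ⟨∑ g, single g (c g), ?_⟩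
  ext g
  rw [resA_coeff]
  simp [MonoidAlgebra.coeff_sum, Finsupp.finsetSum_apply, Finsupp.single_apply, hc]

theorem exists_oFrame : Nonempty (OFrame M G) := by
  classical
  haveI : IsAlgClosed (OF M) := resF_isAlgClosed
  haveI : Infinite (OF M) := IsAlgClosed.instInfinite
  obtain ⟨l, m, π, hm, hs, N, hN⟩ := exists_wedderburn (OF M) G
  have hjac : ∀ u : MonoidAlgebra (locRing M) G, π (resA u) = 0 → ∃ v, (1 - u) * v = 1 := by
    intro u hu
    have h1 := hN _ hu
    rw [← map_pow] at h1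
    obtain ⟨v, hv⟩ := exists_right_inv_of_res_eq_zero _ h1
    refine ⟨(∑ i ∈ Finset.range N, u ^ i) * v, ?_⟩
    rw [← mul_assoc, mul_neg_geom_sum, hv]
  let Pi' : MonoidAlgebra (locRing M) G →+* ∀ k, Matrix (Fin (m k)) (Fin (m k)) (OF M) :=
    (π : MonoidAlgebra (OF M) G →+* _).comp resA
  haveI : Module.Finite (locRing M) (MonoidAlgebra (locRing M) G) :=
    Module.Finite.equiv (coeffLinearEquiv (S := locRing M) (M := G) (locRing M)).symm
  obtain ⟨I, h1, h2, h3, h4⟩ := exists_orthogonal_lift Pi' (Ideal.Quotient.mk (locMax M))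
    Ideal.Quotient.mk_surjective
    (fun a ha => isUnit_of_notMem_locMax a fun h => ha (Ideal.Quotient.eq_zero_iff_mem.mpr h))
    locRing_split (fun x => Algebra.IsIntegral.isIntegral x)
    (hs.comp resA_surjective) hjac
    (by
      intro a k
      have h5 : resA (algebraMap (locRing M) (MonoidAlgebra (locRing M) G) a) =
          algebraMap (OF M) (MonoidAlgebra (OF M) G) (Ideal.Quotient.mk (locMax M) a) := by
        have := RingHom.congr_fun (mapRingHom_comp_algebraMap (M := G) (Ideal.Quotient.mk (locMax M))) a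
        exact this
      show π (resA _) k = _
      rw [h5, AlgHom.commutes]
      rfl)
  exact ⟨⟨l, m, hm, π, hs, hjac, I, h1, h2, h3, h4⟩⟩

end Frame

end Cfsg.Agent.Lib.LocalAlg
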