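import Cfsg.Agent.Lib.LocalAlg.OAzu
import Cfsg.Agent.Lib.H8Group.HeightLocal
import Cfsg.Agent.Lib.H8Group.AbelianPairs

/-!
# Row spaces of blocks modulo the maximal ideal

For a block `b` of a finite group `X`, the reductions of the `b`-parts of the class indicators span a
space of functions on the set of classes whose dimension is the number of characters of `b`.
-/

set_option autoImplicit false
set_option linter.unusedSectionVars false
set_option linter.unusedVariables false

namespace Cfsg.Agent.Lib.LocalAlg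

open Cfsg Cfsg.Agent.Lib.Char Cfsg.Agent.Lib.Blocks Cfsg.Agent.Lib.H8Group Finset Module
open scoped ComplexConjugate

universe u

section Row

variable {M : Ideal AlgInt} [hMp : M.IsPrime] {X : Type u} [Group X] [Fintype X]

theorem expand_class {ϑ : X → ℂ} (hϑ : IsClassFunction X ϑ) (g : X) :
    ϑ g = ∑ K : ConjClasses X, ϑ (clsRep K) * cls (clsRep K) g := by
  classical
  rw [Finset.sum_eq_single (ConjClasses.mk g)]
  · have h1 : IsConj (clsRep (ConjClasses.mk g)) g := (mk_eq_iff_isConj_clsRep _ g).mp rfl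
    rw [cls, if_pos h1, mul_one]
    exact (IsClassFunction.congr_isConj hϑ h1).symm
  · intro K _ hK
    have h1 : ¬ IsConj (clsRep K) g := fun h => hK ((mk_eq_iff_isConj_clsRep K g).mpr h).symm
    rw [cls, if_neg h1, mul_zero]
  · simp

theorem projOp_expand (c : IrrCharacter X → ℂ) {ϑ : X → ℂ} (hϑ : IsClassFunction X ϑ) (g : X) :
    projOp c ϑ g = ∑ K : ConjClasses X, ϑ (clsRep K) * projOp c (cls (clsRep K)) g := by
  simp only [projOp]
  calc ∑ x, coef c x * ϑ (x * g)
      = ∑ x, coef c x * ∑ K : ConjClasses X, ϑ (clsRep K) * cls (clsRep K) (x * g) := by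
        refine Finset.sum_congr rfl fun x _ => ?_
        rw [← expand_class hϑ]
    _ = ∑ K : ConjClasses X, ϑ (clsRep K) * ∑ x, coef c x * cls (clsRep K) (x * g) := by
        simp only [Finset.mul_sum]
        rw [Finset.sum_comm]
        refine Finset.sum_congr rfl fun K _ => Finset.sum_congr rfl fun x _ => ?_
        ring

theorem cls_memLocalRing (g x : X) : MemLocalRing M (cls g x) := by
  classical
  simp only [cls]
  split_ifs
  · exact memLocalRing_one
  · exact memLocalRing_zero

theorem cls_rep_self (K : ConjClasses X) : cls (clsRep K) (clsRep K) = 1 := by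
  classical
  rw [cls, if_pos (IsConj.refl _)]

theorem sum_indic_eq_card (b : Set (IrrCharacter X)) : ∑ χ : IrrCharacter X, indic b χ = (Nat.card b : ℂ) := by
  classical
  have h1 : ∑ χ : IrrCharacter X, indic b χ = ∑ χ : IrrCharacter X, if χ ∈ b then (1 : ℂ) else 0 := by
    refine Finset.sum_congr rfl fun χ _ => ?_
    by_cases h : χ ∈ b
    · rw [indic_apply_of_mem h, if_pos h]
    · rw [indic_apply_of_notMem h, if_neg h]
  rw [h1, Finset.sum_boole, Nat.card_eq_fintype_card, Fintype.card_subtype]

theorem sum_classInner_cls (χ : IrrCharacter X) :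
    ∑ K : ConjClasses X, classInner (cls (clsRep K)) (χ : X → ℂ) * (χ : X → ℂ) (clsRep K) = 1 := by
  classical
  have h1 : (χ : X → ℂ) = ∑ K : ConjClasses X, ((χ : X → ℂ) (clsRep K)) • cls (clsRep K) := by
    funext g
    rw [expand_class (irr_isClassFunction χ) g, Finset.sum_apply]
    rfl
  have h2 := classInner_irr_self χ.2
  rw [h1, classInner_sum_left] at h2
  rw [← h2]
  refine Finset.sum_congr rfl fun K _ => ?_
  rw [classInner_smul_left, mul_comm]
  congr 2

/-- The matrix of the block operator. -/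
noncomputable def blockE (b : Set (IrrCharacter X)) (hb : IsPBlock M b) :
    Matrix (ConjClasses X) (ConjClasses X) (locRing M) :=
  fun K K' => ⟨projOp (indic b) (cls (clsRep K)) (clsRep K'),
    Cfsg.Agent.Lib.Blocks.projOp_memLocalRing (indic_mem_zS hb) (fun x => cls_memLocalRing _ _) _⟩

theorem blockE_idem (b : Set (IrrCharacter X)) (hb : IsPBlock M b) : blockE b hb * blockE b hb = blockE b hb := by
  classical
  ext K K''
  rw [Matrix.mul_apply]
  show ((∑ K', blockE b hb K K' * blockE b hb K' K'' : locRing M) : ℂ) = _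
  simp only [AddSubmonoidClass.coe_finset_sum, Subring.coe_mul]
  show ∑ K', projOp (indic b) (cls (clsRep K)) (clsRep K') * projOp (indic b) (cls (clsRep K')) (clsRep K'') =
    projOp (indic b) (cls (clsRep K)) (clsRep K'')
  rw [← projOp_expand _ (projOp_isClassFunction _ (cls_isClassFunction _)), projOp_projOp _ _ (cls_isClassFunction _),
    indic_mul_self]

/-- A row of the reduced matrix. -/
noncomputable def blockRow (M : Ideal AlgInt) [M.IsPrime] (b : Set (IrrCharacter X)) (K : ConjClasses X) :
    ConjClasses X → OF M :=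
  fun K' => resC M (projOp (indic b) (cls (clsRep K)) (clsRep K'))

/-- The row space. -/
noncomputable def blockW (M : Ideal AlgInt) [M.IsPrime] (b : Set (IrrCharacter X)) :
    Submodule (OF M) (ConjClasses X → OF M) :=
  Submodule.span _ (Set.range (blockRow M b))

theorem finrank_blockW (b : Set (IrrCharacter X)) (hb : IsPBlock M b) :
    finrank (OF M) (blockW M b) = Nat.card b := by
  classical
  set E := blockE b hb with hE
  let mk : locRing M →+* OF M := Ideal.Quotient.mk (locMax M)
  let i : locRing M →+* ℂ := (locRing M).subtype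
  have hmks : Function.Surjective mk := Ideal.Quotient.mk_surjective
  have hi : Function.Injective i := Subtype.val_injective
  have h1 : (E.map mk).rank = (E.map i).rank := rank_map_eq_of_idem mk hmks i hi E (blockE_idem b hb)
  have hidem : E.map i * E.map i = E.map i := by
    rw [← Matrix.map_mul, blockE_idem b hb]
  have h2 := rank_eq_trace_of_idem (E.map i) hidem
  have h3 : (E.map i).trace = (Nat.card b : ℂ) := by
    rw [← sum_indic_eq_card]
    show ∑ K, projOp (indic b) (cls (clsRep K)) (clsRep K) = _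
    simp only [projOp_eq_sum _ (cls_isClassFunction _)]
    rw [Finset.sum_comm]
    refine Finset.sum_congr rfl fun χ _ => ?_
    rw [← Finset.mul_sum, sum_classInner_cls, mul_one]
  have h4 : (E.map i).rank = Nat.card b := by
    rw [h3] at h2
    exact_mod_cast h2
  have h5 : blockRow M b = (E.map mk).row := by
    funext K K'
    rw [blockRow, resC_of_mem]
    rfl
  rw [blockW, h5, ← Matrix.rank_eq_finrank_span_row, h1, h4]

theorem exists_lift_of_mem_blockW {b : Set (IrrCharacter X)} {z : ConjClasses X → OF M} (hb : IsPBlock M b)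
    (hz : z ∈ blockW M b) :
    ∃ a : X → ℂ, IsClassFunction X a ∧ (∀ g, MemLocalRing M (a g)) ∧ ∀ K, z K = resC M (projOp (indic b) a (clsRep K)) := by
  classical
  obtain ⟨c, rfl⟩ := (Submodule.mem_span_range_iff_exists_fun (OF M)).mp hz
  choose w hw hwc using fun K => exists_resC_eq (c K)
  have hcl : IsClassFunction X (fun g => w (ConjClasses.mk g)) := by
    intro x y
    show w _ = w _
    congr 1
    exact (ConjClasses.mk_eq_mk_iff_isConj.mpr (isConj_iff.mpr ⟨y, rfl⟩)).symm
  refine ⟨fun g => w (ConjClasses.mk g), hcl, fun g => hw _, fun K' => ?_⟩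
  rw [projOp_expand _ hcl, resC_sum]
  · rw [Finset.sum_apply]
    refine Finset.sum_congr rfl fun K _ => ?_
    have hP : MemLocalRing M (projOp (indic b) (cls (clsRep K)) (clsRep K')) :=
      Cfsg.Agent.Lib.Blocks.projOp_memLocalRing (indic_mem_zS hb) (fun x => cls_memLocalRing _ _) _
    rw [resC_mul (hw _) hP, mk_clsRep, hwc]
    rfl
  · intro K _
    exact MemLocalRing.mul (hw _) (Cfsg.Agent.Lib.Blocks.projOp_memLocalRing (indic_mem_zS hb) (fun x => cls_memLocalRing _ _) _)

theorem mem_blockW_of_lift {b : Set (IrrCharacter X)} (hb : IsPBlock M b) {a : X → ℂ} (hcl : IsClassFunction X a)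
    (hL : ∀ g, MemLocalRing M (a g)) :
    (fun K => resC M (projOp (indic b) a (clsRep K))) ∈ blockW M b := by
  classical
  refine (Submodule.mem_span_range_iff_exists_fun (OF M)).mpr ⟨fun K => resC M (a (clsRep K)), ?_⟩
  funext K'
  rw [projOp_expand _ hcl, resC_sum, Finset.sum_apply]
  · refine Finset.sum_congr rfl fun K _ => ?_
    have hP : MemLocalRing M (projOp (indic b) (cls (clsRep K)) (clsRep K')) :=
      Cfsg.Agent.Lib.Blocks.projOp_memLocalRing (indic_mem_zS hb) (fun x => cls_memLocalRing _ _) _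
    rw [resC_mul (hL _) hP]
    rfl
  · intro K _
    exact MemLocalRing.mul (hL _) (Cfsg.Agent.Lib.Blocks.projOp_memLocalRing (indic_mem_zS hb) (fun x => cls_memLocalRing _ _) _)

end Row

section LL

variable {M : Ideal AlgInt} [hMp : M.IsPrime] {G D : Type u} [Group G] [Fintype G] [Group D] [Fintype D]

/-- The map from functions on the classes of `G` to functions on the classes of `D`. -/
noncomputable def LL (M : Ideal AlgInt) [M.IsPrime] (ι : D →* G) (e : Set (IrrCharacter D)) :
    (ConjClasses G → OF M) →ₗ[OF M] (ConjClasses D → OF M) where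
  toFun z K' := ∑ x : D, resC M (coef (indic e) x) * z (ConjClasses.mk (ι (x * clsRep K')))
  map_add' z w := by
    funext K'
    simp only [Pi.add_apply, mul_add, Finset.sum_add_distrib]
  map_smul' r z := by
    funext K'
    simp only [Pi.smul_apply, smul_eq_mul, RingHom.id_apply, Finset.mul_sum]
    refine Finset.sum_congr rfl fun x _ => ?_
    ring

theorem LL_apply_lift (ι : D →* G) {e : Set (IrrCharacter D)} (he : IsPBlock M e) {a : G → ℂ}
    (hcl : IsClassFunction G a) (hL : ∀ g, MemLocalRing M (a g)) (z : ConjClasses G → OF M)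
    (hz : ∀ K, z K = resC M (a (clsRep K))) (K' : ConjClasses D) :
    LL M ι e z K' = resC M (projOp (indic e) (a ∘ ι) (clsRep K')) := by
  classical
  show ∑ x : D, resC M (coef (indic e) x) * z (ConjClasses.mk (ι (x * clsRep K'))) = _
  rw [projOp, resC_sum]
  · refine Finset.sum_congr rfl fun x _ => ?_
    have hc : MemLocalRing M (coef (indic e) x) := coef_memLocalRing (indic_mem_zS he) x
    show _ = resC M (coef (indic e) x * a (ι (x * clsRep K')))
    rw [resC_mul hc (hL _), hz]
    congr 2
    exact IsClassFunction.congr_isConj hcl ((mk_eq_iff_isConj_clsRep _ _).mp rfl)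
  · intro x _
    exact MemLocalRing.mul (coef_memLocalRing (indic_mem_zS he) x) (hL _)

theorem isClassFunction_comp' (ι : D →* G) {a : G → ℂ} (hcl : IsClassFunction G a) : IsClassFunction D (a ∘ ι) := by
  intro x y
  simp only [Function.comp_apply, map_mul, map_inv]
  exact hcl _ _

theorem LL_mem_of_mem (ι : D →* G) {B : Set (IrrCharacter G)} {e : Set (IrrCharacter D)} (hB : IsPBlock M B)
    (he : IsPBlock M e) {z : ConjClasses G → OF M} (hz : z ∈ blockW M B) : LL M ι e z ∈ blockW M e := by
  classical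
  obtain ⟨a, hcl, hL, hza⟩ := exists_lift_of_mem_blockW hB hz
  have hcl' := projOp_isClassFunction (indic B) hcl
  have hL' : ∀ g, MemLocalRing M (projOp (indic B) a g) := Cfsg.Agent.Lib.Blocks.projOp_memLocalRing (indic_mem_zS hB) hL
  have h1 : LL M ι e z = fun K' => resC M (projOp (indic e) ((projOp (indic B) a) ∘ ι) (clsRep K')) := by
    funext K'
    exact LL_apply_lift ι he hcl' hL' z hza K'
  rw [h1]
  exact mem_blockW_of_lift he (isClassFunction_comp' ι hcl') (fun g => hL' _)

end LL

section Main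

variable {G : Type u} [Group G] [Fintype G] {M : Ideal AlgInt} [hMp : M.IsPrime] {p : ℕ} [hp : Fact p.Prime]
  {B : Set (IrrCharacter G)} {P : Subgroup G}

theorem classInner_cls (m : G) (χ : IrrCharacter G) :
    classInner (cls m) (χ : G → ℂ) =
      (Nat.card {x : G // IsConj m x} : ℂ) / (Nat.card G : ℂ) * conj ((χ : G → ℂ) m) := by
  have hcl : IsClassFunction G (fun x => conj ((χ : G → ℂ) x)) := by
    intro x y
    show conj _ = conj _
    rw [irr_isClassFunction χ]
  rw [classInner, sum_cls_mul_of_class m _ hcl]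
  rw [div_eq_inv_mul, mul_assoc]

/-- The operator on a class indicator vanishes when the class has too large a size. -/
theorem projOp_cls_memLocalIdeal (hM : IsPModular p M) (hB : IsPBlock M B) {f s : ℕ} (hf0 : 0 < f)
    (hf : ∀ χ ∈ B, (χ : G → ℂ) 1 = f) (hfs : ¬ p ^ (s + 1) ∣ f) {m : G}
    (hm : p ^ (s + 1) ∣ Nat.card {x : G // IsConj m x}) (g : G) :
    MemLocalIdeal M (projOp (indic B) (cls m) g) := by
  classical
  have hpp := hp.out
  set A := (f : ℂ) / (Nat.card G : ℂ) *
    ∑ χ : IrrCharacter G, indic B χ * ((χ : G → ℂ) g * conj ((χ : G → ℂ) m)) with hA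
  have hAL : MemLocalRing M A := coef_block_memLocalRing hM hB hf0 hf g m
  obtain ⟨r, hr⟩ := hm
  have hfac := Nat.ordProj_mul_ordCompl_eq_self f p
  have hf' : ¬ p ∣ f / p ^ f.factorization p := Nat.not_dvd_ordCompl hpp hf0.ne'
  generalize f / p ^ f.factorization p = f' at hfac hf'
  have hts : f.factorization p ≤ s := by
    by_contra h
    push Not at h
    exact hfs ((pow_dvd_pow p h).trans (Nat.ordProj_dvd f p))
  generalize f.factorization p = t at hfac hts
  have hG0 : (Nat.card G : ℂ) ≠ 0 := by exact_mod_cast Nat.card_pos.ne'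
  have hf'0 : (f' : ℂ) ≠ 0 := by
    intro h
    have h1 : f' = 0 := by exact_mod_cast h
    rw [h1] at hf'
    exact hf' (dvd_zero p)
  have hp0 : (p : ℂ) ≠ 0 := by exact_mod_cast hpp.ne_zero
  have hK : (Nat.card {x : G // IsConj m x} : ℂ) = (p : ℂ) * (((p ^ (s - t) * r : ℕ) : ℂ)) * (p : ℂ) ^ t := by
    rw [hr]
    have h1 : s + 1 = 1 + (s - t) + t := by omega
    push_cast
    rw [h1, pow_add, pow_add, pow_one]
    ring
  have hfc : (f : ℂ) = (p : ℂ) ^ t * (f' : ℂ) := by
    rw [← hfac]
    push_cast
    ring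
  have h1 : projOp (indic B) (cls m) g = (p : ℂ) * (((p ^ (s - t) * r : ℕ) : ℂ) * (f' : ℂ)⁻¹ * A) := by
    rw [projOp_eq_sum _ (cls_isClassFunction m)]
    have h2 : ∀ χ : IrrCharacter G, indic B χ * (classInner (cls m) (χ : G → ℂ) * (χ : G → ℂ) g) =
        (Nat.card {x : G // IsConj m x} : ℂ) / (Nat.card G : ℂ) * (indic B χ * ((χ : G → ℂ) g * conj ((χ : G → ℂ) m))) := by
      intro χ
      rw [classInner_cls]
      ring
    simp only [h2]
    rw [← Finset.mul_sum, hA, hK, hfc]
    field_simp
  rw [h1]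
  exact MemLocalIdeal.mul_right (p_memLocalIdeal hM)
    (MemLocalRing.mul (MemLocalRing.mul (MemLocalRing.natCast _) (inv_natCast_memLocalRing hM hf')) hAL)

/-- Support of the block part of a class function. -/
theorem le_conj_of_projOp (hM : IsPModular p M) (hB : IsPBlock M B) {D : Subgroup G} (hD : IsDefectGroup p M B D)
    {ϑ : G → ℂ} (hcl : IsClassFunction G ϑ) (hL : ∀ x, MemLocalRing M (ϑ x)) {Q : Subgroup G} (hQ : IsPGroup p Q)
    {m : G} (hm : m ∈ Subgroup.centralizer (Q : Set G)) (hn : ¬ MemLocalIdeal M (projOp (indic B) ϑ m)) :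
    ∃ y, Q ≤ conjS y D := by
  classical
  letI : Fintype (Subgroup.centralizer (Q : Set G)) := Fintype.ofFinite _
  have hinv : InvF (gAct Q) ϑ := by
    intro u g
    simp only [gAct_apply]
    exact hcl _ _
  have h1 := projOp_brauer hM hQ (brData_g Q) (indic_mem_zS hB) (invF_of_isStable (isStable_g B)) hinv hL ⟨m, hm⟩
  have h2 : ¬ MemLocalIdeal M (projOp (brV (Subgroup.subtype (Subgroup.centralizer (Q : Set G))) (indic B))
      (ϑ ∘ Subgroup.subtype (Subgroup.centralizer (Q : Set G))) (⟨m, hm⟩ : Subgroup.centralizer (Q : Set G))) := by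
    intro h3
    apply hn
    have := MemLocalIdeal.add h1 h3
    simpa using this
  have h3 : ∃ x : Subgroup.centralizer (Q : Set G), ¬ MemLocalIdeal M (coef (indic B) (x : G)) := by
    by_contra hcon
    push Not at hcon
    apply h2
    have hcoef : coef (brV (Subgroup.subtype (Subgroup.centralizer (Q : Set G))) (indic B)) =
        coef (indic B) ∘ Subgroup.subtype (Subgroup.centralizer (Q : Set G)) :=
      coef_spec _ (isClassFunction_comp (coef_isClassFunction _) _)
    rw [projOp, hcoef]
    exact MemLocalIdeal.sum _ fun x _ => MemLocalIdeal.mul_right (hcon x) (hL _)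
  obtain ⟨x, hx⟩ := h3
  have hx' : ¬ MemLocalIdeal M (blockCoeff B (x : G)) := by rwa [blockCoeff_eq_coef]
  refine IsDefectGroup.le_conj_of_coeff hM hB hD hx' hQ ?_
  intro q hq
  rw [Subgroup.mem_centralizer_singleton_iff]
  exact (Subgroup.mem_centralizer_iff.mp x.2 q hq)

/-- Vanishing on the centralizer of the defect group implies vanishing. -/
theorem memLocalIdeal_of_res (hM : IsPModular p M) {e : Set (IrrCharacter (Subgroup.centralizer (P : Set G)))}
    (hmax : IsMaximalBrauerPair p M B P e) {f s d : ℕ} (hf0 : 0 < f)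
    (hf : ∀ χ ∈ B, (χ : G → ℂ) 1 = f) (hfs : ¬ p ^ (s + 1) ∣ f) (ha : (Nat.card G).factorization p = s + d)
    (hPd : Nat.card P = p ^ d) {ϑ : G → ℂ} (hcl : IsClassFunction G ϑ) (hL : ∀ x, MemLocalRing M (ϑ x))
    (hid : ∀ g, projOp (indic B) ϑ g = ϑ g)
    (hres : ∀ y ∈ Subgroup.centralizer (P : Set G), MemLocalIdeal M (ϑ y)) (g : G) : MemLocalIdeal M (ϑ g) := by
  classical
  have hpp := hp.out
  have hB := hmax.1.2.1
  have hD := isDefectGroup_of_isMaximalBrauerPair hM hmax
  rw [← hid g, projOp_expand _ hcl]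
  refine MemLocalIdeal.sum _ fun K _ => ?_
  generalize clsRep K = m
  by_cases hm : MemLocalIdeal M (ϑ m)
  · exact MemLocalIdeal.mul_right hm
      (Cfsg.Agent.Lib.Blocks.projOp_memLocalRing (indic_mem_zS hB) (fun x => cls_memLocalRing _ _) _)
  · refine MemLocalIdeal.mul_left (hL _) (projOp_cls_memLocalIdeal hM hB hf0 hf hfs ?_ g)
    let C := Subgroup.centralizer ({m} : Set G)
    obtain ⟨S⟩ : Nonempty (Sylow p C) := inferInstance
    set Q : Subgroup G := (S : Subgroup C).map C.subtype with hQ
    have hQp : IsPGroup p Q := S.isPGroup'.map _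
    have hQC : Q ≤ C := Subgroup.map_subtype_le _
    have hmQ : m ∈ Subgroup.centralizer (Q : Set G) := by
      rw [Subgroup.mem_centralizer_iff]
      intro q hq
      exact Subgroup.mem_centralizer_singleton_iff.mp (hQC hq)
    have hQcard : Nat.card Q = p ^ (Nat.card C).factorization p := by
      rw [hQ, Subgroup.card_map_of_injective C.subtype_injective]
      exact S.card_eq_multiplicity
    obtain ⟨y, hy⟩ := le_conj_of_projOp hM hB hD hcl hL hQp hmQ (by rw [hid]; exact hm)
    have hvd : (Nat.card C).factorization p < d := by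
      by_contra hv
      push Not at hv
      have h3 : Nat.card (conjS y P) ≤ Nat.card Q := by
        rw [card_conjS, hPd, hQcard]
        exact Nat.pow_le_pow_right hpp.pos hv
      have hQeq : Q = conjS y P := Subgroup.eq_of_le_of_card_ge hy h3
      apply hm
      have h5 : y⁻¹ * m * y ∈ Subgroup.centralizer (P : Set G) := by
        rw [Subgroup.mem_centralizer_iff]
        intro t ht
        have h6 : y * t * y⁻¹ ∈ Q := by
          rw [hQeq]
          exact conj_mem_conjS ht
        have h7 : (y * t * y⁻¹) * m = m * (y * t * y⁻¹) := Subgroup.mem_centralizer_singleton_iff.mp (hQC h6)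
        calc t * (y⁻¹ * m * y) = y⁻¹ * ((y * t * y⁻¹) * m) * y := by group
          _ = y⁻¹ * (m * (y * t * y⁻¹)) * y := by rw [h7]
          _ = (y⁻¹ * m * y) * t := by group
      have h8 := hres _ h5
      have h9 : ϑ (y⁻¹ * m * y) = ϑ m := by
        have h10 := hcl m y⁻¹
        simpa using h10
      rwa [h9] at h8
    have h10 : Nat.card {x : G // IsConj m x} * Nat.card C = Nat.card G := card_conj_mul_card_centralizer m
    haveI : Nonempty {x : G // IsConj m x} := ⟨⟨m, IsConj.refl m⟩⟩
    have hKpos : Nat.card {x : G // IsConj m x} ≠ 0 := Nat.card_pos.ne'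
    have hCpos : Nat.card C ≠ 0 := Nat.card_pos.ne'
    have h11 : (Nat.card G).factorization p = (Nat.card {x : G // IsConj m x}).factorization p + (Nat.card C).factorization p := by
      rw [← h10, Nat.factorization_mul hKpos hCpos]
      rfl
    exact (hpp.pow_dvd_iff_le_factorization hKpos).mpr (by omega)

/-- A generalization of the non-vanishing on maximal pairs. -/
theorem nvp_of_maximal (hM : IsPModular p M) {e : Set (IrrCharacter (Subgroup.centralizer (P : Set G)))}
    [Fintype (Subgroup.centralizer (P : Set G))] (hmax : IsMaximalBrauerPair p M B P e) {ϑ : G → ℂ}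
    (hcl : IsClassFunction G ϑ) (hL : ∀ g, MemLocalRing M (ϑ g)) (y : Subgroup.centralizer (P : Set G))
    (hn : ¬ MemLocalIdeal M (projOp (indic B) ϑ (y : G))) :
    NVp M e (ϑ ∘ (Subgroup.centralizer (P : Set G)).subtype) := by
  classical
  have hB := hmax.1.2.1
  have hD := isDefectGroup_of_isMaximalBrauerPair hM hmax
  have hPp := hmax.1.1.1
  have hinv : InvF (gAct P) ϑ := by
    intro u g
    simp only [gAct_apply]
    exact hcl _ _
  obtain ⟨e', he', hnv⟩ := exists_nvp_up hM hPp (brData_g P) hB (isStable_g B) hinv hL (t := y) hn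
  have hpair : IsBrauerPairOf p M B P e' := by
    refine ⟨⟨hPp, (mem_brE.mp he').1⟩, hB, fun ξ hξ => ?_⟩
    rw [brauerOmega_eq_brV_g]
    exact (mem_brE.mp he').2 ξ hξ
  obtain ⟨z, hz, hconj⟩ := exists_conj_of_maximal hM (isMaximalBrauerPair_of_defect hM hpair hD) hmax
  rw [← hconj]
  exact nvp_conjB hcl z hz ⟨_, hnv⟩

/-- `LL` is injective on the row space. -/
theorem LL_eq_zero (hM : IsPModular p M) {e : Set (IrrCharacter (Subgroup.centralizer (P : Set G)))}
    [Fintype (Subgroup.centralizer (P : Set G))] (hmax : IsMaximalBrauerPair p M B P e) {f s d : ℕ} (hf0 : 0 < f)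
    (hf : ∀ χ ∈ B, (χ : G → ℂ) 1 = f) (hfs : ¬ p ^ (s + 1) ∣ f) (ha : (Nat.card G).factorization p = s + d)
    (hPd : Nat.card P = p ^ d) {z : ConjClasses G → OF M} (hz : z ∈ blockW M B)
    (h0 : LL M (Subgroup.centralizer (P : Set G)).subtype e z = 0) : z = 0 := by
  classical
  have hB := hmax.1.2.1
  have he := hmax.1.1.2
  obtain ⟨a, hcl, hL, hza⟩ := exists_lift_of_mem_blockW hB hz
  have hcl' := projOp_isClassFunction (indic B) hcl
  have hL' : ∀ g, MemLocalRing M (projOp (indic B) a g) :=
    Cfsg.Agent.Lib.Blocks.projOp_memLocalRing (indic_mem_zS hB) hL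
  have hid : ∀ g, projOp (indic B) (projOp (indic B) a) g = projOp (indic B) a g := by
    intro g
    rw [projOp_projOp _ _ hcl, indic_mul_self]
  have h1 : ∀ K', MemLocalIdeal M (projOp (indic e) ((projOp (indic B) a) ∘ (Subgroup.centralizer (P : Set G)).subtype) (clsRep K')) := by
    intro K'
    have h2 := LL_apply_lift (Subgroup.centralizer (P : Set G)).subtype he hcl' hL' z hza K'
    rw [h0] at h2
    have h3 : MemLocalRing M (projOp (indic e) ((projOp (indic B) a) ∘ (Subgroup.centralizer (P : Set G)).subtype) (clsRep K')) :=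
      Cfsg.Agent.Lib.Blocks.projOp_memLocalRing (indic_mem_zS he) (fun x => hL' _) _
    exact (resC_eq_zero_iff h3).mp h2.symm
  have h2 : ∀ w, MemLocalIdeal M (projOp (indic e) ((projOp (indic B) a) ∘ (Subgroup.centralizer (P : Set G)).subtype) w) := by
    intro w
    have h3 := h1 (ConjClasses.mk w)
    have h4 : IsConj (clsRep (ConjClasses.mk w)) w := (mk_eq_iff_isConj_clsRep _ w).mp rfl
    rwa [IsClassFunction.congr_isConj (projOp_isClassFunction _ (isClassFunction_comp' _ hcl')) h4] at h3
  have h3 : ∀ y ∈ Subgroup.centralizer (P : Set G), MemLocalIdeal M (projOp (indic B) a y) := by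
    intro y hy
    by_contra hn
    rw [← hid] at hn
    obtain ⟨w, hw⟩ := nvp_of_maximal hM hmax hcl' hL' ⟨y, hy⟩ hn
    exact hw (h2 w)
  have h4 := memLocalIdeal_of_res hM hmax hf0 hf hfs ha hPd hcl' hL' hid h3
  funext K
  rw [hza]
  exact (resC_eq_zero_iff (hL' _)).mpr (h4 _)

theorem card_block_ge (hM : IsPModular p M) (hB : IsPBlock M B) {f s d : ℕ} (hf0 : 0 < f)
    (hf : ∀ χ ∈ B, (χ : G → ℂ) 1 = f) (hfac : f.factorization p = s)
    (ha : (Nat.card G).factorization p = s + d) : p ^ d ≤ Nat.card B := by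
  classical
  have hpp := hp.out
  have h1 := card_block_div_memLocalRing hM hB hf0 hf
  rw [sum_indic_eq_card] at h1
  have hG := Nat.ordProj_mul_ordCompl_eq_self (Nat.card G) p
  have hf1 := Nat.ordProj_mul_ordCompl_eq_self f p
  have hf' : ¬ p ∣ f / p ^ f.factorization p := Nat.not_dvd_ordCompl hpp hf0.ne'
  have hu' : ¬ p ∣ Nat.card G / p ^ (Nat.card G).factorization p := Nat.not_dvd_ordCompl hpp Nat.card_pos.ne'
  generalize f / p ^ f.factorization p = f' at hf1 hf'
  generalize Nat.card G / p ^ (Nat.card G).factorization p = u at hG hu'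
  rw [ha] at hG
  rw [hfac] at hf1
  have hf'0 : (f' : ℂ) ≠ 0 := by
    intro h
    have h1 : f' = 0 := by exact_mod_cast h
    rw [h1] at hf'
    exact hf' (dvd_zero p)
  have hu0 : (u : ℂ) ≠ 0 := by
    intro h
    have h1 : u = 0 := by exact_mod_cast h
    rw [h1] at hu'
    exact hu' (dvd_zero p)
  have hp0 : (p : ℂ) ≠ 0 := by exact_mod_cast hpp.ne_zero
  have h2 : MemLocalRing M ((Nat.card B : ℂ) / ((p ^ d : ℕ) : ℂ)) := by
    have h3 := MemLocalRing.mul (MemLocalRing.mul (MemLocalRing.natCast (M := M) u) (inv_natCast_memLocalRing hM hf')) h1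
    convert h3 using 1
    have hGc : (Nat.card G : ℂ) = (p : ℂ) ^ s * (p : ℂ) ^ d * (u : ℂ) := by
      rw [← hG]
      push_cast
      rw [pow_add]
    have hfc : (f : ℂ) = (p : ℂ) ^ s * (f' : ℂ) := by
      rw [← hf1]
      push_cast
      ring
    rw [hGc, hfc]
    push_cast
    field_simp
  have h4 := pow_dvd_of_memLocalRing hM h2
  obtain ⟨χ, hχ⟩ := IsPBlock.nonempty hB
  haveI : Nonempty B := ⟨⟨χ, hχ⟩⟩
  exact Nat.le_of_dvd Nat.card_pos h4

theorem card_maxBlock_le (hM : IsPModular p M) {e : Set (IrrCharacter (Subgroup.centralizer (P : Set G)))}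
    [Fintype (Subgroup.centralizer (P : Set G))] (hmax : IsMaximalBrauerPair p M B P e) : Nat.card e ≤ Nat.card P := by
  classical
  have hD := isDefectGroup_cenZ hM hmax
  have he := hmax.1.1.2
  have hPp := hmax.1.1.1
  letI : Fintype (cenZ P) := Fintype.ofFinite _
  have hZcomm : ∀ (z : Subgroup.centralizer (P : Set G)), z ∈ cenZ P → ∀ c : Subgroup.centralizer (P : Set G), z * c = c * z := by
    intro z hz c
    apply Subtype.ext
    have h1 : (z : G) ∈ P := (Subgroup.mem_subgroupOf.mp hz).1
    exact Subgroup.mem_centralizer_iff.mp c.2 _ h1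
  haveI hZn : (cenZ P).Normal := ⟨fun n hn g => by
    have : g * n * g⁻¹ = n := by
      rw [← hZcomm n hn g]
      group
    rwa [this]⟩
  have hZp : IsPGroup p (cenZ P) := hD |> fun h => by
    obtain ⟨g, -, hS⟩ := isDefectGroup_iff.mp h
    exact hS.isPGroup
  have hG : cenZ P ⊔ Subgroup.centralizer ((cenZ P : Subgroup (Subgroup.centralizer (P : Set G))) : Set (Subgroup.centralizer (P : Set G))) = ⊤ := by
    rw [eq_top_iff]
    intro c _
    apply Subgroup.mem_sup_right
    rw [Subgroup.mem_centralizer_iff]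
    intro z hz
    exact hZcomm z hz c
  obtain ⟨θ, α, Ψ, hθ, hN, -, hΨ, hrange⟩ := Cfsg.Agent.Lib.H8Group.normal_central_block_struct hM hZp hG he hD
  have h1 : Nat.card e ≤ Nat.card (IrrCharacter (cenZ P)) := by
    rw [← hrange]
    exact Nat.card_le_card_of_surjective (Set.rangeFactorization Ψ) Set.rangeFactorization_surjective
  have h2 : Nat.card (IrrCharacter (cenZ P)) = Nat.card (ConjClasses (cenZ P)) := card_irr_eq_card_conjClasses
  have h3 : Nat.card (ConjClasses (cenZ P)) ≤ Nat.card (cenZ P) :=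
    Nat.card_le_card_of_surjective ConjClasses.mk ConjClasses.mk_surjective
  have h4 : Nat.card (cenZ P) ≤ Nat.card P := by
    refine Nat.card_le_card_of_injective (fun z : cenZ P => (⟨((z : Subgroup.centralizer (P : Set G)) : G), (Subgroup.mem_subgroupOf.mp z.2).1⟩ : P)) ?_
    intro a b hab
    have h5 := congrArg Subtype.val hab
    exact Subtype.ext (Subtype.ext h5)
  omega

theorem coef_cenIso {t₀ : G} (hP : conjS t₀ P = P) {e : Set (IrrCharacter (Subgroup.centralizer (P : Set G)))}
    [Fintype (Subgroup.centralizer (P : Set G))] (hst : conjB t₀ hP e = e) (h : Subgroup.centralizer (P : Set G)) :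
    coef (indic e) ((cenIso t₀ hP).symm h) = coef (indic e) h := by
  have h1 := coef_indic_transBlock (cenIso t₀ hP).symm e h
  rw [← conjB_eq_transBlock, hst] at h1
  exact h1.symm

theorem LL_invariant (hB : IsPBlock M B) {e : Set (IrrCharacter (Subgroup.centralizer (P : Set G)))}
    [Fintype (Subgroup.centralizer (P : Set G))] (he : IsPBlock M e) {t₀ : G} (hP : conjS t₀ P = P)
    (hst : conjB t₀ hP e = e) {z : ConjClasses G → OF M} (hz : z ∈ blockW M B) (y : Subgroup.centralizer (P : Set G)) :
    LL M (Subgroup.centralizer (P : Set G)).subtype e z (ConjClasses.mk (cenIso t₀ hP y)) =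
      LL M (Subgroup.centralizer (P : Set G)).subtype e z (ConjClasses.mk y) := by
  classical
  obtain ⟨a, hcl, hL, hza⟩ := exists_lift_of_mem_blockW hB hz
  have hcl' := projOp_isClassFunction (indic B) hcl
  have hL' : ∀ g, MemLocalRing M (projOp (indic B) a g) :=
    Cfsg.Agent.Lib.Blocks.projOp_memLocalRing (indic_mem_zS hB) hL
  rw [LL_apply_lift _ he hcl' hL' z hza, LL_apply_lift _ he hcl' hL' z hza]
  set ψ : Subgroup.centralizer (P : Set G) → ℂ := (projOp (indic B) a) ∘ (Subgroup.centralizer (P : Set G)).subtype with hψ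
  have hψcl : IsClassFunction _ ψ := isClassFunction_comp' _ hcl'
  have h1 : ∀ w, projOp (indic e) ψ (clsRep (ConjClasses.mk w)) = projOp (indic e) ψ w := fun w =>
    IsClassFunction.congr_isConj (projOp_isClassFunction _ hψcl) ((mk_eq_iff_isConj_clsRep _ w).mp rfl)
  rw [h1, h1]
  congr 1
  have h2 := projOp_transBlock (cenIso t₀ hP).symm e ψ (cenIso t₀ hP y)
  rw [← conjB_eq_transBlock, hst] at h2
  have h3 : ψ ∘ (cenIso t₀ hP).symm = ψ := by
    funext c
    show projOp (indic B) a _ = projOp (indic B) a _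
    have h4 := hcl' (c : G) t₀⁻¹
    simpa using h4
  rw [h3] at h2
  simpa using h2

theorem blockRow_central {X : Type u} [Group X] [Fintype X] (b : Set (IrrCharacter X)) (u y : X)
    (hu : ∀ c, u * c = c * u) :
    blockRow M b (ConjClasses.mk u) (ConjClasses.mk y) = resC M (coef (indic b) (u * y⁻¹)) := by
  classical
  unfold blockRow
  have h1 : cls (clsRep (ConjClasses.mk u)) = cls u :=
    cls_eq_of_isConj ((mk_eq_iff_isConj_clsRep _ u).mp rfl)
  have h2 : IsConj (clsRep (ConjClasses.mk y)) y := (mk_eq_iff_isConj_clsRep _ y).mp rfl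
  rw [h1, IsClassFunction.congr_isConj (projOp_isClassFunction _ (cls_isClassFunction u)) h2]
  congr 1
  rw [projOp, Finset.sum_eq_single (u * y⁻¹)]
  · have h3 : cls u (u * y⁻¹ * y) = 1 := by
      have h4 : u * y⁻¹ * y = u := by group
      rw [h4, cls, if_pos (IsConj.refl u)]
    rw [h3, mul_one]
  · intro x _ hx
    have h3 : ¬ IsConj u (x * y) := by
      intro h
      obtain ⟨c, hc⟩ := isConj_iff.mp h
      apply hx
      have h4 : c * u * c⁻¹ = u := by
        rw [← hu c]
        group
      rw [h4] at hc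
      rw [hc]
      group
    rw [cls, if_neg h3, mul_zero]
  · simp

/-- **Blocks with abelian defect group all of whose characters have the same degree (and height zero) are
nilpotent.** -/
theorem nilpotent_of_equal_degrees (hM : IsPModular p M) {e : Set (IrrCharacter (Subgroup.centralizer (P : Set G)))}
    [Fintype (Subgroup.centralizer (P : Set G))] (hmax : IsMaximalBrauerPair p M B P e)
    (hab : ∀ x ∈ P, ∀ y ∈ P, x * y = y * x) {f s d : ℕ} (hf0 : 0 < f) (hf : ∀ χ ∈ B, (χ : G → ℂ) 1 = f)
    (hfac : f.factorization p = s) (ha : (Nat.card G).factorization p = s + d) (hPd : Nat.card P = p ^ d) :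
    IsNilpotentBlock p M B := by
  classical
  have hpp := hp.out
  have hB := hmax.1.2.1
  have hPe := hmax.1.1
  have he := hPe.2
  have hPp := hPe.1
  have hfs : ¬ p ^ (s + 1) ∣ f := by
    intro h
    have h1 := (hpp.pow_dvd_iff_le_factorization hf0.ne').mp h
    omega
  have hcardB := card_block_ge hM hB hf0 hf hfac ha
  have hcarde := card_maxBlock_le hM hmax
  have hmap : (blockW M B).map (LL M (Subgroup.centralizer (P : Set G)).subtype e) ≤ blockW M e := by
    rintro _ ⟨z, hz, rfl⟩
    exact LL_mem_of_mem _ hB he hz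
  have hinj : Function.Injective ((LL M (Subgroup.centralizer (P : Set G)).subtype e).domRestrict (blockW M B)) := by
    rw [← LinearMap.ker_eq_bot, LinearMap.ker_eq_bot']
    intro z hz
    apply Subtype.ext
    exact LL_eq_zero hM hmax hf0 hf hfs ha hPd z.2 hz
  have hfr : finrank (OF M) ((blockW M B).map (LL M (Subgroup.centralizer (P : Set G)).subtype e)) = finrank (OF M) (blockW M B) := by
    rw [← LinearMap.range_domRestrict, LinearMap.finrank_range_of_inj hinj]
  have heq : (blockW M B).map (LL M (Subgroup.centralizer (P : Set G)).subtype e) = blockW M e := by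
    refine Submodule.eq_of_le_of_finrank_le hmap ?_
    rw [hfr, finrank_blockW _ hB, finrank_blockW _ he]
    omega
  rw [isNilpotentBlock_iff_of_abelian hM hmax hab]
  intro t₀ htN hts
  have hP := conjS_eq_of_mem_normalizer htN
  have hst := conjB_eq_of_stabilizes hM hP he hts
  rw [Subgroup.mem_centralizer_iff]
  intro u₀ hu₀
  have hu₀D : u₀ ∈ Subgroup.centralizer (P : Set G) :=
    Subgroup.mem_centralizer_iff.mpr fun x hx => hab x hx u₀ hu₀
  let u : Subgroup.centralizer (P : Set G) := ⟨u₀, hu₀D⟩
  have hucent : ∀ c : Subgroup.centralizer (P : Set G), u * c = c * u := fun c =>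
    Subtype.ext (Subgroup.mem_centralizer_iff.mp c.2 u₀ hu₀)
  let E := cenIso t₀ hP
  have hmem : blockRow M e (ConjClasses.mk u) ∈ blockW M e := Submodule.subset_span ⟨_, rfl⟩
  rw [← heq] at hmem
  obtain ⟨z, hz, hzu⟩ := hmem
  have hinv : ∀ y : Subgroup.centralizer (P : Set G),
      resC M (coef (indic e) (u * (E y)⁻¹)) = resC M (coef (indic e) (u * y⁻¹)) := by
    intro y
    rw [← blockRow_central e u _ hucent, ← blockRow_central e u _ hucent, ← hzu]
    exact LL_invariant hB he hP hst hz y
  have hinv2 : ∀ y : Subgroup.centralizer (P : Set G),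
      resC M (coef (indic e) (E.symm u * y⁻¹)) = resC M (coef (indic e) (u * y⁻¹)) := by
    intro y
    rw [← hinv y, ← coef_cenIso hP hst (u * (E y)⁻¹)]
    congr 2
    show _ = E.symm (u * (E y)⁻¹)
    rw [map_mul, map_inv, MulEquiv.symm_apply_apply]
  obtain ⟨y₁, hy₁, hS⟩ := isDefectGroup_iff.mp (isDefectGroup_cenZ hM hmax)
  have hreg := IsDefectClass.regular hM he hy₁
  have hne := epsRes_ne_zero_of_defectClass he hy₁
  set v : Subgroup.centralizer (P : Set G) := E.symm u * u⁻¹ with hv
  have h6 : epsRes M e he (v * y₁) = epsRes M e he y₁ := by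
    rw [epsRes_eq_resC, epsRes_eq_resC]
    have h5 := hinv2 (y₁⁻¹ * u)
    have h7 : E.symm u * (y₁⁻¹ * u)⁻¹ = v * y₁ := by
      rw [hv]
      group
    have h8 : u * (y₁⁻¹ * u)⁻¹ = y₁ := by
      group
    rwa [h7, h8] at h5
  have hsing : ¬ p ∣ orderOf (v * y₁) := fun h => hne (h6 ▸ epsRes_eq_zero_of_singular hM he h)
  have hvP : (v : G) ∈ P := by
    have h1 : (E.symm u : G) = t₀⁻¹ * u₀ * t₀ := rfl
    have h2 : (v : G) = (t₀⁻¹ * u₀ * t₀) * u₀⁻¹ := by
      rw [hv, Subgroup.coe_mul, h1]
      rfl
    rw [h2]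
    refine Subgroup.mul_mem _ ?_ (Subgroup.inv_mem _ hu₀)
    have h3 := (Subgroup.mem_normalizer_iff.mp (Subgroup.inv_mem _ htN) u₀).mp hu₀
    simpa using h3
  obtain ⟨k, hk⟩ := hPp ⟨(v : G), hvP⟩
  have hvk : v ^ (p ^ k) = 1 := by
    apply Subtype.ext
    have h1 := congrArg Subtype.val hk
    simpa using h1
  obtain ⟨j, -, hj⟩ := (Nat.dvd_prime_pow hpp).mp (orderOf_dvd_of_pow_eq_one hvk)
  have hcomm : Commute v y₁ := Subtype.ext (Subgroup.mem_centralizer_iff.mp y₁.2 _ hvP)
  have hcop : (orderOf v).Coprime (orderOf y₁) := by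
    rw [hj]
    exact Nat.Coprime.pow_left _ ((Nat.Prime.coprime_iff_not_dvd hpp).mpr hreg)
  have hord := hcomm.orderOf_mul_eq_mul_orderOf_of_coprime hcop
  have hv1 : v = 1 := by
    by_contra hvne
    apply hsing
    rw [hord]
    apply Dvd.dvd.mul_right
    have hj0 : j ≠ 0 := by
      rintro rfl
      apply hvne
      rw [pow_zero] at hj
      exact orderOf_eq_one_iff.mp hj
    rw [hj]
    exact dvd_pow_self p hj0
  have h7 : E.symm u = u := by
    rwa [hv, mul_inv_eq_one] at hv1
  have h8 : t₀⁻¹ * u₀ * t₀ = u₀ := congrArg Subtype.val h7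
  calc u₀ * t₀ = t₀ * (t₀⁻¹ * u₀ * t₀) := by group
    _ = t₀ * u₀ := by rw [h8]

end Main

end Cfsg.Agent.Lib.LocalAlg
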