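import Cfsg.Agent.Lib.LocalAlg.OLoc
import Cfsg.Agent.Lib.H8Group.ConjMax

/-!
# Blocks with a normal defect group: the stabilizer criterion for nilpotency
-/

set_option autoImplicit false
set_option linter.unusedSectionVars false
set_option linter.unusedVariables false

namespace Cfsg.Agent.Lib.LocalAlg

open Cfsg Cfsg.Agent.Lib.Char Cfsg.Agent.Lib.Blocks Cfsg.Agent.Lib.H8Group Finset
open scoped ComplexConjugate

universe u

section PartA

variable {G : Type u} [Group G] [Fintype G] {M : Ideal AlgInt} {p : ℕ} [hp : Fact p.Prime]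

/-- All subgroups are finite. -/
noncomputable abbrev oFt (K : Subgroup G) : Fintype K := Fintype.ofFinite _

attribute [local instance] oFt

section Fn

variable (C : Subgroup G) [hC : C.Normal]

/-- The idempotent coefficients of a subset of `Irr C`, on the whole group. -/
noncomputable def oA (E : Set (IrrCharacter C)) : G → ℂ := extendByZero C (coef (indic E))

theorem indic_mul_indic_inter {X : Type u} [Group X] [Fintype X] (E₁ E₂ : Set (IrrCharacter X)) :
    indic E₁ * indic E₂ = indic (E₁ ∩ E₂) := by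
  funext χ
  by_cases h1 : χ ∈ E₁ <;> by_cases h2 : χ ∈ E₂ <;> simp [h1, h2, Pi.mul_apply]

theorem conv_oA (K : Subgroup G) (hCK : C ≤ K) (E₁ E₂ : Set (IrrCharacter C)) :
    conv (oA C E₁ ∘ K.subtype) (oA C E₂ ∘ K.subtype) = oA C (E₁ ∩ E₂) ∘ K.subtype := by
  classical
  have key : coef (indic (E₁ ∩ E₂)) = conv (coef (indic E₁)) (coef (indic E₂)) := by
    rw [← indic_mul_indic_inter, coef_mul]
  funext t
  simp only [conv, Function.comp_apply, Subgroup.subtype_apply, oA]
  by_cases ht : (t : G) ∈ C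
  · rw [extendByZero_of_mem C _ ht, key]
    simp only [conv]
    symm
    refine Fintype.sum_of_injective (fun x : C => (⟨x, hCK x.2⟩ : K)) ?_ _ _ ?_ ?_
    · intro a b hab
      exact Subtype.ext (congrArg (fun z : K => (z : G)) hab)
    · intro i hi
      have hiC : (i : G) ∉ C := fun h => hi ⟨⟨i, h⟩, rfl⟩
      rw [extendByZero_of_notMem C _ hiC, zero_mul]
    · intro i
      have h2 : ((i : G))⁻¹ * t ∈ C := C.mul_mem (C.inv_mem i.2) ht
      have h3 : (((⟨i, hCK i.2⟩ : K)⁻¹ * t : K) : G) = ((i : G))⁻¹ * t := rfl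
      simp only [h3]
      rw [extendByZero_of_mem C _ i.2, extendByZero_of_mem C _ h2]
      rfl
  · rw [extendByZero_of_notMem C _ ht]
    refine Finset.sum_eq_zero fun x _ => ?_
    by_cases hx : (x : G) ∈ C
    · have h2 : (((x)⁻¹ * t : K) : G) ∉ C := by
        intro h
        apply ht
        have h3 : (t : G) = (x : G) * (((x)⁻¹ * t : K) : G) := by
          simp
        rw [h3]
        exact C.mul_mem hx h
      rw [extendByZero_of_notMem C _ h2, mul_zero]
    · rw [extendByZero_of_notMem C _ hx, zero_mul]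

theorem conjFun_coef_indic_of {A : Set (IrrCharacter C)} (g : G) (hAiff : ∀ θ, conjIrr C g θ ∈ A ↔ θ ∈ A) :
    Cfsg.Agent.Lib.Char.conjFun C g (coef (indic A)) = coef (indic A) := by
  classical
  funext n
  rw [Cfsg.Agent.Lib.Char.conjFun_eq_comp, Function.comp_apply]
  simp only [coef]
  congr 1
  rw [← Equiv.sum_comp (conjIrrEquiv C g)
    (fun χ : IrrCharacter C => indic A χ * ((χ : C → ℂ) 1 * conj ((χ : C → ℂ) (n))))]
  refine Finset.sum_congr rfl fun θ _ => ?_
  have h1 : indic A (conjIrrEquiv C g θ) = indic A θ := by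
    show indic A (conjIrr C g θ) = _
    by_cases hθ : θ ∈ A
    · rw [indic_apply_of_mem hθ, indic_apply_of_mem ((hAiff θ).mpr hθ)]
    · rw [indic_apply_of_notMem hθ, indic_apply_of_notMem (fun h => hθ ((hAiff θ).mp h))]
  rw [h1]
  show indic A θ * ((θ : C → ℂ) 1 * conj ((θ : C → ℂ) (conjEquiv C g n))) =
    indic A θ * (((conjIrr C g θ : IrrCharacter C) : C → ℂ) 1 *
      conj (((conjIrr C g θ : IrrCharacter C) : C → ℂ) n))
  rw [conjIrr_apply_one, conjIrr_coe, Cfsg.Agent.Lib.Char.conjFun_eq_comp]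
  rfl

theorem oA_conj (E : Set (IrrCharacter C)) (k : G) (hk : ∀ θ, conjIrr C k⁻¹ θ ∈ E ↔ θ ∈ E) (x : G) :
    oA C E (k * x * k⁻¹) = oA C E x := by
  by_cases hx : x ∈ C
  · have h1 : k * x * k⁻¹ ∈ C := hC.conj_mem x hx k
    simp only [oA]
    rw [extendByZero_of_mem C _ h1, extendByZero_of_mem C _ hx]
    have h2 := congrFun (conjFun_coef_indic_of C k⁻¹ hk) ⟨x, hx⟩
    rw [Cfsg.Agent.Lib.Char.conjFun_apply] at h2
    rw [← h2]
    congr 1
    apply Subtype.ext
    simp
  · have h1 : k * x * k⁻¹ ∉ C := by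
      intro h
      apply hx
      have := hC.conj_mem _ h k⁻¹
      simpa [mul_assoc] using this
    simp only [oA]
    rw [extendByZero_of_notMem C _ h1, extendByZero_of_notMem C _ hx]

theorem oA_isClass (K : Subgroup G) (E : Set (IrrCharacter C))
    (hinv : ∀ k ∈ K, ∀ θ, conjIrr C k θ ∈ E ↔ θ ∈ E) : IsClassFunction K (oA C E ∘ K.subtype) := by
  intro x k
  simp only [Function.comp_apply, Subgroup.subtype_apply, Subgroup.coe_mul, Subgroup.coe_inv]
  exact oA_conj C E k (hinv _ (K.inv_mem k.2)) x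

theorem oA_memLocalRing [M.IsPrime] {E : Set (IrrCharacter C)} (hE : ∀ θ ∈ E, blockOf M (θ : C → ℂ) ⊆ E) (x : G) :
    MemLocalRing M (oA C E x) :=
  extendByZero_memLocalRing C (fun y => indic_mem_zS_of_closed hE y) x

theorem spec_oA_idem (K : Subgroup G) (hCK : C ≤ K) {E : Set (IrrCharacter C)}
    (hinv : ∀ k ∈ K, ∀ θ, conjIrr C k θ ∈ E ↔ θ ∈ E) (ψ : IrrCharacter K) :
    spec (oA C E ∘ K.subtype) ψ = 0 ∨ spec (oA C E ∘ K.subtype) ψ = 1 := by
  have h1 := spec_conv _ (oA C E ∘ K.subtype) (oA_isClass C K E hinv)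
  rw [conv_oA C K hCK, Set.inter_self] at h1
  have h2 := congrFun h1 ψ
  simp only [Pi.mul_apply] at h2
  by_cases h0 : spec (oA C E ∘ K.subtype) ψ = 0
  · exact Or.inl h0
  · right
    have h3 : spec (oA C E ∘ K.subtype) ψ * spec (oA C E ∘ K.subtype) ψ = spec (oA C E ∘ K.subtype) ψ * 1 := by
      rw [← h2, mul_one]
    exact mul_left_cancel₀ h0 h3

end Fn

section Chain

variable {D : Subgroup G} [hCn : (Subgroup.centralizer (D : Set G)).Normal]

local notation "CC" => Subgroup.centralizer (D : Set G)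

theorem oA_step (hM : IsPModular p M) {R R' : Subgroup G}
    {g : Set (IrrCharacter (Subgroup.centralizer (R : Set G)))}
    {g' : Set (IrrCharacter (Subgroup.centralizer (R' : Set G)))}
    (hs : IsNormalSubpair p M R g R' g') (hR'D : R' ≤ D)
    {E : Set (IrrCharacter CC)} (hE : ∀ θ ∈ E, blockOf M (θ : CC → ℂ) ⊆ E)
    (hinv : ∀ k ∈ Subgroup.centralizer (R : Set G), ∀ θ, conjIrr CC k θ ∈ E ↔ θ ∈ E)
    (h' : ∀ ξ ∈ g', spec (oA CC E ∘ (Subgroup.centralizer (R' : Set G)).subtype) ξ = 1) :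
    ∀ ψ ∈ g, spec (oA CC E ∘ (Subgroup.centralizer (R : Set G)).subtype) ψ = 1 := by
  classical
  have := isPrime_of_modular hM
  obtain ⟨⟨-, hf⟩, ⟨hRp, he⟩, hQR, hRN, hst, hv⟩ := hs
  have hCK : CC ≤ Subgroup.centralizer (R : Set G) := Subgroup.centralizer_le (hQR.trans hR'D)
  set a := oA CC E ∘ (Subgroup.centralizer (R : Set G)).subtype with ha
  have hcl : IsClassFunction _ a := oA_isClass CC _ E hinv
  set c := spec a with hc
  have hcS : c ∈ zS M (Subgroup.centralizer (R : Set G)) :=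
    Cfsg.Agent.Lib.Blocks.spec_mem_zS hcl (fun x => oA_memLocalRing CC hE _)
  have hcoef : coef c = a := coef_spec a hcl
  obtain ⟨ξ, hξ⟩ := IsPBlock.nonempty he
  have hgS := indic_mem_zS (M := M) hf
  have hfs := (isStable_iff_stabilizes hRN g).mpr hst
  have hgI := invF_of_isStable hfs
  have hcI : InvF (cenAct R R' hRN) (coef c) := by
    intro u x
    rw [hcoef]
    simp only [ha, Function.comp_apply, Subgroup.subtype_apply, cenAct_coe]
    by_cases hx : (x : G) ∈ CC
    · have h1 := Subgroup.mem_centralizer_iff.mp hx (u : G) (hR'D u.2)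
      have h2 : (u : G) * x * (u : G)⁻¹ = x := by
        rw [h1]
        group
      rw [h2]
    · have h1 : (u : G) * x * (u : G)⁻¹ ∉ CC := by
        intro h
        apply hx
        have := hCn.conj_mem _ h (u : G)⁻¹
        simpa [mul_assoc] using this
      simp only [oA]
      rw [extendByZero_of_notMem CC _ h1, extendByZero_of_notMem CC _ hx]
  have h1 := brV_mul hM hRp (brData_c hQR hRN) hgS hcS hgI hcI ξ
  have h2 : brV (cenIncl hQR) c ξ = 1 := by
    rw [brV, hcoef]
    exact h' ξ hξ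
  have h3 : MemLocalIdeal M (brV (cenIncl hQR) (indic g) ξ - 1) := by
    rw [← brauerOmega_eq_brV_c hQR]
    exact hv ξ hξ
  intro ψ hψ
  rcases spec_oA_idem CC _ hCK hinv ψ with h0 | h0
  swap
  · exact h0
  exfalso
  have hz : ∀ ψ' ∈ g, c ψ' = 0 := by
    intro ψ' hψ'
    rcases spec_oA_idem CC _ hCK hinv ψ' with h4 | h4
    · exact h4
    · exfalso
      have h5 := zS_apply_congr hf hcS hψ' hψ
      rw [show c ψ' = 1 from h4, show c ψ = 0 from h0, sub_zero] at h5
      exact not_memLocalIdeal_one h5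
  have h6 : indic g * c = 0 := by
    funext ψ'
    by_cases hg : ψ' ∈ g
    · simp [hz ψ' hg]
    · simp [indic_apply_of_notMem hg]
  rw [h6, h2, mul_one] at h1
  have h7 : brV (cenIncl hQR) (0 : IrrCharacter _ → ℂ) ξ = 0 := by
    simp [brV, coef_zero, spec]
  rw [h7, zero_sub] at h1
  have h8 := MemLocalIdeal.add h1 h3
  have h9 : -brV (cenIncl hQR) (indic g) ξ + (brV (cenIncl hQR) (indic g) ξ - 1) = -1 := by ring
  rw [h9] at h8
  apply not_memLocalIdeal_one (M := M)
  have h10 := MemLocalIdeal.neg h8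
  simpa using h10

/-- Along a chain. -/
theorem oA_chain (hM : IsPModular p M) {e : Set (IrrCharacter CC)} {a : BrauerPairIdx G}
    (h : Relation.ReflTransGen (NormalSubpairRel p M) a ⟨D, e⟩)
    {E : Set (IrrCharacter CC)} (hE : ∀ θ ∈ E, blockOf M (θ : CC → ℂ) ⊆ E) (heE : e ⊆ E)
    (hinv : ∀ k ∈ Subgroup.centralizer (a.1 : Set G), ∀ θ, conjIrr CC k θ ∈ E ↔ θ ∈ E) :
    ∀ ψ ∈ a.2, spec (oA CC E ∘ (Subgroup.centralizer (a.1 : Set G)).subtype) ψ = 1 := by
  induction h using Relation.ReflTransGen.head_induction_on with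
  | refl =>
    intro ψ hψ
    have h1 : oA CC E ∘ (Subgroup.centralizer (D : Set G)).subtype = coef (indic E) := by
      funext x
      simp only [oA, Function.comp_apply, Subgroup.subtype_apply]
      rw [extendByZero_of_mem CC _ x.2]
    show spec (oA CC E ∘ (Subgroup.centralizer (D : Set G)).subtype) ψ = 1
    rw [h1, spec_coef, indic_apply_of_mem (heE hψ)]
  | @head a c hac hcb ih =>
    have hcD : c.1 ≤ D := le_of_chain hcb
    have hac' : IsNormalSubpair p M a.1 a.2 c.1 c.2 := hac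
    have h1 := ih (fun k hk θ => hinv k (Subgroup.centralizer_le hac'.2.2.1 hk) θ)
    exact oA_step hM hac' hcD hE hinv h1

/-- The orbit of a set under a subgroup. -/
def oSat (K : Subgroup G) (e : Set (IrrCharacter CC)) : Set (IrrCharacter CC) :=
  {θ | ∃ k ∈ K, conjIrr CC k θ ∈ e}

theorem oSat_closed [M.IsPrime] {K : Subgroup G} {e : Set (IrrCharacter CC)} (he : IsPBlock M e) :
    ∀ θ ∈ oSat K e, blockOf M (θ : CC → ℂ) ⊆ oSat K e := by
  rintro θ ⟨k, hk, hθ⟩ θ' hθ'
  refine ⟨k, hk, ?_⟩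
  rw [blockOf_eq_of_mem he hθ]
  exact sameBlock_conjIrr CC k hθ'

theorem oSat_inv (K : Subgroup G) (e : Set (IrrCharacter CC)) :
    ∀ k ∈ K, ∀ θ, conjIrr CC k θ ∈ oSat K e ↔ θ ∈ oSat K e := by
  intro k hk θ
  constructor
  · rintro ⟨k', hk', h⟩
    refine ⟨k' * k, K.mul_mem hk' hk, ?_⟩
    rwa [conjIrr_mul]
  · rintro ⟨k', hk', h⟩
    refine ⟨k' * k⁻¹, K.mul_mem hk' (K.inv_mem hk), ?_⟩
    rwa [← conjIrr_mul, inv_mul_cancel_right]

theorem self_subset_oSat (K : Subgroup G) (e : Set (IrrCharacter CC)) : e ⊆ oSat K e := by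
  intro θ hθ
  refine ⟨1, K.one_mem, ?_⟩
  rwa [conjIrr_one]

/-- The blocks above a pair are conjugate under its centralizer. -/
theorem exists_cen_conj_of_subpairLE (hM : IsPModular p M) {Q : Subgroup G}
    {f : Set (IrrCharacter (Subgroup.centralizer (Q : Set G)))} {e₁ e₂ : Set (IrrCharacter CC)}
    (h₁ : SubpairLE p M Q f D e₁) (h₂ : SubpairLE p M Q f D e₂) (he₁ : IsPBlock M e₁) (he₂ : IsPBlock M e₂)
    (hf : IsPBlock M f) :
    ∃ c ∈ Subgroup.centralizer (Q : Set G), ∃ θ ∈ e₁, conjIrr CC c θ ∈ e₂ := by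
  classical
  have := isPrime_of_modular hM
  have hQD := le_of_subpairLE h₁
  have hCK : CC ≤ Subgroup.centralizer (Q : Set G) := Subgroup.centralizer_le hQD
  obtain ⟨ψ, hψ⟩ := IsPBlock.nonempty hf
  let K := Subgroup.centralizer (Q : Set G)
  have h1 := oA_chain hM h₁ (E := oSat K e₁) (oSat_closed he₁) (self_subset_oSat K e₁) (oSat_inv K e₁) ψ hψ
  have h2 := oA_chain hM h₂ (E := oSat K e₂) (oSat_closed he₂) (self_subset_oSat K e₂) (oSat_inv K e₂) ψ hψ
  have h3 := congrFun (spec_conv _ (oA CC (oSat K e₂) ∘ K.subtype) (oA_isClass CC K (oSat K e₁) (oSat_inv K e₁))) ψ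
  rw [conv_oA CC K hCK, Pi.mul_apply] at h3
  have h4 : spec (oA CC (oSat K e₁ ∩ oSat K e₂) ∘ K.subtype) ψ = 1 := by
    rw [h3]
    have h1' : spec (oA CC (oSat K e₁) ∘ K.subtype) ψ = 1 := h1
    have h2' : spec (oA CC (oSat K e₂) ∘ K.subtype) ψ = 1 := h2
    rw [h1', h2', one_mul]
  have h5 : (oSat K e₁ ∩ oSat K e₂).Nonempty := by
    by_contra hne
    rw [Set.not_nonempty_iff_eq_empty] at hne
    rw [hne] at h4
    have h6 : oA CC (∅ : Set (IrrCharacter CC)) ∘ K.subtype = 0 := by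
      have h7 : indic (∅ : Set (IrrCharacter CC)) = 0 := by
        funext θ
        simp
      funext x
      simp only [oA, h7, coef_zero, Function.comp_apply, Pi.zero_apply]
      show extendByZero CC 0 (x : G) = 0
      by_cases hx : (x : G) ∈ CC
      · rw [extendByZero_of_mem CC _ hx]
        rfl
      · rw [extendByZero_of_notMem CC _ hx]
    rw [h6] at h4
    simp [spec] at h4
  obtain ⟨θ, ⟨c₁, hc₁, hθ₁⟩, ⟨c₂, hc₂, hθ₂⟩⟩ := h5
  refine ⟨c₂ * c₁⁻¹, K.mul_mem hc₂ (K.inv_mem hc₁), _, hθ₁, ?_⟩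
  rwa [← conjIrr_mul, inv_mul_cancel_right]

theorem irrComp_cenIso_eq_conjIrr (x : G) (h : conjS x D = D) (ξ : IrrCharacter CC) :
    Cfsg.Agent.Lib.Blocks.irrComp (cenIso x h) ξ = conjIrr CC x⁻¹ ξ := by
  apply Subtype.ext
  funext c
  simp only [Cfsg.Agent.Lib.Blocks.irrComp_coe, Function.comp_apply, conjIrr_coe, Cfsg.Agent.Lib.Char.conjFun_apply]
  exact congrArg (ξ : CC → ℂ) (Subtype.ext (by simp))

/-- An element carrying one character of a block to another one stabilizes the block. -/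
theorem stabilizes_of_conjIrr_mem [M.IsPrime] {e : Set (IrrCharacter CC)} (he : IsPBlock M e) {t : G} {θ : IrrCharacter CC}
    (hθ : θ ∈ e) (ht : conjIrr CC t θ ∈ e) : StabilizesBlock CC e t := by
  refine ⟨Subgroup.mem_normalizer_iff.mpr fun z => ?_, fun χ hχ => ⟨conjIrr CC t χ, ?_, fun k k' hk => ?_⟩⟩
  · constructor
    · intro hz
      exact hCn.conj_mem z hz t
    · intro hz
      have := hCn.conj_mem _ hz t⁻¹
      simpa [mul_assoc] using this
  · rw [blockOf_eq_of_mem he ht]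
    refine sameBlock_conjIrr CC t ?_
    exact sameBlock_of_mem he hθ hχ
  · simp only [conjIrr_coe, Cfsg.Agent.Lib.Char.conjFun_apply]
    exact congrArg (χ : CC → ℂ) (Subtype.ext (by simp [hk, mul_assoc]))

theorem conj_pow_of_centralizer_mul {Q : Subgroup G} {x c : G} (hx : x ∈ Subgroup.normalizer (Q : Set G))
    (hc : c ∈ Subgroup.centralizer (Q : Set G)) (n : ℕ) :
    ∀ z ∈ Q, (x⁻¹ * c) ^ n * z * ((x⁻¹ * c) ^ n)⁻¹ = (x⁻¹) ^ n * z * ((x⁻¹) ^ n)⁻¹ := by
  induction n with
  | zero => intro z _; simp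
  | succ n ih =>
    intro z hz
    have h1 : (x⁻¹ * c) * z * (x⁻¹ * c)⁻¹ = x⁻¹ * z * x := by
      have h2 := Subgroup.mem_centralizer_iff.mp hc z hz
      calc (x⁻¹ * c) * z * (x⁻¹ * c)⁻¹ = x⁻¹ * (c * z) * c⁻¹ * x := by group
        _ = x⁻¹ * (z * c) * c⁻¹ * x := by rw [h2]
        _ = x⁻¹ * z * x := by group
    have h3 : x⁻¹ * z * x ∈ Q := by
      have h4 := Subgroup.mem_normalizer_iff.mp (Subgroup.inv_mem _ hx) z
      have h5 := h4.mp hz
      simpa using h5
    calc (x⁻¹ * c) ^ (n + 1) * z * ((x⁻¹ * c) ^ (n + 1))⁻¹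
        = (x⁻¹ * c) ^ n * ((x⁻¹ * c) * z * (x⁻¹ * c)⁻¹) * ((x⁻¹ * c) ^ n)⁻¹ := by
          rw [pow_succ]
          group
      _ = (x⁻¹ * c) ^ n * (x⁻¹ * z * x) * ((x⁻¹ * c) ^ n)⁻¹ := by rw [h1]
      _ = (x⁻¹) ^ n * (x⁻¹ * z * x) * ((x⁻¹) ^ n)⁻¹ := ih _ h3
      _ = (x⁻¹) ^ (n + 1) * z * ((x⁻¹) ^ (n + 1))⁻¹ := by
          rw [pow_succ]
          group

/-- The core of the criterion. -/
theorem mem_cen_of_below (hM : IsPModular p M) (hDn : D.Normal) {Q : Subgroup G}
    {f : Set (IrrCharacter (Subgroup.centralizer (Q : Set G)))} {e : Set (IrrCharacter CC)}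
    (hle : SubpairLE p M Q f D e) (he : IsPBlock M e) (hf : IsPBlock M f)
    (hT : ∀ x : G, IsPRegular p x → StabilizesBlock CC e x → x ∈ CC)
    {x : G} (hx : x ∈ Subgroup.normalizer (Q : Set G))
    (hs : StabilizesBlock (Subgroup.centralizer (Q : Set G)) f x) (hreg : IsPRegular p x) :
    x ∈ Subgroup.centralizer (Q : Set G) := by
  classical
  have hpp : p.Prime := Fact.out
  have := isPrime_of_modular hM
  have hxQ : conjS x Q = Q := conjS_eq_of_mem_normalizer hx
  have hxD : conjS x D = D := by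
    apply conjS_eq_of_mem_normalizer
    rw [Subgroup.mem_normalizer_iff]
    intro z
    constructor
    · exact fun hz => hDn.conj_mem z hz x
    · intro hz
      have := hDn.conj_mem _ hz x⁻¹
      simpa [mul_assoc] using this
  have h1 := subpairLE_conjB x hxQ hxD hle
  rw [conjB_eq_of_stabilizes hM hxQ hf hs] at h1
  have he' := isPBlock_conjB x hxD he
  obtain ⟨c, hc, θ, hθ, hcθ⟩ := exists_cen_conj_of_subpairLE hM hle h1 he he' hf
  rw [mem_conjB, irrComp_cenIso_eq_conjIrr, ← conjIrr_mul] at hcθ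
  set t := x⁻¹ * c with ht
  have hst : StabilizesBlock CC e t := stabilizes_of_conjIrr_mem he hθ hcθ
  have htS : t ∈ stabOfBlock D e := by
    refine ⟨?_, hst⟩
    rw [Subgroup.mem_normalizer_iff]
    intro z
    constructor
    · exact fun hz => hDn.conj_mem z hz t
    · intro hz
      have := hDn.conj_mem _ hz t⁻¹
      simpa [mul_assoc] using this
  set k := (orderOf t).factorization p with hk
  have hpow := Subgroup.pow_mem _ htS (p ^ k)
  have hn0 : orderOf t ≠ 0 := (orderOf_pos t).ne'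
  have hreg' : IsPRegular p (t ^ p ^ k) := by
    show ¬ p ∣ orderOf _
    rw [orderOf_pow' t (pow_ne_zero _ hpp.ne_zero)]
    have h2 : (orderOf t).gcd (p ^ k) = p ^ k :=
      Nat.gcd_eq_right (Nat.ordProj_dvd _ _)
    rw [h2]
    exact Nat.not_dvd_ordCompl hpp hn0
  have h3 := hT _ hreg' hpow.2
  have h4 : t ^ p ^ k ∈ Subgroup.centralizer (Q : Set G) :=
    Subgroup.centralizer_le (le_of_subpairLE hle) h3
  have h5 : x ^ p ^ k ∈ Subgroup.centralizer (Q : Set G) := by
    rw [Subgroup.mem_centralizer_iff]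
    intro z hz
    have h6 := conj_pow_of_centralizer_mul hx hc (p ^ k) z hz
    have h7 := Subgroup.mem_centralizer_iff.mp h4 z hz
    have h8 : t ^ p ^ k * z * (t ^ p ^ k)⁻¹ = z := by
      rw [← h7]
      group
    rw [h8, inv_pow] at h6
    -- `z = x^{-n} z x^n`
    have h9 : x ^ p ^ k * z = z * x ^ p ^ k := by
      calc x ^ p ^ k * z = x ^ p ^ k * ((x ^ p ^ k)⁻¹ * z * ((x ^ p ^ k)⁻¹)⁻¹) := by rw [← h6]
        _ = z * x ^ p ^ k := by group
    exact h9.symm
  have hcop : (p ^ k).Coprime (orderOf x) := Nat.Coprime.pow_left _ ((Nat.Prime.coprime_iff_not_dvd hpp).mpr hreg)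
  obtain ⟨m, hm⟩ := exists_pow_eq_self_of_coprime hcop
  rw [← hm]
  exact Subgroup.pow_mem _ h5 m

end Chain

/-- **The stabilizer criterion.** -/
theorem nilpotent_of_normal_stab (hM : IsPModular p M) {B : Set (IrrCharacter G)} {D : Subgroup G}
    {e : Set (IrrCharacter (Subgroup.centralizer (D : Set G)))} (hmax : IsMaximalBrauerPair p M B D e)
    (hDn : D.Normal)
    (hT : ∀ x : G, IsPRegular p x → StabilizesBlock (Subgroup.centralizer (D : Set G)) e x →
      x ∈ Subgroup.centralizer (D : Set G)) :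
    IsNilpotentBlock p M B := by
  classical
  haveI := hDn
  haveI hCn : (Subgroup.centralizer (D : Set G)).Normal := Subgroup.normal_centralizer
  have hPe := hmax.1.1
  refine ⟨hmax.1.2.1, fun Q f hQf x hx hs hreg => ?_⟩
  obtain ⟨y, hy⟩ := exists_conj_subpairLE hM hmax hQf
  have hf' := isPBlock_of_subpairLE hM hPe hy
  have hyinv : y⁻¹ * (y * x * y⁻¹) * y = x := by group
  have hx'N : y * x * y⁻¹ ∈ Subgroup.normalizer ((conjS y Q : Subgroup G) : Set G) :=
    (conj_mem_normalizer_iff y rfl).mpr (by rwa [hyinv])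
  have hx's : StabilizesBlock (Subgroup.centralizer ((conjS y Q : Subgroup G) : Set G)) (conjB y rfl f) (y * x * y⁻¹) :=
    stabilizesBlock_conjB y rfl (by rwa [hyinv])
  have hreg' : IsPRegular p (y * x * y⁻¹) := by
    show ¬ p ∣ orderOf _
    rw [orderOf_conj_eq]
    exact hreg
  have hc := mem_cen_of_below hM hDn hy hPe.2 hf' hT hx'N hx's hreg'
  have h2 := conj_inv_mem_cen_of_conjS y rfl hc
  rwa [hyinv] at h2

end PartA

end Cfsg.Agent.Lib.LocalAlg
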