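import Cfsg.Agent.Lib.LocalAlg.ONormal
import Cfsg.Agent.Lib.H8Group.NormalBlocks
import Cfsg.Agent.Lib.Blocks.QuotBlocks
import Cfsg.Agent.Lib.Char.ASylow

/-!
# Blocks with a normal defect group: comparing the centralizer blocks with a quotient
-/

set_option autoImplicit false
set_option linter.unusedSectionVars false
set_option linter.unusedVariables false

namespace Cfsg.Agent.Lib.LocalAlg

open Cfsg Cfsg.Agent.Lib.Char Cfsg.Agent.Lib.Blocks Cfsg.Agent.Lib.H8Group Finset
open scoped ComplexConjugate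

universe u

section LemK

variable {A A' : Type u} [Group A] [Fintype A] [Group A'] [Fintype A'] {M : Ideal AlgInt} {p : ℕ}
  [hp : Fact p.Prime]

theorem exists_regular_lift (π : A →* A') {u : A'} (hu : ¬ p ∣ orderOf u) {c : A} (hc : π c = u) :
    ∃ c' : A, π c' = u ∧ ¬ p ∣ orderOf c' := by
  have hpp : p.Prime := hp.out
  set k := (orderOf c).factorization p with hk
  have hn0 : orderOf c ≠ 0 := (orderOf_pos c).ne'
  have hcop : (p ^ k).Coprime (orderOf u) :=
    Nat.Coprime.pow_left _ ((Nat.Prime.coprime_iff_not_dvd hpp).mpr hu)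
  obtain ⟨m, hm⟩ := exists_pow_eq_self_of_coprime hcop
  refine ⟨(c ^ p ^ k) ^ m, ?_, ?_⟩
  · rw [map_pow, map_pow, hc, hm]
  · intro h
    have h1 : orderOf ((c ^ p ^ k) ^ m) ∣ orderOf (c ^ p ^ k) := orderOf_pow_dvd _
    have h2 : orderOf (c ^ p ^ k) = orderOf c / p ^ k := by
      rw [orderOf_pow' c (pow_ne_zero _ hpp.ne_zero)]
      rw [Nat.gcd_eq_right (Nat.ordProj_dvd _ _)]
    rw [h2] at h1
    exact Nat.not_dvd_ordCompl hpp hn0 (h.trans h1)

open scoped Classical in
/-- The pull-back to the regular elements. -/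
noncomputable def regFun (p : ℕ) (π : A →* A') (a : A' → ℂ) : A → ℂ :=
  fun c => if ¬ p ∣ orderOf c then a (π c) else 0

theorem regFun_isClass (π : A →* A') {a : A' → ℂ} (ha : IsClassFunction A' a) :
    IsClassFunction A (regFun p π a) := by
  classical
  intro x k
  by_cases h : p ∣ orderOf x
  · simp only [regFun]
    rw [orderOf_conj_eq, if_neg (not_not.mpr h), if_neg (not_not.mpr h)]
  · simp only [regFun]
    rw [orderOf_conj_eq, if_pos h, if_pos h, map_mul, map_mul, map_inv]
    exact ha _ _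

theorem spec_regFun (π : A →* A') (hkerp : IsPGroup p π.ker) (hkerc : ∀ c, π c = 1 → ∀ d, Commute d c)
    {a : A' → ℂ} (hs : ∀ u, p ∣ orderOf u → a u = 0) [Fintype π.range]
    (η : IrrCharacter π.range) (θ : IrrCharacter A)
    (hθ : ∀ c, (θ : A → ℂ) c = (η : π.range → ℂ) (π.rangeRestrict c)) :
    spec (regFun p π a) θ = spec (Cfsg.Agent.Lib.Char.resFun π.range a) η := by
  classical
  have h1 : (θ : A → ℂ) 1 = (η : π.range → ℂ) 1 := by
    rw [hθ, map_one]
  simp only [spec]
  rw [h1]
  congr 1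
  have h2 : ∑ x, regFun p π a x * (θ : A → ℂ) x =
      ∑ x ∈ Finset.univ.filter (fun c : A => ¬ p ∣ orderOf c), a (π x) * (η : π.range → ℂ) (π.rangeRestrict x) := by
    rw [Finset.sum_filter]
    refine Finset.sum_congr rfl fun x _ => ?_
    simp only [regFun]
    rw [hθ]
    by_cases h : p ∣ orderOf x
    · rw [if_neg (not_not.mpr h), if_neg (not_not.mpr h), zero_mul]
    · rw [if_pos h, if_pos h]
  have h3 : ∑ x, Cfsg.Agent.Lib.Char.resFun π.range a x * (η : π.range → ℂ) x =
      ∑ x ∈ Finset.univ.filter (fun u : π.range => ¬ p ∣ orderOf u), a x * (η : π.range → ℂ) x := by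
    rw [Finset.sum_filter]
    refine Finset.sum_congr rfl fun x _ => ?_
    by_cases h : p ∣ orderOf x
    · rw [if_neg (not_not.mpr h), Cfsg.Agent.Lib.Char.resFun, hs _ (by rwa [Subgroup.orderOf_coe]), zero_mul]
    · rw [if_pos h]
  rw [h2, h3]
  refine Finset.sum_bij (fun c _ => π.rangeRestrict c) ?_ ?_ ?_ ?_
  · intro c hc
    simp only [Finset.mem_filter, Finset.mem_univ, true_and] at hc ⊢
    intro h
    apply hc
    rw [← Subgroup.orderOf_coe] at h
    exact h.trans (orderOf_map_dvd π c)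
  · intro c₁ hc₁ c₂ hc₂ h
    simp only [Finset.mem_filter, Finset.mem_univ, true_and] at hc₁ hc₂
    have h4 : π c₁ = π c₂ := congrArg Subtype.val h
    have h5 : c₂⁻¹ * c₁ ∈ π.ker := by
      rw [MonoidHom.mem_ker, map_mul, map_inv, h4, inv_mul_cancel]
    have h6 := Cfsg.Agent.Lib.Blocks.eq_one_of_regular_mul (p := p) (N := π.ker) (x := c₂) h5 hkerp
      (hkerc _ h5 c₂) hc₂ (by rwa [mul_inv_cancel_left])
    have h7 : c₁ = c₂ := by
      rw [inv_mul_eq_one] at h6
      exact h6.symm
    exact h7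
  · rintro ⟨u, c, rfl⟩ hu
    simp only [Finset.mem_filter, Finset.mem_univ, true_and] at hu
    have hu' : ¬ p ∣ orderOf (π c) := by
      intro h
      apply hu
      have h0 : orderOf (⟨π c, ⟨c, rfl⟩⟩ : π.range) = orderOf (π c) := Subgroup.orderOf_mk _ _
      rwa [h0]
    obtain ⟨c', hc', hr⟩ := exists_regular_lift π hu' rfl
    refine ⟨c', by simpa using hr, ?_⟩
    apply Subtype.ext
    exact hc'
  · intro c _
    rfl

/-- **Comparison of block membership along a central `p`-extension of a normal subgroup of `p`-power index.** -/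
theorem mem_block_of_comparison (hM : IsPModular p M) (π : A →* A') (hkerp : IsPGroup p π.ker)
    (hkerc : ∀ c, π c = 1 → ∀ d, Commute d c) (hreg : ∀ u : A', ¬ p ∣ orderOf u → u ∈ π.range)
    [hN : π.range.Normal] [Fintype π.range]
    (β : π.range ≃* π.range) (α : A ≃* A) (hαβ : ∀ c, π.rangeRestrict (α c) = β (π.rangeRestrict c))
    {E : Set (IrrCharacter A')} (hE : IsPBlock M E) {ζ : IrrCharacter A'} (hζ : ζ ∈ E)
    {η : IrrCharacter π.range}
    (hη : classInner (fun n : π.range => (ζ : A' → ℂ) n) (η : π.range → ℂ) ≠ 0)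
    {θ : IrrCharacter A} (hθ : ∀ c, (θ : A → ℂ) c = (η : π.range → ℂ) (π.rangeRestrict c))
    {e : Set (IrrCharacter A)} (he : IsPBlock M e) (hθe : θ ∈ e)
    {θ₂ : IrrCharacter A} (hθ₂ : ∀ c, (θ₂ : A → ℂ) c = (θ : A → ℂ) (α.symm c)) (hθ₂e : θ₂ ∈ e)
    {ζ₂ : IrrCharacter A'} (hζ₂ : ∀ u : π.range, (ζ₂ : A' → ℂ) u = (ζ : A' → ℂ) (β.symm u)) : ζ₂ ∈ E := by
  classical
  have := isPrime_of_modular hM
  set a := coef (indic E) with ha
  have hacl : IsClassFunction A' a := coef_isClassFunction _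
  have hs : ∀ u, p ∣ orderOf u → a u = 0 := by
    intro u hu
    rw [ha, ← blockCoeff_eq_coef]
    exact blockCoeff_eq_zero_of_singular hM hE hu
  have hoff : extendByZero π.range (Cfsg.Agent.Lib.Char.resFun π.range a) = a := by
    funext u
    by_cases hu : u ∈ π.range
    · rw [extendByZero_of_mem _ _ hu]
    · rw [extendByZero_of_notMem _ _ hu]
      symm
      apply hs
      by_contra h
      exact hu (hreg u h)
  have hinv := conjFun_res_of_class (G := A') π.range hacl
  have hS : spec a = indic E := spec_coef _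
  have h1 : spec (Cfsg.Agent.Lib.Char.resFun π.range a) η = 1 := by
    have h2 := spec_extendByZero π.range hinv hη
    rw [hoff, hS, indic_apply_of_mem hζ] at h2
    exact h2.symm
  -- the transported character
  let η₂ : IrrCharacter π.range := Cfsg.Agent.Lib.Blocks.irrComp β.symm η
  have hη₂ : ∀ u, (η₂ : π.range → ℂ) u = (η : π.range → ℂ) (β.symm u) := fun u => rfl
  have hcon₂ : classInner (fun n : π.range => (ζ₂ : A' → ℂ) n) (η₂ : π.range → ℂ) ≠ 0 := by
    have h3 : classInner (fun n : π.range => (ζ₂ : A' → ℂ) n) (η₂ : π.range → ℂ) =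
        classInner (fun n : π.range => (ζ : A' → ℂ) n) (η : π.range → ℂ) := by
      simp only [classInner]
      congr 1
      rw [← Equiv.sum_comp β.toEquiv]
      refine Finset.sum_congr rfl fun u _ => ?_
      show (ζ₂ : A' → ℂ) (β u) * conj ((η₂ : π.range → ℂ) (β u)) = _
      rw [hζ₂, hη₂]
      simp
    rwa [h3]
  have hθ₂' : ∀ c, (θ₂ : A → ℂ) c = (η₂ : π.range → ℂ) (π.rangeRestrict c) := by
    intro c
    rw [hθ₂, hθ, hη₂]
    congr 1
    have h4 := hαβ (α.symm c)
    rw [MulEquiv.apply_symm_apply] at h4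
    rw [h4, MulEquiv.symm_apply_apply]
  have h5 : spec (Cfsg.Agent.Lib.Char.resFun π.range a) η₂ = indic E ζ₂ := by
    have h2 := spec_extendByZero π.range hinv hcon₂
    rw [hoff, hS] at h2
    exact h2.symm
  -- the central element of `A`
  have hcl := regFun_isClass (p := p) π hacl
  have hL : ∀ x, MemLocalRing M (regFun p π a x) := by
    intro x
    simp only [regFun]
    by_cases h : p ∣ orderOf x
    · rw [if_neg (not_not.mpr h)]
      exact memLocalRing_zero
    · rw [if_pos h]
      exact indic_mem_zS hE _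
  have hz : spec (regFun p π a) ∈ zS M A := Cfsg.Agent.Lib.Blocks.spec_mem_zS hcl hL
  have h6 := zS_apply_congr he hz hθe hθ₂e
  rw [spec_regFun π hkerp hkerc hs η θ hθ, spec_regFun π hkerp hkerc hs η₂ θ₂ hθ₂', h1, h5] at h6
  by_contra hne
  rw [indic_apply_of_notMem hne, sub_zero] at h6
  exact not_memLocalIdeal_one h6

end LemK

end Cfsg.Agent.Lib.LocalAlg
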