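import Cfsg.Agent.Lib.LocalAlg.ONormal2
import Cfsg.Agent.Lib.H8Group.FongReynolds
import Cfsg.Agent.Lib.H8Group.NormPairs
import Cfsg.Agent.Lib.H8Group.StabGroup
import Cfsg.Agent.Lib.Blocks.NormalCentral

/-!
# Blocks with a normal defect group: from nilpotency to equal degrees
-/

set_option autoImplicit false
set_option linter.unusedSectionVars false
set_option linter.unusedVariables false

namespace Cfsg.Agent.Lib.LocalAlg

open Cfsg Cfsg.Agent.Lib.Char Cfsg.Agent.Lib.Blocks Cfsg.Agent.Lib.H8Group Finset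
open scoped ComplexConjugate

universe u

section Cov

variable {G : Type u} [Group G] [Fintype G] {M : Ideal AlgInt} {p : ℕ} [hp : Fact p.Prime] {D : Subgroup G}

attribute [local instance] oFt

theorem mem_normalizer_of_normal (hDn : D.Normal) (x : G) : x ∈ Subgroup.normalizer (D : Set G) := by
  rw [Subgroup.mem_normalizer_iff]
  intro z
  constructor
  · exact fun hz => hDn.conj_mem z hz x
  · intro hz
    have := hDn.conj_mem _ hz x⁻¹
    simpa [mul_assoc] using this

theorem conjS_of_normal (hDn : D.Normal) (x : G) : conjS x D = D :=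
  conjS_eq_of_mem_normalizer (mem_normalizer_of_normal hDn x)

theorem mem_block_of_constituent (hM : IsPModular p M) (hDn : D.Normal) {B : Set (IrrCharacter G)}
    {e : Set (IrrCharacter (Subgroup.centralizer (D : Set G)))} (hP : IsBrauerPairOf p M B D e)
    {θ : IrrCharacter (Subgroup.centralizer (D : Set G))} (hθ : θ ∈ e) {χ : IrrCharacter G}
    (hcon : classInner (fun n : Subgroup.centralizer (D : Set G) => (χ : G → ℂ) n)
      (θ : Subgroup.centralizer (D : Set G) → ℂ) ≠ 0) : χ ∈ B := by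
  classical
  have := isPrime_of_modular hM
  haveI := hDn
  have hB := hP.2.1
  have hv := hP.2.2 θ hθ
  have hoff := offIdeal_centralizer hM D hP.1.1
  have h1 := indic_sub_spec_res _ hoff hB hcon
  have h2 : brauerOmega D (blockCoeff B) (θ : Subgroup.centralizer (D : Set G) → ℂ) =
      spec (Cfsg.Agent.Lib.Char.resFun (Subgroup.centralizer (D : Set G)) (coef (indic B))) θ := by
    rw [brauerOmega_eq_brV_g]
    rfl
  rw [h2] at hv
  have h3 := MemLocalIdeal.add h1 hv
  by_contra hne
  rw [indic_apply_of_notMem hne] at h3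
  have h4 : (0 : ℂ) - spec (Cfsg.Agent.Lib.Char.resFun (Subgroup.centralizer (D : Set G)) (coef (indic B))) θ +
      (spec (Cfsg.Agent.Lib.Char.resFun (Subgroup.centralizer (D : Set G)) (coef (indic B))) θ - 1) = -1 := by ring
  rw [h4] at h3
  apply not_memLocalIdeal_one (M := M)
  have h5 := MemLocalIdeal.neg h3
  simpa using h5

theorem exists_cover_of_pair (hM : IsPModular p M) (hDn : D.Normal) {B : Set (IrrCharacter G)}
    {e : Set (IrrCharacter (Subgroup.centralizer (D : Set G)))} (hP : IsBrauerPairOf p M B D e) :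
    ∃ χ ∈ B, ∃ θ ∈ e, classInner (fun n : Subgroup.centralizer (D : Set G) => (χ : G → ℂ) n)
      (θ : Subgroup.centralizer (D : Set G) → ℂ) ≠ 0 := by
  have := isPrime_of_modular hM
  haveI := hDn
  obtain ⟨θ, hθ⟩ := IsPBlock.nonempty hP.1.2
  obtain ⟨χ, hχ⟩ := exists_over_irr (G := G) _ θ
  exact ⟨χ, mem_block_of_constituent hM hDn hP hθ hχ, θ, hθ, hχ⟩

/-- Every constituent of a character of the block lies in a block of a maximal pair. -/
theorem exists_maxPair_mem (hM : IsPModular p M) (hDn : D.Normal) {B : Set (IrrCharacter G)}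
    {e : Set (IrrCharacter (Subgroup.centralizer (D : Set G)))} (hmax : IsMaximalBrauerPair p M B D e)
    {χ : IrrCharacter G} (hχ : χ ∈ B) {θ : IrrCharacter (Subgroup.centralizer (D : Set G))}
    (hcon : classInner (fun n : Subgroup.centralizer (D : Set G) => (χ : G → ℂ) n)
      (θ : Subgroup.centralizer (D : Set G) → ℂ) ≠ 0) :
    ∃ e' : Set (IrrCharacter (Subgroup.centralizer (D : Set G))), IsMaximalBrauerPair p M B D e' ∧ θ ∈ e' := by
  have := isPrime_of_modular hM
  haveI := hDn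
  obtain ⟨χ₀, hχ₀, θ₀, hθ₀, hcon₀⟩ := exists_cover_of_pair hM hDn hmax.1
  obtain ⟨g, hg⟩ := covering_constituents _ hmax.1.2.1 hmax.1.1.2 hχ₀ hχ hθ₀ hcon₀ hcon
  have hS := conjS_of_normal hDn g⁻¹
  refine ⟨conjB g⁻¹ hS e, isMaximalBrauerPair_conjB g⁻¹ hS hmax, ?_⟩
  rw [mem_conjB, irrComp_cenIso_eq_conjIrr, inv_inv]
  exact hg

/-- **Nilpotent blocks with a normal defect group have one degree in height zero.** -/
theorem equal_degrees_of_nilpotent (hM : IsPModular p M) {B : Set (IrrCharacter G)} (hB : IsPBlock M B)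
    (hD : IsDefectGroup p M B D) (hDn : D.Normal) (hnil : IsNilpotentBlock p M B) :
    ∃ d : ℕ, ∀ χ : IrrCharacter G, χ ∈ B → blockHeight p B (χ : G → ℂ) = 0 → charDegree (χ : G → ℂ) = d := by
  classical
  have := isPrime_of_modular hM
  have hpp : p.Prime := hp.out
  haveI := hDn
  obtain ⟨P, e, hmax⟩ := exists_isMaximalBrauerPair (p := p) hM hB
  have hDP := isDefectGroup_of_isMaximalBrauerPair hM hmax
  obtain ⟨y, hy⟩ := IsDefectGroup.exists_conj_eq hM hB hD hDP
  have hPD : D = P := (hy.trans (conjS_of_normal hDn y)).symm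
  subst hPD
  have hDp : IsPGroup p D := hmax.1.1.1
  have he := hmax.1.1.2
  have hCT : Subgroup.centralizer (D : Set G) ≤ stabOfBlock D e := by
    intro c hc
    exact ⟨mem_normalizer_of_normal hDn c, stabilizes_of_mem_centralizer _ e hc⟩
  have hTmem : ∀ x, x ∈ stabOfBlock D e ↔
      ∀ θ ∈ e, conjIrr (Subgroup.centralizer (D : Set G)) x θ ∈ e := by
    intro x
    constructor
    · intro hx θ hθ
      exact conjIrr_mem_of_stabilizes _ hx.2 hθ
    · intro h
      obtain ⟨θ, hθ⟩ := IsPBlock.nonempty he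
      exact ⟨mem_normalizer_of_normal hDn x, stabilizes_of_conjIrr_mem he hθ (h θ hθ)⟩
  have hreg : ∀ x ∈ stabOfBlock D e, ¬ p ∣ orderOf x → x ∈ Subgroup.centralizer (D : Set G) := by
    intro x hx hr
    exact hnil.2 D e hmax.1 x hx.1 hx.2 hr
  set T := stabOfBlock D e with hT
  haveI hKn : ((Subgroup.centralizer (D : Set G)).subgroupOf T).Normal := Subgroup.Normal.subgroupOf (inferInstance : (Subgroup.centralizer (D : Set G)).Normal) T
  have hpq : IsPGroup p (T ⧸ (Subgroup.centralizer (D : Set G)).subgroupOf T) := by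
    intro g
    obtain ⟨t, rfl⟩ := QuotientGroup.mk_surjective g
    set k := (orderOf t).factorization p with hk
    refine ⟨k, ?_⟩
    rw [← QuotientGroup.mk_pow, QuotientGroup.eq_one_iff, Subgroup.mem_subgroupOf]
    apply hreg _ (by simpa using Subgroup.pow_mem _ t.2 (p ^ k))
    rw [Subgroup.orderOf_coe, orderOf_pow' t (pow_ne_zero _ hpp.ne_zero), Nat.gcd_eq_right (Nat.ordProj_dvd _ _)]
    exact Nat.not_dvd_ordCompl hpp (orderOf_pos t).ne'
  obtain ⟨k, hk⟩ := IsPGroup.iff_card.mp hpq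
  have hidx : ((Subgroup.centralizer (D : Set G)).subgroupOf T).index = p ^ k := by
    rw [Subgroup.index_eq_card]
    exact hk
  have hDT : D ≤ T := fun d hd => ⟨mem_normalizer_of_normal hDn d, stabilizes_of_mem_self e hd⟩
  have hTN : T ≤ Subgroup.normalizer (D : Set G) := fun t _ => mem_normalizer_of_normal hDn t
  have hst : ∀ t ∈ T, StabilizesBlock (Subgroup.centralizer (D : Set G)) e t := fun t ht => ht.2
  -- the block of the stabilizer
  obtain ⟨F, hF, hcoef⟩ := exists_block_of_stabilizer (T := T) hM hDp he (fun y => Iff.rfl)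
  obtain ⟨x, hx, hxT⟩ := exists_conj_isDefectGroup_norm hM hmax Relation.ReflTransGen.refl (fun y => Iff.rfl) hF hcoef
  have hpair : (⟨conjS x D, conjB x rfl e⟩ : BrauerPairIdx G) = ⟨D, e⟩ :=
    eq_of_chain_of_fst_eq hM hx (conjS_of_normal hDn x)
  have hΦ : ∀ a : BrauerPairIdx G, a = ⟨D, e⟩ →
      (∀ T' : Subgroup G, (∀ y : G, y ∈ T' ↔ y ∈ Subgroup.normalizer (a.1 : Set G) ∧
        StabilizesBlock (Subgroup.centralizer (a.1 : Set G)) a.2 y) →
      ∃ F' : Set (IrrCharacter T'), IsPBlock M F' ∧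
        (∀ t : T', blockCoeff F' t = subgroupBlockCoeff (Subgroup.centralizer (a.1 : Set G)) a.2 (t : G)) ∧
        IsDefectGroup p M F' ((D ⊓ Subgroup.normalizer (a.1 : Set G)).subgroupOf T')) →
      ∃ F' : Set (IrrCharacter T), IsPBlock M F' ∧
        (∀ t : T, blockCoeff F' t = subgroupBlockCoeff (Subgroup.centralizer (D : Set G)) e (t : G)) ∧
        IsDefectGroup p M F' ((D ⊓ Subgroup.normalizer (D : Set G)).subgroupOf T) := by
    rintro a rfl h
    exact h T (fun y => Iff.rfl)
  obtain ⟨F', hF', hc', hd'⟩ := hΦ _ hpair hxT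
  have hinf : D ⊓ Subgroup.normalizer (D : Set G) = D := inf_eq_left.mpr Subgroup.le_normalizer
  rw [hinf] at hd'
  obtain ⟨htop, -⟩ := sup_defect_eq_top_of_index hM hDp hDT hCT hTN he hst hF' hc' hidx hd'
  -- Fong--Reynolds
  have hcov := exists_cover_of_pair hM hDn hmax.1
  obtain ⟨B', hB', hcov', hind⟩ := fr_surj _ hCT he hTmem hB hcov
  obtain ⟨B₂, hind₂, -, hirr, hmem⟩ := fr_main _ hCT he hTmem hB' hcov'
  have hB₂ : B₂ = B := IsInducedBlock.unique T hind₂ hind
  subst hB₂
  obtain ⟨u, hu⟩ := exists_defectClass hB'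
  obtain ⟨D₁, hS⟩ := exists_isSylowIn (p := p) (Subgroup.centralizer ({u} : Set T))
  have hD₁ : IsDefectGroup p M B' D₁ := isDefectGroup_iff.mpr ⟨u, hu, hS⟩
  have hD₁' := isDefectGroup_induced_of_fr hM hB' hind₂ hirr hmem hD₁
  obtain ⟨z, hz⟩ := IsDefectGroup.exists_conj_eq hM hind₂.2.1 hD hD₁'
  have hz' : D₁.map T.subtype = D := hz.trans (conjS_of_normal hDn z)
  have hD₁eq : D₁ = D.subgroupOf T := by
    rw [← hz', Subgroup.subgroupOf, Subgroup.comap_map_eq_self_of_injective (Subgroup.subtype_injective _)]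
  rw [hD₁eq] at hD₁
  haveI hP'n : (D.subgroupOf T).Normal := Subgroup.Normal.subgroupOf hDn T
  have hP'p : IsPGroup p (D.subgroupOf T) := isPGroup_subgroupOf hDp _
  have hG' : D.subgroupOf T ⊔ Subgroup.centralizer ((D.subgroupOf T : Subgroup T) : Set T) = ⊤ := by
    rw [eq_top_iff, ← htop]
    refine sup_le ?_ le_sup_left
    refine le_trans ?_ le_sup_right
    intro c hc
    rw [Subgroup.mem_subgroupOf] at hc
    rw [Subgroup.mem_centralizer_iff]
    intro w hw
    have h1 := Subgroup.mem_centralizer_iff.mp hc (w : G) (Subgroup.mem_subgroupOf.mp hw)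
    exact Subtype.ext h1
  obtain ⟨θ, Ψ, hθ, -, hΨ1, -, hrange, -⟩ := Cfsg.Agent.Lib.Blocks.normal_central_block_struct hM hP'p hG' hB' hD₁
  refine ⟨T.index * charDegree (θ : T → ℂ), fun χ hχ h0 => ?_⟩
  obtain ⟨ψ, hψ, hχψ⟩ := (hmem χ).mp hχ
  have h1 := blockHeight_induced p hpp (IsPBlock.nonempty hB') hirr hmem ψ
  rw [← hχψ, h0] at h1
  have h2 := val_eq_minVal_add_height (p := p) hψ
  have h3 := minVal_le (p := p) hθ
  rw [hχψ, charDegree_indFun (IsIrrCharacter.isCharacter ψ.2)]
  congr 1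
  rw [hrange] at hψ
  obtain ⟨lam, rfl⟩ := hψ
  have h4 : charDegree ((Ψ lam : IrrCharacter T) : T → ℂ) = charDegree lam.1 * charDegree (θ : T → ℂ) := by
    have h5 := hΨ1 lam
    rw [apply_one_eq_charDegree (IsIrrCharacter.isCharacter (Ψ lam).2),
      apply_one_eq_charDegree (IsIrrCharacter.isCharacter lam.2),
      apply_one_eq_charDegree (IsIrrCharacter.isCharacter θ.2)] at h5
    exact_mod_cast h5
  have hlam0 := (charDegree_pos lam.2).ne'
  have hθ0 := (charDegree_pos θ.2).ne'
  rw [h4, Nat.factorization_mul hlam0 hθ0] at h2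
  simp only [Finsupp.add_apply] at h2
  rw [← h1] at h2
  have h6 : (charDegree lam.1).factorization p = 0 := by omega
  have h7 : charDegree lam.1 = 1 := by
    obtain ⟨n, hn⟩ := IsPGroup.iff_card.mp hP'p
    have h8 := charDegree_dvd_card lam.2
    rw [hn] at h8
    obtain ⟨j, -, hj⟩ := (Nat.dvd_prime_pow hpp).mp h8
    rw [hj, hpp.factorization_pow] at h6
    simp at h6
    rw [hj, h6, pow_zero]
  rw [h4, h7, one_mul]

end Cov

end Cfsg.Agent.Lib.LocalAlg
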